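import Cfsg.Agent.Lib.Fusion.AbelianIndexPLocal
import Cfsg.Agent.Lib.Fusion.IndexPrimeCentre

/-! Core-free systems over groups with a unique abelian subgroup of index `p` which is not essential. (helper6) -/

set_option autoImplicit false
set_option linter.unusedSectionVars false
set_option linter.style.haveILetI false

namespace CfsgLib.Fusion.AbelianIndexP

open Cfsg Cfsg.FusionSystem CfsgLib.Fusion
open scoped commutatorElement

universe u

variable {Ω : Type u} [Group Ω] {S A : Subgroup Ω} [Finite ↥S] {p : ℕ} [Fact p.Prime] {F : FusionSystem S}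

/-- An automorphism of a finite group mapping a subgroup into itself preserves it. -/
theorem iff_of_maps {V : Type*} [Group V] [Finite V] {K : Subgroup V} {a : MulAut V} (h : ∀ v ∈ K, a v ∈ K) (v : V) :
    v ∈ K ↔ a v ∈ K := by
  refine ⟨h v, fun hv => ?_⟩
  have he : K.map a.toMonoidHom = K := by
    refine Subgroup.eq_of_le_of_card_ge ?_ (Subgroup.card_map_of_injective a.injective).ge
    rintro _ ⟨w, hw, rfl⟩
    exact h w hw
  obtain ⟨w, hw, hwe⟩ := he.ge hv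
  exact a.injective hwe ▸ hw

theorem aut_cen (b : MulAut ↥S) (c : ↥S) : (c : Ω) ∈ cen S ↔ ((b c : ↥S) : Ω) ∈ cen S := by
  have hc : ∀ w : ↥S, (w : Ω) ∈ cen S ↔ ∀ v : ↥S, v * w = w * v := fun w =>
    ⟨fun hw v => Subtype.ext (commC hw v.2), fun hw =>
      ⟨w.2, Subgroup.mem_centralizer_iff.mpr fun v hv => congrArg Subtype.val (hw ⟨v, hv⟩)⟩⟩
  rw [hc, hc]
  refine ⟨fun h v => ?_, fun h v => b.injective (by rw [map_mul, map_mul]; exact h (b v))⟩
  obtain ⟨v, rfl⟩ := b.surjective v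
  rw [← map_mul, ← map_mul, h v]

theorem aut_derived (b : MulAut ↥S) (c : ↥S) (hc : (c : Ω) ∈ ⁅S, S⁆) : ((b c : ↥S) : Ω) ∈ ⁅S, S⁆ := by
  rw [derived_eq_map] at hc ⊢
  obtain ⟨w, hw, hwe⟩ := hc
  obtain rfl : w = c := Subtype.ext hwe
  haveI : (commutator ↥S).Characteristic := inferInstance
  exact ⟨b w, Subgroup.characteristic_iff_map_le.mp inferInstance b ⟨w, hw, rfl⟩, rfl⟩

theorem cen_lt (h : Ctx p S A) (hna : ¬ IsMulCommutative ↥S) : cen S < A := by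
  refine lt_of_le_of_ne h.cen_le fun e => hna ⟨⟨fun s t => ?_⟩⟩
  obtain ⟨x, hx, hxA⟩ : ∃ x ∈ S, x ∉ A := by
    by_contra hno
    push Not at hno
    have h1 := h.index
    rw [Subgroup.subgroupOf_eq_top.mpr hno, Subgroup.index_top] at h1
    exact (Fact.out : p.Prime).ne_one h1.symm
  obtain ⟨a, ha, k, hk⟩ := h.gen x hx hxA s s.2
  obtain ⟨b, hb, l, hl⟩ := h.gen x hx hxA t t.2
  refine Subtype.ext (show (s : Ω) * t = t * s from ?_)
  rw [← e] at ha hb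
  rw [hk, hl]
  calc a * x ^ k * (b * x ^ l) = a * (x ^ k * b) * x ^ l := by group
    _ = a * b * (x ^ l * x ^ k) := by rw [commC hb (S.zpow_mem hx k)]; group
    _ = b * (a * x ^ l) * x ^ k := by rw [commC hb ha.1]; group
    _ = b * x ^ l * (a * x ^ k) := by rw [← commC ha (S.zpow_mem hx l)]; group

theorem card_S (h : Ctx p S A) : Nat.card ↥S = p * Nat.card ↥A := by
  rw [← (A.subgroupOf S).card_mul_index, card_subgroupOf h.le, h.index, mul_comm]

theorem card_cen_lt_A (h : Ctx p S A) (hna : ¬ IsMulCommutative ↥S) : Nat.card ↥(cen S) < Nat.card ↥A := by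
  haveI := finite_of_le h.le
  exact Set.Finite.card_lt_card (Set.toFinite _) (cen_lt h hna)

/-- The map agrees with an automorphism of `S` wherever the centre is concerned. -/
def Agree (F : FusionSystem S) (P : Subgroup Ω) (φ : ↥P →* Ω) : Prop :=
  ∃ β ∈ F.autGroup S, ∀ (x : ↥P) (hx : (x : Ω) ∈ S), ((x : Ω) ∈ cen S ∨ φ x ∈ cen S) → φ x = ((β ⟨x, hx⟩ : ↥S) : Ω)

/-- A Sylow-normalizing automorphism extends to the normalizer. -/
theorem exists_ext_normalizer (hS : IsPGroup p ↥S) (hF : F.IsSaturated p) {R : Subgroup Ω}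
    (hR : F.IsFullyNormalized R) {γ : MulAut ↥R} (hγ : γ ∈ F.autGroup R)
    (hn : ∀ t ∈ autInducedBy S R, γ * t * γ⁻¹ ∈ autInducedBy S R) :
    ∃ ψ ∈ F.Hom (normalizerIn S R), ∀ (x : ↥R) (hx : (x : Ω) ∈ normalizerIn S R), ψ ⟨x, hx⟩ = ((γ x : ↥R) : Ω) := by
  have hφ := (autGroup_carrier F hR.1 γ).mp hγ
  have hr : (R.subtype.comp γ.toMonoidHom).range = R := by
    ext y
    exact ⟨fun ⟨x, hx⟩ => hx ▸ (γ x).2, fun hy => ⟨γ.symm ⟨y, hy⟩, by simp⟩⟩
  obtain ⟨ψ, hψ, hψe⟩ := (fullyNormalized_receptive p hS hF hR).2 R _ hφ hr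
  have hle : normalizerIn S R ≤ extender S R (R.subtype.comp γ.toMonoidHom) := by
    intro s hs
    have h1 : R.normalizerMonoidHom ⟨s, hs.2⟩ ∈ autInducedBy S R := (mem_autInducedBy _).mpr ⟨s, hs.1, fun _ => rfl⟩
    obtain ⟨t, ht, hte⟩ := (mem_autInducedBy _).mp (hn _ h1)
    refine mem_extender hs ht fun x hx => ?_
    refine Eq.trans ?_ (hte (γ x))
    show _ = (((γ * R.normalizerMonoidHom ⟨s, hs.2⟩ * γ⁻¹) (γ x) : ↥R) : Ω)
    rw [MulAut.mul_apply, MulAut.mul_apply, MulAut.inv_apply_self]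
    rfl
  exact ⟨_, restrict_mem hψ hle, fun x hx => hψe x x.2 (hle hx)⟩

theorem isPGroup_autInducedBy_le_stab (h : Ctx p S A) {P : Subgroup Ω} (hP : P ≤ S) (hC : P ⊓ A = cen S)
    {t : MulAut ↥P} (ht : t ∈ autInducedBy S P) :
    ∀ v : ↥P, ((v : Ω) ∈ cen S → t v = v) ∧ (v : Ω)⁻¹ * ((t v : ↥P) : Ω) ∈ cen S ⊓ ⁅S, S⁆ := by
  obtain ⟨s, hs, hse⟩ := (mem_autInducedBy _).mp ht
  intro v
  refine ⟨fun hv => Subtype.ext ((hse v).trans (by rw [commC hv hs, mul_inv_cancel_right])), ?_⟩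
  have hm : (v : Ω)⁻¹ * ((t v : ↥P) : Ω) ∈ ⁅S, S⁆ := by
    rw [hse v, show (v : Ω)⁻¹ * (s * v * s⁻¹) = ⁅(v : Ω)⁻¹, s⁆ by rw [commutatorElement_def]; group]
    exact Subgroup.commutator_mem_commutator (S.inv_mem (hP v.2)) hs
  refine ⟨hC ▸ ⟨P.mul_mem (P.inv_mem v.2) (t v).2, ?_⟩, hm⟩
  obtain ⟨x, hx, hxA⟩ : ∃ x ∈ S, x ∉ A := by
    by_contra hno
    push Not at hno
    have h1 := h.index
    rw [Subgroup.subgroupOf_eq_top.mpr hno, Subgroup.index_top] at h1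
    exact (Fact.out : p.Prime).ne_one h1.symm
  rw [h.derived_eq hx hxA] at hm
  exact Subgroup.map_subtype_le _ hm

/-- Maps on large subgroups treat the centre as automorphisms of `S` do. -/
theorem agree (hS : IsPGroup p ↥S) (hF : F.IsSaturated p) (h : Ctx p S A) (hna : ¬ IsMulCommutative ↥S)
    (hAe : ¬ F.IsEssential p A) {P : Subgroup Ω} {φ : ↥P →* Ω} (hφ : φ ∈ F.Hom P)
    (hbigP : p * Nat.card ↥(cen S) < Nat.card ↥P) : Agree F P φ := by
  set E : FusionSystem S := subsystem F (fun P φ => p * Nat.card ↥(cen S) < Nat.card ↥P → Agree F P φ)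
    (fun {P g} hP hg _ => ⟨MulAut.conj (⟨g, hg⟩ : ↥S), inn_le_autGroup F le_rfl ⟨⟨g, hg⟩, rfl⟩, fun x hx _ => rfl⟩)
    (fun {P Q φ ψ} hφ hMφ hψ hMψ hh hc => by
      haveI : Finite ↥Q := finite_of_le (le_S hψ)
      obtain ⟨β, hβ, hβe⟩ := hMφ hc
      obtain ⟨γ, hγ, hγe⟩ := hMψ (lt_of_lt_of_le hc (Nat.card_le_card_of_injective _
        fun a b e => F.injective_of_mem hφ (congrArg Subtype.val e : (φ.codRestrict Q hh a : Ω) = φ.codRestrict Q hh b)))
      refine ⟨γ * β, mul_mem hγ hβ, fun x hx hor => ?_⟩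
      have hQS : φ x ∈ S := apply_mem_S hφ x
      have h1 : φ x = ((β ⟨x, hx⟩ : ↥S) : Ω) := hβe x hx (hor.imp id fun hc' => by
        have h2 := hγe ⟨φ x, hh x⟩ hQS (Or.inr hc')
        rw [show ψ.comp (φ.codRestrict Q hh) x = ψ ⟨φ x, hh x⟩ from rfl, h2] at hc'
        exact (aut_cen γ ⟨φ x, hQS⟩).mpr hc')
      show ψ ⟨φ x, hh x⟩ = ((γ (β ⟨x, hx⟩) : ↥S) : Ω)
      rw [← show (⟨φ x, hQS⟩ : ↥S) = β ⟨x, hx⟩ from Subtype.ext h1]
      exact hγe ⟨φ x, hh x⟩ hQS (hor.imp (fun hc' => show φ x ∈ cen S from h1 ▸ (aut_cen β ⟨x, hx⟩).mp hc') id))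
    (fun {P φ} hφ hMφ ψ hψ he hc => by
      obtain ⟨β, hβ, hβe⟩ := hMφ (by rwa [← card_range hφ])
      refine ⟨β⁻¹, inv_mem hβ, ?_⟩
      rintro ⟨_, x, rfl⟩ hy hor
      have hx : (x : Ω) ∈ S := le_S hφ x.2
      rw [he x] at hor ⊢
      have h1 : φ x = ((β ⟨x, hx⟩ : ↥S) : Ω) := hβe x hx hor.symm
      rw [show (⟨φ x, hy⟩ : ↥S) = β ⟨x, hx⟩ from Subtype.ext h1, MulAut.inv_apply_self]) with hE
  suffices hle : F ≤ E from (hle P hφ).2 hbigP
  refine le_of_autGroup p hS hF E fun R hR hbig => ?_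
  by_cases hcr : F.IsCentric R ∧ F.IsRadical p R
  swap
  · exact autGroup_le_of_not_centric_radical p hS hF E hR hcr hbig
  intro α hα
  haveI := finite_of_le hR.1
  haveI := finite_aut_of_le hR.1
  by_cases hRS : R = S
  · subst hRS
    exact (autGroup_carrier E le_rfl α).mpr ⟨(autGroup_carrier F le_rfl α).mp hα, fun _ => ⟨α, hα, fun x hx _ => rfl⟩⟩
  have hlt : R < S := lt_of_le_of_ne hR.1 hRS
  by_cases hRA : R = A
  · subst hRA
    have heq : extAut F R = F.autGroup R := by_contra fun hne => hAe (essential_of_extAut_ne p hS hF hR hlt hne)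
    rw [← heq] at hα
    refine ((Subgroup.closure_le _).mpr ?_) hα
    rintro α ⟨Q, hPQ, φ, hφ, hφe⟩
    haveI : Finite ↥Q := finite_of_le (le_S hφ)
    exact (autGroup_carrier E hR.1 α).mpr (restrict_mem_of_eq
      (hbig Q (Set.Finite.card_lt_card (Set.toFinite _) hPQ) hφ) hPQ.le fun x => (hφe x).symm)
  have L := loc_of_radical hS hF h hna hR hcr.1 hcr.2 hRS hRA
  refine (autGroup_carrier E hR.1 α).mpr ⟨(autGroup_carrier F hR.1 α).mp hα, fun hc => ?_⟩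
  have hne : R ⊓ A ≠ cen S := fun e => by
    obtain ⟨x, hx, -, hxA⟩ := L.out
    rw [card_eq_mul_of_not_le h hR.1 fun hle => hxA (hle hx), e] at hc
    exact lt_irrefl _ hc
  set C' := (cen S).subgroupOf R with hC'
  have hpres : ∀ g ∈ F.autGroup R, ∀ v : ↥R, v ∈ C' ↔ g v ∈ C' := fun g hg =>
    iff_of_maps fun v hv => L.stable hne g hg v hv
  -- the kernel of the action on the centre
  let K : Subgroup ↥(F.autGroup R) :=
    { carrier := {a | ∀ c : ↥R, c ∈ C' → (a : MulAut ↥R) c = c}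
      one_mem' := fun _ _ => rfl
      mul_mem' := fun {a b} ha hb c hc => by rw [Subgroup.coe_mul, MulAut.mul_apply, hb c hc, ha c hc]
      inv_mem' := fun {a} ha c hc => by
        show (a : MulAut ↥R)⁻¹ c = c
        conv_lhs => rw [← ha c hc, MulAut.inv_apply_self] }
  haveI : K.Normal := ⟨fun a ha b c hc => by
    show (b : MulAut ↥R) ((a : MulAut ↥R) ((b : MulAut ↥R)⁻¹ c)) = c
    rw [ha _ ((hpres _ b.2 _).mpr (by rwa [MulAut.apply_inv_self])), MulAut.apply_inv_self]⟩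
  obtain ⟨-, T, hT⟩ := fullyNormalized_automized p hS hF hR
  have hTK : (T : Subgroup ↥(F.autGroup R)) ≤ K := by
    intro t ht c hc
    rw [hT] at ht
    obtain ⟨s, hs, hse⟩ := (mem_autInducedBy _).mp ht
    exact Subtype.ext ((hse c).trans (by rw [commC (Subgroup.mem_subgroupOf.mp hc) hs, mul_inv_cancel_right]))
  have htop := Sylow.normalizer_sup_eq_top' T hTK
  obtain ⟨γ, hγn, k, hk, hγk⟩ := Subgroup.mem_sup_of_normal_right.mp
    (htop.ge (Subgroup.mem_top (⟨α, hα⟩ : ↥(F.autGroup R))))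
  obtain ⟨ψ, hψ, hψe⟩ := exists_ext_normalizer hS hF hR γ.2 fun t ht => by
    have h1 := (Subgroup.mem_normalizer_iff.mp hγn ⟨t, autInducedBy_le_autGroup F hR.1 ht⟩).mp (hT.ge ht)
    rw [hT] at h1
    exact h1
  have hltN := lt_normalizerIn p hS hlt
  haveI : Finite ↥(normalizerIn S R) := finite_of_le inf_le_left
  have hcard := Set.Finite.card_lt_card (Set.toFinite _) hltN
  obtain ⟨β, hβ, hβe⟩ := (hbig _ hcard hψ).2 (hc.trans hcard)
  refine ⟨β, hβ, fun x hx hor => ?_⟩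
  have hxC : x ∈ C' := hor.elim id fun h2 => (hpres α hα x).mpr h2
  show ((α x : ↥R) : Ω) = _
  rw [show α x = (γ : MulAut ↥R) x by
    rw [show α = (γ : MulAut ↥R) * (k : MulAut ↥R) from congrArg Subtype.val hγk.symm, MulAut.mul_apply, hk x hxC],
    ← hψe x (hltN.le x.2)]
  exact hβe ⟨x, hltN.le x.2⟩ hx (Or.inl hxC)

/-- Automorphisms generated by maps on large subgroups preserve the centre. -/
theorem extAut_pres (hS : IsPGroup p ↥S) (hF : F.IsSaturated p) (h : Ctx p S A) (hna : ¬ IsMulCommutative ↥S)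
    (hAe : ¬ F.IsEssential p A) {P : Subgroup Ω} (hPS : P ≤ S)
    (hbig : ∀ Q : Subgroup Ω, P < Q → Q ≤ S → p * Nat.card ↥(cen S) < Nat.card ↥Q) {a : MulAut ↥P}
    (ha : a ∈ extAut F P) : ∀ v : ↥P, (v : Ω) ∈ cen S ↔ ((a v : ↥P) : Ω) ∈ cen S := by
  induction ha using Subgroup.closure_induction with
  | mem a ha =>
    obtain ⟨Q, hPQ, φ, hφ, he⟩ := ha
    obtain ⟨β, -, hβe⟩ := agree hS hF h hna hAe hφ (hbig Q hPQ (le_S hφ))
    intro v
    have key : ((v : Ω) ∈ cen S ∨ φ (Subgroup.inclusion hPQ.le v) ∈ cen S) →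
        φ (Subgroup.inclusion hPQ.le v) = ((β ⟨v, hPS v.2⟩ : ↥S) : Ω) := fun hor => hβe _ (hPS v.2) hor
    rw [← he v]
    exact ⟨fun hv => by rw [key (Or.inl hv)]; exact (aut_cen β ⟨v, hPS v.2⟩).mp hv,
      fun hv => by rw [key (Or.inr hv)] at hv; exact (aut_cen β ⟨v, hPS v.2⟩).mpr hv⟩
  | one => exact fun v => Iff.rfl
  | mul a b _ _ ha hb => exact fun v => (hb v).trans (ha (b v))
  | inv a _ ha => intro v; rw [ha (a⁻¹ v), MulAut.apply_inv_self]

/-- Some centric radical subgroup moves the centre. -/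
theorem exists_moving (hS : IsPGroup p ↥S) (hF : F.IsSaturated p) (h : Ctx p S A) (hna : ¬ IsMulCommutative ↥S)
    (hAe : ¬ F.IsEssential p A) (hcore : F.core = ⊥) :
    ∃ P, F.IsFullyNormalized P ∧ F.IsCentric P ∧ F.IsRadical p P ∧ P ≠ S ∧ P ≠ A ∧ P ⊓ A = cen S ∧
      Loc F p A P := by
  by_contra hno
  have hnorm : F.IsNormal (cen S) := IndexPrimeCentre.normal_of_invariant hS hF le_rfl fun R hR hRc hRr a ha v hv => by
    by_cases hRS : R = S
    · subst hRS; exact (aut_cen a v).mp hv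
    by_cases hRA : R = A
    · subst hRA
      have hlt : R < S := lt_of_le_of_ne hR.1 hRS
      have heq : extAut F R = F.autGroup R := by_contra fun hne => hAe (essential_of_extAut_ne p hS hF hR hlt hne)
      refine (extAut_pres hS hF h hna hAe hR.1 (fun Q hPQ hQS => ?_) (heq ▸ ha) v).mp hv
      rw [card_eq_mul_of_not_le h hQS hPQ.not_ge, inf_eq_right.mpr hPQ.le]
      exact Nat.mul_lt_mul_of_pos_left (card_cen_lt_A h hna) (Fact.out : p.Prime).pos
    have L := loc_of_radical hS hF h hna hR hRc hRr hRS hRA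
    by_cases hC : R ⊓ A = cen S
    · exact absurd ⟨R, hR, hRc, hRr, hRS, hRA, hC, L⟩ hno
    exact L.stable hC a ha v hv
  have hbot : cen S = ⊥ := le_bot_iff.mp (hcore ▸ le_sSup (s := {Q : Subgroup Ω | F.IsNormal Q}) hnorm)
  have hnt : Nontrivial ↥S := by
    by_contra hn
    rw [not_nontrivial_iff_subsingleton] at hn
    exact hna ⟨⟨fun a b => Subsingleton.elim _ _⟩⟩
  haveI := hS.center_nontrivial
  obtain ⟨c, hc, hc1⟩ := (Subgroup.bot_or_exists_ne_one (Subgroup.center ↥S)).resolve_left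
    ((Subgroup.nontrivial_iff_ne_bot _).mp hS.center_nontrivial)
  have hcC : (c : Ω) ∈ cen S := ⟨c.2, Subgroup.mem_centralizer_iff.mpr fun v hv =>
    congrArg Subtype.val (Subgroup.mem_center_iff.mp hc ⟨v, hv⟩)⟩
  rw [hbot, Subgroup.mem_bot] at hcC
  exact hc1 (Subtype.ext hcC)

/-- The structure forced when the core is trivial. -/
theorem structure_of_core_free (hS : IsPGroup p ↥S) (hF : F.IsSaturated p) (hp : p ≠ 2) (h : Ctx p S A)
    (hna : ¬ IsMulCommutative ↥S) (hAe : ¬ F.IsEssential p A) (hcore : F.core = ⊥) :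
    (∃ x ∈ S, x ∉ A ∧ F.IsEssential p (cen S ⊔ Subgroup.zpowers x)) ∧ cen S ≤ ⁅S, S⁆ ∧
      Nat.card ↥(cen S) = p := by
  classical
  obtain ⟨P0, hP0, hP0c, hP0r, hP0S, hP0A, hP0C, L0⟩ := exists_moving hS hF h hna hAe hcore
  haveI := finite_of_le h.le
  haveI : Finite ↥(cen S) := finite_of_le inf_le_left
  obtain ⟨x0, hx0P, hx0, hx0A⟩ := L0.out
  -- the line
  have hZcard : Nat.card ↥(cen S ⊓ ⁅S, S⁆ : Subgroup Ω) = p := by
    have h1 := card_cen2 h hx0 hx0A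
    rw [L0.card_cen2] at h1
    exact Nat.eq_of_mul_eq_mul_right Nat.card_pos h1
  haveI : IsCyclic ↥(cen S ⊓ ⁅S, S⁆ : Subgroup Ω) := isCyclic_of_prime_card hZcard
  obtain ⟨z, hzo, hzline⟩ : ∃ z : Ω, orderOf z = p ∧ cen S ⊓ ⁅S, S⁆ = Subgroup.zpowers z := by
    obtain ⟨g, hg⟩ := IsCyclic.exists_generator (α := ↥(cen S ⊓ ⁅S, S⁆ : Subgroup Ω))
    have he : cen S ⊓ ⁅S, S⁆ = Subgroup.zpowers (g : Ω) := by
      refine le_antisymm (fun v hv => ?_) (Subgroup.zpowers_le.mpr g.2)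
      obtain ⟨k, hk⟩ := Subgroup.mem_zpowers_iff.mp (hg ⟨v, hv⟩)
      exact ⟨k, congrArg Subtype.val hk⟩
    refine ⟨g, ?_, he⟩
    rw [← Nat.card_zpowers, ← he, hZcard]
  set C := cen S with hCdef
  set Z := Subgroup.zpowers z with hZdef
  have hzC : z ∈ C := (hzline.ge (Subgroup.mem_zpowers z)).1
  have hlineS : ∀ b : MulAut ↥S, ∀ v : ↥S, (v : Ω) ∈ Z → ((b v : ↥S) : Ω) ∈ Z := fun b v hv =>
    hzline.le ⟨(aut_cen b v).mp (hzline.ge hv).1, aut_derived b v (hzline.ge hv).2⟩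
  have hbigA : p * Nat.card ↥C < Nat.card ↥A := by
    rw [← L0.card_cen2]
    refine Set.Finite.card_lt_card (Set.toFinite _) (lt_of_le_of_ne (fun a ha => ha.1.1) fun e => hx0A (L0.upper_le ?_))
    refine mem_upper2.mpr ⟨hx0, fun s hs => ?_⟩
    obtain ⟨a, ha, k, rfl⟩ := h.gen x0 hx0 hx0A s hs
    rw [show cm (a * x0 ^ k) x0 = (cm x0 a)⁻¹ by simp only [cm]; group]
    exact C.inv_mem ((h.mem_cen2 hx0 hx0A).mp (e.ge ha)).2
  have hcardP : ∀ P : Subgroup Ω, P ⊓ A = C → Loc F p A P → P ≤ S → Nat.card ↥P = p * Nat.card ↥C :=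
    fun P hC L hPS => by
      obtain ⟨x, hx, -, hxA⟩ := L.out
      rw [card_eq_mul_of_not_le h hPS fun hle => hxA (hle hx), hC]
  -- a moved centre yields a complement
  have hgood : ∀ (P : Subgroup Ω) (hP : F.IsFullyNormalized P) (hPc : F.IsCentric P), P ≠ S → P ⊓ A = C →
      Loc F p A P → ∀ g ∈ F.autGroup P, (∃ v : ↥P, (v : Ω) ∈ C ∧ ((g v : ↥P) : Ω) ∉ C) →
      ∃ M, IndexPrimeCentre.Good F z M ∧ ∀ v : Ω, v ∈ M ↔ ∃ hv : v ∈ P, v ∈ C ∧ ((g⁻¹ ⟨v, hv⟩ : ↥P) : Ω) ∈ C := by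
    intro P hP hPc hPne hPC L g hg hgC
    have hPS := hP.1
    obtain ⟨x, hxP, hx, hxA⟩ := L.out
    haveI hab : IsMulCommutative ↥P := ⟨⟨fun u v => Subtype.ext (show (u : Ω) * v = v * u by
      have key : ∀ w ∈ P, ∃ c ∈ C, ∃ k : ℤ, w = c * x ^ k := fun w hw => by
        obtain ⟨a, ha, k, rfl⟩ := h.gen x hx hxA w (hPS hw)
        exact ⟨a, hPC.le ⟨(P.mul_mem_cancel_right (P.zpow_mem hxP k)).mp hw, ha⟩, k, rfl⟩
      obtain ⟨b, hb, k, hk⟩ := key u u.2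
      obtain ⟨c, hc, l, hl⟩ := key v v.2
      rw [hk, hl]
      calc b * x ^ k * (c * x ^ l) = b * (x ^ k * c) * x ^ l := by group
        _ = b * c * (x ^ l * x ^ k) := by rw [commC hc (S.zpow_mem hx k)]; group
        _ = c * (b * x ^ l) * x ^ k := by rw [commC hc hb.1]; group
        _ = c * x ^ l * (b * x ^ k) := by rw [← commC hb (S.zpow_mem hx l)]; group)⟩⟩
    letI : CommGroup ↥P := { (inferInstance : Group ↥P) with mul_comm := mul_comm' }
    haveI := finite_of_le hPS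
    haveI := finite_aut_of_le hPS
    set G := F.autGroup P
    obtain ⟨-, T, hT⟩ := fullyNormalized_automized p hS hF hP
    have hzP : z ∈ P := L.cen_le hzC
    set zP : ↥P := ⟨z, hzP⟩ with hzPdef
    set CP : Subgroup ↥P := C.subgroupOf P with hCP
    have hzP' : orderOf zP = p := by rw [← Subgroup.orderOf_coe]; exact hzo
    have hzCP : Subgroup.zpowers zP ≤ CP := Subgroup.zpowers_le.mpr hzC
    have hgrp : ∀ (K : Subgroup ↥P) (hK : Subgroup.zpowers zP ≤ K),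
        IsPGroup p ↥((CentreTransvection.gr K (Subgroup.zpowers zP) hK).subgroupOf G) := by
      intro K hK
      rintro ⟨a, ha⟩
      refine ⟨1, Subtype.ext ?_⟩
      rw [pow_one, SubmonoidClass.coe_pow]
      refine CentreTransvection.pow_eq_one hzP' a (fun v => ?_) (ha.1 zP (hK (Subgroup.mem_zpowers zP)))
      obtain ⟨k, hk⟩ := Subgroup.mem_zpowers_iff.mp (ha.2 v)
      exact ⟨k, by rw [hk, mul_inv_cancel_left]; rfl⟩
    have hTle : (T : Subgroup ↥G) ≤ (CentreTransvection.gr CP (Subgroup.zpowers zP) hzCP).subgroupOf G := by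
      intro t ht
      rw [hT] at ht
      have h1 := isPGroup_autInducedBy_le_stab h hPS hPC ht
      refine ⟨fun c hc => (h1 c).1 hc, fun v => ?_⟩
      obtain ⟨k, hk⟩ := Subgroup.mem_zpowers_iff.mp (hzline.le (h1 v).2)
      exact Subgroup.mem_zpowers_iff.mpr ⟨k, Subtype.ext hk⟩
    have hTmem : ∀ a : ↥G, a ∈ (T : Subgroup ↥G) ↔
        (a : MulAut ↥P) ∈ CentreTransvection.gr CP (Subgroup.zpowers zP) hzCP := fun a => by
      rw [← T.3 (hgrp CP hzCP) hTle]; exact Subgroup.mem_subgroupOf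
    have hlt : P < S := lt_of_le_of_ne hPS hPne
    obtain ⟨a₀, ha₀N, ha₀A, ha₀P⟩ : ∃ a ∈ normalizerIn S P, a ∈ A ∧ a ∉ P := by
      by_contra hno
      push Not at hno
      have h1 : normalizerIn S P ⊓ A = P ⊓ A := le_antisymm (fun a ha => ⟨hno a ha.1 ha.2, ha.2⟩)
        (inf_le_inf_right A (le_inf hPS Subgroup.le_normalizer))
      have h2 := L.card_norm
      rw [card_eq_mul_of_not_le h (H := normalizerIn S P) inf_le_left fun hle => hxA (hle ⟨hx, Subgroup.le_normalizer hxP⟩), h1, hPC,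
        hcardP P hPC L hPS] at h2
      nlinarith [(Fact.out : p.Prime).one_lt, Nat.card_pos (α := ↥C), Nat.mul_pos (Fact.out : p.Prime).pos (Nat.card_pos (α := ↥C))]
    obtain ⟨t₀, ht₀, ht₀e⟩ : ∃ t ∈ (T : Subgroup ↥G), ∀ v : ↥P, (((t : MulAut ↥P) v : ↥P) : Ω) = a₀ * v * a₀⁻¹ := by
      have h1 : P.normalizerMonoidHom ⟨a₀, ha₀N.2⟩ ∈ autInducedBy S P := (mem_autInducedBy _).mpr ⟨a₀, ha₀N.1, fun _ => rfl⟩
      exact ⟨⟨_, autInducedBy_le_autGroup F hPS h1⟩, hT.ge h1, fun v => rfl⟩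
    have hfix : ∀ v, (∀ a ∈ (T : Subgroup ↥G), (a : MulAut ↥P) v = v) → v ∈ CP := by
      intro v hv
      refine Subgroup.mem_subgroupOf.mpr (hPC.le ⟨v.2, ?_⟩)
      by_contra hvA
      have h1 := congrArg Subtype.val (hv t₀ ht₀)
      rw [ht₀e] at h1
      exact ha₀P (L.cen_le (h.eq_cen (hPS v.2) hvA ha₀A (mul_inv_eq_iff_eq_mul.mp h1).symm))
    have hT1 : (T : Subgroup ↥G) ≠ ⊥ := fun e => by
      have h0 := hfix ⟨x, hxP⟩ fun a ha => by
        rw [e, Subgroup.mem_bot] at ha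
        rw [ha]; rfl
      exact hxA (h.cen_le h0)
    have hgz : g zP ∉ Subgroup.zpowers zP := by
      intro hm
      obtain ⟨v₀, hv₀, hgv₀⟩ := hgC
      have hline : ∀ v : ↥P, v ∈ Subgroup.zpowers zP ↔ g v ∈ Subgroup.zpowers zP := iff_of_maps fun v hv => by
        obtain ⟨k, rfl⟩ := Subgroup.mem_zpowers_iff.mp hv
        rw [map_zpow]; exact zpow_mem hm k
      have hle1 : (T : Subgroup ↥G) ≤
          (CentreTransvection.gr (Subgroup.zpowers zP) (Subgroup.zpowers zP) le_rfl).subgroupOf G := fun t ht =>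
        ⟨fun c hc => ((hTmem t).mp ht).1 c (hzCP hc), ((hTmem t).mp ht).2⟩
      have hT' := T.3 (hgrp (Subgroup.zpowers zP) le_rfl) hle1
      refine hgv₀ (Subgroup.mem_subgroupOf.mp (hfix (g v₀) fun t ht => ?_))
      set gg : ↥G := ⟨g, hg⟩
      have h1 : gg⁻¹ * t * gg ∈ (T : Subgroup ↥G) := by
        rw [← hT']
        refine ⟨fun c hc => ?_, fun v => ?_⟩
        · show g⁻¹ ((t : MulAut ↥P) (g c)) = c
          rw [((hTmem t).mp ht).1 _ (hzCP ((hline c).mp hc)), MulAut.inv_apply_self]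
        · show v⁻¹ * g⁻¹ ((t : MulAut ↥P) (g v)) ∈ _
          rw [hline, map_mul, map_inv, MulAut.apply_inv_self]
          exact ((hTmem t).mp ht).2 (g v)
      have h2 : g⁻¹ ((t : MulAut ↥P) (g v₀)) = v₀ := ((hTmem _).mp h1).1 v₀ hv₀
      calc (t : MulAut ↥P) (g v₀) = g (g⁻¹ ((t : MulAut ↥P) (g v₀))) := (MulAut.apply_inv_self _ g _).symm
        _ = g v₀ := by rw [h2]
    obtain ⟨τ, hτz, hτfix, hdiv, hτC⟩ := CentreTransvection.transvection hzP' hTmem hfix hT1 ⟨g, hg⟩ hgz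
    obtain ⟨ψ, hψ, hψe⟩ := exists_ext_normalizer hS hF hP τ.2 fun t ht => by
      have hconj : τ * ⟨t, autInducedBy_le_autGroup F hPS ht⟩ * τ⁻¹ ∈ (T : Subgroup ↥G) := by
        have hgr := (hTmem ⟨t, autInducedBy_le_autGroup F hPS ht⟩).mp (hT.ge ht)
        refine (hTmem _).mpr ⟨fun c hc => ?_, fun v => ?_⟩
        · show (τ : MulAut ↥P) (t ((τ : MulAut ↥P)⁻¹ c)) = c
          rw [hgr.1 _ ((iff_of_maps hτC _).mpr (by rwa [MulAut.apply_inv_self])), MulAut.apply_inv_self]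
        · obtain ⟨k, hk⟩ := Subgroup.mem_zpowers_iff.mp (hgr.2 ((τ : MulAut ↥P)⁻¹ v))
          refine Subgroup.mem_zpowers_iff.mpr ⟨-k, ?_⟩
          show _ = v⁻¹ * (τ : MulAut ↥P) (t ((τ : MulAut ↥P)⁻¹ v))
          rw [show t ((τ : MulAut ↥P)⁻¹ v) = (τ : MulAut ↥P)⁻¹ v * zP ^ k by rw [hk, mul_inv_cancel_left],
            map_mul, map_zpow, MulAut.apply_inv_self, inv_mul_cancel_left, hτz, zpow_neg, inv_zpow]
      rw [hT] at hconj
      exact hconj
    have hltN := lt_normalizerIn p hS hlt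
    have hbigN : p * Nat.card ↥C < Nat.card ↥(normalizerIn S P) := by
      haveI : Finite ↥(normalizerIn S P) := finite_of_le inf_le_left
      rw [← hcardP P hPC L hPS]
      exact Set.Finite.card_lt_card (Set.toFinite _) hltN
    obtain ⟨β, hβ, hβe⟩ := agree hS hF h hna hAe hψ hbigN
    have hβτ : ∀ v : ↥P, (v : Ω) ∈ C → ((β ⟨v, hPS v.2⟩ : ↥S) : Ω) = (((τ : MulAut ↥P) v : ↥P) : Ω) := fun v hv => by
      rw [← hψe v (hltN.le v.2)]
      exact (hβe ⟨v, hltN.le v.2⟩ (hPS v.2) (Or.inl hv)).symm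
    let M : Subgroup Ω := (CP ⊓ CP.comap (g⁻¹ : MulAut ↥P).toMonoidHom).map P.subtype
    have hMmem : ∀ v : Ω, v ∈ M ↔ ∃ hv : v ∈ P, v ∈ C ∧ ((g⁻¹ ⟨v, hv⟩ : ↥P) : Ω) ∈ C := by
      intro v
      constructor
      · rintro ⟨⟨y, hy⟩, ⟨h1, h2⟩, rfl⟩; exact ⟨hy, h1, h2⟩
      · rintro ⟨hv, h1, h2⟩; exact ⟨⟨v, hv⟩, ⟨h1, h2⟩, rfl⟩
    refine ⟨M, ⟨fun v hv => ((hMmem v).mp hv).2.1, fun c hc => ?_, β, hβ, fun v => ⟨fun hv => ?_, fun hv => ?_⟩⟩, hMmem⟩
    · obtain ⟨i, hi⟩ := hdiv ⟨c, L.cen_le hc⟩ hc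
      exact ⟨i, (hMmem _).mpr ⟨P.mul_mem (L.cen_le hc) (P.zpow_mem hzP i), C.mul_mem hc (C.zpow_mem hzC i), hi⟩⟩
    · rw [show v = ⟨((zP : ↥P) : Ω), hPS hzP⟩ from Subtype.ext hv, hβτ zP hzC, hτz]
      rfl
    · obtain ⟨hvP, hvC, hvg⟩ := (hMmem _).mp hv
      refine Subtype.ext ?_
      rw [show v = ⟨((⟨v, hvP⟩ : ↥P) : Ω), v.2⟩ from rfl, hβτ ⟨v, hvP⟩ hvC]
      exact congrArg Subtype.val (hτfix ⟨v, hvP⟩ hvC hvg)
  have hodd : Odd p := (Fact.out : p.Prime).odd_of_ne_two hp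
  obtain ⟨g0, hg0, v0, hv0, hgv0⟩ := L0.moved hP0C
  obtain ⟨M0, hM0, -⟩ := hgood P0 hP0 hP0c hP0S hP0C L0 g0 hg0 ⟨v0, hv0, hgv0⟩
  have huniq : ∀ M, IndexPrimeCentre.Good F z M → M = M0 := fun M hM => le_antisymm
    (IndexPrimeCentre.good_le hodd hS hF hzC.1 hzo hM0 hM) (IndexPrimeCentre.good_le hodd hS hF hzC.1 hzo hM hM0)
  -- transport by automorphisms of `S`
  have hMS : ∀ a ∈ F.autGroup S, ∀ v : ↥S, (v : Ω) ∈ M0 → ((a v : ↥S) : Ω) ∈ M0 := by
    intro a ha v hv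
    let zS : ↥S := ⟨z, hzC.1⟩
    have hzim : ∀ b : MulAut ↥S, ((b zS : ↥S) : Ω) ∈ Z := fun b => hlineS b zS (Subgroup.mem_zpowers z)
    obtain ⟨hLC, hLdiv, α, hα, hαe⟩ := id hM0
    let M : Subgroup Ω := ((M0.subgroupOf S).map a.toMonoidHom).map S.subtype
    have hM : IndexPrimeCentre.Good F z M := by
      refine ⟨?_, fun c hc => ?_, a * α * a⁻¹, mul_mem (mul_mem ha hα) (inv_mem ha), fun y => ⟨fun hy => ?_, ?_⟩⟩
      · rintro _ ⟨_, ⟨m, hm, rfl⟩, rfl⟩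
        exact (aut_cen a m).mp (hLC hm)
      · obtain ⟨i, hi⟩ := hLdiv _ ((aut_cen a⁻¹ ⟨c, hc.1⟩).mp hc)
        obtain ⟨j, hj⟩ := Subgroup.mem_zpowers_iff.mp (hzim a)
        refine ⟨j * i, _, ⟨a⁻¹ ⟨c, hc.1⟩ * zS ^ i, Subgroup.mem_subgroupOf.mpr hi, rfl⟩, ?_⟩
        show ((a (a⁻¹ ⟨c, hc.1⟩ * zS ^ i) : ↥S) : Ω) = _
        rw [map_mul, map_zpow, MulAut.apply_inv_self, Subgroup.coe_mul, Subgroup.coe_zpow, zpow_mul, hj]
      · obtain ⟨j, hj⟩ := Subgroup.mem_zpowers_iff.mp (hzim a⁻¹)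
        show ((a (α (a⁻¹ y)) : ↥S) : Ω) = z⁻¹
        rw [show a⁻¹ y = zS ^ j from by
            rw [show y = zS from Subtype.ext hy]; exact Subtype.ext hj.symm,
          map_zpow α, show α zS = zS⁻¹ from Subtype.ext ((hαe zS).1 rfl), inv_zpow,
          show zS ^ j = a⁻¹ zS from Subtype.ext hj, map_inv, MulAut.apply_inv_self]
        rfl
      · rintro ⟨_, ⟨m, hm, rfl⟩, he⟩
        obtain rfl : a m = y := Subtype.ext he
        show a (α (a⁻¹ (a m))) = _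
        rw [MulAut.inv_apply_self, (hαe m).2 (Subgroup.mem_subgroupOf.mp hm)]
    rw [← huniq M hM]
    exact ⟨a v, ⟨v, Subgroup.mem_subgroupOf.mpr hv, rfl⟩, rfl⟩
  have hMnorm : F.IsNormal M0 := by
    refine IndexPrimeCentre.normal_of_invariant hS hF hM0.1 fun R hR hRc hRr a ha v hv => ?_
    have hRS := hR.1
    haveI := finite_of_le hRS
    haveI := finite_aut_of_le hRS
    have hvS : (v : Ω) ∈ S := hRS v.2
    have hvC : (v : Ω) ∈ C := hM0.1 hv
    -- large sources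
    have large : ∀ (Q : Subgroup Ω) (φ : ↥Q →* Ω), φ ∈ F.Hom Q → p * Nat.card ↥C < Nat.card ↥Q →
        ∀ (hvQ : (v : Ω) ∈ Q), φ ⟨v, hvQ⟩ ∈ M0 := fun Q φ hφ hc hvQ => by
      obtain ⟨β, hβ, hβe⟩ := agree hS hF h hna hAe hφ hc
      rw [hβe ⟨v, hvQ⟩ hvS (Or.inl hvC)]
      exact hMS β hβ _ hv
    by_cases hc : p * Nat.card ↥C < Nat.card ↥R
    · exact large R _ ((autGroup_carrier F hRS a).mp ha) hc v.2
    by_cases hRA : R = A
    · exact absurd hbigA (hRA ▸ hc)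
    by_cases hRne : R = S
    · refine absurd ?_ hc
      rw [hRne, card_S h]
      exact Nat.mul_lt_mul_of_pos_left (card_cen_lt_A h hna) (Fact.out : p.Prime).pos
    have L := loc_of_radical hS hF h hna hR hRc hRr hRne hRA
    have hRC : R ⊓ A = C := by
      rcases L.inf_cases with e | e
      · exact e
      exfalso
      obtain ⟨x, hxR, -, hxA⟩ := L.out
      rw [card_eq_mul_of_not_le h hRS fun hle => hxA (hle hxR), e, L.card_cen2] at hc
      exact hc (lt_mul_of_one_lt_left (Nat.mul_pos (Fact.out : p.Prime).pos Nat.card_pos) (Fact.out : p.Prime).one_lt)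
    by_cases hmove : ∃ w : ↥R, (w : Ω) ∈ C ∧ ((a w : ↥R) : Ω) ∉ C
    · have hmove' : ∃ w : ↥R, (w : Ω) ∈ C ∧ ((a⁻¹ w : ↥R) : Ω) ∉ C := by
        by_contra hno
        push Not at hno
        obtain ⟨w, hw, haw⟩ := hmove
        refine haw ((iff_of_maps (K := C.subgroupOf R) (a := a⁻¹) hno (a w)).mpr ?_)
        rw [MulAut.inv_apply_self]; exact hw
      obtain ⟨M, hM, hMm⟩ := hgood R hR hRc hRne hRC L a ha hmove
      obtain ⟨M', hM', hMm'⟩ := hgood R hR hRc hRne hRC L a⁻¹ (inv_mem ha) hmove'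
      have hv' : (v : Ω) ∈ M' := (huniq M' hM').symm ▸ hv
      obtain ⟨hvR, -, hv2⟩ := (hMm' _).mp hv'
      rw [inv_inv] at hv2
      rw [← huniq M hM]
      refine (hMm _).mpr ⟨(a v).2, hv2, ?_⟩
      show ((a⁻¹ (a v) : ↥R) : Ω) ∈ C
      rw [MulAut.inv_apply_self]
      exact hvC
    push Not at hmove
    obtain ⟨-, T, hT⟩ := fullyNormalized_automized p hS hF hR
    have hTst : (T : Subgroup ↥(F.autGroup R)) ≤ (stab R C).subgroupOf (F.autGroup R) := fun t ht w => by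
      rw [hT] at ht
      exact ⟨(isPGroup_autInducedBy_le_stab h hRS hRC ht w).1, (isPGroup_autInducedBy_le_stab h hRS hRC ht w).2.1⟩
    have hTeq := T.3 ((stab_pGroup hS hRS C).comap_subtype) hTst
    obtain ⟨ψ, hψ, hψe⟩ := exists_ext_normalizer hS hF hR ha fun t ht => by
      have h1 : (⟨t, autInducedBy_le_autGroup F hRS ht⟩ : ↥(F.autGroup R)) ∈ (T : Subgroup ↥(F.autGroup R)) := hT.ge ht
      have h2 : (⟨a, ha⟩ * ⟨t, autInducedBy_le_autGroup F hRS ht⟩ * ⟨a, ha⟩⁻¹ : ↥(F.autGroup R)) ∈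
          (T : Subgroup ↥(F.autGroup R)) := by
        rw [← hTeq] at h1 ⊢
        exact stab_conj (iff_of_maps (K := C.subgroupOf R) hmove) h1
      rw [hT] at h2
      exact h2
    have hltN := lt_normalizerIn p hS (lt_of_le_of_ne hRS hRne)
    haveI : Finite ↥(normalizerIn S R) := finite_of_le inf_le_left
    rw [← hψe v (hltN.le v.2)]
    refine large _ ψ hψ ?_ (hltN.le v.2)
    rw [← hcardP R hRC L hRS]
    exact Set.Finite.card_lt_card (Set.toFinite _) hltN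
  have hM0bot : M0 = ⊥ := le_bot_iff.mp (hcore ▸ le_sSup (s := {Q : Subgroup Ω | F.IsNormal Q}) hMnorm)
  have hCZ : C = Z := by
    refine le_antisymm (fun c hc => ?_) (Subgroup.zpowers_le.mpr hzC)
    obtain ⟨i, hi⟩ := hM0.2.1 c hc
    rw [hM0bot, Subgroup.mem_bot] at hi
    rw [eq_inv_of_mul_eq_one_left hi]
    exact inv_mem (zpow_mem (Subgroup.mem_zpowers z) i)
  refine ⟨⟨x0, hx0, hx0A, ?_⟩, fun c hc => (hzline.ge (hCZ ▸ hc)).2, by rw [hCZ, Nat.card_zpowers, hzo]⟩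
  have hP0eq : P0 = C ⊔ Subgroup.zpowers x0 := by
    refine le_antisymm (fun v hv => ?_) (sup_le L0.cen_le (Subgroup.zpowers_le.mpr hx0P))
    obtain ⟨a, ha, k, rfl⟩ := h.gen x0 hx0 hx0A v (hP0.1 hv)
    exact mul_mem (Subgroup.mem_sup_left (hP0C.le ⟨(P0.mul_mem_cancel_right (P0.zpow_mem hx0P k)).mp hv, ha⟩))
      (Subgroup.mem_sup_right ⟨k, rfl⟩)
  rw [← hP0eq]
  refine essential_of_extAut_ne p hS hF hP0 (lt_of_le_of_ne hP0.1 hP0S) fun heq => hgv0 ?_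
  refine (extAut_pres hS hF h hna hAe hP0.1 (fun Q hPQ hQS => ?_) (heq.symm ▸ hg0) v0).mp hv0
  haveI : Finite ↥Q := finite_of_le hQS
  rw [← hcardP P0 hP0C L0 hP0.1]
  exact Set.Finite.card_lt_card (Set.toFinite _) hPQ

/-- Maximal class. -/
theorem maxClass (h : Ctx p S A) (hCS : cen S ≤ ⁅S, S⁆) (hC : Nat.card ↥(cen S) = p)
    (n : ℕ) (hn : Nat.card ↥S = p ^ n) (hn3 : 3 ≤ n) : Subgroup.lowerCentralSeries S (n - 2) ≠ ⊥ := by
  haveI := finite_of_le h.le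
  obtain ⟨x, hx, hxA⟩ : ∃ x ∈ S, x ∉ A := by
    by_contra hno
    push Not at hno
    have h1 := h.index
    rw [Subgroup.subgroupOf_eq_top.mpr hno, Subgroup.index_top] at h1
    exact (Fact.out : p.Prime).ne_one h1.symm
  obtain ⟨m, rfl⟩ : ∃ m, n = m + 3 := ⟨n - 3, by omega⟩
  have hp0 := (Fact.out : p.Prime).pos
  have h1 := card_derived h hx hxA
  have hD : Nat.card ↥⁅S, S⁆ = p ^ (m + 1) := by
    have h2 := card_S h
    rw [hn, ← h1, hC, show p ^ (m + 3) = p * (p ^ (m + 1) * p) by ring] at h2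
    exact (Nat.eq_of_mul_eq_mul_right hp0 (Nat.eq_of_mul_eq_mul_left hp0 h2)).symm
  have h3 := card_iter h hx hxA (by rw [inf_eq_left.mpr hCS, hC]) m
  rw [hD, pow_succ] at h3
  have h4 := Nat.le_of_mul_le_mul_left h3 (Nat.pow_pos hp0)
  intro hbot
  rw [show m + 3 - 2 = m + 1 by omega] at hbot
  have : (fun B => B.map (phi h hx))^[m + 1] (⊤ : Subgroup ↥A) = ⊥ := (Subgroup.eq_bot_iff_forall _).mpr fun a ha => by
    have := iter_le_lower h hx (m + 1) a ha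
    rw [hbot, Subgroup.mem_bot] at this
    exact Subtype.ext this
  rw [this, Subgroup.card_bot] at h4
  exact absurd h4 (not_le.mpr (Fact.out : p.Prime).one_lt)

end CfsgLib.Fusion.AbelianIndexP
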