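import Cfsg.Agent.Lib.Fusion.Control
import Cfsg.Agent.Lib.Fusion.Group

/-! The `pⁿ`-th powers of the centre of a group of small class are normal in every saturated system. (helper6) -/

set_option autoImplicit false
set_option linter.unusedSectionVars false
set_option linter.style.haveILetI false

namespace CfsgLib.Fusion

open Cfsg Cfsg.FusionSystem Polynomial
open scoped commutatorElement

universe u

/-- If `1 + N` has order `p` and `N` is nilpotent of index `n(p-1)+1`, then `pⁿ N = 0`. -/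
theorem pow_prime_mul_eq_zero {R : Type*} [Ring R] {p : ℕ} (hp : p.Prime) (n : ℕ) {N : R} (h1 : (1 + N) ^ p = 1)
    (h2 : N ^ (n * (p - 1) + 1) = 0) : (p : R) ^ n * N = 0 := by
  obtain ⟨r, hr⟩ := exists_add_pow_prime_eq hp (X : ℤ[X]) 1
  rw [one_pow, mul_one] at hr
  have hr0 : r.coeff 0 = 1 := by
    have h := congrArg (fun f : ℤ[X] => f.coeff 1) hr
    simp only [coeff_add, coeff_X_add_one_pow, Nat.choose_one_right, coeff_X_pow, coeff_one, if_neg hp.one_lt.ne,
      if_neg one_ne_zero, zero_add, mul_assoc, coeff_natCast_mul, coeff_X_mul] at h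
    exact (mul_eq_left₀ (Nat.cast_ne_zero.mpr hp.ne_zero)).mp h.symm
  set u := aeval N r with hu
  have hpu : (p : R) * N * u = -(N ^ p) := by
    have h := congrArg (aeval N) hr
    simp only [map_pow, map_add, map_mul, map_natCast, map_one, aeval_X] at h
    rw [add_comm N, h1, ← hu] at h
    have h' : N ^ p + (p : R) * N * u = 0 := by
      have h'' : (1 : R) + 0 = 1 + (N ^ p + (p : R) * N * u) := by
        rw [add_zero]
        refine h.trans ?_
        abel
      exact (add_left_cancel h'').symm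
    exact eq_neg_of_add_eq_zero_right h'
  have hcN : Commute N u := by
    simpa using ((Commute.all (X : ℤ[X]) r).map (aeval N))
  have hunit : IsUnit u := by
    have h := congrArg (aeval N) (X_mul_divX_add r)
    rw [hr0, map_add, map_mul, aeval_X, map_one, map_one] at h
    rw [hu, ← h, add_comm]
    refine IsNilpotent.isUnit_one_add ?_
    have hc : Commute N (aeval N r.divX) := by simpa using ((Commute.all (X : ℤ[X]) r.divX).map (aeval N))
    exact hc.isNilpotent_mul_right ⟨_, h2⟩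
  have key : ∀ k, (p : R) ^ k * N * u ^ k = (-1) ^ k * N ^ (k * (p - 1) + 1) := by
    intro k
    induction k with
    | zero => simp
    | succ k ih =>
      rw [pow_succ' (p : R), pow_succ u, show (p : R) * (p : R) ^ k * N * (u ^ k * u) = (p : R) * ((p : R) ^ k * N * u ^ k) * u by
        simp only [mul_assoc], ih, pow_succ N,
        show (p : R) * ((-1) ^ k * (N ^ (k * (p - 1)) * N)) * u = (-1) ^ k * N ^ (k * (p - 1)) * ((p : R) * N * u) by
          rw [← mul_assoc ((-1 : R) ^ k), ← mul_assoc (p : R), (Nat.cast_commute p _).eq]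
          simp only [mul_assoc],
        hpu, mul_neg, mul_assoc, ← pow_add, pow_succ, mul_neg, mul_one, neg_mul]
      congr 3
      have := hp.one_le
      rw [add_one_mul]
      omega
  refine (hunit.pow n).mul_left_eq_zero.mp ?_
  rw [key, h2, mul_zero]

variable {Ω : Type u} [Group Ω] {S : Subgroup Ω} {F : FusionSystem S} {p : ℕ}

/-- An element of order `p` on abelian `Z ≤ S` fixes its `pⁿ`-th powers, if the class is small. -/
theorem conj_fix_pow (hp : p.Prime) {n : ℕ} (hcl : Subgroup.lowerCentralSeries S (n * (p - 1) + 1) = ⊥) {Z : Subgroup Ω}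
    (hZ : Z ≤ S) (hab : ∀ x ∈ Z, ∀ y ∈ Z, x * y = y * x) {t : Ω} (ht : t ∈ S) (htZ : t ∈ Subgroup.normalizer (Z : Set Ω))
    (htp : ∀ z ∈ Z, t ^ p * z = z * t ^ p) {z : Ω} (hz : z ∈ Z) : t * z ^ p ^ n * t⁻¹ = z ^ p ^ n := by
  letI : CommGroup ↥Z := { (inferInstance : Group ↥Z) with mul_comm := fun a b => Subtype.ext (hab a a.2 b b.2) }
  let f : ↥Z →* ↥Z :=
    { toFun := fun x => ⟨t * x * t⁻¹, (Subgroup.mem_normalizer_iff.mp htZ _).mp x.2⟩
      map_one' := Subtype.ext (by simp)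
      map_mul' := fun x y => Subtype.ext (by show t * ((x : Ω) * y) * t⁻¹ = t * x * t⁻¹ * (t * y * t⁻¹); group) }
  set T : AddMonoid.End (Additive ↥Z) := MonoidHom.toAdditive f
  have hT : ∀ (k : ℕ) (v : Additive ↥Z), ((Additive.toMul ((T ^ k) v) : ↥Z) : Ω) = t ^ k * (Additive.toMul v : ↥Z) * (t ^ k)⁻¹ := by
    intro k
    induction k with
    | zero => intro v; simp
    | succ k ih =>
      intro v
      rw [pow_succ' T, AddMonoid.End.coe_mul, Function.comp_apply]
      show t * ((Additive.toMul ((T ^ k) v) : ↥Z) : Ω) * t⁻¹ = _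
      rw [ih, pow_succ' t]
      group
  have hN : ∀ (k : ℕ) (v : Additive ↥Z), ((Additive.toMul (((T - 1) ^ k) v) : ↥Z) : Ω) ∈ S.lowerCentralSeries k := by
    intro k
    induction k with
    | zero => intro v; exact hZ (Additive.toMul v).2
    | succ k ih =>
      intro v
      rw [pow_succ' (T - 1), AddMonoid.End.coe_mul, Function.comp_apply, Subgroup.lowerCentralSeries_succ,
        Subgroup.commutator_comm]
      set w := ((T - 1) ^ k) v
      show t * ((Additive.toMul w : ↥Z) : Ω) * t⁻¹ / ((Additive.toMul w : ↥Z) : Ω) ∈ _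
      rw [div_eq_mul_inv, ← commutatorElement_def]
      exact Subgroup.commutator_mem_commutator ht (ih v)
  have h2 : (T - 1) ^ (n * (p - 1) + 1) = 0 := AddMonoidHom.ext fun v => by
    have h := hN (n * (p - 1) + 1) v
    rw [hcl, Subgroup.mem_bot] at h
    exact Additive.toMul.injective (Subtype.ext h)
  have h1 : (1 + (T - 1)) ^ p = 1 := by
    rw [add_sub_cancel]
    refine AddMonoidHom.ext fun v => Additive.toMul.injective (Subtype.ext ?_)
    refine (hT p v).trans ?_
    rw [htp _ (Additive.toMul v).2, mul_inv_cancel_right]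
    rfl
  have h := DFunLike.congr_fun (pow_prime_mul_eq_zero hp n h1 h2) (Additive.ofMul (⟨z, hz⟩ : ↥Z))
  rw [← Nat.cast_pow, ← nsmul_eq_mul] at h
  have h' : (t * z * t⁻¹ / z) ^ p ^ n = 1 := congrArg (fun v => ((Additive.toMul v : ↥Z) : Ω)) h
  have hc : Commute (t * z * t⁻¹) z⁻¹ :=
    (show Commute (t * z * t⁻¹) z from hab _ ((Subgroup.mem_normalizer_iff.mp htZ _).mp hz) _ hz).inv_right
  rw [div_eq_mul_inv, hc.mul_pow, inv_pow, mul_inv_eq_one, conj_pow] at h'
  exact h'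

variable [Finite ↥S] [Fact p.Prime]

/-- `℧ⁿ Z(S)` is normal when the class of `S` is at most `n(p-1)+1`. -/
theorem agemo_center_normal (hS : IsPGroup p ↥S) (hF : F.IsSaturated p) {n : ℕ}
    (hcl : Subgroup.lowerCentralSeries S (n * (p - 1) + 1) = ⊥) :
    F.IsNormal (powerClosure p n (S ⊓ Subgroup.centralizer (S : Set Ω))) := by
  set W := powerClosure p n (S ⊓ Subgroup.centralizer (S : Set Ω))
  have hp : p.Prime := Fact.out
  have hWZ : W ≤ S ⊓ Subgroup.centralizer (S : Set Ω) := by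
    refine (Subgroup.closure_le _).mpr ?_
    rintro _ ⟨x, hx, rfl⟩
    exact Subgroup.pow_mem _ hx _
  have hWS : W ≤ S := hWZ.trans inf_le_left
  have hWn : S ≤ Subgroup.normalizer (W : Set Ω) := fun s hs =>
    Subgroup.centralizer_le_normalizer _ (Subgroup.mem_centralizer_iff.mpr fun w hw =>
      (Subgroup.mem_centralizer_iff.mp (hWZ hw).2 s hs).symm)
  suffices key : ∀ (T : Subgroup Ω), T = S → ∀ N : FusionSystem T, (∀ P, N.Hom P = F.normalizerHom W P) →
      ∀ P, F.Hom P ⊆ N.Hom P from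
    isNormal_of_normalizerSystem_ge hWS _ (normalizerSystem_spec hWS)
      (key _ (inf_eq_left.mpr hWn) (normalizerSystem F W hWS) fun _ => rfl)
  intro T hT N hN
  subst hT
  have hNW : normalizerIn T W = T := inf_eq_left.mpr hWn
  refine le_of_autGroup p hS hF N fun R hR hbig => ?_
  by_cases hcr : F.IsCentric R ∧ F.IsRadical p R
  swap
  · exact autGroup_le_of_not_centric_radical p hS hF N hR hcr hbig
  haveI := finite_of_le hR.1
  haveI := finite_aut_of_le hR.1
  have hCR : centralizerIn T R ≤ R := hcr.1.2 R (CfsgLib.Fusion.IsConj.refl F hR.1)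
  have hZR : ∀ z ∈ T ⊓ Subgroup.centralizer (T : Set Ω), z ∈ R := fun z hz =>
    hCR ⟨hz.1, Subgroup.mem_centralizer_iff.mpr fun x hx => Subgroup.mem_centralizer_iff.mp hz.2 x (hR.1 hx)⟩
  have hWR : W ≤ R := fun w hw => hZR w (hWZ hw)
  suffices key : ∀ α ∈ F.autGroup R, ∀ w (hw : w ∈ W), ((α ⟨w, hWR hw⟩ : ↥R) : Ω) ∈ W by
    intro α hα
    refine (autGroup_carrier N hR.1 α).mpr ?_
    have hφ := (autGroup_carrier F hR.1 α).mp hα
    rw [hN]
    refine ⟨hφ, hR.1.trans hNW.ge, fun x => hNW.ge (apply_mem_S hφ x),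
      (R.subtype.comp α.toMonoidHom).comp (Subgroup.inclusion (sup_le le_rfl hWR)), restrict_mem hφ _, fun _ => rfl, ?_⟩
    rw [map_eq_iff le_sup_right]
    haveI := finite_of_le hWS
    refine ⟨fun x => key α hα x x.2, fun y hy => ?_⟩
    let k : ↥W → ↥W := fun x => ⟨_, key α hα x x.2⟩
    obtain ⟨x, hx⟩ := (Finite.injective_iff_surjective.mp fun a b e =>
      Subgroup.inclusion_injective hWR (α.injective (Subtype.ext (congrArg (fun z : ↥W => (z : Ω)) (e : k a = k b))))) ⟨y, hy⟩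
    exact ⟨x, congrArg Subtype.val hx⟩
  rcases eq_or_lt_of_le hR.1 with hRS | hlt
  · intro α _ w hw
    have hgen : W ≤ (W.comap (R.subtype.comp α.toMonoidHom)).map R.subtype := by
      refine (Subgroup.closure_le _).mpr ?_
      rintro _ ⟨x, hx, rfl⟩
      refine ⟨⟨x, hZR x hx⟩ ^ p ^ n, ?_, rfl⟩
      show R.subtype (α (⟨x, hZR x hx⟩ ^ p ^ n)) ∈ W
      rw [map_pow, map_pow]
      refine Subgroup.subset_closure ⟨_, Subgroup.mem_inf.mpr ⟨hR.1 (α _).2, Subgroup.mem_centralizer_iff.mpr fun s hs => ?_⟩, rfl⟩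
      obtain ⟨y, hy⟩ := α.surjective ⟨s, hRS.ge hs⟩
      rw [show s = ((α y : ↥R) : Ω) from (congrArg Subtype.val hy).symm]
      show ((α y : ↥R) : Ω) * (α _ : ↥R) = (α _ : ↥R) * (α y : ↥R)
      rw [← Subgroup.coe_mul, ← Subgroup.coe_mul, ← map_mul, ← map_mul]
      exact congrArg (fun z : ↥R => ((α z : ↥R) : Ω)) (Subtype.ext (Subgroup.mem_centralizer_iff.mp hx.2 y (hR.1 y.2)))
    obtain ⟨v, hv, hve⟩ := hgen hw
    rw [show (⟨w, hWR hw⟩ : ↥R) = v from Subtype.ext hve.symm]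
    exact hv
  -- an element of order `p` above `R`
  obtain ⟨g, hg, hgR⟩ := SetLike.exists_of_lt (lt_normalizerIn p hS hlt)
  obtain ⟨t, ht, htR, htp⟩ : ∃ t ∈ normalizerIn T R, t ∉ R ∧ t ^ p ∈ R := by
    classical
    obtain ⟨k, hk⟩ := hS ⟨g, hg.1⟩
    have hex : ∃ k, g ^ p ^ k ∈ R := ⟨k, by
      rw [show g ^ p ^ k = (1 : Ω) from congrArg Subtype.val hk]; exact one_mem R⟩
    have hpos : Nat.find hex ≠ 0 := fun h => hgR (by simpa [h] using Nat.find_spec hex)
    obtain ⟨j, hj⟩ := Nat.exists_eq_succ_of_ne_zero hpos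
    refine ⟨g ^ p ^ j, Subgroup.pow_mem _ hg _, Nat.find_min hex (by omega), ?_⟩
    rw [← pow_mul, ← pow_succ]
    have := Nat.find_spec hex
    rwa [hj] at this
  set Z := R ⊓ Subgroup.centralizer (R : Set Ω)
  haveI : Finite ↥Z := finite_of_le (inf_le_left.trans hR.1)
  have hfix : ∀ z ∈ Z, t * z ^ p ^ n * t⁻¹ = z ^ p ^ n := fun z hz => by
    refine conj_fix_pow hp hcl (inf_le_left.trans hR.1) (fun x hx y hy => Subgroup.mem_centralizer_iff.mp hy.2 x hx.1)
      ht.1 (Subgroup.mem_normalizer_fintype fun y hy => ?_) (fun y hy => Subgroup.mem_centralizer_iff.mp hy.2 _ htp) hz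
    refine ⟨(Subgroup.mem_normalizer_iff.mp ht.2 y).mp hy.1, Subgroup.mem_centralizer_iff.mpr fun x hx => ?_⟩
    have hx' : t⁻¹ * x * t ∈ R := by simpa using (Subgroup.mem_normalizer_iff.mp (inv_mem ht.2) x).mp hx
    have h := Subgroup.mem_centralizer_iff.mp hy.2 _ hx'
    calc x * (t * y * t⁻¹) = t * (t⁻¹ * x * t * y) * t⁻¹ := by group
      _ = t * y * t⁻¹ * x := by rw [h]; group
  set A := F.autGroup R
  let K₀ : Subgroup ↥A :=
    { carrier := {a | ∀ x : ↥R, x ∈ Subgroup.center ↥R → (a : MulAut ↥R) (x ^ p ^ n) = x ^ p ^ n}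
      one_mem' := fun x _ => rfl
      mul_mem' := fun {a b} ha hb x hx => by
        show (a : MulAut ↥R) ((b : MulAut ↥R) (x ^ p ^ n)) = x ^ p ^ n
        rw [hb x hx, ha x hx]
      inv_mem' := fun {a} ha x hx => (a : MulAut ↥R).injective
        ((MulAut.apply_inv_self _ (a : MulAut ↥R) _).trans (ha x hx).symm) }
  haveI hK₀n : K₀.Normal := ⟨fun a ha b x hx => by
    show (b : MulAut ↥R) ((a : MulAut ↥R) (((b⁻¹ : ↥A) : MulAut ↥R) (x ^ p ^ n))) = x ^ p ^ n
    rw [map_pow, ha (((b⁻¹ : ↥A) : MulAut ↥R) x) ?_, ← map_pow, Subgroup.coe_inv]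
    · exact MulAut.apply_inv_self _ _ _
    · refine Subgroup.mem_center_iff.mpr fun y => ?_
      obtain ⟨y', rfl⟩ := (((b⁻¹ : ↥A) : MulAut ↥R)).surjective y
      rw [← map_mul, ← map_mul, Subgroup.mem_center_iff.mp hx y']⟩
  obtain ⟨-, TS, hTS⟩ := fullyNormalized_automized p hS hF hR
  set T₀ := (TS : Subgroup ↥A) ⊓ K₀
  have hidx : ¬ p ∣ T₀.relIndex K₀ :=
    sylow_inf_normal (H := ⊤) (by rw [Subgroup.relIndex_top_right]; exact TS.not_dvd_index) le_top le_top
      (by rw [Subgroup.normalizer_eq_top_iff.mpr inferInstance])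
  let TK : Sylow p ↥K₀ := ((TS.2.to_le inf_le_left : IsPGroup p ↥T₀).comap_subtype).toSylow hidx
  have hfr : Subgroup.normalizer (((TK : Subgroup ↥K₀).map K₀.subtype : Subgroup ↥A) : Set ↥A) ⊔ K₀ = ⊤ :=
    Sylow.normalizer_sup_eq_top TK
  rw [show (TK : Subgroup ↥K₀).map K₀.subtype = T₀ from Subgroup.map_subgroupOf_eq_of_le inf_le_right] at hfr
  have hcA : R.normalizerMonoidHom ⟨t, ht.2⟩ ∈ autInducedBy T R := (mem_autInducedBy _).mpr ⟨t, ht.1, fun _ => rfl⟩
  have hcT₀ : (⟨_, autInducedBy_le_autGroup F hR.1 hcA⟩ : ↥A) ∈ T₀ := by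
    refine Subgroup.mem_inf.mpr ⟨by rw [hTS]; exact hcA, fun x hx => Subtype.ext ?_⟩
    exact hfix x ⟨x.2, Subgroup.mem_centralizer_iff.mpr fun y hy =>
      congrArg Subtype.val (Subgroup.mem_center_iff.mp hx ⟨y, hy⟩)⟩
  have hnorm : ∀ γ ∈ Subgroup.normalizer (T₀ : Set ↥A), ∀ w (hw : w ∈ W),
      ((((γ : ↥A) : MulAut ↥R) ⟨w, hWR hw⟩ : ↥R) : Ω) ∈ W := by
    intro γ hγ w hw
    set φ : ↥R →* Ω := R.subtype.comp (γ : MulAut ↥R).toMonoidHom
    have hφ : φ ∈ F.Hom R := (autGroup_carrier F hR.1 _).mp γ.2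
    have hr' : φ.range = R := by
      ext y
      exact ⟨fun ⟨x, hx⟩ => hx ▸ ((γ : MulAut ↥R) x).2, fun hy => ⟨(γ : MulAut ↥R).symm ⟨y, hy⟩, by simp [φ]⟩⟩
    have h2 := ((Subgroup.mem_normalizer_iff.mp hγ _).mp hcT₀).1
    rw [hTS] at h2
    obtain ⟨h, hh, hhe⟩ := (mem_autInducedBy _).mp h2
    have hext : t ∈ extender T R φ := by
      refine mem_extender ht hh fun x hx => ?_
      refine Eq.trans ?_ (hhe ((γ : MulAut ↥R) x))
      show ((γ : MulAut ↥R) ⟨t * x * t⁻¹, hx⟩ : Ω) =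
        ((γ : MulAut ↥R) (R.normalizerMonoidHom ⟨t, ht.2⟩ ((γ : MulAut ↥R)⁻¹ ((γ : MulAut ↥R) x))) : Ω)
      rw [MulAut.inv_apply_self]
      exact congrArg (fun y : ↥R => (((γ : MulAut ↥R) y : ↥R) : Ω)) (Subtype.ext rfl)
    obtain ⟨ψ, hψ, hψe⟩ := (fullyNormalized_receptive p hS hF hR).2 R φ hφ hr'
    haveI : Finite ↥(extender T R φ) := finite_of_le ((extender_le T R φ).trans inf_le_left)
    have hlt2 : R < extender T R φ := lt_of_le_of_ne (le_extender hφ) fun h => htR (h ▸ hext)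
    have hψE := hbig _ (Set.Finite.card_lt_card (Set.toFinite _) hlt2) hψ
    rw [hN] at hψE
    obtain ⟨-, -, -, ψ', -, hψ'e, hψ'W⟩ := hψE
    have h3 := ((map_eq_iff le_sup_right ψ').mp hψ'W).1 ⟨w, hw⟩
    have h4 : ψ' (Subgroup.inclusion le_sup_left (⟨w, hlt2.le (hWR hw)⟩ : ↥(extender T R φ))) ∈ W := h3
    rw [hψ'e, hψe w (hWR hw)] at h4
    exact h4
  have hKW : ∀ k ∈ K₀, ∀ w (hw : w ∈ W), ((k : ↥A) : MulAut ↥R) ⟨w, hWR hw⟩ = ⟨w, hWR hw⟩ := by
    intro k hk w hw
    have hgen : W ≤ ((((k : ↥A) : MulAut ↥R).toMonoidHom).eqLocus (MonoidHom.id ↥R)).map R.subtype := by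
      refine (Subgroup.closure_le _).mpr ?_
      rintro _ ⟨x, hx, rfl⟩
      exact ⟨⟨x, hZR x hx⟩ ^ p ^ n, hk _ (Subgroup.mem_center_iff.mpr fun y => Subtype.ext
        (Subgroup.mem_centralizer_iff.mp hx.2 y (hR.1 y.2))), rfl⟩
    obtain ⟨v, hv, hve⟩ := hgen hw
    rw [show (⟨w, hWR hw⟩ : ↥R) = v from Subtype.ext hve.symm]
    exact hv
  intro α hα w hw
  obtain ⟨γ, hγ, k, hk, hgk⟩ := Subgroup.mem_sup_of_normal_right.mp (hfr.ge (Subgroup.mem_top (⟨α, hα⟩ : ↥A)))
  rw [show α = ((γ : ↥A) : MulAut ↥R) * ((k : ↥A) : MulAut ↥R) from congrArg Subtype.val hgk.symm, MulAut.mul_apply,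
    hKW k hk w hw]
  exact hnorm γ hγ w hw

/-- Exponents pass from the centre up the upper central series. -/
theorem pow_mem_upperCentralSeries {G : Type*} [Group G] {e : ℕ} (hZ : ∀ z ∈ Subgroup.center G, z ^ e = 1) :
    ∀ (i : ℕ), ∀ x ∈ Subgroup.upperCentralSeries G (i + 1), x ^ e ∈ Subgroup.upperCentralSeries G i := by
  intro i
  induction i with
  | zero =>
    intro x hx
    rw [zero_add, Subgroup.upperCentralSeries_one] at hx
    rw [Subgroup.upperCentralSeries_zero, Subgroup.mem_bot]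
    exact hZ x hx
  | succ i ih =>
    intro x hx
    rw [Subgroup.mem_upperCentralSeries_succ_iff] at hx ⊢
    intro y
    set N := Subgroup.upperCentralSeries G i
    have hc := hx y
    have hq : ∀ z : G, QuotientGroup.mk' N ⁅x, y⁆ * QuotientGroup.mk' N z =
        QuotientGroup.mk' N z * QuotientGroup.mk' N ⁅x, y⁆ := fun z => by
      rw [← commutatorElement_eq_one_iff_mul_comm, ← map_commutatorElement, QuotientGroup.mk'_apply,
        QuotientGroup.eq_one_iff]
      exact (Subgroup.mem_upperCentralSeries_succ_iff.mp hc) z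
    set a := QuotientGroup.mk' N x
    set b := QuotientGroup.mk' N y
    set c := QuotientGroup.mk' N ⁅x, y⁆
    have hac : a * b * a⁻¹ * b⁻¹ = c := by
      show _ = QuotientGroup.mk' N ⁅x, y⁆
      rw [map_commutatorElement, commutatorElement_def]
    have hconj : ∀ k : ℕ, a ^ k * b * (a ^ k)⁻¹ = c ^ k * b := by
      intro k
      induction k with
      | zero => simp
      | succ k ihk =>
        have hca : Commute a (c ^ k) := ((show Commute c a from hq x).pow_left k).symm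
        have habc : a * b * a⁻¹ = c * b := by rw [← hac]; group
        rw [pow_succ' a, show a * a ^ k * b * (a * a ^ k)⁻¹ = a * (a ^ k * b * (a ^ k)⁻¹) * a⁻¹ by group, ihk,
          show a * (c ^ k * b) * a⁻¹ = a * c ^ k * a⁻¹ * (a * b * a⁻¹) by group, hca.eq, mul_inv_cancel_right,
          habc, pow_succ, mul_assoc]
    have hce : c ^ e = 1 := by
      show (QuotientGroup.mk' N ⁅x, y⁆) ^ e = 1
      rw [← map_pow, QuotientGroup.mk'_apply, QuotientGroup.eq_one_iff]
      exact ih _ hc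
    show ⁅x ^ e, y⁆ ∈ N
    rw [← QuotientGroup.eq_one_iff, ← QuotientGroup.mk'_apply, map_commutatorElement, map_pow, commutatorElement_def,
      hconj, hce, one_mul, mul_inv_cancel]

end CfsgLib.Fusion
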