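import Cfsg.Agent.Lib.Fusion.Saturated

/-! Saturated systems on two-groups in which every element is conjugate to a central one. -/

set_option autoImplicit false
set_option linter.unusedSectionVars false
set_option linter.style.haveILetI false

namespace CfsgLib.Fusion.CentralClasses

open Cfsg Cfsg.FusionSystem CfsgLib.Fusion

universe u

theorem mul_mul_mul_comm_aux {G : Type*} [Group G] {a b : G} (h : Commute a b) : a * b * (a * b) = a * a * (b * b) := by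
  rw [mul_assoc, ← mul_assoc b a b, ← h.eq]
  simp [mul_assoc]

variable {Ω : Type u} [Group Ω] {S : Subgroup Ω} [Finite ↥S] {F : FusionSystem S}

/-- `z` is central in `S`. -/
def Ctr (S : Subgroup Ω) (z : Ω) : Prop := z ∈ S ∧ ∀ s ∈ S, z * s = s * z

/-- Every cyclic subgroup of a central element has all of `S` as its normalizer. -/
theorem ctr_fullyNormalized {z : Ω} (hz : Ctr S z) : F.IsFullyNormalized (Subgroup.zpowers z) := by
  haveI : Finite ↥(normalizerIn S (Subgroup.zpowers z)) := finite_of_le (S := S) inf_le_left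
  refine ⟨Subgroup.zpowers_le.mpr hz.1, fun Q hQ => Subgroup.card_le_of_le (le_inf (inf_le_left : normalizerIn S Q ≤ S) ?_)⟩
  refine le_trans (fun s hs => ?_) (Subgroup.centralizer_le_normalizer _)
  rw [Subgroup.mem_centralizer_iff]
  intro y hy
  obtain ⟨k, rfl⟩ := Subgroup.mem_zpowers_iff.mp hy
  exact (Commute.zpow_left (hz.2 s (hs.1 : s ∈ S)) k)

theorem exists_map (hS : IsPGroup 2 ↥S) (hF : F.IsSaturated 2) {P : Subgroup Ω} {φ : ↥P →* Ω} (hφ : φ ∈ F.Hom P)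
    {x : Ω} (hx : x ∈ P) (hz : Ctr S (φ ⟨x, hx⟩)) :
    ∃ (D : Subgroup Ω) (ψ : ↥D →* Ω) (hxD : x ∈ D), ψ ∈ F.Hom D ∧ centralizerIn S (Subgroup.zpowers x) ≤ D ∧
      ψ ⟨x, hxD⟩ = φ ⟨x, hx⟩ := by
  haveI : Fact (Nat.Prime 2) := ⟨Nat.prime_two⟩
  have hle : Subgroup.zpowers x ≤ P := Subgroup.zpowers_le.mpr hx
  set φ₀ := φ.comp (Subgroup.inclusion hle) with hφ₀
  have hφ₀m : φ₀ ∈ F.Hom (Subgroup.zpowers x) := restrict_mem hφ hle
  have hr : φ₀.range = Subgroup.zpowers (φ ⟨x, hx⟩) := by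
    refine le_antisymm ?_ (Subgroup.zpowers_le.mpr ⟨⟨x, Subgroup.mem_zpowers x⟩, rfl⟩)
    rintro _ ⟨y, rfl⟩
    obtain ⟨k, hk⟩ := Subgroup.mem_zpowers_iff.mp y.2
    refine ⟨k, ?_⟩
    show _ ^ k = φ _
    rw [← map_zpow]
    exact congrArg φ (Subtype.ext (by simp [hk]))
  obtain ⟨ψ, hψ, he⟩ := (fullyNormalized_receptive 2 hS hF (ctr_fullyNormalized hz)).2 _ φ₀ hφ₀m hr
  exact ⟨_, ψ, le_extender hφ₀m (Subgroup.mem_zpowers x), hψ, centralizerIn_le_extender φ₀,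
    he x (Subgroup.mem_zpowers x) _⟩

/-- A square root found inside an invariant subgroup. -/
theorem exists_sqrt (hS : IsPGroup 2 ↥S) (hF : F.IsSaturated 2) {D : Subgroup Ω} (hD : D ≤ S)
    (hclosed : ∀ (P : Subgroup Ω) (ψ : ↥P →* Ω), ψ ∈ F.Hom P → ∀ (hP : D ≤ P) (d : Ω) (hd : d ∈ D), ψ ⟨d, hP hd⟩ ∈ D)
    {w z : Ω} (hw : D ≤ centralizerIn S (Subgroup.zpowers w)) (hzD : z ∈ D) (hz : Ctr S z)
    {P : Subgroup Ω} {φ : ↥P →* Ω} (hφ : φ ∈ F.Hom P) (hwP : w ∈ P) (hwz : φ ⟨w, hwP⟩ = z * z) (hwD : w ∈ D) :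
    ∃ z' ∈ D, (∀ d ∈ D, z' * d = d * z') ∧ z' * z' = w := by
  have hzz : Ctr S (φ ⟨w, hwP⟩) := hwz ▸
    ⟨mul_mem hz.1 hz.1, fun s hs => Commute.mul_left (hz.2 s hs) (hz.2 s hs)⟩
  obtain ⟨D', ψ, hwD', hψ, hle, he⟩ := exists_map hS hF hφ hwP hzz
  have hDD' : D ≤ D' := hw.trans hle
  let β : ↥D →* ↥D := (ψ.comp (Subgroup.inclusion hDD')).codRestrict D fun d => hclosed _ ψ hψ hDD' d d.2
  haveI := finite_of_le hD
  have hinj : Function.Injective β := fun a b h =>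
    Subgroup.inclusion_injective hDD' (F.injective_of_mem hψ (congrArg Subtype.val h :))
  obtain ⟨z', hz'⟩ := Finite.injective_iff_surjective.mp hinj ⟨z, hzD⟩
  refine ⟨z', z'.2, fun d hd => congrArg Subtype.val (show z' * ⟨d, hd⟩ = ⟨d, hd⟩ * z' from hinj ?_), ?_⟩
  · rw [map_mul, map_mul, hz']
    exact Subtype.ext (hz.2 _ (hD (β ⟨d, hd⟩).2))
  · refine congrArg Subtype.val (show z' * z' = ⟨w, hwD⟩ from hinj ?_)
    rw [map_mul, hz']
    exact Subtype.ext ((hwz ▸ he :).symm)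

theorem isMulCommutative (hS : IsPGroup 2 ↥S) (hF : F.IsSaturated 2)
    (h : ∀ x ∈ S, ∃ z ∈ S ⊓ Subgroup.centralizer (S : Set Ω), F.IsConjElt x z) : IsMulCommutative ↥S := by
  classical
  haveI : Fact (Nat.Prime 2) := ⟨Nat.prime_two⟩
  have hc : ∀ x ∈ S, ∃ (P : Subgroup Ω) (φ : ↥P →* Ω) (hx : x ∈ P), φ ∈ F.Hom P ∧ Ctr S (φ ⟨x, hx⟩) := by
    intro x hx
    obtain ⟨z, hz, φ, hφ, rfl⟩ := h x hx
    exact ⟨_, φ, Subgroup.mem_zpowers x, hφ, hz.1, fun s hs => (Subgroup.mem_centralizer_iff.mp hz.2 s hs).symm⟩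
  -- inversion forces a square to be trivial
  have hL1 : ∀ t ∈ S, ∀ r ∈ S, t * r * t⁻¹ = r⁻¹ → t * r = r * t := by
    intro t ht r hr htr
    obtain ⟨P, φ, hrP, hφ, hz⟩ := hc r hr
    have hconj : F.IsConj (Subgroup.zpowers r) (Subgroup.zpowers (φ ⟨r, hrP⟩)) := by
      refine ⟨φ.comp (Subgroup.inclusion (Subgroup.zpowers_le.mpr hrP)), restrict_mem hφ _, ?_⟩
      refine le_antisymm ?_ (Subgroup.zpowers_le.mpr ⟨⟨r, Subgroup.mem_zpowers r⟩, rfl⟩)
      rintro _ ⟨y, rfl⟩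
      obtain ⟨k, hk⟩ := Subgroup.mem_zpowers_iff.mp y.2
      refine ⟨k, ?_⟩
      show _ ^ k = φ _
      rw [← map_zpow]
      exact congrArg φ (Subtype.ext (by simp [hk]))
    have hfn := ctr_fullyNormalized (F := F) hz
    obtain ⟨ψ, hψ, -, hmap, -⟩ := exists_map_normalizer 2 hS (fullyNormalized_automized 2 hS hF hfn)
      (fullyNormalized_receptive 2 hS hF hfn) hconj
    have hr' : r ∈ normalizerIn S (Subgroup.zpowers r) := ⟨hr, Subgroup.le_normalizer (Subgroup.mem_zpowers r)⟩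
    have ht' : t ∈ normalizerIn S (Subgroup.zpowers r) := by
      refine ⟨ht, mem_normalizer_iff_cj.mpr ?_⟩
      show (Subgroup.zpowers r).map _ = _
      rw [MonoidHom.map_zpowers]
      show Subgroup.zpowers (t * r * t⁻¹) = _
      rw [htr, Subgroup.zpowers_inv]
    obtain ⟨k, hk⟩ := Subgroup.mem_zpowers_iff.mp (hmap ⟨r, Subgroup.mem_zpowers r⟩ hr')
    have hcomm : ψ ⟨t, ht'⟩ * ψ ⟨r, hr'⟩ = ψ ⟨r, hr'⟩ * ψ ⟨t, ht'⟩ := by
      rw [← hk]
      exact (Commute.zpow_left (hz.2 _ (apply_mem_S hψ _)) k).symm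
    rw [← map_mul, ← map_mul] at hcomm
    exact congrArg Subtype.val (F.injective_of_mem hψ hcomm)
  have hE : ∀ a ∈ S, ∀ b ∈ S, a * a = 1 → b * b = 1 → a * b = b * a := by
    intro a ha b hb haa hbb
    have hai : a⁻¹ = a := inv_eq_of_mul_eq_one_right haa
    have hbi : b⁻¹ = b := inv_eq_of_mul_eq_one_right hbb
    have h1 : a * (a * b) = a * b * a := hL1 a ha (a * b) (mul_mem ha hb) (by
      rw [mul_inv_rev, hai, hbi, ← mul_assoc a a b, haa, one_mul])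
    rw [← mul_assoc, haa, one_mul] at h1
    calc a * b = a * (a * b * a) := by rw [← h1]
      _ = (a * a) * (b * a) := by simp only [mul_assoc]
      _ = b * a := by rw [haa, one_mul]
  -- the subgroup of elements of order at most two
  let E : Subgroup Ω :=
    { carrier := {x | x ∈ S ∧ x * x = 1}
      one_mem' := ⟨S.one_mem, one_mul 1⟩
      mul_mem' := fun {a b} ha hb => ⟨mul_mem ha.1 hb.1, by
        rw [show a * b * (a * b) = a * (b * a) * b by simp [mul_assoc], ← hE a ha.1 b hb.1 ha.2 hb.2,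
          show a * (a * b) * b = (a * a) * (b * b) by simp [mul_assoc], ha.2, hb.2, one_mul]⟩
      inv_mem' := fun {a} ha => ⟨S.inv_mem ha.1, by rw [← mul_inv_rev, ha.2, inv_one]⟩ }
  have hES : E ≤ S := fun x hx => hx.1
  have hEclosed : ∀ (P : Subgroup Ω) (ψ : ↥P →* Ω), ψ ∈ F.Hom P → ∀ (hP : E ≤ P),
      (∀ e (he : e ∈ E), ψ ⟨e, hP he⟩ ∈ E) ∧ ∀ e ∈ E, ∃ e', ∃ he : e' ∈ E, ψ ⟨e', hP he⟩ = e := by
    intro P ψ hψ hP
    have h1 : ∀ e (he : e ∈ E), ψ ⟨e, hP he⟩ ∈ E := fun e he => ⟨apply_mem_S hψ _, by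
      rw [← map_mul]
      convert map_one ψ
      exact Subtype.ext he.2⟩
    refine ⟨h1, fun e he => ?_⟩
    haveI := finite_of_le hES
    let g : ↥E → ↥E := fun a => ⟨ψ ⟨a, hP a.2⟩, h1 a a.2⟩
    have hg : Function.Injective g := fun a b hab =>
      Subgroup.inclusion_injective hP (F.injective_of_mem hψ (congrArg Subtype.val hab :))
    obtain ⟨⟨e', he'⟩, heq⟩ := Finite.injective_iff_surjective.mp hg ⟨e, he⟩
    exact ⟨e', he', congrArg Subtype.val heq⟩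
  set C : Subgroup Ω := centralizerIn S E with hC
  have hCmem : ∀ {x : Ω}, x ∈ C ↔ x ∈ S ∧ ∀ e ∈ E, e * x = x * e := fun {x} =>
    and_congr_right' Subgroup.mem_centralizer_iff
  have hEC : E ≤ C := fun x hx => hCmem.mpr ⟨hx.1, fun e he => hE e he.1 x hx.1 he.2 hx.2⟩
  have hCS : C ≤ S := inf_le_left
  have hpush : ∀ (P : Subgroup Ω) (ψ : ↥P →* Ω), ψ ∈ F.Hom P → ∀ (_ : E ≤ P) (x : ↥P),
      (x : Ω) ∈ C ↔ ψ x ∈ C := by
    intro P ψ hψ hP x
    obtain ⟨h1, h2⟩ := hEclosed P ψ hψ hP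
    constructor
    · intro hx
      refine hCmem.mpr ⟨apply_mem_S hψ _, fun e he => ?_⟩
      obtain ⟨e', he', rfl⟩ := h2 e he
      rw [← map_mul, ← map_mul]
      exact congrArg ψ (Subtype.ext ((hCmem.mp hx).2 e' he'))
    · intro hx
      refine hCmem.mpr ⟨le_S hψ x.2, fun e he => ?_⟩
      exact congrArg Subtype.val (F.injective_of_mem hψ (a₁ := (⟨e, hP he⟩ : ↥P) * x) (a₂ := x * ⟨e, hP he⟩) (by
        rw [map_mul, map_mul]
        exact (hCmem.mp hx).2 _ (h1 e he)))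
  have hord : ∀ x ∈ S, x ≠ 1 → orderOf (x * x) < orderOf x := by
    intro x hx hx1
    obtain ⟨k, hk⟩ := (IsPGroup.iff_orderOf.mp hS) ⟨x, hx⟩
    rw [Subgroup.orderOf_mk] at hk
    obtain ⟨k, rfl⟩ : ∃ j, k = j + 1 := ⟨k - 1, by
      rcases k with _ | k
      · exact absurd (orderOf_eq_one_iff.mp hk) hx1
      · rfl⟩
    have h2 : 2 ∣ orderOf x := ⟨2 ^ k, by rw [hk, pow_succ']⟩
    rw [← sq, orderOf_pow_of_dvd two_ne_zero h2, hk, pow_succ',
      Nat.mul_div_cancel_left _ (by norm_num : 0 < 2)]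
    have := Nat.one_le_two_pow (n := k)
    omega
  have hctrC : ∀ z, Ctr S z → z ∈ C := fun z hz => hCmem.mpr ⟨hz.1, fun e he => (hz.2 e (hES he)).symm⟩
  -- the centralizer of the involutions is abelian
  have hCab : ∀ n, ∀ x ∈ C, orderOf x = n → ∀ c ∈ C, x * c = c * x := by
    intro n
    induction n using Nat.strong_induction_on with
    | _ n ih =>
      intro x hx hn c hc'
      by_cases hx1 : x = 1
      · rw [hx1, one_mul, mul_one]
      have hxS := hCS hx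
      have hww : ∀ d ∈ C, x * x * d = d * (x * x) :=
        ih _ (hn ▸ hord x hxS hx1) _ (mul_mem hx hx) rfl
      obtain ⟨P, φ, hxP, hφ, hz⟩ := hc x hxS
      have hwC : C ≤ centralizerIn S (Subgroup.zpowers (x * x)) := fun d hd => by
        refine ⟨hCS hd, Subgroup.mem_centralizer_iff.mpr fun y hy => ?_⟩
        obtain ⟨k, rfl⟩ := Subgroup.mem_zpowers_iff.mp hy
        exact Commute.zpow_left (hww d hd) k
      obtain ⟨z', hz'C, hz'c, hz'sq⟩ := exists_sqrt hS hF hCS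
        (fun Q ψ hψ hQ d hd => (hpush Q ψ hψ (hEC.trans hQ) ⟨d, hQ hd⟩).mp hd) hwC (hctrC _ hz) hz hφ
        (mul_mem hxP hxP) (map_mul φ ⟨x, hxP⟩ ⟨x, hxP⟩) (mul_mem hx hx)
      have hxz : z' * x = x * z' := hz'c x hx
      have hy : x * z'⁻¹ ∈ E := ⟨mul_mem hxS (S.inv_mem (hCS hz'C)), by
        have hcomm : Commute x z'⁻¹ := (Commute.symm hxz).inv_right
        rw [(mul_mul_mul_comm_aux hcomm), ← mul_inv_rev, hz'sq, mul_inv_cancel]⟩
      have e1 := (hCmem.mp hc').2 _ hy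
      calc x * c = x * z'⁻¹ * (z' * c) := by simp [mul_assoc]
        _ = x * z'⁻¹ * c * z' := by rw [hz'c c hc', mul_assoc (x * z'⁻¹)]
        _ = c * (x * z'⁻¹) * z' := by rw [e1]
        _ = c * x := by simp [mul_assoc]
  -- and is everything
  have hSC : ∀ n, ∀ x ∈ S, orderOf x = n → x ∈ C := by
    intro n
    induction n using Nat.strong_induction_on with
    | _ n ih =>
      intro x hxS hn
      by_cases hx1 : x = 1
      · exact hx1 ▸ C.one_mem
      have hwC : x * x ∈ C := ih _ (hn ▸ hord x hxS hx1) _ (mul_mem hxS hxS) rfl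
      obtain ⟨P, φ, hwP, hφ, hw⟩ := hc (x * x) (hCS hwC)
      obtain ⟨D, ψ, hwD, hψ, hle, he⟩ := exists_map hS hF hφ hwP hw
      have hED : E ≤ D := fun e hee => hle ⟨hES hee, Subgroup.mem_centralizer_iff.mpr fun y hy => by
        obtain ⟨k, rfl⟩ := Subgroup.mem_zpowers_iff.mp hy
        exact (Commute.zpow_right ((hCmem.mp hwC).2 e hee) k).symm⟩
      have hxD : x ∈ D := hle ⟨hxS, Subgroup.mem_centralizer_iff.mpr fun y hy => by
        obtain ⟨k, rfl⟩ := Subgroup.mem_zpowers_iff.mp hy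
        exact Commute.zpow_left (show Commute (x * x) x from (Commute.refl x).mul_left (Commute.refl x)) k⟩
      refine (hpush D ψ hψ hED ⟨x, hxD⟩).mpr ?_
      generalize hy' : ψ ⟨x, hxD⟩ = y
      have hyS : y ∈ S := hy' ▸ apply_mem_S hψ _
      have hyy : Ctr S (y * y) := by
        rw [← hy', ← map_mul]
        exact (he ▸ hw :)
      obtain ⟨Q, χ, hyQ, hχ, hz⟩ := hc y hyS
      have hSS : S ≤ centralizerIn S (Subgroup.zpowers (y * y)) := fun d hd =>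
        ⟨hd, Subgroup.mem_centralizer_iff.mpr fun v hv => by
          obtain ⟨k, rfl⟩ := Subgroup.mem_zpowers_iff.mp hv
          exact Commute.zpow_left (hyy.2 d hd) k⟩
      obtain ⟨z', hz'S, hz'c, hz'sq⟩ := exists_sqrt hS hF le_rfl
        (fun Q' θ hθ hQ' d hd => apply_mem_S hθ _) hSS hz.1 hz hχ (mul_mem hyQ hyQ)
        (map_mul χ ⟨y, hyQ⟩ ⟨y, hyQ⟩) (mul_mem hyS hyS)
      have hcomm : Commute y z'⁻¹ := (Commute.symm (hz'c y hyS)).inv_right
      have hyE : y * z'⁻¹ ∈ E := ⟨mul_mem hyS (S.inv_mem hz'S), by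
        rw [(mul_mul_mul_comm_aux hcomm), ← mul_inv_rev, hz'sq, mul_inv_cancel]⟩
      have := mul_mem (hEC hyE) (hctrC z' ⟨hz'S, hz'c⟩)
      rwa [inv_mul_cancel_right] at this
  exact ⟨⟨fun a b => Subtype.ext (hCab _ a (hSC _ a a.2 rfl) rfl b (hSC _ b b.2 rfl))⟩⟩

end CfsgLib.Fusion.CentralClasses
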