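import Cfsg.Agent.Lib.Fusion.Transport

/-! Subsystems with automizers of index prime to `p`. (helper6) -/

set_option autoImplicit false
set_option linter.unusedSectionVars false
set_option linter.style.haveILetI false

namespace CfsgLib.Fusion

open Cfsg Cfsg.FusionSystem

universe u

variable {Ω : Type u} [Group Ω] {S : Subgroup Ω} [Finite ↥S] {F : FusionSystem S} {p : ℕ} [Fact p.Prime]

/-- An automorphism normalizing the automorphisms induced by `S` is the restriction of a map on a larger subgroup. -/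
theorem mem_of_normalizes (hS : IsPGroup p ↥S) (hF : F.IsSaturated p) (E : FusionSystem S) {R : Subgroup Ω}
    (hR : F.IsFullyNormalized R) (hlt : R < S)
    (hbig : ∀ Q : Subgroup Ω, Nat.card ↥R < Nat.card ↥Q → F.Hom Q ⊆ E.Hom Q) {n : MulAut ↥R}
    (hn : n ∈ F.autGroup R)
    (hnorm : ∀ c ∈ autInducedBy S R, n * c * n⁻¹ ∈ autInducedBy S R) : n ∈ E.autGroup R := by
  haveI := finite_of_le hR.1
  set φn : ↥R →* Ω := R.subtype.comp n.toMonoidHom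
  have hφn : φn ∈ F.Hom R := (autGroup_carrier F hR.1 _).mp hn
  have hr : φn.range = R := by
    ext y
    exact ⟨fun ⟨x, hx⟩ => hx ▸ (n x).2, fun hy => ⟨n.symm ⟨y, hy⟩, by simp [φn]⟩⟩
  obtain ⟨ψ, hψ, hψe⟩ := (fullyNormalized_receptive p hS hF hR).2 R φn hφn hr
  have hext : R < extender S R φn := by
    refine (lt_normalizerIn p hS hlt).trans_le fun g hg => ?_
    obtain ⟨h, hh, hhe⟩ := (mem_autInducedBy _).mp
      (hnorm _ ((mem_autInducedBy _).mpr ⟨g, hg.1, fun x => rfl⟩ : R.normalizerMonoidHom ⟨g, hg.2⟩ ∈ autInducedBy S R))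
    refine mem_extender hg hh fun x hx => ?_
    have h4 := hhe (n x)
    have hx' : R.normalizerMonoidHom ⟨g, hg.2⟩ x = ⟨g * x * g⁻¹, hx⟩ := Subtype.ext rfl
    simpa [φn, hx'] using h4
  haveI : Finite ↥(extender S R φn) := finite_of_le ((extender_le S R φn).trans inf_le_left)
  have hψE := hbig _ (Set.Finite.card_lt_card (Set.toFinite _) hext) hψ
  exact (autGroup_carrier E hR.1 _).mpr (restrict_mem_of_eq hψE hext.le fun x => (hψe x x.2 _).symm)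

/-- An automorphism of `S` in `F` is an automorphism of the system. -/
def selfIso (hαm : MulAut ↥S) (hα : hαm ∈ F.autGroup S) : FIso F F where
  e := hαm
  fwd := by
    intro P φ hφ
    have hP := le_S hφ
    have hA := (autGroup_carrier F le_rfl hαm).mp hα
    have hA' := (autGroup_carrier F le_rfl _).mp (inv_mem hα)
    let ι : ↥(img hαm P) →* Ω := (S.subtype.comp (hαm⁻¹ : MulAut ↥S).toMonoidHom).comp (Subgroup.inclusion (img_le hαm P))
    have hι : ι ∈ F.Hom (img hαm P) := restrict_mem hA' (img_le hαm P)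
    have hv : ∀ z, ι z ∈ P := fun ⟨z, hz⟩ => by
      obtain ⟨w, hw, rfl⟩ := (mem_img hαm).mp hz
      show ((hαm⁻¹ (hαm w) : ↥S) : Ω) ∈ P
      rw [MulAut.inv_apply_self]; exact hw
    have h1 := F.comp_mem hι hφ hv
    refine ⟨_, F.comp_mem h1 hA (fun z => apply_mem_S h1 z), fun x => ⟨hP x.2, apply_mem_S hφ x, (apply_mem_img hαm).mpr x.2, ?_⟩⟩
    show ((hαm ⟨φ ⟨_, _⟩, _⟩ : ↥S) : Ω) = _
    refine congrArg (fun v : ↥S => ((hαm v : ↥S) : Ω)) (Subtype.ext (congrArg φ (Subtype.ext ?_)))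
    show ((hαm⁻¹ (hαm ⟨x, hP x.2⟩) : ↥S) : Ω) = x
    rw [MulAut.inv_apply_self]
  bwd := by
    intro P φ hφ
    have hP := le_S hφ
    have hA := (autGroup_carrier F le_rfl hαm).mp hα
    have hA' := (autGroup_carrier F le_rfl _).mp (inv_mem hα)
    let ι : ↥(img hαm.symm P) →* Ω := (S.subtype.comp hαm.toMonoidHom).comp (Subgroup.inclusion (img_le hαm.symm P))
    have hι : ι ∈ F.Hom (img hαm.symm P) := restrict_mem hA (img_le hαm.symm P)
    have hv : ∀ z, ι z ∈ P := fun ⟨z, hz⟩ => by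
      obtain ⟨w, hw, rfl⟩ := (mem_img hαm.symm).mp hz
      show ((hαm (hαm.symm w) : ↥S) : Ω) ∈ P
      rw [MulEquiv.apply_symm_apply]; exact hw
    have h1 := F.comp_mem hι hφ hv
    refine ⟨_, F.comp_mem h1 hA' (fun z => apply_mem_S h1 z), fun x =>
      ⟨hP x.2, apply_mem_S hφ x, (apply_mem_img hαm.symm).mpr x.2, ?_⟩⟩
    show ((hαm.symm ⟨φ ⟨_, _⟩, _⟩ : ↥S) : Ω) = _
    refine congrArg (fun v : ↥S => ((hαm.symm v : ↥S) : Ω)) (Subtype.ext (congrArg φ (Subtype.ext ?_)))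
    show ((hαm (hαm.symm ⟨x, hP x.2⟩) : ↥S) : Ω) = x
    rw [MulEquiv.apply_symm_apply]

variable (F) in
/-- The maps all whose transports under `Aut_F(S)` lie in `E`. -/
def AllTwists (E : FusionSystem S) (P : Subgroup Ω) (φ : ↥P →* Ω) : Prop :=
  ∀ α : MulAut ↥S, α ∈ F.autGroup S → ∃ (P' : Subgroup Ω) (φ' : ↥P' →* Ω), φ' ∈ E.Hom P' ∧ Corr α φ φ'

variable (F) in
/-- The largest subsystem inside `E` invariant under `Aut_F(S)`. -/
def twistCore (E : FusionSystem S) : FusionSystem S :=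
  subsystem F (AllTwists F E)
    (fun {P g} hP hg α _ => ⟨img α P, conjHom _ ((α ⟨g, hg⟩ : ↥S) : Ω), E.conj_mem (img_le _ _) (α ⟨g, hg⟩).2,
      fun x => ⟨hP x.2, S.mul_mem (S.mul_mem hg (hP x.2)) (S.inv_mem hg), (apply_mem_img α).mpr x.2, by
        show ((α ⟨g, hg⟩ : ↥S) : Ω) * (α ⟨x, _⟩ : Ω) * ((α ⟨g, hg⟩ : ↥S) : Ω)⁻¹ = _
        rw [← Subgroup.coe_inv, ← Subgroup.coe_mul, ← Subgroup.coe_mul, ← map_inv, ← map_mul, ← map_mul]
        rfl⟩⟩)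
    (fun {P Q φ ψ} _ hφ _ hψ h α hα => by
      obtain ⟨P', φ', hφ', hc⟩ := hφ α hα
      obtain ⟨Q', ψ', hψ', hd⟩ := hψ α hα
      have hle : img α P ≤ P' := fun y hy => by
        obtain ⟨w, hw, rfl⟩ := (mem_img α).mp hy
        obtain ⟨h1, h2, h3, h4⟩ := hc ⟨w, hw⟩
        exact h3
      have hv : ∀ z, φ'.comp (Subgroup.inclusion hle) z ∈ Q' := by
        rintro ⟨z, hz⟩
        obtain ⟨w, hw, rfl⟩ := (mem_img α).mp hz
        obtain ⟨h1, h2, h3, h4⟩ := hc ⟨w, hw⟩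
        obtain ⟨k1, k2, k3, k4⟩ := hd ⟨_, h ⟨w, hw⟩⟩
        show φ' ⟨(α w : Ω), _⟩ ∈ Q'
        exact h4.symm ▸ k3
      refine ⟨_, _, E.comp_mem (restrict_mem hφ' hle) hψ' hv, fun x => ?_⟩
      obtain ⟨h1, h2, h3, h4⟩ := hc x
      obtain ⟨k1, k2, k3, k4⟩ := hd ⟨_, h x⟩
      exact ⟨h1, k2, (apply_mem_img α).mpr x.2, (congrArg ψ' (Subtype.ext h4)).trans k4⟩)
    (fun {P φ} _ hφ ψ _ hψe α hα => by
      obtain ⟨P', φ', hφ', hc⟩ := hφ α hα
      obtain ⟨ψ', hψ', hψ'e⟩ := E.inv_mem hφ'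
      refine ⟨_, ψ', hψ', ?_⟩
      rintro ⟨_, x, rfl⟩
      obtain ⟨h1, h2, h3, h4⟩ := hc x
      refine ⟨h2, (hψe x).symm ▸ h1, ⟨⟨_, h3⟩, h4⟩, ?_⟩
      refine ((congrArg ψ' (Subtype.ext h4.symm)).trans (hψ'e ⟨_, h3⟩)).trans ?_
      exact congrArg (fun v : ↥S => (α v : Ω)) (Subtype.ext (hψe x).symm))

theorem twistCore_le (E : FusionSystem S) : twistCore F E ≤ E := fun P φ hφ => by
  obtain ⟨P', φ', hφ', hc⟩ := hφ.2 1 (one_mem _)
  exact restrict_mem_of_eq hφ' (fun x hx => (hc ⟨x, hx⟩).2.2.1) fun x => by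
    obtain ⟨h1, h2, h3, h4⟩ := hc x
    exact h4.symm

/-- Transports of maps of the core stay in it. -/
theorem twistCore_twist (E : FusionSystem S) {P : Subgroup Ω} {φ : ↥P →* Ω} (hφ : φ ∈ (twistCore F E).Hom P)
    {α : MulAut ↥S} (hα : α ∈ F.autGroup S) :
    ∃ φ' ∈ (twistCore F E).Hom (img α P), Corr α φ φ' := by
  obtain ⟨φ', hφ', hc⟩ := (selfIso α hα).fwd P φ hφ.1
  refine ⟨φ', ⟨hφ', fun β hβ => ?_⟩, hc⟩
  obtain ⟨P'', φ'', hφ'', hd⟩ := hφ.2 (β * α) (mul_mem hβ hα)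
  refine ⟨P'', φ'', hφ'', fun y => ?_⟩
  obtain ⟨w, hw, hwy⟩ := (mem_img α).mp y.2
  obtain ⟨h1, h2, h3, h4⟩ := hc ⟨w, hw⟩
  obtain ⟨k1, k2, k3, k4⟩ := hd ⟨w, hw⟩
  have ey : (⟨(y : Ω), img_le α P y.2⟩ : ↥S) = α w := Subtype.ext hwy.symm
  refine ⟨img_le α P y.2, apply_mem_S hφ' y, by rw [ey]; exact k3, ?_⟩
  have e1 : φ' y = (α ⟨φ ⟨w, hw⟩, h2⟩ : Ω) := (congrArg φ' (Subtype.ext hwy.symm)).trans h4
  refine ((congrArg φ'' (Subtype.ext (congrArg (fun v : ↥S => (β v : Ω)) ey))).trans k4).trans ?_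
  exact congrArg (fun v : ↥S => (β v : Ω)) (Subtype.ext e1.symm)

variable {E : FusionSystem S}

/-- The `p`-elements of the automizers of centric subgroups lie in the invariant core. -/
theorem pElement_mem_twistCore
    (h : ∀ P : Subgroup Ω, F.IsCentric P →
      (Subgroup.closure {α : ↥(F.autGroup P) | ∃ k : ℕ, orderOf α = p ^ k}).map (F.autGroup P).subtype ≤ E.autGroup P)
    {P : Subgroup Ω} (hP : F.IsCentric P) {a : MulAut ↥P} (ha : a ∈ F.autGroup P) (hk : ∃ k : ℕ, orderOf a = p ^ k) :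
    a ∈ (twistCore F E).autGroup P := by
  refine (autGroup_carrier _ hP.1 a).mpr ⟨(autGroup_carrier F hP.1 a).mp ha, fun α hα => ?_⟩
  set a' := MulAut.congr (imgEquiv α hP.1) a
  have h1 : a' ∈ F.autGroup (img α P) := (selfIso (F := F) α hα).mem_autGroup hP.1 ha
  have h2 : a' ∈ E.autGroup (img α P) := h _ ((selfIso α hα).centric hP) ⟨⟨a', h1⟩, Subgroup.subset_closure (by
    obtain ⟨k, hk⟩ := hk
    exact ⟨k, ((orderOf_injective (F.autGroup (img α P)).subtype Subtype.val_injective ⟨a', h1⟩).symm.trans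
      (MulEquiv.orderOf_eq (MulAut.congr (imgEquiv α hP.1)) a)).trans hk⟩), rfl⟩
  refine ⟨_, _, (autGroup_carrier E (img_le _ _) _).mp h2, fun x =>
    ⟨hP.1 x.2, hP.1 (a x).2, (apply_mem_img α).mpr x.2, ?_⟩⟩
  show ((imgEquiv α hP.1 (a ((imgEquiv α hP.1).symm (imgEquiv α hP.1 x))) : ↥(img α P)) : Ω) = _
  rw [MulEquiv.symm_apply_apply]
  rfl

/-- Every map is an automorphism of `S` composed with a map of the invariant core. -/
theorem exists_decomp (hS : IsPGroup p ↥S) (hF : F.IsSaturated p)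
    (h : ∀ P : Subgroup Ω, F.IsCentric P →
      (Subgroup.closure {α : ↥(F.autGroup P) | ∃ k : ℕ, orderOf α = p ^ k}).map (F.autGroup P).subtype ≤ E.autGroup P)
    {P : Subgroup Ω} {φ : ↥P →* Ω} (hφ : φ ∈ F.Hom P) :
    ∃ α ∈ F.autGroup S, ∃ φ₀ ∈ (twistCore F E).Hom P, ∀ (x : P) (hx : φ₀ x ∈ S), φ x = ((α ⟨φ₀ x, hx⟩ : ↥S) : Ω) := by
  set E₀ := twistCore F E
  let M : ∀ P : Subgroup Ω, (↥P →* Ω) → Prop := fun P φ =>
    ∃ α ∈ F.autGroup S, ∃ φ₀ ∈ E₀.Hom P, ∀ (x : P) (hx : φ₀ x ∈ S), φ x = ((α ⟨φ₀ x, hx⟩ : ↥S) : Ω)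
  let E₁ := subsystem F M
    (fun {P g} hP hg => ⟨1, one_mem _, _, E₀.conj_mem hP hg, fun x hx => rfl⟩)
    (fun {P Q φ ψ} hφ' hφM hψ' hψM hh => by
      obtain ⟨α, hα, φ₀, hφ₀, e1⟩ := hφM
      obtain ⟨β, hβ, ψ₀, hψ₀, e2⟩ := hψM
      obtain ⟨ψ₁, hψ₁, hc⟩ := twistCore_twist E hψ₀ (inv_mem hα)
      have hv : ∀ x, φ₀ x ∈ img α⁻¹ Q := fun x => by
        refine (mem_img _).mpr ⟨α ⟨φ₀ x, apply_mem_S hφ₀ x⟩, (e1 x (apply_mem_S hφ₀ x)) ▸ hh x, ?_⟩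
        rw [MulAut.inv_apply_self]
      refine ⟨β * α, mul_mem hβ hα, _, E₀.comp_mem hφ₀ hψ₁ hv, fun x hx => ?_⟩
      show ψ ⟨φ x, hh x⟩ = _
      obtain ⟨h1, h2, h3, h4⟩ := hc ⟨φ x, hh x⟩
      rw [e2 _ h2, MulAut.mul_apply]
      refine congrArg (fun v : ↥S => ((β v : ↥S) : Ω)) ?_
      have e3 : (⟨φ x, h1⟩ : ↥S) = α ⟨φ₀ x, apply_mem_S hφ₀ x⟩ := Subtype.ext (e1 x _)
      have e4 : (⟨ψ₁.comp (φ₀.codRestrict _ hv) x, hx⟩ : ↥S) = α⁻¹ ⟨ψ₀ ⟨φ x, hh x⟩, h2⟩ := Subtype.ext (by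
        refine Eq.trans (congrArg ψ₁ (Subtype.ext ?_)) h4
        show φ₀ x = ((α⁻¹ (⟨φ x, h1⟩ : ↥S) : ↥S) : Ω)
        rw [e3, MulAut.inv_apply_self])
      rw [e4, MulAut.apply_inv_self])
    (fun {P φ} hφ' hφM ψ hψ' hψe => by
      obtain ⟨α, hα, φ₀, hφ₀, e1⟩ := hφM
      obtain ⟨η, hη, hηe⟩ := E₀.inv_mem hφ₀
      obtain ⟨η', hη', hc⟩ := twistCore_twist E hη hα
      have hle : φ.range ≤ img α φ₀.range := by
        rintro _ ⟨x, rfl⟩
        exact (mem_img α).mpr ⟨⟨φ₀ x, apply_mem_S hφ₀ x⟩, ⟨x, rfl⟩, (e1 x _).symm⟩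
      refine ⟨α⁻¹, inv_mem hα, _, restrict_mem hη' hle, ?_⟩
      rintro ⟨_, x, rfl⟩ hx
      rw [hψe]
      obtain ⟨h1, h2, h3, h4⟩ := hc ⟨φ₀ x, x, rfl⟩
      have e3 : (⟨η'.comp (Subgroup.inclusion hle) ⟨φ x, x, rfl⟩, hx⟩ : ↥S) = α ⟨η ⟨φ₀ x, x, rfl⟩, h2⟩ :=
        Subtype.ext ((congrArg η' (Subtype.ext (e1 x (apply_mem_S hφ₀ x)))).trans h4)
      rw [e3, MulAut.inv_apply_self]
      exact (hηe x).symm)
  have key : F ≤ E₁ := le_of_autGroup p hS hF E₁ fun R hR hbig => by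
    by_cases hcr : F.IsCentric R ∧ F.IsRadical p R
    swap
    · exact autGroup_le_of_not_centric_radical p hS hF E₁ hR hcr hbig
    rcases eq_or_lt_of_le hR.1 with rfl | hlt
    · intro a ha
      exact (autGroup_carrier E₁ le_rfl a).mpr ⟨(autGroup_carrier F le_rfl a).mp ha, a, ha, _,
        incl_mem E₀ le_rfl, fun x hx => rfl⟩
    haveI := finite_of_le hR.1
    haveI := finite_aut_of_le hR.1
    set A := F.autGroup R
    set B := Subgroup.closure {a : ↥A | ∃ k : ℕ, orderOf a = p ^ k}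
    have hBE : ∀ b ∈ B, (b : MulAut ↥R) ∈ E₁.autGroup R := by
      intro b hb
      have hb' : (b : MulAut ↥R) ∈ E₀.autGroup R := by
        have hle : B ≤ (E₀.autGroup R).subgroupOf A := (Subgroup.closure_le _).mpr fun a ha => by
          obtain ⟨k, hk⟩ := ha
          exact pElement_mem_twistCore h hcr.1 a.2 ⟨k, (Subgroup.orderOf_coe a).trans hk⟩
        exact hle hb
      have hb1 := (autGroup_carrier E₀ hR.1 _).mp hb'
      exact (autGroup_carrier E₁ hR.1 _).mpr ⟨hb1.1, 1, one_mem _, _, hb1, fun x hx => rfl⟩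
    haveI : B.Normal := by
      refine ⟨fun b hb g => ?_⟩
      have hle : B ≤ B.comap (MulAut.conj g).toMonoidHom := (Subgroup.closure_le _).mpr fun a ha =>
        Subgroup.subset_closure (by
          obtain ⟨k, hk⟩ := ha
          exact ⟨k, (MulEquiv.orderOf_eq (MulAut.conj g) a).trans hk⟩)
      exact hle hb
    obtain ⟨-, P0, hP0⟩ := fullyNormalized_automized p hS hF hR
    have hPB : (P0 : Subgroup ↥A) ≤ B := fun a ha => Subgroup.subset_closure (by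
      obtain ⟨k, hk⟩ := P0.2 ⟨a, ha⟩
      obtain ⟨i, -, hi⟩ := (Nat.dvd_prime_pow Fact.out).mp (orderOf_dvd_of_pow_eq_one (congrArg Subtype.val hk :))
      exact ⟨i, hi⟩)
    have hN : Subgroup.normalizer ((P0 : Subgroup ↥A) : Set ↥A) ≤ (E₁.autGroup R).subgroupOf A := fun n hn => by
      refine Subgroup.mem_subgroupOf.mpr (mem_of_normalizes hS hF E₁ hR hlt hbig n.2 fun c hc => ?_)
      have hcA := autInducedBy_le_autGroup F hR.1 hc
      have h1 : (⟨c, hcA⟩ : ↥A) ∈ (P0 : Subgroup ↥A) := by rw [hP0]; exact Subgroup.mem_subgroupOf.mpr hc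
      have h2 := (Subgroup.mem_normalizer_iff.mp hn _).mp h1
      rw [hP0] at h2
      exact Subgroup.mem_subgroupOf.mp h2
    intro a ha
    exact (sup_le hN (fun b hb => hBE b hb) : _ ⊔ B ≤ (E₁.autGroup R).subgroupOf A)
      ((Sylow.normalizer_sup_eq_top' P0 hPB).ge (Subgroup.mem_top ⟨a, ha⟩))
  exact (key P hφ).2

/-- All `p`-elements of all automizers lie in the invariant core. -/
theorem pElement_all (hS : IsPGroup p ↥S) (hF : F.IsSaturated p)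
    (h : ∀ P : Subgroup Ω, F.IsCentric P →
      (Subgroup.closure {α : ↥(F.autGroup P) | ∃ k : ℕ, orderOf α = p ^ k}).map (F.autGroup P).subtype ≤ E.autGroup P)
    {P : Subgroup Ω} (hP : P ≤ S) {a : MulAut ↥P} (ha : a ∈ F.autGroup P) {k : ℕ} (hk : orderOf a = p ^ k) :
    a ∈ (twistCore F E).autGroup P := by
  obtain ⟨R, hPR, hR⟩ := exists_fullyNormalized F hP
  obtain ⟨φ, hφ, hφR⟩ := hPR
  set e := isoOfMem hφ hφR
  have hee : R.subtype.comp e.toMonoidHom = φ := isoOfMem_hom hφ hφR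
  haveI := finite_of_le hR.1
  haveI := finite_aut_of_le hR.1
  set A := F.autGroup R
  set b : MulAut ↥R := (e.symm.trans a).trans e
  have hb : b ∈ A := (autGroup_carrier F hR.1 _).mpr
    (trans_mem (e.symm.trans a) e (trans_mem e.symm a (symm_mem e (by rwa [hee])) ((autGroup_carrier F hP a).mp ha))
      (by rwa [hee]))
  have hbo : orderOf b = p ^ k := by
    rw [show b = MulAut.congr e a from rfl, MulEquiv.orderOf_eq, hk]
  obtain ⟨-, P0, hP0⟩ := fullyNormalized_automized p hS hF hR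
  have hbp : IsPGroup p ↥(Subgroup.zpowers (⟨b, hb⟩ : ↥A)) :=
    IsPGroup.of_card (by rw [Nat.card_zpowers, Subgroup.orderOf_mk, hbo])
  obtain ⟨P1, hP1⟩ := hbp.exists_le_sylow
  obtain ⟨g, hg⟩ := MulAction.exists_smul_eq ↥A P0 P1
  have hgb : g⁻¹ * ⟨b, hb⟩ * g ∈ (P0 : Subgroup ↥A) := by
    have h1 : (⟨b, hb⟩ : ↥A) ∈ g • P0 := hg ▸ hP1 (Subgroup.mem_zpowers _)
    rwa [← SetLike.mem_coe, Sylow.coe_smul, Set.mem_smul_set_iff_inv_smul_mem, MulAut.smul_def, ← map_inv,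
      MulAut.conj_apply, inv_inv] at h1
  rw [hP0] at hgb
  obtain ⟨s, hs, hse⟩ := (mem_autInducedBy _).mp (Subgroup.mem_subgroupOf.mp hgb)
  -- `χ = g⁻¹ ∘ e : P → R`
  set χ : ↥P ≃* ↥R := e.trans ((g⁻¹ : ↥A) : MulAut ↥R)
  have hχ : R.subtype.comp χ.toMonoidHom ∈ F.Hom P :=
    trans_mem e _ (by rwa [hee]) ((autGroup_carrier F hR.1 _).mp (g⁻¹).2)
  have hχa : ∀ x : ↥P, ((χ (a x) : ↥R) : Ω) = s * (χ x : Ω) * s⁻¹ := by
    intro x
    rw [← hse]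
    refine congrArg Subtype.val ?_
    show ((g⁻¹ : ↥A) : MulAut ↥R) (e (a x)) = ((g⁻¹ : ↥A) : MulAut ↥R) (b ((g : MulAut ↥R) (((g⁻¹ : ↥A) : MulAut ↥R) (e x))))
    rw [Subgroup.coe_inv, MulAut.apply_inv_self]
    simp [b]
  obtain ⟨α, hα, χ₀, hχ₀, hd⟩ := exists_decomp hS hF h hχ
  set t : Ω := ((α⁻¹ ⟨s, hs⟩ : ↥S) : Ω)
  obtain ⟨η, hη, hηe⟩ := (twistCore F E).inv_mem hχ₀
  have hm : ∀ x : ↥P, t * χ₀ x * t⁻¹ = χ₀ (a x) := by
    intro x
    have hx := apply_mem_S hχ₀ x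
    have hax := apply_mem_S hχ₀ (a x)
    have h2 : α ⟨χ₀ (a x), hax⟩ = ⟨s, hs⟩ * α ⟨χ₀ x, hx⟩ * ⟨s, hs⟩⁻¹ := Subtype.ext (by
      rw [← hd (a x) hax, Subgroup.coe_mul, Subgroup.coe_mul, Subgroup.coe_inv, ← hd x hx]
      exact hχa x)
    have h3 := congrArg (α⁻¹ : MulAut ↥S) h2
    rw [MulAut.inv_apply_self, map_mul, map_mul, map_inv, MulAut.inv_apply_self] at h3
    exact (congrArg Subtype.val h3).symm
  have hc := (twistCore F E).conj_mem (range_le_S hχ₀) (α⁻¹ ⟨s, hs⟩).2 (g := t)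
  have h1 := comp_mem_of_eq hχ₀ hc (fun x => ⟨x, rfl⟩)
    (χ := χ₀.comp a.toMonoidHom) fun x => (hm x).symm
  refine (autGroup_carrier _ hP a).mpr ?_
  exact comp_mem_of_eq h1 hη (fun x => ⟨a x, rfl⟩) fun x => (hηe (a x)).symm

end CfsgLib.Fusion
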