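import Cfsg.Agent.Lib.Fusion.PrimeResidualNormal
import Cfsg.Agent.Lib.Fusion.PrimeIndex
import Cfsg.Agent.Lib.Core
import Cfsg.Agent.S5251

/-! The normal subsystem cut out by a character of the automizer of a strongly closed subgroup. (helper6) -/

set_option autoImplicit false
set_option linter.unusedSectionVars false
set_option linter.style.haveILetI false

namespace CfsgLib.Fusion.CharKernel

open Cfsg Cfsg.FusionSystem CfsgLib.Fusion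

universe u v

variable {Ω : Type u} [Group Ω] {S : Subgroup Ω} [Finite ↥S] {F : FusionSystem S} {p : ℕ} [Fact p.Prime]
  {T : Subgroup Ω} [Finite ↥T] {E : FusionSystem T}

theorem twistE (hI : E.IsInvariantIn F) {P : Subgroup Ω} {ψ : ↥P →* Ω} (hψ : ψ ∈ E.Hom P)
    {a : MulAut ↥T} (ha : a ∈ F.autGroup T) :
    ∃ ψ' ∈ E.Hom (img a P), ∀ (x : ↥P) (hx : (x : Ω) ∈ T) (hψx : ψ x ∈ T)
      (hax : ((a ⟨x, hx⟩ : ↥T) : Ω) ∈ img a P),
        ψ' ⟨_, hax⟩ = ((a ⟨ψ x, hψx⟩ : ↥T) : Ω) := by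
  obtain ⟨χ, hχ, hχe⟩ := hI.2.2.1 P (le_S hψ) ψ hψ a ha
  exact ⟨χ, hχ, fun x _ h2 h3 => hχe x h2 h3⟩

/-- The automorphism of `T` agrees on `Q` with a map of `E`. -/
def InE (E : FusionSystem T) (Q : Subgroup Ω) (a : MulAut ↥T) : Prop :=
  ∃ φ ∈ E.Hom Q, ∀ (x : ↥Q) (hx : (x : Ω) ∈ T), ((a ⟨x, hx⟩ : ↥T) : Ω) = φ x

theorem inE_step (hT : IsPGroup p ↥T) (hE : E.IsSaturated p) (hI : E.IsInvariantIn F) {Q : Subgroup Ω}
    (hQ : E.IsCentric Q) {a : MulAut ↥T} (ha : a ∈ F.autGroup T) (h : InE E Q a) :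
    ∃ j : ℕ, InE E (normalizerIn T Q) (a ^ p ^ j) := by
  classical
  obtain ⟨φ, hφ, hφe⟩ := h
  have hQc : E.IsCentric φ.range := centric_of_centric_conj ⟨φ, hφ, rfl⟩ hQ
  have hrange : ∀ x : Ω, x ∈ φ.range ↔ ∃ (w : ↥T), (w : Ω) ∈ Q ∧ ((a w : ↥T) : Ω) = x := fun x => by
    constructor
    · rintro ⟨q, rfl⟩
      exact ⟨⟨q, hQ.1 q.2⟩, q.2, hφe q (hQ.1 q.2)⟩
    · rintro ⟨w, hw, rfl⟩
      exact ⟨⟨w, hw⟩, (hφe ⟨w, hw⟩ w.2).symm⟩
  have hrec : E.IsReceptive φ.range := by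
    refine fullyCentralized_receptive p hT hE ⟨hQc.1, fun R hR => ?_⟩
    have hRc : E.IsCentric R := centric_of_centric_conj hR hQc
    obtain ⟨χ, hχ, rfl⟩ := hR
    have hle : ∀ c ∈ centralizerIn T χ.range, ∃ q : ↥φ.range, (q : Ω) ∈ centralizerIn T φ.range ∧ χ q = c := by
      intro c hc
      obtain ⟨q, hq⟩ := hRc.2 _ (IsConj.refl E hRc.1) hc
      refine ⟨q, ⟨hQc.1 q.2, Subgroup.mem_centralizer_iff.mpr fun y hy => ?_⟩, hq⟩
      have h1 := Subgroup.mem_centralizer_iff.mp hc.2 (χ ⟨y, hy⟩) ⟨_, rfl⟩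
      rw [← hq, ← map_mul, ← map_mul] at h1
      exact congrArg Subtype.val (E.injective_of_mem hχ h1)
    haveI : Finite ↥(centralizerIn T χ.range) := finite_of_le inf_le_left
    haveI : Finite ↥(centralizerIn T φ.range) := finite_of_le inf_le_left
    refine Nat.card_le_card_of_injective
      (fun c : ↥(centralizerIn T χ.range) => (⟨_, (Classical.choose_spec (hle c c.2)).1⟩ : ↥(centralizerIn T φ.range)))
      fun c c' hcc => ?_
    have h1 : Classical.choose (hle c c.2) = Classical.choose (hle c' c'.2) :=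
      Subtype.ext (congrArg (Subtype.val : ↥(centralizerIn T φ.range) → Ω) hcc :)
    exact Subtype.ext (((Classical.choose_spec (hle c c.2)).2.symm.trans (congrArg χ h1)).trans
      (Classical.choose_spec (hle c' c'.2)).2)
  set N := normalizerIn T Q
  have hQN : Q ≤ N := le_inf hQ.1 Subgroup.le_normalizer
  have hNext : N ≤ extender T Q φ := by
    intro g hg
    refine mem_extender hg (a ⟨g, hg.1⟩).2 fun x hx => ?_
    rw [← hφe ⟨_, hx⟩ (hQ.1 hx), ← hφe x (hQ.1 x.2)]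
    rw [show (⟨g * x * g⁻¹, hQ.1 hx⟩ : ↥T) = ⟨g, hg.1⟩ * ⟨x, hQ.1 x.2⟩ * ⟨g, hg.1⟩⁻¹ from rfl, map_mul, map_mul,
      map_inv]
    rfl
  obtain ⟨ψ, hψ, hψe⟩ := hrec.2 Q φ hφ rfl
  set ψN : ↥N →* Ω := ψ.comp (Subgroup.inclusion hNext)
  have hψN : ψN ∈ E.Hom N := restrict_mem hψ hNext
  have hψQ : ∀ (x : ↥Q), ψN ⟨x, hQN x.2⟩ = ((a ⟨x, hQ.1 x.2⟩ : ↥T) : Ω) := fun x =>
    (hψe x x.2 (hNext (hQN x.2))).trans (hφe x (hQ.1 x.2)).symm
  -- the images agree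
  have hmemN : ∀ g : ↥N, ∃ m : ↥N, ((a ⟨m, m.2.1⟩ : ↥T) : Ω) = ψN g := by
    intro g
    obtain ⟨w, hw⟩ := a.surjective ⟨ψN g, apply_mem_S hψN g⟩
    have hwe : ((a w : ↥T) : Ω) = ψN g := congrArg Subtype.val hw
    have key : ∀ q : ↥Q, ∃ q' : ↥Q, (w : Ω) * q * (w : Ω)⁻¹ = q' := by
      intro q
      have hgq : (g : Ω) * q * (g : Ω)⁻¹ ∈ Q := (Subgroup.mem_normalizer_iff.mp g.2.2 _).mp q.2
      refine ⟨⟨_, hgq⟩, congrArg Subtype.val (show (w * ⟨q, hQ.1 q.2⟩ * w⁻¹ : ↥T) = ⟨_, hQ.1 hgq⟩ from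
        a.injective (Subtype.ext ?_))⟩
      rw [map_mul, map_mul, map_inv, ← hψQ ⟨_, hgq⟩, Subgroup.coe_mul, Subgroup.coe_mul, InvMemClass.coe_inv,
        hwe, ← hψQ q, ← map_inv, ← map_mul, ← map_mul]
      rfl
    haveI := finite_of_le (S := T) hQ.1
    have hwN : (w : Ω) ∈ N := by
      refine ⟨w.2, Subgroup.mem_normalizer_iff.mpr fun y => ⟨fun hy => ?_, fun hy => ?_⟩⟩
      · obtain ⟨q', hq'⟩ := key ⟨y, hy⟩
        exact hq' ▸ q'.2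
      · let f : ↥Q → ↥Q := fun q => ⟨(w : Ω) * q * (w : Ω)⁻¹, by obtain ⟨q', hq'⟩ := key q; exact hq' ▸ q'.2⟩
        have hf : Function.Injective f := fun q q' hqq => Subtype.ext
          (mul_left_cancel (mul_right_cancel (congrArg Subtype.val hqq : _ = _)))
        obtain ⟨q, hq⟩ := Finite.injective_iff_surjective.mp hf ⟨_, hy⟩
        rw [show y = q from (mul_left_cancel (mul_right_cancel (congrArg Subtype.val hq : _ = _))).symm]
        exact q.2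
    exact ⟨⟨w, hwN⟩, hwe⟩
  choose g₀ hg₀ using hmemN
  haveI : Finite ↥N := finite_of_le inf_le_left
  have hg₀inj : Function.Injective g₀ := fun x y e => E.injective_of_mem hψN (by rw [← hg₀ x, ← hg₀ y, e])
  -- `γ = ψ⁻¹ a` is a `p`-element
  let γ₀ : ↥N →* ↥N :=
    { toFun := g₀
      map_one' := Subtype.ext (congrArg (Subtype.val : ↥T → Ω) (show (⟨_, (g₀ 1).2.1⟩ : ↥T) = 1 from a.injective (Subtype.ext
        ((hg₀ 1).trans (by rw [map_one, map_one]; rfl)))))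
      map_mul' := fun x y => Subtype.ext (congrArg (Subtype.val : ↥T → Ω) (show (⟨_, (g₀ (x * y)).2.1⟩ : ↥T) =
          ⟨_, (g₀ x).2.1⟩ * ⟨_, (g₀ y).2.1⟩ from a.injective (Subtype.ext
        ((hg₀ (x * y)).trans (by rw [map_mul, map_mul, Subgroup.coe_mul, hg₀, hg₀]))))) }
  let γ : MulAut ↥N := (MulEquiv.ofBijective γ₀ ⟨hg₀inj, Finite.injective_iff_surjective.mp hg₀inj⟩)⁻¹
  have hγe : ∀ g : ↥N, ((a ⟨g, g.2.1⟩ : ↥T) : Ω) = ψN (γ g) := by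
    intro g
    have h1 := hg₀ (γ g)
    rw [← h1]
    refine congrArg (fun u : ↥T => ((a u : ↥T) : Ω)) (Subtype.ext (congrArg (Subtype.val : ↥N → Ω) (?_ : g = g₀ (γ g))))
    exact ((MulEquiv.ofBijective γ₀ ⟨hg₀inj, Finite.injective_iff_surjective.mp hg₀inj⟩).apply_symm_apply g).symm
  have hγQ : ∀ g : ↥N, (g : Ω) ∈ Q → γ g = g := fun g hg => E.injective_of_mem hψN (by
    rw [← hγe g]; exact (hψQ ⟨g, hg⟩).symm)
  have hγd : ∀ g : ↥N, ((g⁻¹ * γ g : ↥N) : Ω) ∈ Q := by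
    intro g
    refine hQ.2 Q (IsConj.refl E hQ.1) ⟨(g⁻¹ * γ g : ↥N).2.1, Subgroup.mem_centralizer_iff.mpr fun q hq => ?_⟩
    have hgq : (g : Ω) * q * (g : Ω)⁻¹ ∈ Q := (Subgroup.mem_normalizer_iff.mp g.2.2 _).mp hq
    have h1 : γ (g * ⟨q, hQN hq⟩ * g⁻¹) = g * ⟨q, hQN hq⟩ * g⁻¹ := hγQ _ hgq
    rw [map_mul, map_mul, map_inv, hγQ ⟨q, hQN hq⟩ hq] at h1
    have h2 : (⟨q, hQN hq⟩ : ↥N) * (g⁻¹ * γ g) = g⁻¹ * γ g * ⟨q, hQN hq⟩ := by
      calc (⟨q, hQN hq⟩ : ↥N) * (g⁻¹ * γ g) = g⁻¹ * (g * ⟨q, hQN hq⟩ * g⁻¹) * γ g := by group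
        _ = g⁻¹ * γ g * ⟨q, hQN hq⟩ := by rw [← h1]; group
    exact congrArg Subtype.val h2
  obtain ⟨j, hj⟩ := IsPGroup.iff_card.mp hT
  have hγp : γ ^ p ^ j = 1 := by
    refine MulEquiv.ext fun g => ?_
    have hd := hγd g
    rw [iter_fix γ (show γ g = g * (g⁻¹ * γ g) by rw [mul_inv_cancel_left]) (hγQ _ hd)]
    rw [show (g⁻¹ * γ g) ^ p ^ j = 1 from Subtype.ext (by
      rw [SubmonoidClass.coe_pow]
      exact congrArg Subtype.val (hj ▸ pow_card_eq_one' : (⟨_, (g⁻¹ * γ g : ↥N).2.1⟩ : ↥T) ^ p ^ j = 1)), mul_one]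
    rfl
  refine ⟨j, ?_⟩
  -- powers of `a` are maps of `E` after powers of `γ`
  suffices key : ∀ n : ℕ, ∃ ψn ∈ E.Hom N, ∀ g : ↥N, (((a ^ n) ⟨g, g.2.1⟩ : ↥T) : Ω) = ψn ((γ ^ n) g) by
    obtain ⟨ψn, hψn, hψne⟩ := key (p ^ j)
    refine ⟨ψn, hψn, fun x hx => ?_⟩
    have h1 := hψne x
    rwa [hγp] at h1
  intro n
  induction n with
  | zero => exact ⟨N.subtype, incl_mem E inf_le_left, fun g => by simp⟩
  | succ n ih =>
    obtain ⟨ψn, hψn, hψne⟩ := ih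
    obtain ⟨ψ', hψ', hψ'e⟩ := twistE hI hψn ha
    have hv : ∀ g, ψN g ∈ img a N := fun g => by
      rw [← hg₀ g]; exact (apply_mem_img a).mpr (g₀ g).2
    refine ⟨_, E.comp_mem hψN hψ' hv, fun g => ?_⟩
    have e : γ ((γ ^ n) g) = (γ ^ (n + 1)) g := by rw [pow_succ', MulAut.mul_apply]
    rw [pow_succ', MulAut.mul_apply]
    show _ = ψ' ⟨ψN ((γ ^ (n + 1)) g), _⟩
    have h2 := hψ'e ((γ ^ n) g) ((γ ^ n) g).2.1 (apply_mem_S hψn _) ((apply_mem_img a).mpr ((γ ^ n) g).2)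
    exact (congrArg (fun u : ↥T => ((a u : ↥T) : Ω)) (Subtype.ext (hψne g))).trans
      (h2.symm.trans (congrArg ψ' (Subtype.ext ((hγe _).trans (congrArg ψN e)))))

theorem inE_top (hT : IsPGroup p ↥T) (hE : E.IsSaturated p) (hI : E.IsInvariantIn F) {Q : Subgroup Ω}
    (hQ : E.IsCentric Q) {a : MulAut ↥T} (ha : a ∈ F.autGroup T) (h : InE E Q a) :
    ∃ j : ℕ, a ^ p ^ j ∈ E.autGroup T := by
  suffices key : ∀ (k : ℕ) (Q : Subgroup Ω) (a : MulAut ↥T), E.IsCentric Q → a ∈ F.autGroup T → InE E Q a →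
      Nat.card ↥T - Nat.card ↥Q = k → ∃ j : ℕ, a ^ p ^ j ∈ E.autGroup T from key _ Q a hQ ha h rfl
  intro k
  induction k using Nat.strong_induction_on with
  | _ k ih =>
    intro Q a hQ ha h hk
    rcases eq_or_lt_of_le hQ.1 with rfl | hlt
    · obtain ⟨φ, hφ, hφe⟩ := h
      exact ⟨0, by
        rw [pow_zero, pow_one]
        exact (autGroup_carrier E le_rfl a).mpr (restrict_mem_of_eq hφ le_rfl fun x => hφe x x.2)⟩
    obtain ⟨j, hj⟩ := inE_step hT hE hI hQ ha h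
    haveI : Finite ↥(normalizerIn T Q) := finite_of_le inf_le_left
    have hlt' := lt_normalizerIn p hT hlt
    have h1 : Nat.card ↥Q < Nat.card ↥(normalizerIn T Q) := Set.Finite.card_lt_card (Set.toFinite _) hlt'
    have h2 : Nat.card ↥(normalizerIn T Q) ≤ Nat.card ↥T := Subgroup.card_le_of_le inf_le_left
    obtain ⟨i, hi⟩ := ih _ (by omega) _ _ (centric_mono hQ hlt'.le inf_le_left) (pow_mem ha _) hj rfl
    exact ⟨j + i, by rwa [pow_add, pow_mul]⟩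

section Char

variable {Δ : Type v} [Group Δ] (χ : ↥(F.autGroup T) →* Δ)

/-- On `P ⊓ T` the map is `a` followed by a map of `E`. -/
def DecBy (E : FusionSystem T) (a : ↥(F.autGroup T)) {P : Subgroup Ω} (φ : ↥P →* Ω) : Prop :=
  ∃ φ₀ ∈ E.Hom (P ⊓ T), ∀ (x : ↥(P ⊓ T)) (hx : φ₀ x ∈ T),
    φ ⟨x, x.2.1⟩ = (((a : MulAut ↥T) ⟨φ₀ x, hx⟩ : ↥T) : Ω)

/-- The map has a decomposition with automorphism in the kernel. -/
def Good (E : FusionSystem T) {P : Subgroup Ω} (φ : ↥P →* Ω) : Prop :=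
  ∃ a : ↥(F.autGroup T), χ a = 1 ∧ DecBy E a φ

theorem exists_dec (hI : E.IsInvariantIn F) {P : Subgroup Ω} {φ : ↥P →* Ω} (hφ : φ ∈ F.Hom P) :
    ∃ a, DecBy (F := F) E a φ := by
  obtain ⟨a, ha, φ₀, hφ₀, he⟩ := hI.2.2.2 (P ⊓ T) inf_le_right _ (restrict_mem hφ inf_le_left)
  exact ⟨⟨a, ha⟩, φ₀, hφ₀, fun x hx => he x hx⟩

theorem DecBy.comp (hI : E.IsInvariantIn F) {P R : Subgroup Ω} {φ : ↥P →* Ω} {ψ : ↥R →* Ω}
    {a b : ↥(F.autGroup T)} (ha : DecBy E a φ) (hb : DecBy E b ψ) (h : ∀ x, φ x ∈ R) :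
    DecBy E (b * a) (ψ.comp (φ.codRestrict R h)) := by
  obtain ⟨φ₀, hφ₀, hφe⟩ := ha
  obtain ⟨ψ₀, hψ₀, hψe⟩ := hb
  obtain ⟨ψ', hψ', hψ'e⟩ := twistE hI hψ₀ (a⁻¹).2
  have hv : ∀ x, φ₀ x ∈ img ((a⁻¹ : ↥(F.autGroup T)) : MulAut ↥T) (R ⊓ T) := by
    intro x
    have hx := apply_mem_S hφ₀ x
    refine (mem_img _).mpr ⟨(a : MulAut ↥T) ⟨φ₀ x, hx⟩, ?_, ?_⟩
    · exact ⟨hφe x hx ▸ h _, Subtype.coe_prop _⟩
    · rw [InvMemClass.coe_inv, MulAut.inv_apply_self]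
  refine ⟨_, E.comp_mem hφ₀ hψ' hv, fun x hx => ?_⟩
  have hx0 := apply_mem_S hφ₀ x
  set w : ↥(R ⊓ T) := ⟨(((a : MulAut ↥T) ⟨φ₀ x, hx0⟩ : ↥T) : Ω), hφe x hx0 ▸ h _, Subtype.coe_prop _⟩
  have hw0 := apply_mem_S hψ₀ w
  have e1 : ((((a⁻¹ : ↥(F.autGroup T)) : MulAut ↥T) ⟨(w : Ω), w.2.2⟩ : ↥T) : Ω) = φ₀ x := by
    show ((((a⁻¹ : ↥(F.autGroup T)) : MulAut ↥T) ((a : MulAut ↥T) ⟨φ₀ x, hx0⟩) : ↥T) : Ω) = _
    rw [InvMemClass.coe_inv, MulAut.inv_apply_self]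
  have h2 := hψ'e w w.2.2 hw0 (e1.symm ▸ hv x)
  have e2 : ψ' ⟨φ₀ x, hv x⟩ = ((((a⁻¹ : ↥(F.autGroup T)) : MulAut ↥T) ⟨ψ₀ w, hw0⟩ : ↥T) : Ω) :=
    Eq.trans (congrArg ψ' (Subtype.ext e1.symm)) h2
  show ψ ⟨φ ⟨x, _⟩, _⟩ = _
  rw [Subgroup.coe_mul, MulAut.mul_apply]
  refine (congrArg ψ (Subtype.ext (hφe x hx0))).trans ((hψe w hw0).trans ?_)
  refine congrArg (fun u : ↥T => (((b : MulAut ↥T) u : ↥T) : Ω)) ?_
  have e3 : (⟨ψ' ⟨φ₀ x, hv x⟩, hx⟩ : ↥T) = ((a⁻¹ : ↥(F.autGroup T)) : MulAut ↥T) ⟨ψ₀ w, hw0⟩ := Subtype.ext e2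
  show _ = (a : MulAut ↥T) ⟨ψ' ⟨φ₀ x, hv x⟩, hx⟩
  rw [e3, InvMemClass.coe_inv, MulAut.apply_inv_self]

theorem DecBy.restrict {P Q : Subgroup Ω} {φ : ↥P →* Ω} {a : ↥(F.autGroup T)} (ha : DecBy E a φ) (h : Q ≤ P) :
    DecBy E a (φ.comp (Subgroup.inclusion h)) := by
  obtain ⟨φ₀, hφ₀, hφe⟩ := ha
  have h' : Q ⊓ T ≤ P ⊓ T := inf_le_inf_right T h
  exact ⟨_, restrict_mem hφ₀ h', fun x hx => hφe (Subgroup.inclusion h' x) hx⟩

theorem dec_sub (hTS : T ≤ S) {P : Subgroup Ω} (hP : P ≤ S) : DecBy (F := F) E 1 P.subtype :=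
  ⟨_, incl_mem E inf_le_right, fun x hx => rfl⟩

variable [Finite Δ] (hΔ : (Nat.card Δ).Coprime p) (hker : (E.autGroup T).subgroupOf (F.autGroup T) ≤ χ.ker)
include hΔ

theorem eq_one_of_pow {d : Δ} {j : ℕ} (h : d ^ p ^ j = 1) : d = 1 :=
  orderOf_eq_one_iff.mp (Nat.eq_one_of_dvd_coprimes (hΔ.pow_right j) (orderOf_dvd_natCard d)
    (orderOf_dvd_of_pow_eq_one h))

include hker

theorem dec_unique (hT : IsPGroup p ↥T) (hE : E.IsSaturated p) (hI : E.IsInvariantIn F) {P : Subgroup Ω}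
    (hP : E.IsCentric (P ⊓ T)) {φ : ↥P →* Ω} {a b : ↥(F.autGroup T)} (ha : DecBy E a φ) (hb : DecBy E b φ) :
    χ a = χ b := by
  obtain ⟨φ₀, hφ₀, hφe⟩ := ha
  obtain ⟨φ₁, hφ₁, hφe'⟩ := hb
  obtain ⟨η, hη, hηe⟩ := E.inv_mem hφ₀
  have hc : E.IsCentric φ₀.range := centric_of_centric_conj ⟨φ₀, hφ₀, rfl⟩ hP
  have hv : ∀ y, η y ∈ P ⊓ T := by
    rintro ⟨_, x, rfl⟩
    rw [hηe]; exact x.2
  have hin : InE E φ₀.range ((b⁻¹ * a : ↥(F.autGroup T)) : MulAut ↥T) := by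
    refine ⟨_, E.comp_mem hη hφ₁ hv, ?_⟩
    rintro ⟨_, x, rfl⟩ hx
    show _ = φ₁ ⟨η _, hv _⟩
    rw [show (⟨η ⟨φ₀ x, ⟨x, rfl⟩⟩, hv _⟩ : ↥(P ⊓ T)) = x from Subtype.ext (hηe x)]
    have h1 : (a : MulAut ↥T) ⟨φ₀ x, hx⟩ = (b : MulAut ↥T) ⟨φ₁ x, apply_mem_S hφ₁ x⟩ :=
      Subtype.ext ((hφe x hx).symm.trans (hφe' x _))
    rw [Subgroup.coe_mul, MulAut.mul_apply, h1, InvMemClass.coe_inv, MulAut.inv_apply_self]
  obtain ⟨j, hj⟩ := inE_top hT hE hI hc (b⁻¹ * a).2 hin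
  have h1 : χ ((b⁻¹ * a) ^ p ^ j) = 1 := hker (Subgroup.mem_subgroupOf.mpr (by rw [SubmonoidClass.coe_pow]; exact hj))
  rw [map_pow] at h1
  have h2 := eq_one_of_pow hΔ h1
  rw [map_mul, map_inv, inv_mul_eq_one] at h2
  exact h2.symm

theorem dec_sub' (hTS : T ≤ S) (hT : IsPGroup p ↥T) (hE : E.IsSaturated p) (hI : E.IsInvariantIn F) {P : Subgroup Ω}
    (hPS : P ≤ S) (hP : E.IsCentric (P ⊓ T)) {a : ↥(F.autGroup T)} (ha : DecBy E a P.subtype) : χ a = 1 :=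
  (dec_unique χ hΔ hker hT hE hI hP ha (dec_sub hTS hPS)).trans (map_one χ)

end Char

/-- The condition that a system contains all good maps on the domains meeting `T` in a centric subgroup. -/
def ContainsGood {Δ : Type v} [Group Δ] (χ : ↥(F.autGroup T) →* Δ) (E : FusionSystem T) (D : FusionSystem S) : Prop :=
  ∀ (P : Subgroup Ω) (φ : ↥P →* Ω), φ ∈ F.Hom P → E.IsCentric (P ⊓ T) → Good χ E φ → φ ∈ D.Hom P

/-- The least system containing the good maps. -/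
def kerSystem {Δ : Type v} [Group Δ] (χ : ↥(F.autGroup T) →* Δ) (E : FusionSystem T) : FusionSystem S where
  Hom P := {φ | ∀ D : FusionSystem S, ContainsGood χ E D → φ ∈ D.Hom P}
  le_of_mem h := F.le_of_mem (h F fun _ _ hφ _ _ => hφ)
  injective_of_mem h := F.injective_of_mem (h F fun _ _ hφ _ _ => hφ)
  conj_mem hP hg D _ := D.conj_mem hP hg
  comp_mem hφ hψ h D hD := D.comp_mem (hφ D hD) (hψ D hD) h
  inv_mem hφ := by
    obtain ⟨ψ, -, hψe⟩ := F.inv_mem (hφ F fun _ _ hf _ _ => hf)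
    exact ⟨ψ, fun D hD => inverse_unique (hφ D hD) hψe, hψe⟩

section Main

variable {Δ : Type v} [Group Δ] [Finite Δ] (χ : ↥(F.autGroup T) →* Δ) (hΔ : (Nat.card Δ).Coprime p)
  (hker : (E.autGroup T).subgroupOf (F.autGroup T) ≤ χ.ker) (hS : IsPGroup p ↥S) (hN : E.IsNormalIn F p)

theorem kerSystem_le : kerSystem χ E ≤ F := fun _ _ h => h F fun _ _ hφ _ _ => hφ

theorem containsGood : ContainsGood χ E (kerSystem χ E) := fun P φ hφ hc hg _ hD => hD P φ hφ hc hg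

include hΔ hker hS hN

theorem centric_image {P : Subgroup Ω} {φ : ↥P →* Ω} (hφ : φ ∈ F.Hom P) (hc : E.IsCentric (P ⊓ T)) :
    E.IsCentric (φ.range ⊓ T) := by
  have hI := hN.1.2.2
  have hr := restrict_mem hφ (inf_le_left : P ⊓ T ≤ P)
  have h := centric_conj_invariant hI hc hr
  rwa [show φ.range ⊓ T = (φ.comp (Subgroup.inclusion (inf_le_left : P ⊓ T ≤ P))).range from ?_]
  ext y
  constructor
  · rintro ⟨⟨x, rfl⟩, hy⟩
    obtain ⟨η, hη, hηe⟩ := F.inv_mem hφ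
    have hx : (x : Ω) ∈ T := by
      rw [← hηe x]
      exact hI.2.1.2 _ inf_le_right _ (restrict_mem hη (inf_le_left : φ.range ⊓ T ≤ φ.range))
        ⟨φ x, ⟨x, rfl⟩, hy⟩
    exact ⟨⟨x, x.2, hx⟩, rfl⟩
  · rintro ⟨x, rfl⟩
    exact ⟨⟨_, rfl⟩, hI.2.1.2 _ inf_le_right _ hr x⟩

theorem good_conj {P : Subgroup Ω} {g : Ω} (hP : P ≤ S) (hg : g ∈ S) : Good χ E (conjHom P g) := by
  haveI : Finite (MulAut ↥T) := finite_aut_of_le (S := T) le_rfl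
  have hT := hN.1.2.2.2.1
  have hgN : g ∈ Subgroup.normalizer (T : Set Ω) := StronglyClosed.normal hT hg
  have hm : T.normalizerMonoidHom ⟨g, hgN⟩ ∈ F.autGroup T :=
    autInducedBy_le_autGroup F hT.1 ((mem_autInducedBy _).mpr ⟨g, hg, fun _ => rfl⟩)
  refine ⟨⟨_, hm⟩, ?_, _, incl_mem E inf_le_right, fun x hx => rfl⟩
  obtain ⟨k, hk⟩ := hS ⟨g, hg⟩
  refine eq_one_of_pow hΔ (j := k) ?_
  rw [← map_pow]
  convert map_one χ
  refine Subtype.ext ?_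
  rw [SubmonoidClass.coe_pow]
  show (T.normalizerMonoidHom ⟨g, hgN⟩) ^ p ^ k = 1
  rw [← map_pow, show (⟨g, hgN⟩ : ↥(Subgroup.normalizer (T : Set Ω))) ^ p ^ k = 1 from Subtype.ext (by
    rw [SubmonoidClass.coe_pow]; exact congrArg Subtype.val hk), map_one]

theorem hom_good {P : Subgroup Ω} {φ : ↥P →* Ω} (hφ : φ ∈ (kerSystem χ E).Hom P) (hc : E.IsCentric (P ⊓ T)) :
    Good χ E φ := by
  obtain ⟨hEs, -, hI⟩ := hN.1
  have hTS := hI.2.1.1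
  have hTp : IsPGroup p ↥T := hS.to_le hTS
  let D := subsystem F (fun P φ => E.IsCentric (P ⊓ T) → Good χ E φ)
    (fun {P g} hP hg _ => good_conj χ hΔ hker hS hN hP hg)
    (fun {P Q f g} hf hMf _ hMg h hc => by
      obtain ⟨a, ha, hda⟩ := hMf hc
      have hQ : E.IsCentric (Q ⊓ T) := centric_mono (centric_image χ hΔ hker hS hN hf hc)
        (inf_le_inf_right T (by rintro _ ⟨x, rfl⟩; exact h x)) inf_le_right
      obtain ⟨b, hb, hdb⟩ := hMg hQ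
      exact ⟨b * a, by rw [map_mul, ha, hb, one_mul], hda.comp hI hdb h⟩)
    (fun {P f} hf hMf g hg hge hc => by
      obtain ⟨η, hη, hηe⟩ := F.inv_mem hf
      obtain rfl : g = η := MonoidHom.ext fun ⟨_, x, rfl⟩ => (hge x).trans (hηe x).symm
      have hv : ∀ y, g y ∈ P := by
        rintro ⟨_, x, rfl⟩
        rw [hge]; exact x.2
      have hP : E.IsCentric (P ⊓ T) := by
        have h1 := centric_image χ hΔ hker hS hN hη hc
        rwa [show g.range = P from le_antisymm (by rintro _ ⟨y, rfl⟩; exact hv y)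
          fun x hx => ⟨⟨f ⟨x, hx⟩, ⟨_, rfl⟩⟩, hge ⟨x, hx⟩⟩] at h1
      obtain ⟨a, ha, hda⟩ := hMf hP
      obtain ⟨b, hdb⟩ := exists_dec hI hη
      refine ⟨b, ?_, hdb⟩
      have h1 := hda.comp hI hdb fun x => ⟨x, rfl⟩
      rw [show g.comp (f.codRestrict f.range fun x => ⟨x, rfl⟩) = P.subtype from MonoidHom.ext hge] at h1
      have h2 := dec_sub' χ hΔ hker hTS hTp hEs hI (le_S hf) hP h1
      rwa [map_mul, ha, mul_one] at h2)
  exact (hφ D fun P' φ' hφ' _ hg => ⟨hφ', fun _ => hg⟩).2 hc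

theorem hom_of_good {P : Subgroup Ω} {φ : ↥P →* Ω} (hφ : φ ∈ F.Hom P) (hc : E.IsCentric (P ⊓ T))
    (hg : Good χ E φ) : φ ∈ (kerSystem χ E).Hom P :=
  containsGood χ P φ hφ hc hg

/-- Every element of the automizer has the same value as an extensible one. -/
theorem exists_extensible (d : ↥(F.autGroup T)) :
    ∃ β ∈ F.autGroup S, ∃ a : ↥(F.autGroup T), χ a = χ d ∧
      ∀ (t : Ω) (ht : t ∈ T) (htS : t ∈ S), ((β ⟨t, htS⟩ : ↥S) : Ω) = (((a : MulAut ↥T) ⟨t, ht⟩ : ↥T) : Ω) := by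
  obtain ⟨-, hF, hI⟩ := hN.1
  have hT := hI.2.1
  have hTn := StronglyClosed.normal hT
  haveI := finite_aut_of_le (S := S) hT.1
  have hfn : F.IsFullyNormalized T := ⟨hT.1, fun Q _ => by
    rw [show normalizerIn S T = S from inf_eq_left.mpr hTn]
    exact Subgroup.card_le_of_le inf_le_left⟩
  obtain ⟨-, TS, hTS⟩ := fullyNormalized_automized p hS hF hfn
  have hle : (TS : Subgroup ↥(F.autGroup T)) ≤ χ.ker := by
    intro b hb
    obtain ⟨k, hk⟩ := TS.2 ⟨b, hb⟩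
    refine eq_one_of_pow hΔ (j := k) ?_
    rw [← map_pow]
    convert map_one χ
    exact congrArg Subtype.val hk
  have hfr := Sylow.normalizer_sup_eq_top (TS.subtype hle)
  rw [show ((TS.subtype hle : Sylow p ↥χ.ker) : Subgroup ↥χ.ker).map χ.ker.subtype = (TS : Subgroup ↥(F.autGroup T)) from
    Subgroup.map_subgroupOf_eq_of_le hle] at hfr
  obtain ⟨γ, hγ, k, hk, hgk⟩ := Subgroup.mem_sup_of_normal_right.mp (hfr.ge (Subgroup.mem_top d))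
  set φ : ↥T →* Ω := T.subtype.comp (γ : MulAut ↥T).toMonoidHom
  have hφ : φ ∈ F.Hom T := (autGroup_carrier F hT.1 _).mp γ.2
  have hr : φ.range = T := by
    ext y
    exact ⟨fun ⟨x, hx⟩ => hx ▸ ((γ : MulAut ↥T) x).2, fun hy => ⟨(γ : MulAut ↥T).symm ⟨y, hy⟩, by simp [φ]⟩⟩
  obtain ⟨ψ, hψ, hψe⟩ := (fullyNormalized_receptive p hS hF hfn).2 T φ hφ hr
  have hext : S ≤ extender S T φ := by
    intro g hg
    have hgA : T.normalizerMonoidHom ⟨g, hTn hg⟩ ∈ autInducedBy S T := (mem_autInducedBy _).mpr ⟨g, hg, fun _ => rfl⟩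
    have h2 := ((Subgroup.mem_normalizer_iff.mp hγ ⟨_, autInducedBy_le_autGroup F hT.1 hgA⟩).mp (hTS.ge hgA))
    rw [hTS] at h2
    obtain ⟨h, hh, hhe⟩ := (mem_autInducedBy _).mp h2
    refine mem_extender ⟨hg, hTn hg⟩ hh fun x hx => ?_
    refine Eq.trans ?_ (hhe ((γ : MulAut ↥T) x))
    show ((γ : MulAut ↥T) ⟨g * x * g⁻¹, hx⟩ : Ω) =
      ((γ : MulAut ↥T) (T.normalizerMonoidHom ⟨g, hTn hg⟩ ((γ : MulAut ↥T)⁻¹ ((γ : MulAut ↥T) x))) : Ω)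
    rw [MulAut.inv_apply_self]
    exact congrArg (fun y : ↥T => (((γ : MulAut ↥T) y : ↥T) : Ω)) (Subtype.ext rfl)
  let b : ↥S →* ↥S := (ψ.comp (Subgroup.inclusion hext)).codRestrict S fun v => apply_mem_S hψ _
  have hb : Function.Injective b := fun v w e =>
    Subgroup.inclusion_injective hext (F.injective_of_mem hψ (congrArg Subtype.val e :))
  refine ⟨MulEquiv.ofBijective b ⟨hb, Finite.injective_iff_surjective.mp hb⟩,
    (autGroup_carrier F le_rfl _).mpr (restrict_mem_of_eq hψ hext fun v => rfl), γ, ?_, fun t ht htS => hψe t ht _⟩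
  have h1 := congrArg χ hgk
  rw [map_mul, MonoidHom.mem_ker.mp hk, mul_one] at h1
  exact h1

theorem dec_autS {β : MulAut ↥S} {a : ↥(F.autGroup T)}
    (h : ∀ (t : Ω) (ht : t ∈ T) (htS : t ∈ S), ((β ⟨t, htS⟩ : ↥S) : Ω) = (((a : MulAut ↥T) ⟨t, ht⟩ : ↥T) : Ω)) :
    DecBy E a (S.subtype.comp β.toMonoidHom) :=
  ⟨_, incl_mem E inf_le_right, fun x _ => h x x.2.2 x.2.1⟩

/-- A map of `F` on a good domain is an automorphism of `S` followed by a map of the kernel system. -/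
theorem frattini_good {P : Subgroup Ω} {φ : ↥P →* Ω} (hφ : φ ∈ F.Hom P) (hc : E.IsCentric (P ⊓ T)) :
    ∃ β ∈ F.autGroup S, ∃ φ₀ ∈ (kerSystem χ E).Hom P, ∀ (x : ↥P) (h : φ₀ x ∈ S),
      φ x = ((β ⟨φ₀ x, h⟩ : ↥S) : Ω) := by
  obtain ⟨hEs, hF, hI⟩ := hN.1
  have hTS := hI.2.1.1
  obtain ⟨a, hda⟩ := exists_dec hI hφ
  obtain ⟨β, hβ, b, hb, hβe⟩ := exists_extensible χ hΔ hker hS hN a⁻¹
  set β' : MulAut ↥S := β
  set f : ↥S →* Ω := S.subtype.comp β'.toMonoidHom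
  have hf : f ∈ F.Hom S := (autGroup_carrier F le_rfl _).mp hβ
  have hv := fun x => apply_mem_S hφ x
  have hdb := dec_autS χ hΔ hker hS hN hβe
  refine ⟨β⁻¹, inv_mem hβ, _, hom_of_good χ hΔ hker hS hN (F.comp_mem hφ hf hv) hc
    ⟨b * a, by rw [map_mul, hb, ← map_mul, inv_mul_cancel, map_one], hda.comp hI hdb hv⟩, fun x h => ?_⟩
  show φ x = ((β⁻¹ (β ⟨φ x, hv x⟩) : ↥S) : Ω)
  rw [MulAut.inv_apply_self]

theorem kerSystem_twistCore : kerSystem χ E ≤ twistCore F (kerSystem χ E) := by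
  obtain ⟨hEs, hF, hI⟩ := hN.1
  refine fun P φ hφ => hφ _ fun P φ hφ hc hg => ⟨hφ, fun α hα => ?_⟩
  obtain ⟨φ', hφ', hcorr⟩ := (selfIso α hα).fwd P φ hφ
  refine ⟨_, φ', hom_of_good χ hΔ hker hS hN hφ' ?_ ?_, hcorr⟩
  · have hPS := le_S hφ
    have himg := centric_image χ hΔ hker hS hN
      (restrict_mem ((autGroup_carrier F le_rfl α).mp hα) hPS) hc
    rwa [show img (selfIso α hα).e P = ((S.subtype.comp α.toMonoidHom).comp (Subgroup.inclusion hPS)).range from ?_]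
    ext y
    exact ⟨fun hy => by
        obtain ⟨w, hw, rfl⟩ := (mem_img _).mp hy
        exact ⟨⟨w, hw⟩, rfl⟩,
      fun ⟨x, hx⟩ => hx ▸ (apply_mem_img _).mpr x.2⟩
  obtain ⟨a, ha, hda⟩ := hg
  -- `α φ α⁻¹`
  set f : ↥S →* Ω := S.subtype.comp α.toMonoidHom
  set g : ↥S →* Ω := S.subtype.comp (α⁻¹ : MulAut ↥S).toMonoidHom
  obtain ⟨c, hdc⟩ := exists_dec hI ((autGroup_carrier F le_rfl α).mp hα : f ∈ F.Hom S)
  obtain ⟨e, hde⟩ := exists_dec hI ((autGroup_carrier F le_rfl _).mp (inv_mem hα) : g ∈ F.Hom S)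
  have hce : χ (c * e) = 1 := by
    refine dec_sub' χ hΔ hker hI.2.1.1 (hS.to_le hI.2.1.1) hEs hI le_rfl
      (by rw [inf_eq_right.mpr hI.2.1.1]; exact centric_base hI) ?_
    convert hde.comp hI hdc (fun x => apply_mem_S ((autGroup_carrier F le_rfl _).mp (inv_mem hα)) x) using 1
    ext x
    show (x : Ω) = ((α (α⁻¹ x) : ↥S) : Ω)
    rw [MulAut.apply_inv_self]
  set Q := img (selfIso α hα).e P
  have hQS : Q ≤ S := img_le _ _
  have hv1 : ∀ y : ↥Q, g (Subgroup.inclusion hQS y) ∈ P := fun ⟨y, hy⟩ => by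
    obtain ⟨w, hw, rfl⟩ := (mem_img _).mp hy
    show ((α⁻¹ (α w) : ↥S) : Ω) ∈ P
    rw [MulAut.inv_apply_self]; exact hw
  have h1 := (hde.restrict hQS).comp hI hda hv1
  have hv2 := fun y => apply_mem_S (F.comp_mem (restrict_mem ((autGroup_carrier F le_rfl _).mp (inv_mem hα)) hQS) hφ hv1) y
  have h2 := h1.comp hI hdc hv2
  refine ⟨c * (a * e), by rw [map_mul, map_mul, ha, one_mul, ← map_mul, hce], ?_⟩
  convert h2 using 1
  ext ⟨y, hy⟩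
  obtain ⟨w, hw, rfl⟩ := (mem_img _).mp hy
  obtain ⟨k1, k2, k3, k4⟩ := hcorr ⟨w, hw⟩
  refine k4.trans ?_
  show ((α ⟨φ ⟨w, hw⟩, _⟩ : ↥S) : Ω) = ((α ⟨φ ⟨((α⁻¹ (α w) : ↥S) : Ω), _⟩, _⟩ : ↥S) : Ω)
  congr 3
  exact congrArg φ (Subtype.ext (congrArg (Subtype.val : ↥S → Ω) (MulAut.inv_apply_self _ α w).symm))

theorem kerSystem_twist {P : Subgroup Ω} {φ : ↥P →* Ω} (hφ : φ ∈ (kerSystem χ E).Hom P)
    {α : MulAut ↥S} (hα : α ∈ F.autGroup S) : ∃ φ' ∈ (kerSystem χ E).Hom (img α P), Corr α φ φ' := by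
  obtain ⟨φ', hφ', hc⟩ := twistCore_twist _ (kerSystem_twistCore χ hΔ hker hS hN P hφ) hα
  exact ⟨φ', twistCore_le _ _ hφ', hc⟩

theorem frattini {P : Subgroup Ω} {φ : ↥P →* Ω} (hφ : φ ∈ F.Hom P) :
    ∃ β ∈ F.autGroup S, ∃ φ₀ ∈ (kerSystem χ E).Hom P, ∀ (x : ↥P) (h : φ₀ x ∈ S),
      φ x = ((β ⟨φ₀ x, h⟩ : ↥S) : Ω) := by
  obtain ⟨hEs, hF, hI⟩ := hN.1
  set D := kerSystem χ E
  refine alperin_induction p hS hF (fun P φ => ∃ β ∈ F.autGroup S, ∃ φ₀ ∈ D.Hom P, ∀ (x : ↥P) (h : φ₀ x ∈ S),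
      φ x = ((β ⟨φ₀ x, h⟩ : ↥S) : Ω)) ?_ ?_ ?_ ?_ hφ
  · intro P g hP hg
    exact ⟨1, one_mem _, _, D.conj_mem hP hg, fun x h => rfl⟩
  · intro P Q f g _ hMf _ hMg h
    obtain ⟨b, hb, f₀, hf₀, hfe⟩ := hMf
    obtain ⟨c, hc, g₀, hg₀, hge⟩ := hMg
    obtain ⟨g₁, hg₁, hcorr⟩ := kerSystem_twist χ hΔ hker hS hN hg₀ (inv_mem hb)
    have hv : ∀ x, f₀ x ∈ img (b⁻¹ : MulAut ↥S) Q := fun x => by
      refine (mem_img _).mpr ⟨b ⟨f₀ x, apply_mem_S hf₀ x⟩, ?_, ?_⟩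
      · rw [← hfe x]; exact h x
      · rw [MulAut.inv_apply_self]
    refine ⟨c * b, mul_mem hc hb, _, D.comp_mem hf₀ hg₁ hv, fun x hx => ?_⟩
    set w : ↥Q := ⟨f x, h x⟩
    obtain ⟨k1, k2, k3, k4⟩ := hcorr w
    have e : (⟨(w : Ω), k1⟩ : ↥S) = b ⟨f₀ x, apply_mem_S hf₀ x⟩ := Subtype.ext (hfe x _)
    have e2 : ((b⁻¹ ⟨(w : Ω), k1⟩ : ↥S) : Ω) = f₀ x := by rw [e, MulAut.inv_apply_self]
    show g w = _
    rw [hge w k2, MulAut.mul_apply]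
    refine congrArg (fun v : ↥S => ((c v : ↥S) : Ω)) ?_
    have e3 : (⟨_, hx⟩ : ↥S) = b⁻¹ ⟨g₀ w, k2⟩ := Subtype.ext ((congrArg g₁ (Subtype.ext e2.symm)).trans k4)
    rw [e3, MulAut.apply_inv_self]
  · intro P f hf hMf ψ hψ hψe
    obtain ⟨b, hb, f₀, hf₀, hfe⟩ := hMf
    obtain ⟨f₁, hf₁, hcorr⟩ := kerSystem_twist χ hΔ hker hS hN hf₀ hb
    obtain ⟨η, hη, hηe⟩ := D.inv_mem hf₁
    have hle : f.range ≤ f₁.range := by
      rintro _ ⟨x, rfl⟩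
      obtain ⟨k1, k2, k3, k4⟩ := hcorr x
      exact ⟨⟨_, k3⟩, k4.trans (hfe x k2).symm⟩
    refine ⟨b⁻¹, inv_mem hb, _, restrict_mem hη hle, ?_⟩
    rintro ⟨_, x, rfl⟩ h
    obtain ⟨k1, k2, k3, k4⟩ := hcorr x
    have e : η (Subgroup.inclusion hle ⟨f x, ⟨x, rfl⟩⟩) = ((b ⟨x, k1⟩ : ↥S) : Ω) :=
      (congrArg η (Subtype.ext ((hfe x k2).trans k4.symm))).trans (hηe ⟨_, k3⟩)
    rw [hψe x]
    show (x : Ω) = _
    rw [show (⟨_, h⟩ : ↥S) = b ⟨x, k1⟩ from Subtype.ext e, MulAut.inv_apply_self]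
  · intro R hR hRc hRr a ha
    refine frattini_good χ hΔ hker hS hN ((autGroup_carrier F hR.1 a).mp ha) ?_
    by_contra hn
    exact (Cfsg.Agent.S5251.result p hS F hF E hN R hRc hn).2 hRr

theorem isConj_ker {P R : Subgroup Ω} (h : F.IsConj P R) :
    ∃ α ∈ F.autGroup S, (kerSystem χ E).IsConj P (img (α⁻¹ : MulAut ↥S) R) := by
  obtain ⟨φ, hφ, rfl⟩ := h
  obtain ⟨α, hα, φ₀, hφ₀, he⟩ := frattini χ hΔ hker hS hN hφ
  refine ⟨α, hα, φ₀, hφ₀, ?_⟩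
  ext y
  constructor
  · rintro ⟨x, rfl⟩
    refine (mem_img _).mpr ⟨⟨φ x, apply_mem_S hφ x⟩, ⟨x, rfl⟩, ?_⟩
    rw [show (⟨φ x, apply_mem_S hφ x⟩ : ↥S) = α ⟨φ₀ x, apply_mem_S hφ₀ x⟩ from Subtype.ext (he x _),
      MulAut.inv_apply_self]
  · intro hy
    obtain ⟨w, ⟨x, hx⟩, rfl⟩ := (mem_img _).mp hy
    refine ⟨x, ?_⟩
    rw [show w = α ⟨φ₀ x, apply_mem_S hφ₀ x⟩ from Subtype.ext (hx.symm.trans (he x _)), MulAut.inv_apply_self]

theorem fullyNormalized_img {R : Subgroup Ω} (hR : F.IsFullyNormalized R) {α : MulAut ↥S} (hα : α ∈ F.autGroup S) :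
    F.IsFullyNormalized (img α R) ∧ F.IsConj R (img α R) :=
  ⟨(selfIso α hα).fullyNormalized hR, ⟨_, restrict_mem ((autGroup_carrier F le_rfl _).mp hα) hR.1, by
    ext y
    exact ⟨fun ⟨x, hx⟩ => hx ▸ (apply_mem_img _).mpr x.2, fun hy => by
      obtain ⟨w, hw, rfl⟩ := (mem_img _).mp hy
      exact ⟨⟨w, hw⟩, rfl⟩⟩⟩⟩

/-- Every subgroup is conjugate in the kernel system to one fully normalized in `F`. -/
theorem exists_conj_fn {P : Subgroup Ω} (hP : P ≤ S) :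
    ∃ Q, (kerSystem χ E).IsConj P Q ∧ F.IsFullyNormalized Q := by
  obtain ⟨R, hPR, hR⟩ := exists_fullyNormalized F hP
  obtain ⟨α, hα, hQ⟩ := isConj_ker χ hΔ hker hS hN hPR
  exact ⟨_, hQ, (fullyNormalized_img χ hΔ hker hS hN hR (inv_mem hα)).1⟩

theorem saturated : (kerSystem χ E).IsSaturated p := by
  obtain ⟨hEs, hF, hI⟩ := hN.1
  have hTS := hI.2.1.1
  have hTp : IsPGroup p ↥T := hS.to_le hTS
  set D := kerSystem χ E
  refine saturated_of_generated hS D {P | P ≤ S ∧ E.IsCentric (P ⊓ T)} ?_ ?_ ?_ ?_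
  · rintro P ⟨hP, hc⟩ Q ⟨φ, hφ, rfl⟩
    exact ⟨range_le_S hφ, centric_image χ hΔ hker hS hN (kerSystem_le χ _ hφ) hc⟩
  · rintro P ⟨hP, hc⟩
    obtain ⟨Q, hPQ, hQn⟩ := exists_conj_fn χ hΔ hker hS hN hP
    have hQc : E.IsCentric (Q ⊓ T) := by
      obtain ⟨φ, hφ, rfl⟩ := hPQ
      exact centric_image χ hΔ hker hS hN (kerSystem_le χ _ hφ) hc
    haveI := finite_aut_of_le hQn.1
    obtain ⟨-, TQ, hTQ⟩ := fullyNormalized_automized p hS hF hQn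
    have hEF : D.autGroup Q ≤ F.autGroup Q := autGroup_mono F D (kerSystem_le χ) Q
    refine ⟨Q, hPQ, ⟨hQn.1, ?_⟩, hQn.1, fun P' φ hφ hr => ?_⟩
    · have hle : (TQ : Subgroup ↥(F.autGroup Q)) ≤ (D.autGroup Q).subgroupOf (F.autGroup Q) := fun t ht =>
        autInducedBy_le_autGroup D hQn.1 (hTQ.le ht)
      refine ⟨(TQ.subtype hle).comapOfInjective (MonoidHom.codRestrict (Subgroup.inclusion hEF)
          ((D.autGroup Q).subgroupOf (F.autGroup Q)) fun x => x.2)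
        (fun x y h => Subtype.ext (congrArg (fun z : ↥((D.autGroup Q).subgroupOf (F.autGroup Q)) => ((z : ↥(F.autGroup Q)) : MulAut ↥Q)) h))
        (fun x _ => ⟨⟨_, x.2⟩, rfl⟩), ?_⟩
      ext x
      exact ⟨fun h => hTQ.le h, fun h => hTQ.ge h⟩
    · have hφF := kerSystem_le χ P' hφ
      obtain ⟨ψ, hψ, hψe⟩ := (fullyNormalized_receptive p hS hF hQn).2 P' φ hφF hr
      have hP'c : E.IsCentric (P' ⊓ T) := by
        obtain ⟨η, hη, hηr, -⟩ := exists_inverse hφF hr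
        rw [← hηr]
        exact centric_image χ hΔ hker hS hN hη hQc
      obtain ⟨a, ha, hda⟩ := hom_good χ hΔ hker hS hN hφ hP'c
      obtain ⟨b, hdb⟩ := exists_dec hI hψ
      have hle : P' ≤ extender S P' φ := le_extender hφF
      have hdb' : DecBy E b φ := by
        convert hdb.restrict hle using 1
        ext x
        exact (hψe x x.2 (hle x.2)).symm
      refine ⟨ψ, hom_of_good χ hΔ hker hS hN hψ (centric_mono hP'c (inf_le_inf_right T hle) inf_le_right)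
        ⟨b, (dec_unique χ hΔ hker hTp hEs hI hP'c hdb' hda).trans ha, hdb⟩, hψe⟩
  · intro D' hD' A φ hφ
    refine hφ D' fun P f hf hc hg => ?_
    exact hD' P ⟨le_S hf, hc⟩ (hom_of_good χ hΔ hker hS hN hf hc hg)
  · intro P hP hPn
    have hnc : ¬ E.IsCentric (P ⊓ T) := fun h => hPn ⟨hP.1, h⟩
    have hPF : F.IsCentric P := by
      refine ⟨hP.1, fun R hR c hc => ?_⟩
      obtain ⟨α, -, hα'⟩ := isConj_ker χ hΔ hker hS hN hR
      have hRS := IsConj.le_right hR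
      have h : ((α⁻¹ : MulAut ↥S) ⟨c, hc.1⟩ : Ω) ∈ centralizerIn S (img (α⁻¹ : MulAut ↥S) R) := by
        rw [← img_centralizerIn _ hRS]
        exact (apply_mem_img _).mpr hc
      exact (apply_mem_img (α⁻¹ : MulAut ↥S)).mp (hP.2 _ hα' h)
    obtain ⟨⟨φ, hφ, x, hx, hxR, a, ha, hae⟩, -⟩ := Cfsg.Agent.S5251.result p hS F hF E hN P hPF hnc
    have hxstar : x ∈ star F p φ.range := mem_star.mpr ⟨hx, by
      rwa [show φ.range.normalizerMonoidHom ⟨x, hx.2⟩ = a from MulEquiv.ext fun y => Subtype.ext (hae y).symm]⟩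
    set R := φ.range
    have hRS : R ≤ S := range_le_S hφ
    obtain ⟨α, hα, hQ⟩ := isConj_ker χ hΔ hker hS hN (⟨φ, hφ, rfl⟩ : F.IsConj P R)
    refine ⟨_, hQ, ((α⁻¹ : MulAut ↥S) ⟨x, hx.1⟩ : Ω), ?_, fun h => hxR ((apply_mem_img _).mp h)⟩
    set α' : MulAut ↥S := α⁻¹
    set Q := img α' R
    have hQS : Q ≤ S := img_le _ _
    have hxQ : ((α' ⟨x, hx.1⟩ : ↥S) : Ω) ∈ normalizerIn S Q := by
      rw [← img_normalizerIn _ hRS]
      exact (apply_mem_img _).mpr hx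
    refine mem_star.mpr ⟨hxQ, ?_⟩
    have hb := (mem_autInducedBy (K := S) (Q.normalizerMonoidHom ⟨_, hxQ.2⟩)).mpr ⟨_, hxQ.1, fun _ => rfl⟩
    -- transport of the normal p-subgroup
    set I := selfIso α' (inv_mem hα : α' ∈ F.autGroup S)
    set e : ↥R ≃* ↥Q := imgEquiv α' hRS
    haveI := finite_of_le hRS
    haveI := finite_aut_of_le hQS
    set AQ := F.autGroup Q
    set ev : ↥(F.autGroup R) →* ↥AQ :=
      ((MulAut.congr e).toMonoidHom.comp (F.autGroup R).subtype).codRestrict AQ fun u => I.mem_autGroup hRS u.2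
    have hev : Function.Surjective ev := by
      intro u
      refine ⟨⟨MulAut.congr e.symm (u : MulAut ↥Q), ?_⟩, Subtype.ext ?_⟩
      · have he : R.subtype.comp e.symm.toMonoidHom ∈ F.Hom Q := by
          refine restrict_mem_of_eq ((autGroup_carrier F le_rfl _).mp hα) hQS fun y => ?_
          obtain ⟨w, rfl⟩ := e.surjective y
          show ((e.symm (e w) : ↥R) : Ω) = ((α ((α⁻¹ : MulAut ↥S) ⟨w, hRS w.2⟩) : ↥S) : Ω)
          rw [e.symm_apply_apply, MulAut.apply_inv_self]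
        exact congr_autGroup e.symm he u.2
      · ext y
        simp [ev, MulAut.congr]
    obtain ⟨u, hu, hue⟩ := (mem_star.mp hxstar).2
    have huQ : ev u ∈ pCore p ↥AQ := by
      refine CfsgLib.Core.le_pCore ((inferInstance : (pCore p ↥(F.autGroup R)).Normal).map ev hev)
        ((CfsgLib.Core.isPGroup_pCore p).map ev) ⟨u, hu, rfl⟩
    have hval : ((ev u : ↥AQ) : MulAut ↥Q) = Q.normalizerMonoidHom ⟨_, hxQ.2⟩ := by
      refine MulEquiv.ext fun y => Subtype.ext ?_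
      obtain ⟨w, rfl⟩ := e.surjective y
      show ((e ((u : MulAut ↥R) (e.symm (e w))) : ↥Q) : Ω) = _
      rw [e.symm_apply_apply]
      have h1 : ((u : MulAut ↥R) w : Ω) = x * w * x⁻¹ := congrArg Subtype.val (DFunLike.congr_fun hue w)
      show ((α' ⟨(u : MulAut ↥R) w, _⟩ : ↥S) : Ω) = (α' ⟨x, hx.1⟩ : Ω) * (α' ⟨w, hRS w.2⟩ : Ω) * (α' ⟨x, hx.1⟩ : Ω)⁻¹
      rw [show (⟨((u : MulAut ↥R) w : Ω), hRS ((u : MulAut ↥R) w).2⟩ : ↥S) = ⟨x, hx.1⟩ * ⟨w, hRS w.2⟩ * ⟨x, hx.1⟩⁻¹ from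
        Subtype.ext h1, map_mul, map_mul, map_inv]
      rfl
    have hEF : D.autGroup Q ≤ AQ := autGroup_mono F D (kerSystem_le χ) Q
    have hbD : Q.normalizerMonoidHom ⟨_, hxQ.2⟩ ∈ D.autGroup Q := autInducedBy_le_autGroup D hQS hb
    refine ⟨⟨_, hbD⟩, ?_, rfl⟩
    refine CfsgLib.Core.le_pCore (N := (pCore p ↥AQ).comap (Subgroup.inclusion hEF)) inferInstance
      ((CfsgLib.Core.isPGroup_pCore p).comap_of_injective _ (Subgroup.inclusion_injective hEF)) ?_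
    show Subgroup.inclusion hEF ⟨_, hbD⟩ ∈ pCore p ↥AQ
    rw [show Subgroup.inclusion hEF ⟨_, hbD⟩ = ev u from Subtype.ext hval.symm]
    exact huQ

theorem index_prime : (kerSystem χ E).HasPrimeToPIndexIn F p := by
  obtain ⟨hEs, hF, hI⟩ := hN.1
  set D := kerSystem χ E
  refine ⟨kerSystem_le χ, fun P hP => Subgroup.map_le_iff_le_comap.mpr ((Subgroup.closure_le _).mpr ?_)⟩
  rintro a ⟨k, hk⟩
  show (a : MulAut ↥P) ∈ D.autGroup P
  obtain ⟨Q, ⟨φ, hφ, hφQ⟩, hQn⟩ := exists_conj_fn χ hΔ hker hS hN hP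
  have hQS := hQn.1
  set e := isoOfMem hφ hφQ
  have hee : Q.subtype.comp e.toMonoidHom = φ := isoOfMem_hom hφ hφQ
  haveI := finite_of_le hQS
  haveI := finite_aut_of_le hQS
  set A := F.autGroup Q
  set DA := (D.autGroup Q).subgroupOf A
  have hnorm : DA.Normal := by
    refine ⟨fun d hd c => ?_⟩
    obtain ⟨β, hβ, c₀, hc₀, hce⟩ := frattini χ hΔ hker hS hN ((autGroup_carrier F hQS _).mp c.2)
    set f : ↥Q →* Ω := Q.subtype.comp ((c⁻¹ : ↥A) : MulAut ↥Q).toMonoidHom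
    -- `c d c⁻¹ = β (c₀ d c₀⁻¹) β⁻¹`
    obtain ⟨η, hη, hηe⟩ := D.inv_mem hc₀
    have hv1 : ∀ y, η y ∈ Q := by
      rintro ⟨_, w, rfl⟩
      rw [hηe]; exact w.2
    have h1 := D.comp_mem hη ((autGroup_carrier D hQS _).mp hd) hv1
    have hv2 : ∀ y, (Q.subtype.comp (d : MulAut ↥Q).toMonoidHom).comp (η.codRestrict Q hv1) y ∈ Q := fun y =>
      ((d : MulAut ↥Q) _).2
    have h2 := D.comp_mem h1 hc₀ hv2
    obtain ⟨g, hg, hcorr⟩ := kerSystem_twist χ hΔ hker hS hN h2 hβ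
    show ((c * d * c⁻¹ : ↥A) : MulAut ↥Q) ∈ D.autGroup Q
    have hle : Q ≤ img β c₀.range := fun y hy => by
      obtain ⟨w, hw⟩ := (c : MulAut ↥Q).surjective ⟨y, hy⟩
      refine (mem_img β).mpr ⟨⟨c₀ w, apply_mem_S hc₀ w⟩, ⟨w, rfl⟩, ?_⟩
      rw [← hce w]
      exact congrArg Subtype.val hw
    refine (autGroup_carrier D hQS _).mpr (restrict_mem_of_eq hg hle fun y => ?_)
    obtain ⟨w, rfl⟩ := (c : MulAut ↥Q).surjective y
    obtain ⟨k1, k2, k3, k4⟩ := hcorr ⟨c₀ w, ⟨w, rfl⟩⟩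
    have hin : ((β ⟨c₀ w, k1⟩ : ↥S) : Ω) = (((c : MulAut ↥Q) w : ↥Q) : Ω) := (hce w k1).symm
    refine Eq.trans ?_ (Eq.trans k4.symm (congrArg g (Subtype.ext hin)))
    show ((((c * d * c⁻¹ : ↥A) : MulAut ↥Q) ((c : MulAut ↥Q) w) : ↥Q) : Ω) =
      ((β ⟨c₀ ⟨(((d : MulAut ↥Q) ⟨η ⟨c₀ w, _⟩, _⟩ : ↥Q) : Ω), _⟩, _⟩ : ↥S) : Ω)
    refine Eq.trans ?_ (hce _ _)
    simp only [Subgroup.coe_mul, MulAut.mul_apply, InvMemClass.coe_inv, MulAut.inv_apply_self]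
    exact congrArg (fun u : ↥Q => (((c : MulAut ↥Q) ((d : MulAut ↥Q) u) : ↥Q) : Ω)) (Subtype.ext (hηe w).symm)
  obtain ⟨-, TQ, hTQ⟩ := fullyNormalized_automized p hS hF hQn
  have hTle : (TQ : Subgroup ↥A) ≤ DA := fun t ht => autInducedBy_le_autGroup D hQS (hTQ.le ht)
  have he : Q.subtype.comp e.toMonoidHom ∈ D.Hom P := hee.symm ▸ hφ
  set b : ↥A := ⟨MulAut.congr e (a : MulAut ↥P), congr_autGroup e (hee.symm ▸ kerSystem_le χ P hφ) a.2⟩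
  have hbo : orderOf b = p ^ k := by
    rw [← Subgroup.orderOf_coe b, show ((b : ↥A) : MulAut ↥Q) = MulAut.congr e (a : MulAut ↥P) from rfl,
      MulEquiv.orderOf_eq, Subgroup.orderOf_coe, hk]
  have hbp : IsPGroup p ↥(Subgroup.zpowers b) := IsPGroup.of_card (by rw [Nat.card_zpowers, hbo])
  obtain ⟨P1, hP1⟩ := hbp.exists_le_sylow
  obtain ⟨g, hg⟩ := MulAction.exists_smul_eq ↥A TQ P1
  have hbDA : b ∈ DA := by
    have h1 : b ∈ g • TQ := hg ▸ hP1 (Subgroup.mem_zpowers _)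
    rw [← SetLike.mem_coe, Sylow.coe_smul, Set.mem_smul_set_iff_inv_smul_mem, MulAut.smul_def, ← map_inv,
      MulAut.conj_apply, inv_inv] at h1
    have := hnorm.conj_mem _ (hTle h1) g
    simpa [mul_assoc] using this
  have h2 := congr_autGroup e.symm (symm_mem e he) (Subgroup.mem_subgroupOf.mp hbDA)
  convert h2 using 1
  ext y
  simp [b, MulAut.congr]

theorem normal_kerSystem : (kerSystem χ E).IsNormalIn F p := by
  obtain ⟨hEs, hF, hI⟩ := hN.1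
  set D := kerSystem χ E
  refine ⟨⟨saturated χ hΔ hker hS hN, hF, kerSystem_le χ, ⟨le_rfl, fun R _ φ hφ x => apply_mem_S hφ x⟩, ?_, ?_⟩,
    fun α hα => ?_⟩
  · intro P hP φ hφ α hα
    obtain ⟨φ', hφ', hcorr⟩ := kerSystem_twist χ hΔ hker hS hN hφ hα
    refine ⟨φ', hφ', fun x hφx hαx => ?_⟩
    obtain ⟨k1, k2, k3, k4⟩ := hcorr x
    exact k4
  · intro P hP φ hφ
    obtain ⟨β, hβ, φ₀, hφ₀, he⟩ := frattini χ hΔ hker hS hN hφ
    exact ⟨β, hβ, φ₀, hφ₀, he⟩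
  · have hαF : α ∈ F.autGroup S := autGroup_mono F D (kerSystem_le χ) S hα
    have hsup : S ⊔ centralizerIn S S = S := sup_eq_left.mpr inf_le_left
    let e : ↥S ≃* ↥(S ⊔ centralizerIn S S) := MulEquiv.subgroupCongr hsup.symm
    refine ⟨MulAut.congr e α, congr_autGroup e ?_ hαF, fun x => rfl, fun c hc => ?_⟩
    · exact restrict_mem_of_eq (incl_mem F le_rfl) le_rfl fun x => rfl
    set v : ↥S := ⟨(c : Ω), hc.1⟩
    show (c : Ω)⁻¹ * ((α v : ↥S) : Ω) ∈ S ⊓ Subgroup.centralizer (S : Set Ω)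
    refine Subgroup.mul_mem _ (Subgroup.inv_mem _ hc) ⟨(α v).2, Subgroup.mem_centralizer_iff.mpr fun y hy => ?_⟩
    obtain ⟨w, hw⟩ := α.surjective ⟨y, hy⟩
    have h1 : w * v = v * w := Subtype.ext (Subgroup.mem_centralizer_iff.mp hc.2 w w.2)
    have h2 := congrArg (fun u => ((α u : ↥S) : Ω)) h1
    simpa [map_mul, hw] using h2

theorem base_le : E.IsSubsystemOf (kerSystem χ E) := by
  obtain ⟨hEs, hF, hI⟩ := hN.1
  have hTS := hI.2.1.1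
  have hTp : IsPGroup p ↥T := hS.to_le hTS
  set D := kerSystem χ E
  intro P φ hφ
  refine alperin_induction p hTp hEs (fun P φ => φ ∈ D.Hom P) (fun hP hg => D.conj_mem (hP.trans hTS) (hTS hg))
    (fun _ hf _ hg h => D.comp_mem hf hg h) (fun _ hf g _ hge => inverse_unique hf hge) ?_ hφ
  intro R hR hRc hRr a ha
  have hRT : R ⊓ T = R := inf_eq_left.mpr hRc.1
  have haE : R.subtype.comp a.toMonoidHom ∈ E.Hom R := (autGroup_carrier E hRc.1 a).mp ha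
  refine hom_of_good χ hΔ hker hS hN (hI.1 R haE) (hRT.symm ▸ hRc) ⟨1, map_one χ, _,
    restrict_mem haE inf_le_left, fun x hx => rfl⟩

theorem mem_autS (α : MulAut ↥S) : α ∈ (kerSystem χ E).autGroup S ↔ α ∈ F.autGroup S ∧
    ∃ β : ↥(F.autGroup T), χ β = 1 ∧
      ∀ t : ↥T, (((β : MulAut ↥T) t : ↥T) : Ω) = ((α ⟨(t : Ω), hN.1.2.2.2.1.1 t.2⟩ : ↥S) : Ω) := by
  obtain ⟨hEs, hF, hI⟩ := hN.1
  have hTS := hI.2.1.1
  have hTp : IsPGroup p ↥T := hS.to_le hTS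
  have hST : E.IsCentric (S ⊓ T) := (inf_eq_right.mpr hTS).symm ▸ centric_base hI
  constructor
  · intro hα
    have hαF := autGroup_mono F _ (kerSystem_le χ) S hα
    obtain ⟨a, ha, hda⟩ := hom_good χ hΔ hker hS hN ((autGroup_carrier _ le_rfl _).mp hα) hST
    set f : ↥T →* Ω := (S.subtype.comp α.toMonoidHom).comp (Subgroup.inclusion hTS)
    have hf : f ∈ F.Hom T := restrict_mem ((autGroup_carrier F le_rfl _).mp hαF) hTS
    haveI := finite_of_le hTS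
    let b : ↥T →* ↥T := f.codRestrict T fun t => hI.2.1.2 T le_rfl f hf t
    have hb : Function.Injective b := fun x y e => F.injective_of_mem hf (congrArg Subtype.val e :)
    let β : MulAut ↥T := MulEquiv.ofBijective b ⟨hb, Finite.injective_iff_surjective.mp hb⟩
    have hβ : β ∈ F.autGroup T := (autGroup_carrier F hTS _).mpr (restrict_mem_of_eq hf le_rfl fun x => rfl)
    refine ⟨hαF, ⟨β, hβ⟩, (dec_unique χ hΔ hker hTp hEs hI hST
      (dec_autS χ hΔ hker hS hN (a := ⟨β, hβ⟩) fun t ht htS => rfl) hda).trans ha, fun t => rfl⟩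
  · rintro ⟨hα, β, hβ, he⟩
    exact (autGroup_carrier _ le_rfl α).mpr (hom_of_good χ hΔ hker hS hN ((autGroup_carrier F le_rfl α).mp hα) hST
      ⟨β, hβ, dec_autS χ hΔ hker hS hN fun t ht htS => (he ⟨t, ht⟩).symm⟩)

theorem proper [Nontrivial Δ] (hχ : Function.Surjective χ) :
    ¬ ∀ P : Subgroup Ω, (kerSystem χ E).Hom P = F.Hom P := by
  intro h
  obtain ⟨hEs, hF, hI⟩ := hN.1
  obtain ⟨δ, hδ⟩ := exists_ne (1 : Δ)
  obtain ⟨d, rfl⟩ := hχ δ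
  obtain ⟨β, hβ, a, ha, he⟩ := exists_extensible χ hΔ hker hS hN d
  have hβD : β ∈ (kerSystem χ E).autGroup S :=
    (autGroup_carrier _ le_rfl β).mpr ((h S).ge ((autGroup_carrier F le_rfl β).mp hβ))
  obtain ⟨-, b, hb, hbe⟩ := (mem_autS χ hΔ hker hS hN β).mp hβD
  have : b = a := Subtype.ext (MulEquiv.ext fun t => Subtype.ext ((hbe t).trans (he t t.2 _)))
  exact hδ (ha.symm.trans (this ▸ hb))

theorem residual_sub {R : FusionSystem S} (hR : F.IsPPrimeResidual p R) : R.IsSubsystemOf (kerSystem χ E) :=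
  hR.2.2 _ (saturated χ hΔ hker hS hN) (index_prime χ hΔ hker hS hN)

end Main

end CfsgLib.Fusion.CharKernel
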