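import Cfsg.Agent.Lib.PCube
import Cfsg.Agent.Lib.CyclicPartitionIdent
import Cfsg.Agent.Lib.Fusion.SmallEssentialFour
import Mathlib.GroupTheory.NoncommCoprod
import Mathlib.Algebra.Group.Shrink
import Mathlib.GroupTheory.Exponent

/-! Groups with commutator subgroup of order `p` split over a nonabelian subgroup of order `p ^ 3`. (helper6) -/

set_option autoImplicit false
set_option linter.unusedSectionVars false
set_option linter.style.haveILetI false

namespace CfsgLib.Fusion.ExtraspecialProduct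

open Cfsg
open scoped commutatorElement

variable {P : Type*} [Group P] [Finite P] {p : ℕ} [Fact p.Prime]

/-- The commutator is a homomorphism in the left argument when commutators are central. -/
theorem comm_mul_left (hz : ∀ u v : P, ⁅u, v⁆ ∈ Subgroup.center P) (u v w : P) : ⁅u * v, w⁆ = ⁅u, w⁆ * ⁅v, w⁆ := by
  rw [show ⁅u * v, w⁆ = u * ⁅v, w⁆ * u⁻¹ * ⁅u, w⁆ by simp [commutatorElement_def, mul_assoc],
    Subgroup.mem_center_iff.mp (hz v w) u, mul_inv_cancel_right, Subgroup.mem_center_iff.mp (hz u w) _]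

/-- Powers pass through the commutator. -/
theorem comm_pow_left (hz : ∀ u v : P, ⁅u, v⁆ ∈ Subgroup.center P) (u w : P) (k : ℕ) : ⁅u ^ k, w⁆ = ⁅u, w⁆ ^ k := by
  induction k with
  | zero => simp
  | succ k ih => rw [pow_succ, comm_mul_left hz, ih, pow_succ]

/-- An elementary abelian subgroup containing `Z` of prime order splits over it. -/
theorem exists_split {C Z : Subgroup P} (hab : ∀ u ∈ C, ∀ v ∈ C, u * v = v * u) (hexp : ∀ u ∈ C, u ^ p = 1) (hZC : Z ≤ C) :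
    ∃ A ≤ C, A ⊓ Z = ⊥ ∧ ∀ u ∈ C, ∃ z ∈ Z, ∃ v ∈ A, u = z * v := by
  obtain ⟨A, ⟨hAC, hAZ⟩, hmax⟩ :=
    (Set.toFinite {A : Subgroup P | A ≤ C ∧ A ⊓ Z = ⊥}).exists_maximal ⟨⊥, bot_le, bot_inf_eq _⟩
  refine ⟨A, hAC, hAZ, fun u hu => ?_⟩
  let D : Subgroup P :=
    { carrier := {u | ∃ z ∈ Z, ∃ v ∈ A, u = z * v}
      one_mem' := ⟨1, one_mem _, 1, one_mem _, (mul_one _).symm⟩
      mul_mem' := by
        rintro _ _ ⟨z, hz, v, hv, rfl⟩ ⟨z', hz', v', hv', rfl⟩
        refine ⟨z * z', mul_mem hz hz', v * v', mul_mem hv hv', ?_⟩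
        rw [mul_assoc z v, ← mul_assoc v z', hab v (hAC hv) z' (hZC hz'), mul_assoc z' v, ← mul_assoc z z']
      inv_mem' := by
        rintro _ ⟨z, hz, v, hv, rfl⟩
        exact ⟨z⁻¹, inv_mem hz, v⁻¹, inv_mem hv, by
          rw [mul_inv_rev, hab _ (C.inv_mem (hAC hv)) _ (C.inv_mem (hZC hz))]⟩ }
  by_contra hnu
  have hnu' : u ∉ D := hnu
  have hA'C : A ⊔ Subgroup.zpowers u ≤ C := sup_le hAC (Subgroup.zpowers_le.mpr hu)
  refine hnu' ?_
  have hmem : ∀ x ∈ A ⊔ Subgroup.zpowers u, ∃ v ∈ A, ∃ i : ℤ, x = v * u ^ i := by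
    intro x hx
    rw [Subgroup.sup_eq_closure] at hx
    induction hx using Subgroup.closure_induction with
    | mem x hx =>
      rcases hx with h | h
      · exact ⟨x, h, 0, by simp⟩
      · obtain ⟨i, rfl⟩ := h; exact ⟨1, one_mem _, i, (one_mul _).symm⟩
    | one => exact ⟨1, one_mem _, 0, by simp⟩
    | mul x y _ _ ihx ihy =>
      obtain ⟨v, hv, i, rfl⟩ := ihx
      obtain ⟨v', hv', i', rfl⟩ := ihy
      refine ⟨v * v', mul_mem hv hv', i + i', ?_⟩
      rw [zpow_add, mul_assoc v, ← mul_assoc (u ^ i), hab (u ^ i) (C.zpow_mem hu i) v' (hAC hv'), mul_assoc v',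
        ← mul_assoc v v']
    | inv x _ ih =>
      obtain ⟨v, hv, i, rfl⟩ := ih
      exact ⟨v⁻¹, inv_mem hv, -i, by
        rw [mul_inv_rev, hab _ (C.inv_mem (C.zpow_mem hu i)) _ (C.inv_mem (hAC hv)), zpow_neg]⟩
  have hne : (A ⊔ Subgroup.zpowers u) ⊓ Z ≠ ⊥ := fun h => hnu' <| by
    have heq : A = A ⊔ Subgroup.zpowers u :=
      le_antisymm le_sup_left (hmax ⟨hA'C, h⟩ le_sup_left)
    exact ⟨1, one_mem _, u, heq.ge (Subgroup.mem_sup_right (Subgroup.mem_zpowers u)), (one_mul u).symm⟩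
  obtain ⟨w, ⟨hwA, hwZ⟩, hw1⟩ := (Subgroup.bot_or_exists_ne_one _).resolve_left hne
  obtain ⟨v, hv, i, rfl⟩ := hmem w hwA
  by_cases hi : (p : ℤ) ∣ i
  · exfalso
    obtain ⟨j, rfl⟩ := hi
    rw [zpow_mul, zpow_natCast, hexp u hu, one_zpow, mul_one] at hwZ
    refine hw1 ?_
    rw [zpow_mul, zpow_natCast, hexp u hu, one_zpow, mul_one]
    exact Subgroup.mem_bot.mp (hAZ ▸ ⟨hv, hwZ⟩)
  · obtain ⟨s, t, hst⟩ : IsCoprime i (p : ℤ) :=
      ((Nat.prime_iff_prime_int.mp Fact.out).coprime_iff_not_dvd.mpr hi).symm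
    have hd : u ^ i ∈ D := by
      refine ⟨v * u ^ i, hwZ, v⁻¹, inv_mem hv, ?_⟩
      rw [hab v (hAC hv) _ (C.zpow_mem hu i), mul_inv_cancel_right]
    have := D.zpow_mem hd s
    rwa [← zpow_mul, mul_comm, show u ^ (s * i) = u by
      conv_rhs => rw [← zpow_one u, ← hst, zpow_add, mul_comm t, zpow_mul u _ t, zpow_natCast, hexp u hu, one_zpow, mul_one]] at this

/-- Central commutator subgroup of order `p`, abelian centralizer of `y` and two elements `a`, `y` of order `p`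
not commuting give `E × A`. -/
theorem exists_prod (hP : IsPGroup p P) (Z : Subgroup P) (hZ : Nat.card ↥Z = p) (hzc : Z ≤ Subgroup.center P)
    (hcl : ∀ u v : P, ⁅u, v⁆ ∈ Z) (hpow : ∀ u : P, u ^ p ∈ Z) (hexp : ∀ z ∈ Subgroup.center P, z ^ p = 1)
    {a y : P} (hne : ⁅a, y⁆ ≠ 1) (ha : a ^ p = 1) (hy : y ^ p = 1)
    (hM : ∀ u v : P, u * y = y * u → v * y = y * v → u * v = v * u) :
    ∃ (E : Subgroup P) (A : Subgroup P), A ≤ Subgroup.center P ∧ a ∈ E ∧ y ∈ E ∧ Nat.card ↥E = p ^ 3 ∧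
      (∀ K : Subgroup P, Z ≤ K → a ∈ K → y ∈ K → E ≤ K) ∧ Nonempty (P ≃* ↥E × ↥A) := by
  have hz : ∀ u v : P, ⁅u, v⁆ ∈ Subgroup.center P := fun u v => hzc (hcl u v)
  have hgen : Subgroup.zpowers ⁅a, y⁆ = Z := by
    refine Subgroup.eq_of_le_of_card_ge (Subgroup.zpowers_le.mpr (hcl a y)) ?_
    rw [hZ, Nat.card_zpowers]
    rw [orderOf_eq_prime (p := p) (hexp _ (hz a y)) hne]
  have hkey : ∀ u : P, ∃ k i : ℤ, ∃ v ∈ Subgroup.center P, u = a ^ k * y ^ i * v := by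
    intro u
    have hzl : ∀ (x w : P) (k : ℤ), ⁅x ^ k, w⁆ = ⁅x, w⁆ ^ k := fun x w k => by
      let h : P →* P := MonoidHom.mk' (fun x => ⁅x, w⁆) fun x x' => comm_mul_left hz x x' w
      exact map_zpow h x k
    obtain ⟨k, hk⟩ := Subgroup.mem_zpowers_iff.mp (hgen.ge (hcl u y))
    have h1 : ⁅(a ^ k)⁻¹ * u, y⁆ = 1 := by
      rw [← zpow_neg, comm_mul_left hz, hzl, ← hk, ← zpow_add, neg_add_cancel, zpow_zero]
    obtain ⟨i, hi⟩ := Subgroup.mem_zpowers_iff.mp (hgen.ge (hcl ((a ^ k)⁻¹ * u) a))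
    refine ⟨k, -i, (y ^ (-i))⁻¹ * ((a ^ k)⁻¹ * u), Subgroup.mem_center_iff.mpr fun w => ?_, ?_⟩
    swap
    · simp [mul_assoc]
    set v := (y ^ (-i))⁻¹ * ((a ^ k)⁻¹ * u) with hv
    have hvy : v * y = y * v := commutatorElement_eq_one_iff_mul_comm.mp (by
      rw [hv, zpow_neg, inv_inv, comm_mul_left hz, h1, mul_one, hzl, commutatorElement_self, one_zpow])
    have hva : ⁅v, a⁆ = 1 := by
      rw [hv, zpow_neg, inv_inv, comm_mul_left hz, hzl, ← hi, ← commutatorElement_inv a y, inv_zpow, inv_mul_cancel]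
    obtain ⟨l, hl⟩ := Subgroup.mem_zpowers_iff.mp (hgen.ge (hcl w y))
    have hw : ((a ^ l)⁻¹ * w) * y = y * ((a ^ l)⁻¹ * w) := commutatorElement_eq_one_iff_mul_comm.mp (by
      rw [← zpow_neg, comm_mul_left hz, hzl, ← hl, ← zpow_add, neg_add_cancel, zpow_zero])
    have hvw := hM v _ hvy hw
    have hval : Commute v (a ^ l) := (commutatorElement_eq_one_iff_commute.mp hva).zpow_right l
    have := hval.mul_right (show Commute v ((a ^ l)⁻¹ * w) from hvw)
    rw [mul_inv_cancel_left] at this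
    exact this.eq.symm
  haveI : Z.Normal := ⟨fun z hzZ g => by rw [Subgroup.mem_center_iff.mp (hzc hzZ) g, mul_inv_cancel_right]; exact hzZ⟩
  set E₁ := Z ⊔ Subgroup.zpowers a
  haveI : E₁.Normal := Subgroup.Normal.of_commutator_le _ (Subgroup.commutator_le.mpr fun u _ v _ =>
    (le_sup_left : Z ≤ E₁) (hcl u v))
  set E := E₁ ⊔ Subgroup.zpowers y
  have haE : a ∈ E := Subgroup.mem_sup_left (Subgroup.mem_sup_right (Subgroup.mem_zpowers a))
  have hyE : y ∈ E := Subgroup.mem_sup_right (Subgroup.mem_zpowers y)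
  have hZE : Z ≤ E := le_sup_left.trans le_sup_left
  have haZ : a ∉ Z := fun h => hne (commutatorElement_eq_one_iff_mul_comm.mpr (Subgroup.mem_center_iff.mp (hzc h) y).symm)
  have hE₁ : E₁ ≤ Subgroup.centralizer ({a} : Set P) :=
    sup_le (hzc.trans (Subgroup.center_le_centralizer _))
      (Subgroup.zpowers_le.mpr (Subgroup.mem_centralizer_singleton_iff.mpr rfl))
  have hcard : Nat.card ↥E = p ^ 3 := by
    refine le_antisymm ?_ ?_
    · calc Nat.card ↥E ≤ p * Nat.card ↥E₁ := EssentialFour.card_sup_le y (hy ▸ one_mem _)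
        _ ≤ p * (p * Nat.card ↥Z) := Nat.mul_le_mul_left _ (EssentialFour.card_sup_le a (ha ▸ one_mem _))
        _ = p ^ 3 := by rw [hZ]; ring
    · calc p ^ 3 = p * (p * Nat.card ↥Z) := by rw [hZ]; ring
        _ ≤ p * Nat.card ↥E₁ := Nat.mul_le_mul_left _ (EssentialFour.mul_card_le hP
            (lt_of_le_of_ne le_sup_left fun h => haZ (h.ge (Subgroup.mem_sup_right (Subgroup.mem_zpowers a)))))
        _ ≤ Nat.card ↥E := EssentialFour.mul_card_le hP (lt_of_le_of_ne le_sup_left fun h => hne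
            (commutatorElement_eq_one_iff_mul_comm.mpr
              (Subgroup.mem_centralizer_singleton_iff.mp (hE₁ (h.ge hyE))).symm))
  have hEC : ∀ e ∈ E, e ∈ Subgroup.center P → e ∈ Z := by
    intro e he hec
    obtain ⟨e₁, he₁, w, hw, rfl⟩ := Subgroup.mem_sup_of_normal_left.mp he
    obtain ⟨z, hzZ, w', hw', rfl⟩ := Subgroup.mem_sup_of_normal_left.mp he₁
    obtain ⟨i, rfl⟩ := Subgroup.mem_zpowers_iff.mp hw
    obtain ⟨k, rfl⟩ := Subgroup.mem_zpowers_iff.mp hw'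
    have hzl : ∀ (x w : P) (k : ℤ), ⁅x ^ k, w⁆ = ⁅x, w⁆ ^ k := fun x w k => by
      let h : P →* P := MonoidHom.mk' (fun x => ⁅x, w⁆) fun x x' => comm_mul_left hz x x' w
      exact map_zpow h x k
    have hord : orderOf ⁅a, y⁆ = p := orderOf_eq_prime (hexp _ (hz a y)) hne
    have h1 : ∀ w : P, ⁅z * a ^ k * y ^ i, w⁆ = 1 := fun w =>
      commutatorElement_eq_one_iff_mul_comm.mpr (Subgroup.mem_center_iff.mp hec w).symm
    have hz1 : ∀ w : P, ⁅z, w⁆ = 1 := fun w =>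
      commutatorElement_eq_one_iff_mul_comm.mpr (Subgroup.mem_center_iff.mp (hzc hzZ) w).symm
    have hk := h1 y
    rw [comm_mul_left hz, comm_mul_left hz, hz1, hzl, hzl, commutatorElement_self, one_zpow, one_mul, mul_one,
      ← orderOf_dvd_iff_zpow_eq_one, hord] at hk
    have hi := h1 a
    rw [comm_mul_left hz, comm_mul_left hz, hz1, hzl, hzl, commutatorElement_self, one_zpow, one_mul, one_mul,
      ← commutatorElement_inv, inv_zpow, inv_eq_one, ← orderOf_dvd_iff_zpow_eq_one, hord] at hi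
    obtain ⟨k', rfl⟩ := hk
    obtain ⟨i', rfl⟩ := hi
    simpa [zpow_mul, ha, hy] using hzZ
  obtain ⟨A, hAC, hAZ, hsplit⟩ := exists_split (fun u hu v _ => (Subgroup.mem_center_iff.mp hu v).symm) hexp hzc
  let f : ↥E × ↥A →* P := E.subtype.noncommCoprod A.subtype fun e v => Subgroup.mem_center_iff.mp (hAC v.2) e
  have hf : Function.Bijective f := by
    refine ⟨(injective_iff_map_eq_one f).mpr fun ⟨e, v⟩ h => ?_, fun u => ?_⟩
    · have he : (e : P) = (v : P)⁻¹ := eq_inv_of_mul_eq_one_left h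
      have heZ : (e : P) ∈ Z := hEC e e.2 (he ▸ inv_mem (hAC v.2))
      have hv : (v : P) = 1 := Subgroup.mem_bot.mp (hAZ ▸ ⟨v.2, by simpa [he] using heZ⟩)
      exact Prod.ext (Subtype.ext (by rw [he, hv, inv_one]; rfl)) (Subtype.ext hv)
    · obtain ⟨k, i, w, hw, rfl⟩ := hkey u
      obtain ⟨z, hzZ, v, hv, rfl⟩ := hsplit w hw
      exact ⟨(⟨a ^ k * y ^ i * z, mul_mem (mul_mem (E.zpow_mem haE k) (E.zpow_mem hyE i)) (hZE hzZ)⟩, ⟨v, hv⟩),
        mul_assoc _ _ _⟩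
  exact ⟨E, A, hAC, haE, hyE, hcard, fun K h1 h2 h3 =>
    sup_le (sup_le h1 (Subgroup.zpowers_le.mpr h2)) (Subgroup.zpowers_le.mpr h3), ⟨(MulEquiv.ofBijective f hf).symm⟩⟩

/-- A central subgroup of a group transferred to `Type`. -/
theorem exists_small_abelian (A : Subgroup P) (hA : A ≤ Subgroup.center P) :
    ∃ (A' : Type) (_ : CommGroup A'), Nonempty (↥A ≃* A') := by
  let m : Shrink.{0} ↥A ≃* ↥A := Shrink.mulEquiv
  letI : CommGroup (Shrink.{0} ↥A) := { (inferInstance : Group (Shrink.{0} ↥A)) with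
    mul_comm := fun u v => m.injective (by
      rw [map_mul, map_mul]; exact Subtype.ext (Subgroup.mem_center_iff.mp (hA (m v).2) _)) }
  exact ⟨Shrink.{0} ↥A, inferInstance, ⟨m.symm⟩⟩

/-- The odd case: an extraspecial factor of exponent `p`. -/
theorem exists_exponent_p_prod (hp : p ≠ 2) (hP : IsPGroup p P) (Z : Subgroup P) (hZ : Nat.card ↥Z = p) (hzc : Z ≤ Subgroup.center P)
    (hcl : ∀ u v : P, ⁅u, v⁆ ∈ Z) (hpow : ∀ u : P, u ^ p ∈ Z) (hexp : ∀ z ∈ Subgroup.center P, z ^ p = 1)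
    {a y : P} (hne : ⁅a, y⁆ ≠ 1) (ha : a ^ p = 1) (hy : y ^ p = 1)
    (hM : ∀ u v : P, u * y = y * u → v * y = y * v → u * v = v * u) :
    ∃ (E : Type) (_ : Group E) (A : Type) (_ : CommGroup A), Cfsg.IsExtraspecial p E ∧ Nat.card E = p ^ 3 ∧
      Monoid.exponent E = p ∧ (∀ a : A, a ^ p = 1) ∧ Nonempty (P ≃* E × A) := by
  obtain ⟨E, A, hAC, haE, hyE, hcard, hEK, ⟨e⟩⟩ := exists_prod hP Z hZ hzc hcl hpow hexp hne ha hy hM
  obtain ⟨A', _, ⟨eA⟩⟩ := exists_small_abelian A hAC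
  let m : Shrink.{0} ↥E ≃* ↥E := Shrink.mulEquiv
  have hE'c : Nat.card (Shrink.{0} ↥E) = p ^ 3 := (Nat.card_congr m.toEquiv).trans hcard
  haveI : Finite (Shrink.{0} ↥E) := Finite.of_equiv _ m.symm.toEquiv
  have hpr : p.Prime := Fact.out
  obtain ⟨n, hn⟩ : p ∣ p.choose 2 := hpr.dvd_choose_self (by norm_num) (lt_of_le_of_ne hpr.two_le (Ne.symm hp))
  have hmul : ∀ u v : P, (u * v) ^ p = u ^ p * v ^ p := by
    intro u v
    rw [EssentialFour.mul_pow_of_central (fun z => Subgroup.mem_center_iff.mp (hzc (hcl v u)) z) p, hn, pow_mul,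
      hexp _ (hzc (hcl v u)), one_pow, one_mul]
  let π : P →* P := MonoidHom.mk' (fun u => u ^ p) hmul
  have hker : E ≤ π.ker := hEK π.ker (fun z hz' => hexp z (hzc hz')) ha hy
  refine ⟨Shrink.{0} ↥E, inferInstance, A', inferInstance,
    CfsgLib.PCube.isExtraspecial_of_card hE'c (m.symm ⟨a, haE⟩) (m.symm ⟨y, hyE⟩) (fun h => hne
      (commutatorElement_eq_one_iff_mul_comm.mpr (show a * y = y * a from by
        have h' := congrArg (fun t => ((m t : ↥E) : P)) h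
        simpa [map_mul] using h'))),
    hE'c, ?_, fun u => ?_, ⟨e.trans (MulEquiv.prodCongr m.symm eA)⟩⟩
  · haveI : Nontrivial (Shrink.{0} ↥E) := Finite.one_lt_card_iff_nontrivial.mp
      (hE'c ▸ Nat.one_lt_pow three_ne_zero hpr.one_lt)
    refine ((Nat.dvd_prime hpr).mp (Monoid.exponent_dvd_of_forall_pow_eq_one fun g => m.injective ?_)).resolve_left fun h => ?_
    · rw [map_pow, map_one]
      exact Subtype.ext (hker (m g).2)
    · exact not_subsingleton _ (Monoid.exp_eq_one_iff.mp h)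
  · obtain ⟨v, rfl⟩ := eA.surjective u
    rw [← map_pow, show v ^ p = 1 from Subtype.ext (hexp _ (hAC v.2)), map_one]

/-- The case `p = 2`: a dihedral factor of order 8. -/
theorem exists_dihedral_prod (hP : IsPGroup 2 P) (Z : Subgroup P) (hZ : Nat.card ↥Z = 2) (hzc : Z ≤ Subgroup.center P)
    (hcl : ∀ u v : P, ⁅u, v⁆ ∈ Z) (hpow : ∀ u : P, u ^ 2 ∈ Z) (hexp : ∀ z ∈ Subgroup.center P, z ^ 2 = 1)
    {a y : P} (hne : ⁅a, y⁆ ≠ 1) (ha : a ^ 2 = 1) (hy : y ^ 2 = 1)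
    (hM : ∀ u v : P, u * y = y * u → v * y = y * v → u * v = v * u) :
    ∃ (A : Type) (_ : CommGroup A), (∀ a : A, a ^ 2 = 1) ∧ Nonempty (P ≃* DihedralGroup 4 × A) := by
  haveI : Fact (Nat.Prime 2) := ⟨Nat.prime_two⟩
  obtain ⟨E, A, hAC, haE, hyE, hcard, hEK, ⟨e⟩⟩ := exists_prod hP Z hZ hzc hcl hpow hexp hne ha hy hM
  obtain ⟨A', _, ⟨eA⟩⟩ := exists_small_abelian A hAC
  have hai : a⁻¹ = a := inv_eq_of_mul_eq_one_right (by rw [← pow_two, ha])
  have hyi : y⁻¹ = y := inv_eq_of_mul_eq_one_right (by rw [← pow_two, hy])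
  have hc : (a * y) ^ 2 = ⁅a, y⁆ := by rw [pow_two, commutatorElement_def, hai, hyi, mul_assoc (a * y)]
  set r : ↥E := ⟨a * y, mul_mem haE hyE⟩
  have hr : orderOf r = 4 := by
    refine orderOf_eq_prime_pow (p := 2) (n := 1) (fun h => hne ?_) (Subtype.ext ?_)
    · rw [← hc]; exact congrArg Subtype.val h
    · show (a * y) ^ 4 = 1
      rw [show 4 = 2 * 2 from rfl, pow_mul, hc, hexp _ (hzc (hcl a y))]
  obtain ⟨d⟩ := CfsgLib.CyclicPartition.dihedral_iso (r := r) (s := (⟨a, haE⟩ : ↥E)) hr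
    (fun h => by
      obtain ⟨i, hi⟩ := Subgroup.mem_zpowers_iff.mp h
      have hcomm : (⟨a, haE⟩ : ↥E) * r = r * ⟨a, haE⟩ := hi ▸ (Commute.zpow_self r i).eq
      have h2 : a * (a * y) = a * y * a := congrArg Subtype.val hcomm
      exact hne (commutatorElement_eq_one_iff_mul_comm.mpr (mul_left_cancel (h2.trans (mul_assoc a y a))) ))
    (Subtype.ext (by show a * a = 1; rw [← pow_two, ha]))
    (Subtype.ext (by show a * (a * y) * a⁻¹ = (a * y)⁻¹; rw [mul_inv_rev, hai, hyi, ← mul_assoc, ← pow_two a, ha, one_mul]))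
    (by rw [hcard]; rfl)
  refine ⟨A', inferInstance, fun u => ?_, ⟨e.trans (MulEquiv.prodCongr d eA)⟩⟩
  obtain ⟨v, rfl⟩ := eA.surjective u
  rw [← map_pow, show v ^ 2 = 1 from Subtype.ext (hexp _ (hAC v.2)), map_one]

end CfsgLib.Fusion.ExtraspecialProduct
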