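import Cfsg.Agent.Lib.Fusion.Over
import Cfsg.Agent.Lib.PResidual

/-! The action of the hyperfocal subgroup on a strongly closed subgroup. (helper6) -/

set_option autoImplicit false
set_option linter.unusedSectionVars false
set_option linter.style.haveILetI false

namespace CfsgLib.Fusion

open Cfsg Cfsg.FusionSystem

universe u

variable {Ω : Type u} [Group Ω] {S : Subgroup Ω} [Finite ↥S] {F : FusionSystem S} {p : ℕ} [Fact p.Prime]

/-- Elements of the hyperfocal subgroup act on a strongly closed `T` in `O^p(Aut_F(T)) Inn(T)`. -/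
theorem hyp_automizer (hS : IsPGroup p ↥S) (hF : F.IsSaturated p) {T : Subgroup Ω} (hT : F.StronglyClosed T) :
    ∀ x ∈ F.hyperfocalSubgroup p, ∃ α ∈ ((pResidual p ↥(F.autGroup T)).map (F.autGroup T).subtype ⊔ Inn ↥T :
      Subgroup (MulAut ↥T)), ∀ t : ↥T, ((α t : ↥T) : Ω) = x * (t : Ω) * x⁻¹ := by
  set A := F.autGroup T
  have hTn : S ≤ Subgroup.normalizer (T : Set Ω) := StronglyClosed.normal hT
  haveI := finite_of_le hT.1
  haveI := finite_aut_of_le hT.1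
  let c : ↥S →* ↥A := (T.normalizerMonoidHom.comp (Subgroup.inclusion hTn)).codRestrict A fun s =>
    autInducedBy_le_autGroup F hT.1 ((mem_autInducedBy _).mpr ⟨s, s.2, fun x => rfl⟩)
  let X : Subgroup ↥A := pResidual p ↥A ⊔ (Inn ↥T).subgroupOf A
  haveI hIn : ((Inn ↥T).subgroupOf A).Normal := ⟨fun a ha b => (innNormal ↥T).conj_mem _ ha _⟩
  haveI hXn : X.Normal := Subgroup.sup_normal _ _
  let π : ↥S →* ↥A ⧸ X := (QuotientGroup.mk' X).comp c
  have hQ : IsPGroup p (↥A ⧸ X) := by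
    refine (CfsgLib.PResidual.isPGroup_quotient (G := ↥A) (p := p)).of_surjective
      (QuotientGroup.map _ _ (MonoidHom.id _) (by rw [Subgroup.comap_id]; exact le_sup_left)) ?_
    intro y
    obtain ⟨b, rfl⟩ := QuotientGroup.mk'_surjective _ y
    exact ⟨QuotientGroup.mk b, rfl⟩
  have hπT : ∀ t : ↥S, (t : Ω) ∈ T → π t = 1 := fun t ht =>
    (QuotientGroup.eq_one_iff _).mpr (Subgroup.mem_sup_right
      (Subgroup.mem_subgroupOf.mpr ⟨⟨t, ht⟩, MulEquiv.ext fun y => Subtype.ext rfl⟩))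
  have key : ∀ (P : Subgroup Ω) (hP : P ≤ S) (a : MulAut ↥P), a ∈ F.autGroup P → ∃ b : ↥A ⧸ X,
      ∀ x : ↥P, π ⟨(a x : Ω), hP (a x).2⟩ = b * π ⟨(x : Ω), hP x.2⟩ * b⁻¹ := by
    intro P hP a ha
    obtain ⟨ψ, hψ, hψe⟩ := exists_extend_mod hS hF hT ((autGroup_carrier F hP a).mp ha)
    have hm := restrict_mem hψ (le_sup_right : T ≤ P ⊔ T)
    have hr := sc_map_eq hT (le_sup_right : T ≤ P ⊔ T) hψ
    refine ⟨QuotientGroup.mk ⟨isoOfMem hm hr, (autGroup_carrier F hT.1 _).mpr (by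
      rw [show (isoOfMem hm hr).toMonoidHom = _ from rfl, isoOfMem_hom hm hr]; exact hm)⟩, fun x => ?_⟩
    set β : MulAut ↥T := isoOfMem hm hr
    have hx' : ψ (Subgroup.inclusion le_sup_left x) ∈ S := apply_mem_S hψ _
    have h1 : π ⟨(a x : Ω), hP (a x).2⟩ = π ⟨_, hx'⟩ := by
      have h2 := hπT (⟨(a x : Ω), hP (a x).2⟩⁻¹ * ⟨_, hx'⟩) (hψe x)
      rw [map_mul, map_inv, inv_mul_eq_one] at h2
      exact h2
    rw [h1]
    show QuotientGroup.mk' X (c ⟨_, hx'⟩) = QuotientGroup.mk' X _ * QuotientGroup.mk' X (c ⟨(x : Ω), hP x.2⟩) *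
      (QuotientGroup.mk' X _)⁻¹
    rw [← map_inv, ← map_mul, ← map_mul]
    refine congrArg _ (Subtype.ext (MulEquiv.ext fun t => Subtype.ext ?_))
    obtain ⟨w, rfl⟩ := β.surjective t
    show ψ (Subgroup.inclusion le_sup_left x) * (β w : Ω) * (ψ (Subgroup.inclusion le_sup_left x))⁻¹ =
      ((β (T.normalizerMonoidHom ⟨(x : Ω), hTn (hP x.2)⟩ (β⁻¹ (β w))) : ↥T) : Ω)
    rw [MulAut.inv_apply_self, isoOfMem_coe hm hr, isoOfMem_coe hm hr]
    show ψ _ * ψ (Subgroup.inclusion le_sup_right w) * (ψ _)⁻¹ = ψ _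
    rw [← map_inv, ← map_mul, ← map_mul]
    exact congrArg ψ (Subtype.ext rfl)
  let H : Subgroup Ω := π.ker.map S.subtype
  suffices hle : F.hyperfocalSubgroup p ≤ H by
    intro x hx
    obtain ⟨s, hs, rfl⟩ := hle hx
    refine ⟨(c s : MulAut ↥T), ?_, fun t => rfl⟩
    have h : c s ∈ X := (QuotientGroup.eq_one_iff (N := X) (c s)).mp hs
    have h2 : (c s : MulAut ↥T) ∈ X.map A.subtype := ⟨c s, h, rfl⟩
    rw [Subgroup.map_sup] at h2
    exact sup_le_sup_left (Subgroup.map_subtype_le_map_subtype.mpr le_rfl) _ |>.trans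
      (sup_le_sup le_rfl (by rintro _ ⟨a, ha, rfl⟩; exact ha)) h2
  refine hyp_le_of F H fun P hP a ha x => ?_
  haveI := finite_of_le hP
  haveI := finite_aut_of_le hP
  obtain ⟨b, hb⟩ := key P hP (a : MulAut ↥P) a.2
  have hpow : ∀ (n : ℕ) (y : ↥P), π ⟨(((a ^ n : ↥(F.autGroup P)) : MulAut ↥P) y : Ω), hP (SetLike.coe_mem _)⟩ =
      b ^ n * π ⟨(y : Ω), hP y.2⟩ * (b ^ n)⁻¹ := by
    intro n
    induction n with
    | zero => intro y; simp
    | succ n ih =>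
      intro y
      have e : ((a ^ (n + 1) : ↥(F.autGroup P)) : MulAut ↥P) y =
          (a : MulAut ↥P) (((a ^ n : ↥(F.autGroup P)) : MulAut ↥P) y) := by rw [pow_succ']; rfl
      simp only [e]
      rw [hb, ih, pow_succ' b]
      group
  obtain ⟨k, hk⟩ := hQ b
  have hco : (orderOf a).Coprime (p ^ k) := ha.pow_right k
  obtain ⟨m, hm⟩ := exists_pow_eq_self_of_coprime hco.symm
  have hπa : π ⟨((a : MulAut ↥P) x : Ω), hP (SetLike.coe_mem _)⟩ = π ⟨(x : Ω), hP x.2⟩ := by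
    have h := hpow (p ^ k * m) x
    rw [pow_mul, pow_mul, hk, one_pow, one_mul, inv_one, mul_one] at h
    rw [← h]
    congr 1
    exact Subtype.ext (by rw [hm])
  refine ⟨⟨(x : Ω), hP x.2⟩⁻¹ * ⟨_, hP ((a : MulAut ↥P) x).2⟩, ?_, rfl⟩
  show π _ = 1
  rw [map_mul, map_inv, hπa, inv_mul_cancel]

end CfsgLib.Fusion
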