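import Cfsg.Agent.Lib.Fusion.MinimalRealization
import Cfsg.Agent.Lib.Fusion.ModelUnique
import Cfsg.Agent.Lib.PSolvable
import Cfsg.Agent.Lib.Fusion.Model

/-! Fusion systems of `p`-solvable groups. (helper6) -/

set_option autoImplicit false
set_option linter.unusedSectionVars false
set_option linter.style.haveILetI false

namespace CfsgLib.Fusion

open Cfsg Cfsg.FusionSystem

universe u

/-- Extensions by normal `p`-subgroups of `p`-solvable groups are `p`-solvable. -/
theorem isPSolvable_of_quotient {G : Type*} [Group G] {p : ℕ} [Fact p.Prime] [Finite G] (N : Subgroup G) [N.Normal]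
    (hN : IsPGroup p ↥N) (h : IsPSolvable p (G ⧸ N)) : IsPSolvable p G := by
  obtain ⟨n, M, h0, h1, hm, hn, hstep⟩ := h
  set π := QuotientGroup.mk' N
  have hker : π.ker = N := QuotientGroup.ker_mk' N
  let H : Fin (n + 1 + 1) → Subgroup G := Fin.cases ⊥ fun i => (M i).comap π
  have hH0 : H 0 = ⊥ := rfl
  have hHs : ∀ i : Fin (n + 1), H i.succ = (M i).comap π := fun i => Fin.cases_succ _
  refine ⟨n + 1, H, hH0, ?_, ?_, ?_, ?_⟩
  · rw [← Fin.succ_last, hHs, h1, Subgroup.comap_top]
  · refine Fin.monotone_iff_le_succ.mpr fun i => ?_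
    induction i using Fin.cases with
    | zero => exact bot_le
    | succ j =>
      rw [← Fin.succ_castSucc, hHs, hHs]
      exact Subgroup.comap_mono (hm (Fin.castSucc_le_succ j))
  · intro i
    induction i using Fin.cases with
    | zero => rw [hH0]; infer_instance
    | succ j => rw [hHs]; exact (hn j).comap π
  · intro i
    induction i using Fin.cases with
    | zero =>
      left
      rw [Fin.castSucc_zero, hH0, hHs, h0, MonoidHom.comap_bot, hker, Subgroup.relIndex_bot_left]
      exact hN.exists_card_eq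
    | succ j =>
      rw [← Fin.succ_castSucc, hHs, hHs, Subgroup.relIndex_comap,
        Subgroup.map_comap_eq_self_of_surjective (QuotientGroup.mk'_surjective N)]
      exact hstep j

variable {Ω : Type u} [Group Ω] {S : Subgroup Ω} [Finite ↥S] {F : FusionSystem S} {p : ℕ} [Fact p.Prime]

/-- The action of a model on the core of the system. -/
theorem exists_core_action (hS : IsPGroup p ↥S) {G : Type*} [Group G] [Finite G] {ι : ↥S →* G}
    (hG : F.IsModel p G ι) :
    ∃ Φ : G →* ↥(F.autGroup F.core), Function.Surjective Φ ∧ IsPGroup p ↥Φ.ker := by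
  have hmem := model_mem_pCore p hS hG
  obtain ⟨-, hreal, ⟨T, hT⟩, hC⟩ := hG
  haveI := CfsgLib.Core.pCore_characteristic (G := G) p
  have hKn : (pCore p G).Normal := inferInstance
  have hK : pCore p G ≤ ι.range := hT ▸ CfsgLib.Core.pCore_le_sylow T
  have hQS : F.core ≤ S := (isNormal_core F).1
  have hex : ∀ (g : G) (x : ↥F.core), ∃ y : ↥F.core, ι ⟨(y : Ω), hQS y.2⟩ = g * ι ⟨(x : Ω), hQS x.2⟩ * g⁻¹ := by
    intro g x
    have h1 := hKn.conj_mem _ ((hmem ⟨(x : Ω), hQS x.2⟩).mpr x.2) g
    obtain ⟨s, hs⟩ := hK h1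
    exact ⟨⟨(s : Ω), (hmem s).mp (hs ▸ h1)⟩, hs⟩
  choose act hact using hex
  have hinj : ∀ {y z : ↥F.core}, ι ⟨(y : Ω), hQS y.2⟩ = ι ⟨(z : Ω), hQS z.2⟩ → y = z := fun h =>
    Subtype.ext (congrArg Subtype.val (hreal.1 h) :)
  have hone : ∀ x, act 1 x = x := fun x => hinj (by rw [hact]; simp)
  have hmul : ∀ g h x, act (g * h) x = act g (act h x) := fun g h x => hinj (by rw [hact, hact, hact]; group)
  let toAut : G →* MulAut ↥F.core := MonoidHom.mk'
    (fun g => { toFun := act g, invFun := act g⁻¹,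
                left_inv := fun x => by rw [← hmul, inv_mul_cancel, hone],
                right_inv := fun x => by rw [← hmul, mul_inv_cancel, hone],
                map_mul' := fun x y => hinj (by
                  rw [hact]
                  show g * ι (⟨(x : Ω), hQS x.2⟩ * ⟨(y : Ω), hQS y.2⟩) * g⁻¹ =
                    ι (⟨(act g x : Ω), hQS (act g x).2⟩ * ⟨(act g y : Ω), hQS (act g y).2⟩)
                  rw [map_mul, map_mul, hact, hact]; group) })
    fun g h => MulEquiv.ext fun x => hmul g h x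
  have hin : ∀ g, toAut g ∈ F.autGroup F.core := fun g =>
    (autGroup_carrier F hQS _).mpr ((hreal.2 _ hQS _ fun x => hQS (toAut g x).2).mpr ⟨g, hact g⟩)
  refine ⟨toAut.codRestrict _ hin, ?_, ?_⟩
  · rintro ⟨a, ha⟩
    obtain ⟨g, hg⟩ := (hreal.2 _ hQS _ fun x => hQS (a x).2).mp ((autGroup_carrier F hQS a).mp ha)
    exact ⟨g, Subtype.ext (MulEquiv.ext fun x => hinj ((hact g x).trans (hg x).symm))⟩
  · refine (CfsgLib.Core.isPGroup_pCore (G := G) p).to_le fun g hg => hC ?_
    refine Subgroup.mem_centralizer_iff.mpr fun k hk => ?_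
    obtain ⟨s, rfl⟩ := hK hk
    have h1 : act g ⟨(s : Ω), (hmem s).mp hk⟩ = ⟨(s : Ω), (hmem s).mp hk⟩ :=
      DFunLike.congr_fun (congrArg Subtype.val (MonoidHom.mem_ker.mp hg) : toAut g = 1) _
    have h2 := hact g ⟨(s : Ω), (hmem s).mp hk⟩
    rw [h1] at h2
    calc ι s * g = g * ι s * g⁻¹ * g := by rw [← h2]
      _ = g * ι s := by group

/-- Realization by a `p`-solvable group. -/
theorem pSolvable_realization_iff (hS : IsPGroup p ↥S) :
    (∃ (G : Type u) (_ : Group G) (_ : Finite G) (ι : ↥S →* G), IsPSolvable p G ∧ F.IsRealizedBy ι ∧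
      ∃ T : Sylow p G, (T : Subgroup G) = ι.range) ↔ (F.IsConstrained p ∧ IsPSolvable p ↥(F.autGroup F.core)) := by
  constructor
  · rintro ⟨G, _, _, ι, hsol, hreal, T, hT⟩
    haveI := CfsgLib.PConstrained.pPrimeCore_normal (G := G) (p := p)
    set N := pPrimeCore p G
    have hco : (Nat.card ↥N).Coprime p := CfsgLib.Core.card_pPrimeCore_coprime p
    have hsol' : IsPSolvable p (G ⧸ N) := CfsgLib.PSolvable.map _ (QuotientGroup.mk'_surjective N) hsol
    have hG : F.IsModel p (G ⧸ N) ((QuotientGroup.mk' N).comp ι) :=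
      ⟨inferInstance, realizedBy_quotient hS hreal N hco,
        ⟨T.mapSurjective (QuotientGroup.mk'_surjective N), by rw [Sylow.coe_mapSurjective, hT, MonoidHom.range_comp]⟩,
        CfsgLib.PSolvable.charP hsol' (CfsgLib.Core.pPrimeCore_quotient_eq_bot p)⟩
    obtain ⟨Φ, hΦ, -⟩ := exists_core_action hS hG
    exact ⟨isConstrained_of_model p hG, CfsgLib.PSolvable.map Φ hΦ hsol'⟩
  · rintro ⟨hc, hsol⟩
    obtain ⟨G, i1, ι, hG⟩ := CfsgLib.Model.exists_model p hS hc
    haveI : Finite G := hG.1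
    refine ⟨G, i1, inferInstance, ι, ?_, hG.2.1, hG.2.2.1⟩
    obtain ⟨Φ, hΦ, hker⟩ := exists_core_action hS hG
    refine isPSolvable_of_quotient Φ.ker hker (CfsgLib.PSolvable.map
      (QuotientGroup.quotientKerEquivOfSurjective Φ hΦ).symm.toMonoidHom (MulEquiv.surjective _) hsol)

end CfsgLib.Fusion
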