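import Cfsg.Agent.Lib.Fusion.SaturationMain
import Cfsg.Agent.Lib.Fusion.CentricExt
import Cfsg.Agent.Lib.Fusion.Transport
import Cfsg.Prelude.Def_FusionComponents

/-! The least saturated subsystem of index prime to `p`. (helper6) -/

set_option autoImplicit false
set_option linter.unusedSectionVars false
set_option linter.style.haveILetI false

namespace CfsgLib.Fusion

open Cfsg Cfsg.FusionSystem

universe u

variable {Ω : Type u} [Group Ω] {S : Subgroup Ω} [Finite ↥S] {F : FusionSystem S} {p : ℕ} [Fact p.Prime]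

/-- `D` contains the `p`-elements on centric subgroups and the automorphisms of `S` agreeing on one with its maps. -/
def PPrimeClosed (F : FusionSystem S) (p : ℕ) (D : FusionSystem S) : Prop :=
  (∀ (P : Subgroup Ω), F.IsCentric P → ∀ a : ↥(F.autGroup P), (∃ k : ℕ, orderOf a = p ^ k) →
      (a : MulAut ↥P) ∈ D.autGroup P) ∧
    ∀ (P : Subgroup Ω) (hP : P ≤ S), F.IsCentric P → ∀ α ∈ F.autGroup S,
      (S.subtype.comp α.toMonoidHom).comp (Subgroup.inclusion hP) ∈ D.Hom P → α ∈ D.autGroup S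

theorem pPrimeClosed_self (F : FusionSystem S) (p : ℕ) : PPrimeClosed F p F :=
  ⟨fun _ _ a _ => a.2, fun _ _ _ _ hα _ => hα⟩

theorem inverse_unique {D : FusionSystem S} {P : Subgroup Ω} {φ : ↥P →* Ω} (hφ : φ ∈ D.Hom P)
    {ψ : ↥φ.range →* Ω} (hψ : ∀ x : P, ψ ⟨φ x, ⟨x, rfl⟩⟩ = (x : Ω)) : ψ ∈ D.Hom φ.range := by
  obtain ⟨ψ', hψ', hψ'e⟩ := D.inv_mem hφ
  have : ψ = ψ' := MonoidHom.ext fun ⟨_, x, rfl⟩ => (hψ x).trans (hψ'e x).symm
  exact this ▸ hψ'

/-- The least closed system. -/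
def residualSystem (F : FusionSystem S) (p : ℕ) : FusionSystem S where
  Hom P := {φ | ∀ D : FusionSystem S, PPrimeClosed F p D → φ ∈ D.Hom P}
  le_of_mem h := F.le_of_mem (h F (pPrimeClosed_self F p))
  injective_of_mem h := F.injective_of_mem (h F (pPrimeClosed_self F p))
  conj_mem hP hg D _ := D.conj_mem hP hg
  comp_mem hφ hψ h D hD := D.comp_mem (hφ D hD) (hψ D hD) h
  inv_mem hφ := by
    obtain ⟨ψ, -, hψe⟩ := F.inv_mem (hφ F (pPrimeClosed_self F p))
    exact ⟨ψ, fun D hD => inverse_unique (hφ D hD) hψe, hψe⟩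

theorem residual_le {D : FusionSystem S} (hD : PPrimeClosed F p D) : residualSystem F p ≤ D :=
  fun _ _ hφ => hφ D hD

theorem residual_le_self : residualSystem F p ≤ F := residual_le (pPrimeClosed_self F p)

theorem residual_closed (F : FusionSystem S) (p : ℕ) : PPrimeClosed F p (residualSystem F p) := by
  refine ⟨fun P hP a ha => (autGroup_carrier _ hP.1 _).mpr fun D hD =>
    (autGroup_carrier D hP.1 _).mp (hD.1 P hP a ha), fun P hPS hP α hα h => (autGroup_carrier _ le_rfl _).mpr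
      fun D hD => (autGroup_carrier D le_rfl _).mp (hD.2 P hPS hP α hα (h D hD))⟩

theorem centric_of_centric_conj {Q R : Subgroup Ω} (h : F.IsConj Q R) (hQ : F.IsCentric Q) : F.IsCentric R :=
  ⟨IsConj.le_right h, fun X hX => hQ.2 X (IsConj.trans h hX)⟩

/-- The conjugation of maps of the residual system by an automorphism of the system on `S`. -/
def Twisted (F : FusionSystem S) (p : ℕ) (α : MulAut ↥S) {P : Subgroup Ω} (φ : ↥P →* Ω) : Prop :=
  ∃ φ' ∈ (residualSystem F p).Hom (img α P), Corr α φ φ'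

theorem residual_twist_iso (I : FIso F F) {P : Subgroup Ω} {φ : ↥P →* Ω}
    (hφ : φ ∈ (residualSystem F p).Hom P) : Twisted F p I.e φ := by
  set α := I.e
  set E := residualSystem F p
  let M : ∀ A : Subgroup Ω, (↥A →* Ω) → Prop := fun _ φ => φ ∈ E.Hom _ ∧ Twisted F p α φ
  let D := subsystem F M (fun {A g} hA hg => ⟨E.conj_mem hA hg,
      conjHom (img α A) ((α ⟨g, hg⟩ : ↥S) : Ω), E.conj_mem (img_le _ _) (α ⟨g, hg⟩).2, fun x =>
        ⟨hA x.2, S.mul_mem (S.mul_mem hg (hA x.2)) (S.inv_mem hg), (apply_mem_img α).mpr x.2, by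
          show (α ⟨g, hg⟩ : Ω) * (α ⟨x, _⟩ : Ω) * (α ⟨g, hg⟩ : Ω)⁻¹ = _
          rw [← Subgroup.coe_inv, ← Subgroup.coe_mul, ← Subgroup.coe_mul, ← map_inv, ← map_mul, ← map_mul]
          rfl⟩⟩)
    (fun {A B f g} _ hf _ hg h => ⟨E.comp_mem hf.1 hg.1 h, by
      obtain ⟨f', hf', hcf⟩ := hf.2
      obtain ⟨g', hg', hcg⟩ := hg.2
      have hv : ∀ z, f' z ∈ img α B := by
        rintro ⟨z, hz⟩
        obtain ⟨w, hw, rfl⟩ := (mem_img α).mp hz
        obtain ⟨h1, h2, h3, h4⟩ := hcf ⟨w, hw⟩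
        rw [show f' ⟨(α w : Ω), hz⟩ = _ from h4]
        exact (apply_mem_img α).mpr (h _)
      refine ⟨_, E.comp_mem hf' hg' hv, fun x => ?_⟩
      obtain ⟨h1, h2, h3, h4⟩ := hcf x
      obtain ⟨k1, k2, k3, k4⟩ := hcg ⟨f x, h x⟩
      exact ⟨h1, k2, h3, (congrArg g' (Subtype.ext h4)).trans k4⟩⟩)
    (fun {A f} _ hf g _ hge => ⟨inverse_unique hf.1 hge, by
      obtain ⟨f', hf', hcf⟩ := hf.2
      obtain ⟨g', hg', hg'e⟩ := E.inv_mem hf'
      refine ⟨_, restrict_mem hg' (hcf.range).ge, ?_⟩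
      rintro ⟨_, x, rfl⟩
      obtain ⟨h1, h2, h3, h4⟩ := hcf x
      refine ⟨h2, (hge x).symm ▸ h1, (apply_mem_img α).mpr ⟨x, rfl⟩, ?_⟩
      refine ((congrArg g' (Subtype.ext h4.symm)).trans (hg'e ⟨_, h3⟩)).trans ?_
      exact congrArg (fun v : ↥S => (α v : Ω)) (Subtype.ext (hge x).symm)⟩)
  refine ((residual_le (D := D) ⟨fun P hP a ha => ?_, fun P hPS hP β hβ hres => ?_⟩) P hφ).2.2
  · refine (autGroup_carrier D hP.1 _).mpr ⟨(autGroup_carrier F hP.1 _).mp a.2,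
      (autGroup_carrier E hP.1 _).mp ((residual_closed F p).1 P hP a ha), ?_⟩
    set g := imgEquiv α hP.1
    have hmem : MulAut.congr g (a : MulAut ↥P) ∈ F.autGroup (img α P) := I.mem_autGroup hP.1 a.2
    have hord : orderOf (⟨_, hmem⟩ : ↥(F.autGroup (img α P))) = orderOf a := by
      rw [← Subgroup.orderOf_coe, ← Subgroup.orderOf_coe a]
      exact MulEquiv.orderOf_eq _ _
    refine ⟨_, (autGroup_carrier E (img_le _ _) _).mp ((residual_closed F p).1 _ (I.centric hP)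
      ⟨_, hmem⟩ (hord ▸ ha)), fun x => ⟨hP.1 x.2, hP.1 (SetLike.coe_mem _), (apply_mem_img α).mpr x.2, ?_⟩⟩
    show ((g ((a : MulAut ↥P) (g.symm (g x))) : ↥(img α P)) : Ω) = _
    rw [MulEquiv.symm_apply_apply]
    rfl
  · obtain ⟨-, hresE, f', hf', hc⟩ := hres
    refine (autGroup_carrier D le_rfl _).mpr ⟨(autGroup_carrier F le_rfl _).mp hβ,
      (autGroup_carrier E le_rfl _).mp ((residual_closed F p).2 P hPS hP β hβ hresE), ?_⟩
    set γ : MulAut ↥S := (α.symm.trans β).trans α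
    have hγF : γ ∈ F.autGroup S := by
      obtain ⟨b', hb', hcb⟩ := I.fwd S _ ((autGroup_carrier F le_rfl β).mp hβ)
      refine (autGroup_carrier F le_rfl γ).mpr (restrict_mem_of_eq hb'
        (fun y hy => (mem_img α).mpr ⟨α.symm ⟨y, hy⟩, SetLike.coe_mem _, by simp⟩) fun y => ?_)
      obtain ⟨h1, h2, h3, h4⟩ := hcb (α.symm y)
      refine Eq.trans ?_ (h4.symm.trans (congrArg b' (Subtype.ext ?_)))
      · rfl
      · show ((α (α.symm y) : ↥S) : Ω) = y
        rw [MulEquiv.apply_symm_apply]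
    have hγ : γ ∈ E.autGroup S := by
      refine (residual_closed F p).2 _ (img_le _ _) (I.centric hP) γ hγF ?_
      refine restrict_mem_of_eq hf' le_rfl fun y => ?_
      obtain ⟨w, hw, hwy⟩ := (mem_img α).mp y.2
      obtain ⟨h1, h2, h3, h4⟩ := hc ⟨w, hw⟩
      show ((α (β (α.symm ⟨(y : Ω), _⟩)) : ↥S) : Ω) = f' ⟨(y : Ω), _⟩
      rw [show (⟨(y : Ω), img_le α P y.2⟩ : ↥S) = α w from Subtype.ext hwy.symm, MulEquiv.symm_apply_apply]
      exact h4.symm.trans (congrArg f' (Subtype.ext hwy))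
    refine ⟨_, restrict_mem ((autGroup_carrier E le_rfl γ).mp hγ) (img_le α S), fun x =>
      ⟨x.2, SetLike.coe_mem _, (apply_mem_img α).mpr x.2, ?_⟩⟩
    show ((α (β (α.symm (α _))) : ↥S) : Ω) = _
    rw [MulEquiv.symm_apply_apply]
    rfl

/-- An automorphism of `S` in the system, as an automorphism of the system. -/
def autIso {α : MulAut ↥S} (hα : α ∈ F.autGroup S) : FIso F F :=
  have fw : ∀ b : MulAut ↥S, S.subtype.comp b.toMonoidHom ∈ F.Hom S →
      ∀ (P : Subgroup Ω) (φ : ↥P →* Ω), φ ∈ F.Hom P → ∃ φ' ∈ F.Hom (img b P), Corr b φ φ' := by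
    intro b hb P φ hφ
    have hb' := symm_mem b hb
    have hP := le_S hφ
    have hle : img b P ≤ S := img_le _ _
    have hv : ∀ y : ↥(img b P), ((S.subtype.comp b.symm.toMonoidHom).comp (Subgroup.inclusion hle)) y ∈ P :=
      fun y => (symm_mem_img b (y := ⟨y, hle y.2⟩)).mp y.2
    have h1 := F.comp_mem (restrict_mem hb' hle) hφ hv
    have h2 := F.comp_mem h1 hb fun y => apply_mem_S hφ _
    refine ⟨_, h2, fun x => ⟨hP x.2, apply_mem_S hφ x, (apply_mem_img b).mpr x.2, ?_⟩⟩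
    refine congrArg (fun u : ↥S => (b u : Ω)) (Subtype.ext (congrArg φ (Subtype.ext ?_)))
    exact congrArg (fun u : ↥S => (u : Ω)) (b.symm_apply_apply ⟨x, hP x.2⟩)
  ⟨α, fw α ((autGroup_carrier F le_rfl α).mp hα), fw α.symm (symm_mem α ((autGroup_carrier F le_rfl α).mp hα))⟩

theorem residual_twist {α : MulAut ↥S} (hα : α ∈ F.autGroup S) {P : Subgroup Ω} {φ : ↥P →* Ω}
    (hφ : φ ∈ (residualSystem F p).Hom P) : Twisted F p α φ :=
  residual_twist_iso (autIso hα) hφ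

/-- The map is an automorphism of `S` following a map of the residual system. -/
def Frat (F : FusionSystem S) (p : ℕ) {P : Subgroup Ω} (φ : ↥P →* Ω) : Prop :=
  ∃ α ∈ F.autGroup S, ∃ φ₀ ∈ (residualSystem F p).Hom P, ∀ (x : ↥P) (h : φ₀ x ∈ S), φ x = ((α ⟨φ₀ x, h⟩ : ↥S) : Ω)

theorem residual_frattini (hS : IsPGroup p ↥S) (hF : F.IsSaturated p) {P : Subgroup Ω} {φ : ↥P →* Ω}
    (hφ : φ ∈ F.Hom P) : Frat F p φ := by
  set E := residualSystem F p
  let D := subsystem F (fun _ φ => Frat F p φ)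
    (fun {A g} hA hg => ⟨1, one_mem _, _, E.conj_mem hA hg, fun x h => rfl⟩)
    (fun {A B f g} _ hf _ hg h => by
      obtain ⟨a, ha, f₀, hf₀, hfe⟩ := hf
      obtain ⟨b, hb, g₀, hg₀, hge⟩ := hg
      obtain ⟨g₁, hg₁, hc⟩ := residual_twist (inv_mem ha) hg₀
      have hv : ∀ x, f₀ x ∈ img (a⁻¹ : MulAut ↥S) B := fun x => by
        refine (mem_img _).mpr ⟨a ⟨f₀ x, apply_mem_S hf₀ x⟩, ?_, ?_⟩
        · rw [← hfe]; exact h x
        · rw [MulAut.inv_apply_self]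
      refine ⟨b * a, mul_mem hb ha, _, E.comp_mem hf₀ hg₁ hv, fun x hx => ?_⟩
      obtain ⟨k1, k2, k3, k4⟩ := hc ⟨f x, h x⟩
      have e1 : (a⁻¹ : MulAut ↥S) ⟨f x, k1⟩ = ⟨f₀ x, apply_mem_S hf₀ x⟩ := by
        rw [show (⟨f x, k1⟩ : ↥S) = a ⟨f₀ x, apply_mem_S hf₀ x⟩ from Subtype.ext (hfe x _), MulAut.inv_apply_self]
      have e3 : (⟨g₀ ⟨f x, h x⟩, apply_mem_S hg₀ _⟩ : ↥S) = a ⟨g₁ ⟨f₀ x, hv x⟩, apply_mem_S hg₁ _⟩ := by
        have : (⟨g₁ ⟨f₀ x, hv x⟩, apply_mem_S hg₁ _⟩ : ↥S) = (a⁻¹ : MulAut ↥S) ⟨g₀ ⟨f x, h x⟩, k2⟩ := by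
          refine Subtype.ext (Eq.trans ?_ k4)
          exact congrArg g₁ (Subtype.ext (congrArg Subtype.val e1).symm)
        rw [this, MulAut.apply_inv_self]
      show g ⟨f x, h x⟩ = ((b (a ⟨g₁ ⟨f₀ x, hv x⟩, hx⟩) : ↥S) : Ω)
      rw [hge ⟨f x, h x⟩ (apply_mem_S hg₀ _), e3])
    (fun {A f} _ hf g _ hge => by
      obtain ⟨a, ha, f₀, hf₀, hfe⟩ := hf
      obtain ⟨ψ, hψ, hψe⟩ := E.inv_mem hf₀
      obtain ⟨ψ', hψ', hc⟩ := residual_twist ha hψ
      have hle : f.range ≤ img a f₀.range := by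
        rintro _ ⟨x, rfl⟩
        rw [hfe x (apply_mem_S hf₀ x)]
        exact (apply_mem_img a).mpr ⟨x, rfl⟩
      refine ⟨a⁻¹, inv_mem ha, _, restrict_mem hψ' hle, ?_⟩
      rintro ⟨_, x, rfl⟩ hx
      obtain ⟨k1, k2, k3, k4⟩ := hc ⟨f₀ x, ⟨x, rfl⟩⟩
      have e1 : (⟨ψ'.comp (Subgroup.inclusion hle) ⟨f x, ⟨x, rfl⟩⟩, hx⟩ : ↥S) = a ⟨ψ ⟨f₀ x, ⟨x, rfl⟩⟩, k2⟩ := by
        refine Subtype.ext (Eq.trans ?_ k4)
        exact congrArg ψ' (Subtype.ext (hfe x _))
      rw [e1, MulAut.inv_apply_self, hge]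
      exact (hψe x).symm)
  refine ((le_of_autGroup p hS hF D fun R hR hbig => ?_) P hφ).2
  by_cases hcr : F.IsCentric R ∧ F.IsRadical p R
  swap
  · exact autGroup_le_of_not_centric_radical p hS hF D hR hcr hbig
  intro γ hγ
  refine (autGroup_carrier D hR.1 γ).mpr ⟨(autGroup_carrier F hR.1 γ).mp hγ, ?_⟩
  rcases eq_or_lt_of_le hR.1 with rfl | hlt
  · exact ⟨γ, hγ, R.subtype, incl_mem _ le_rfl, fun x h => rfl⟩
  haveI := finite_aut_of_le hR.1
  haveI := finite_of_le hR.1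
  obtain ⟨-, T, hT⟩ := fullyNormalized_automized p hS hF hR
  set K := Subgroup.closure {a : ↥(F.autGroup R) | ∃ k : ℕ, orderOf a = p ^ k}
  haveI : K.Normal := ⟨fun x hx c => by
    have h : K ≤ K.comap (MulAut.conj c).toMonoidHom := by
      refine (Subgroup.closure_le _).mpr fun y ⟨k, hk⟩ => Subgroup.subset_closure ⟨k, ?_⟩
      rw [← hk]
      exact MulEquiv.orderOf_eq (MulAut.conj c) y
    exact h hx⟩
  have hTK : (T : Subgroup ↥(F.autGroup R)) ≤ K := fun t ht => Subgroup.subset_closure (by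
    obtain ⟨k, hk⟩ := T.2 ⟨t, ht⟩
    obtain ⟨j, -, hj⟩ := (Nat.dvd_prime_pow (Fact.out : p.Prime)).mp
      (orderOf_dvd_of_pow_eq_one (congrArg Subtype.val hk : t ^ p ^ k = 1))
    exact ⟨j, hj⟩)
  have hKE : K.map (F.autGroup R).subtype ≤ E.autGroup R := by
    rw [Subgroup.map_le_iff_le_comap]
    exact (Subgroup.closure_le _).mpr fun a ha => (residual_closed F p).1 R hcr.1 a ha
  have htop : Subgroup.normalizer ((T : Subgroup ↥(F.autGroup R)) : Set ↥(F.autGroup R)) ⊔ K = ⊤ := by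
    have h := Sylow.normalizer_sup_eq_top (N := K) (T.subtype hTK)
    rwa [show ((T.subtype hTK : Sylow p ↥K) : Subgroup ↥K).map K.subtype = T from
      Subgroup.map_subgroupOf_eq_of_le hTK] at h
  obtain ⟨n, hn, k, hk, hnk⟩ :=
    Subgroup.mem_sup_of_normal_right.mp (htop.ge (Subgroup.mem_top (⟨γ, hγ⟩ : ↥(F.autGroup R))))
  set φn : ↥R →* Ω := R.subtype.comp (n : MulAut ↥R).toMonoidHom
  have hφn : φn ∈ F.Hom R := (autGroup_carrier F hR.1 _).mp n.2
  have hrn : φn.range = R := by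
    ext y
    exact ⟨fun ⟨x, hx⟩ => hx ▸ ((n : MulAut ↥R) x).2, fun hy => ⟨(n : MulAut ↥R).symm ⟨y, hy⟩, by simp [φn]⟩⟩
  obtain ⟨Ψ, hΨ, hΨe⟩ := (fullyNormalized_receptive p hS hF hR).2 R φn hφn hrn
  have hNext : normalizerIn S R ≤ extender S R φn := by
    intro g hg
    have hgT : (⟨_, autInducedBy_le_autGroup F hR.1 ((mem_autInducedBy (R.normalizerMonoidHom ⟨g, hg.2⟩)).mpr
        ⟨g, hg.1, fun x => rfl⟩)⟩ : ↥(F.autGroup R)) ∈ (T : Subgroup ↥(F.autGroup R)) := by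
      rw [hT]
      exact (mem_autInducedBy _).mpr ⟨g, hg.1, fun x => rfl⟩
    obtain ⟨h, hh, hhe⟩ := (mem_autInducedBy _).mp (hT.le ((Subgroup.mem_normalizer_iff.mp hn _).mp hgT))
    refine mem_extender hg hh fun x hx => ?_
    have h4 := hhe ((n : MulAut ↥R) x)
    have hx' : R.normalizerMonoidHom ⟨g, hg.2⟩ x = ⟨g * x * g⁻¹, hx⟩ := Subtype.ext rfl
    simpa [φn, hx'] using h4
  have hRlt : R < extender S R φn := (lt_normalizerIn p hS hlt).trans_le hNext
  haveI : Finite ↥(extender S R φn) := finite_of_le ((extender_le S R φn).trans inf_le_left)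
  obtain ⟨-, b, hb, f₀, hf₀, hfe⟩ := hbig _ (Set.Finite.card_lt_card (Set.toFinite _) hRlt) hΨ
  have hkE : (k : MulAut ↥R) ∈ E.autGroup R := hKE ⟨k, hk, rfl⟩
  have hk' := (autGroup_carrier E hR.1 _).mp hkE
  have hkv : ∀ x : ↥R, (R.subtype.comp (k : MulAut ↥R).toMonoidHom) x ∈ extender S R φn :=
    fun x => hRlt.le ((k : MulAut ↥R) x).2
  refine ⟨b, hb, _, E.comp_mem hk' hf₀ hkv, fun x hx => ?_⟩
  have e1 : γ = (n : MulAut ↥R) * (k : MulAut ↥R) := congrArg Subtype.val hnk.symm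
  have e2 := hΨe _ ((k : MulAut ↥R) x).2 (hRlt.le ((k : MulAut ↥R) x).2)
  show ((γ x : ↥R) : Ω) = _
  rw [e1, MulAut.mul_apply]
  exact e2.symm.trans (hfe _ hx)

/-- The residual system contains every automorphism of `p`-power order. -/
theorem residual_pElements (hS : IsPGroup p ↥S) (hF : F.IsSaturated p) {P : Subgroup Ω} (hP : P ≤ S)
    (a : ↥(F.autGroup P)) (ha : ∃ k : ℕ, orderOf a = p ^ k) : (a : MulAut ↥P) ∈ (residualSystem F p).autGroup P := by
  set E := residualSystem F p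
  obtain ⟨R, hPR, hR⟩ := exists_fullyNormalized F hP
  obtain ⟨φ, hφ, hφR⟩ := hPR
  haveI := finite_aut_of_le hR.1
  set e := isoOfMem hφ hφR
  have he : R.subtype.comp e.toMonoidHom ∈ F.Hom P := by rwa [isoOfMem_hom hφ hφR]
  have hmem : MulAut.congr e (a : MulAut ↥P) ∈ F.autGroup R :=
    (autGroup_carrier F hR.1 _).mpr (trans_mem e.symm ((a : MulAut ↥P).trans e) (symm_mem e he)
      (trans_mem (a : MulAut ↥P) e ((autGroup_carrier F hP _).mp a.2) he))
  obtain ⟨-, T, hT⟩ := fullyNormalized_automized p hS hF hR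
  have hap : IsPGroup p ↥(Subgroup.zpowers (⟨_, hmem⟩ : ↥(F.autGroup R))) := by
    obtain ⟨k, hk⟩ := ha
    refine IsPGroup.of_card (n := k) ?_
    rw [Nat.card_zpowers, ← Subgroup.orderOf_coe, ← hk, ← Subgroup.orderOf_coe a]
    exact MulEquiv.orderOf_eq _ _
  obtain ⟨T', hT'⟩ := hap.exists_le_sylow
  obtain ⟨b, hb⟩ := MulAction.exists_smul_eq ↥(F.autGroup R) T' T
  have h2 : MulAut.conj b • (⟨_, hmem⟩ : ↥(F.autGroup R)) ∈ b • T' :=
    Subgroup.smul_mem_pointwise_smul _ _ _ (hT' (Subgroup.mem_zpowers _))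
  rw [hb] at h2
  obtain ⟨g, hg, hge⟩ := (mem_autInducedBy _).mp (hT.le h2)
  set ψ : ↥P →* Ω := R.subtype.comp (e.trans (b : MulAut ↥R)).toMonoidHom
  obtain ⟨c, hc, ψ₀, hψ₀, hψe⟩ := residual_frattini hS hF (trans_mem e (b : MulAut ↥R) he
    ((autGroup_carrier F hR.1 _).mp b.2) : ψ ∈ F.Hom P)
  set Q := ψ₀.range
  set e₀ := isoOfMem hψ₀ (rfl : ψ₀.range = Q)
  have he₀ : Q.subtype.comp e₀.toMonoidHom ∈ E.Hom P := by rw [isoOfMem_hom hψ₀ rfl]; exact hψ₀
  have hQS : Q ≤ S := range_le_S hψ₀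
  set d : MulAut ↥Q := (e₀.symm.trans (a : MulAut ↥P)).trans e₀
  have hd : d ∈ E.autGroup Q := by
    refine (autGroup_carrier E hQS d).mpr (conj_mem_of_eq E hQS ((c⁻¹ : MulAut ↥S) ⟨g, hg⟩).2 fun y => ?_)
    obtain ⟨x, rfl⟩ := e₀.surjective y
    show ((e₀ ((a : MulAut ↥P) (e₀.symm (e₀ x))) : ↥Q) : Ω) = _
    rw [MulEquiv.symm_apply_apply]
    have h4 := hge ((b : MulAut ↥R) (e x))
    have h5 : ψ ((a : MulAut ↥P) x) = g * ψ x * g⁻¹ := by simpa [ψ] using h4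
    rw [hψe _ (apply_mem_S hψ₀ _), hψe _ (apply_mem_S hψ₀ _)] at h5
    have h6 : c ⟨ψ₀ ((a : MulAut ↥P) x), apply_mem_S hψ₀ _⟩ = ⟨g, hg⟩ * c ⟨ψ₀ x, apply_mem_S hψ₀ x⟩ * ⟨g, hg⟩⁻¹ :=
      Subtype.ext h5
    have h7 := congrArg (c⁻¹ : MulAut ↥S) h6
    rw [MulAut.inv_apply_self, map_mul, map_mul, map_inv, MulAut.inv_apply_self] at h7
    exact congrArg Subtype.val h7
  refine (autGroup_carrier E hP _).mpr ?_
  have h := trans_mem e₀ (d.trans e₀.symm) he₀ (trans_mem d e₀.symm ((autGroup_carrier E hQS d).mp hd) (symm_mem e₀ he₀))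
  convert h using 1
  refine MonoidHom.ext fun x => ?_
  simp [d]

theorem residual_isConj (hS : IsPGroup p ↥S) (hF : F.IsSaturated p) {P R : Subgroup Ω} (h : F.IsConj P R) :
    ∃ α ∈ F.autGroup S, (residualSystem F p).IsConj P (img (α⁻¹ : MulAut ↥S) R) := by
  obtain ⟨φ, hφ, rfl⟩ := h
  obtain ⟨α, hα, φ₀, hφ₀, he⟩ := residual_frattini hS hF hφ
  refine ⟨α, hα, φ₀, hφ₀, ?_⟩
  ext y
  constructor
  · rintro ⟨x, rfl⟩
    refine (mem_img _).mpr ⟨⟨φ x, apply_mem_S hφ x⟩, ⟨x, rfl⟩, ?_⟩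
    rw [show (⟨φ x, apply_mem_S hφ x⟩ : ↥S) = α ⟨φ₀ x, apply_mem_S hφ₀ x⟩ from Subtype.ext (he x _),
      MulAut.inv_apply_self]
  · intro hy
    obtain ⟨w, ⟨x, hx⟩, rfl⟩ := (mem_img _).mp hy
    refine ⟨x, ?_⟩
    rw [show w = α ⟨φ₀ x, apply_mem_S hφ₀ x⟩ from Subtype.ext (hx.symm.trans (he x _)), MulAut.inv_apply_self]

theorem residual_centric (hS : IsPGroup p ↥S) (hF : F.IsSaturated p) {P : Subgroup Ω}
    (hP : (residualSystem F p).IsCentric P) : F.IsCentric P := by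
  refine ⟨hP.1, fun R hR c hc => ?_⟩
  obtain ⟨α, -, hα'⟩ := residual_isConj hS hF hR
  have hRS := IsConj.le_right hR
  have h : ((α⁻¹ : MulAut ↥S) ⟨c, hc.1⟩ : Ω) ∈ centralizerIn S (img (α⁻¹ : MulAut ↥S) R) := by
    rw [← img_centralizerIn _ hRS]
    exact (apply_mem_img _).mpr hc
  exact (apply_mem_img (α⁻¹ : MulAut ↥S)).mp (hP.2 _ hα' h)

theorem residual_saturated (hS : IsPGroup p ↥S) (hF : F.IsSaturated p) : (residualSystem F p).IsSaturated p := by
  set E := residualSystem F p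
  refine saturated_of_generated hS E {P | F.IsCentric P} (fun P hP Q hPQ => ?_) (fun P hP => ?_) (fun D hD => ?_)
    fun P hP hn => absurd (residual_centric hS hF hP) hn
  · obtain ⟨φ, hφ, hφQ⟩ := hPQ
    exact centric_of_centric_conj ⟨φ, residual_le_self P hφ, hφQ⟩ hP
  · obtain ⟨R, hPR, hR⟩ := exists_fullyNormalized F hP.1
    obtain ⟨α, hα, hQ⟩ := residual_isConj hS hF hPR
    set Q := img (α⁻¹ : MulAut ↥S) R
    have hRQ : F.IsConj R Q := by
      refine ⟨_, restrict_mem ((autGroup_carrier F le_rfl _).mp (inv_mem hα)) hR.1, ?_⟩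
      ext y
      exact ⟨fun ⟨x, hx⟩ => hx ▸ (apply_mem_img _).mpr x.2, fun hy => by
        obtain ⟨w, hw, rfl⟩ := (mem_img _).mp hy
        exact ⟨⟨w, hw⟩, rfl⟩⟩
    have hQn : F.IsFullyNormalized Q := by
      refine ⟨IsConj.le_right hRQ, fun X hX => ?_⟩
      rw [show normalizerIn S Q = img (α⁻¹ : MulAut ↥S) (normalizerIn S R) from (img_normalizerIn _ hR.1).symm,
        card_img _ (P := normalizerIn S R) inf_le_left]
      exact hR.2 X (IsConj.trans hRQ hX)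
    have hQc : F.IsCentric Q := centric_of_centric_conj hRQ (centric_of_centric_conj hPR hP)
    haveI := finite_aut_of_le hQn.1
    obtain ⟨-, T, hT⟩ := fullyNormalized_automized p hS hF hQn
    have hEF : E.autGroup Q ≤ F.autGroup Q := autGroup_mono F E residual_le_self Q
    refine ⟨Q, hQ, ⟨hQn.1, ?_⟩, hQn.1, fun P' φ hφ hr => ?_⟩
    · have hle : (T : Subgroup ↥(F.autGroup Q)) ≤ (E.autGroup Q).subgroupOf (F.autGroup Q) := fun t ht =>
        autInducedBy_le_autGroup E hQn.1 (hT.le ht)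
      refine ⟨(T.subtype hle).comapOfInjective (MonoidHom.codRestrict (Subgroup.inclusion hEF)
          ((E.autGroup Q).subgroupOf (F.autGroup Q)) fun x => x.2)
        (fun x y h => Subtype.ext (congrArg (fun z : ↥((E.autGroup Q).subgroupOf (F.autGroup Q)) => ((z : ↥(F.autGroup Q)) : MulAut ↥Q)) h))
        (fun x _ => ⟨⟨_, x.2⟩, rfl⟩), ?_⟩
      ext x
      exact ⟨fun h => hT.le h, fun h => hT.ge h⟩
    · obtain ⟨ψ, hψ, hψe⟩ := (fullyNormalized_receptive p hS hF hQn).2 P' φ (residual_le_self P' hφ) hr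
      obtain ⟨b, hb, ψ₀, hψ₀, hψ₀e⟩ := residual_frattini hS hF hψ
      have hP' : P' ≤ extender S P' φ := le_extender (residual_le_self P' hφ : φ ∈ F.Hom P')
      have h₁ := restrict_mem hψ₀ hP'
      have hXc : F.IsCentric (ψ₀.comp (Subgroup.inclusion hP')).range :=
        centric_of_centric_conj ⟨_, residual_le_self _ h₁, rfl⟩
          (centric_of_centric_conj (IsConj.symm ⟨φ, residual_le_self P' hφ, hr⟩) hQc)
      obtain ⟨χ, hχ, hχe⟩ := E.inv_mem h₁
      have hv : ∀ y, χ y ∈ P' := by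
        rintro ⟨_, x, rfl⟩
        rw [hχe]
        exact x.2
      have hbE : b ∈ E.autGroup S := by
        refine (residual_closed F p).2 _ (range_le_S h₁) hXc b hb (restrict_mem_of_eq (E.comp_mem hχ hφ hv) le_rfl ?_)
        rintro ⟨_, x, rfl⟩
        show ((b ⟨ψ₀ (Subgroup.inclusion hP' x), _⟩ : ↥S) : Ω) = φ ⟨χ _, hv _⟩
        rw [← hψ₀e (Subgroup.inclusion hP' x) (apply_mem_S hψ₀ _), show ψ (Subgroup.inclusion hP' x) = φ x from
          hψe x x.2 _]
        exact congrArg φ (Subtype.ext (hχe x).symm)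
      exact ⟨ψ, comp_mem_of_eq hψ₀ ((autGroup_carrier E le_rfl b).mp hbE) (fun x => apply_mem_S hψ₀ x)
        fun x => hψ₀e x _, hψe⟩
  · let M : ∀ A : Subgroup Ω, (↥A →* Ω) → Prop := fun A φ => φ ∈ D.Hom A
    let D' := subsystem E M (fun hA hg => D.conj_mem hA hg) (fun _ hf _ hg h => D.comp_mem hf hg h)
      (fun _ hf g _ hge => inverse_unique hf hge)
    refine fun A φ hφ => ((residual_le (D := D') ⟨fun P hP a ha => ?_, fun P hPS hP α hα hres => ?_⟩) A hφ).2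
    · have h := (autGroup_carrier E hP.1 _).mp ((residual_closed F p).1 P hP a ha)
      exact (autGroup_carrier D' hP.1 _).mpr ⟨h, hD P hP h⟩
    · have h := (autGroup_carrier E le_rfl _).mp ((residual_closed F p).2 P hPS hP α hα hres.1)
      exact (autGroup_carrier D' le_rfl _).mpr ⟨h, hD S (centric_mono hP hPS le_rfl) h⟩

theorem residual_index (hS : IsPGroup p ↥S) (hF : F.IsSaturated p) : (residualSystem F p).HasPrimeToPIndexIn F p := by
  refine ⟨residual_le_self, fun P hP => ?_⟩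
  rw [Subgroup.map_le_iff_le_comap]
  exact (Subgroup.closure_le _).mpr fun a ha => residual_pElements hS hF hP a ha

theorem residual_least (hS : IsPGroup p ↥S) (hF : F.IsSaturated p) {D : FusionSystem S} (hD : D.IsSaturated p)
    (hDi : D.HasPrimeToPIndexIn F p) : residualSystem F p ≤ D := by
  refine residual_le ⟨fun P hP a ha => hDi.2 P hP.1 ⟨a, Subgroup.subset_closure ha, rfl⟩, fun P hPS hP α hα h => ?_⟩
  exact (autGroup_carrier D le_rfl _).mpr
    (mem_of_restrict_centric hS hF hD hDi.1 _ P S rfl hP hPS _ ((autGroup_carrier F le_rfl _).mp hα) h)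

theorem residual_spec (hS : IsPGroup p ↥S) (hF : F.IsSaturated p) :
    F.IsPPrimeResidual p (residualSystem F p) :=
  ⟨residual_saturated hS hF, residual_index hS hF, fun _ hD hDi => residual_least hS hF hD hDi⟩

theorem residual_unique (hS : IsPGroup p ↥S) (hF : F.IsSaturated p) {E : FusionSystem S}
    (hE : F.IsPPrimeResidual p E) : ∀ P, E.Hom P = (residualSystem F p).Hom P := fun P =>
  Set.Subset.antisymm (hE.2.2 _ (residual_saturated hS hF) (residual_index hS hF) P)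
    (residual_least hS hF hE.1 hE.2.1 P)

end CfsgLib.Fusion
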