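import Cfsg.Agent.Lib.Fusion.PrimeResidual
import Cfsg.Agent.Lib.Fusion.ConstrainedNormal
import Cfsg.Agent.Lib.Fusion.Model

/-! The residual of a weakly normal subsystem is normal, and least. (helper6) -/

set_option autoImplicit false
set_option linter.unusedSectionVars false
set_option linter.style.haveILetI false

namespace CfsgLib.Fusion

open Cfsg Cfsg.FusionSystem

universe u

variable {Ω : Type u} [Group Ω] {S : Subgroup Ω} [Finite ↥S] {F : FusionSystem S} {p : ℕ} [Fact p.Prime]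
  {T : Subgroup Ω} [Finite ↥T] {E : FusionSystem T}

/-- The automorphism of an invariant subsystem given by an automorphism of its base. -/
def invIso (hI : E.IsInvariantIn F) {α : MulAut ↥T} (hα : α ∈ F.autGroup T) : FIso E E :=
  have fw : ∀ b ∈ F.autGroup T, ∀ (P : Subgroup Ω) (φ : ↥P →* Ω), φ ∈ E.Hom P →
      ∃ φ' ∈ E.Hom (img b P), Corr b φ φ' := by
    intro b hb P φ hφ
    obtain ⟨χ, hχ, hχe⟩ := hI.2.2.1 P (le_S hφ) φ hφ b hb
    exact ⟨χ, hχ, fun x => ⟨le_S hφ x.2, apply_mem_S hφ x, (apply_mem_img b).mpr x.2, hχe x _ _⟩⟩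
  ⟨α, fw α hα, fw α.symm ((F.autGroup T).inv_mem hα)⟩

/-- Conjugates in `F` of centric subgroups of an invariant subsystem are centric in it. -/
theorem centric_conj_invariant (hI : E.IsInvariantIn F) {P : Subgroup Ω} (hP : E.IsCentric P) {φ : ↥P →* Ω}
    (hφ : φ ∈ F.Hom P) : E.IsCentric φ.range := by
  obtain ⟨α, hα, φ₀, hφ₀, he⟩ := hI.2.2.2 P hP.1 φ hφ
  have h := (invIso hI hα).centric (centric_of_centric_conj ⟨φ₀, hφ₀, rfl⟩ hP)
  have hr : img α φ₀.range = φ.range := by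
    ext y
    constructor
    · intro hy
      obtain ⟨w, ⟨x, hx⟩, rfl⟩ := (mem_img α).mp hy
      refine ⟨x, (he x (apply_mem_S hφ₀ x)).trans ?_⟩
      exact congrArg (fun u : ↥T => (α u : Ω)) (Subtype.ext hx)
    · rintro ⟨x, rfl⟩
      rw [he x (apply_mem_S hφ₀ x)]
      exact (apply_mem_img α).mpr ⟨x, rfl⟩
  rwa [show img (invIso hI hα).e φ₀.range = φ.range from hr] at h

variable (F) in
/-- The map extends to the product with `C_S(T)`, acting trivially there modulo `T`. -/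
def ExtC (T : Subgroup Ω) {P : Subgroup Ω} (φ : ↥P →* Ω) : Prop :=
  ∃ ψ ∈ F.Hom (P ⊔ centralizerIn S T), (∀ x : ↥P, ψ (Subgroup.inclusion le_sup_left x) = φ x) ∧
    ∀ c : ↥(centralizerIn S T), (c : Ω)⁻¹ * ψ (Subgroup.inclusion le_sup_right c) ∈ T

theorem centralizes {T : Subgroup Ω} {c x : Ω} (hc : c ∈ centralizerIn S T) (hx : x ∈ T) : x * c = c * x :=
  Subgroup.mem_centralizer_iff.mp hc.2 x hx

theorem ext_diff {P : Subgroup Ω} (hP : E.IsCentric P) {φ : ↥P →* Ω} (hφ : φ ∈ E.Hom P)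
    {ψ : ↥(P ⊔ centralizerIn S T) →* Ω} (hψe : ∀ x : ↥P, ψ (Subgroup.inclusion le_sup_left x) = φ x)
    (hψc : ∀ c : ↥(centralizerIn S T), (c : Ω)⁻¹ * ψ (Subgroup.inclusion le_sup_right c) ∈ T)
    (c : ↥(centralizerIn S T)) : (c : Ω)⁻¹ * ψ (Subgroup.inclusion le_sup_right c) ∈ φ.range := by
  refine hP.2 _ ⟨φ, hφ, rfl⟩ ⟨hψc c, Subgroup.mem_centralizer_iff.mpr ?_⟩
  rintro _ ⟨x, rfl⟩
  have h1 : φ x * ψ (Subgroup.inclusion le_sup_right c) = ψ (Subgroup.inclusion le_sup_right c) * φ x := by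
    rw [← hψe, ← map_mul, ← map_mul]
    exact congrArg ψ (Subtype.ext (centralizes c.2 (hP.1 x.2)))
  have h2 : φ x * (c : Ω)⁻¹ = (c : Ω)⁻¹ * φ x := centralizes (inv_mem c.2) ((E.le_of_mem hφ).2 x)
  rw [← mul_assoc, h2, mul_assoc, h1, ← mul_assoc]

/-- The maps of `E` that extend when their source is centric. -/
def extSystem (hI : E.IsInvariantIn F) : FusionSystem T :=
  subsystem E (fun P φ => E.IsCentric P → ExtC F T φ)
    (fun {P g} hP hg _ => ⟨conjHom _ g, F.conj_mem (sup_le (hP.trans hI.2.1.1) inf_le_left) (hI.2.1.1 hg),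
      fun x => rfl, fun c => by
        show (c : Ω)⁻¹ * (g * c * g⁻¹) ∈ T
        rw [centralizes c.2 hg, mul_inv_cancel_right, inv_mul_cancel]
        exact one_mem _⟩)
    (fun {P Q φ χ} hφ hMφ hχ hMχ h hP => by
      have hR : E.IsCentric φ.range := centric_of_centric_conj ⟨φ, hφ, rfl⟩ hP
      have hQ : E.IsCentric Q := centric_mono hR (by rintro _ ⟨x, rfl⟩; exact h x) (le_S hχ)
      obtain ⟨ψ₁, hψ₁, e1, f1⟩ := hMφ hP
      obtain ⟨ψ₂, hψ₂, e2, f2⟩ := hMχ hQ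
      have hd := ext_diff hP hφ e1 f1
      have hz : ∀ c : ↥(centralizerIn S T), (c : Ω)⁻¹ * ψ₁ (Subgroup.inclusion le_sup_right c) ∈ Q := fun c => by
        obtain ⟨x, hx⟩ := hd c
        rw [← hx]
        exact h x
      have hm : ∀ z, ψ₁ z ∈ Q ⊔ centralizerIn S T := fun z => apply_mem_of_sup ψ₁
        (fun x => Subgroup.mem_sup_left (by rw [e1]; exact h x))
        (fun c => by
          have := mul_mem (Subgroup.mem_sup_right (S := Q) c.2) (Subgroup.mem_sup_left (T := centralizerIn S T) (hz c))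
          rwa [mul_inv_cancel_left] at this) z
      refine ⟨_, F.comp_mem hψ₁ hψ₂ hm, fun x => ?_, fun c => ?_⟩
      · show ψ₂ _ = χ _
        rw [← e2]
        exact congrArg ψ₂ (Subtype.ext (e1 x))
      · show (c : Ω)⁻¹ * ψ₂ ⟨ψ₁ (Subgroup.inclusion le_sup_right c), hm _⟩ ∈ T
        rw [show (⟨ψ₁ (Subgroup.inclusion le_sup_right c), hm _⟩ : ↥(Q ⊔ centralizerIn S T)) =
          Subgroup.inclusion le_sup_right c * Subgroup.inclusion le_sup_left ⟨_, hz c⟩ from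
            Subtype.ext (mul_inv_cancel_left (c : Ω) _).symm, map_mul, e2, ← mul_assoc]
        exact T.mul_mem (f2 c) ((E.le_of_mem hχ).2 _))
    (fun {P φ} hφ hMφ g hg hge hR => by
      have hP : E.IsCentric P := centric_of_centric_conj (IsConj.symm ⟨φ, hφ, rfl⟩) hR
      obtain ⟨ψ, hψ, e1, f1⟩ := hMφ hP
      have hd := ext_diff hP hφ e1 f1
      obtain ⟨χ, hχ, hχe⟩ := F.inv_mem hψ
      have hle : φ.range ⊔ centralizerIn S T ≤ ψ.range := by
        refine sup_le ?_ fun c hc => ?_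
        · rintro _ ⟨x, rfl⟩
          exact ⟨_, e1 x⟩
        · obtain ⟨x, hx⟩ := hd ⟨c, hc⟩
          refine ⟨Subgroup.inclusion le_sup_right ⟨c, hc⟩ * (Subgroup.inclusion le_sup_left x)⁻¹, ?_⟩
          rw [map_mul, map_inv, e1, hx]
          group
      refine ⟨χ.comp (Subgroup.inclusion hle), restrict_mem hχ hle, ?_, fun c => ?_⟩
      · rintro ⟨_, x, rfl⟩
        rw [hge]
        show χ ⟨φ x, _⟩ = (x : Ω)
        rw [show (⟨φ x, hle (Subgroup.mem_sup_left ⟨x, rfl⟩)⟩ : ↥ψ.range) =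
          ⟨ψ (Subgroup.inclusion le_sup_left x), ⟨_, rfl⟩⟩ from Subtype.ext (e1 x).symm, hχe]
        rfl
      · obtain ⟨x, hx⟩ := hd c
        have e3 : ψ (Subgroup.inclusion le_sup_right c * (Subgroup.inclusion le_sup_left x)⁻¹) = (c : Ω) := by
          rw [map_mul, map_inv, e1, hx]
          group
        show (c : Ω)⁻¹ * χ (Subgroup.inclusion hle (Subgroup.inclusion le_sup_right c)) ∈ T
        rw [show Subgroup.inclusion hle (Subgroup.inclusion le_sup_right c) =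
          (⟨ψ (Subgroup.inclusion le_sup_right c * (Subgroup.inclusion le_sup_left x)⁻¹), ⟨_, rfl⟩⟩ : ↥ψ.range) from
            Subtype.ext e3.symm, hχe]
        show (c : Ω)⁻¹ * ((c : Ω) * (x : Ω)⁻¹) ∈ T
        rw [inv_mul_cancel_left]
        exact T.inv_mem (hP.1 x.2))

theorem extSystem_pElement (hS : IsPGroup p ↥S) (hE : E.IsWeaklyNormalIn F p) {P : Subgroup Ω}
    (hP : E.IsCentric P) (a : ↥(E.autGroup P)) (ha : ∃ k : ℕ, orderOf a = p ^ k) :
    (a : MulAut ↥P) ∈ (extSystem hE.2.2).autGroup P := by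
  obtain ⟨hEs, hF, hI⟩ := id hE
  have hTS : T ≤ S := hI.2.1.1
  have hT : IsPGroup p ↥T := hS.to_le hTS
  have haE := (autGroup_carrier E hP.1 _).mp a.2
  refine (autGroup_carrier _ hP.1 _).mpr ⟨haE, fun _ => ?_⟩
  set C := centralizerIn S T
  obtain ⟨R₁, hPR₁, hR₁⟩ := exists_fullyNormalized E hP.1
  obtain ⟨φ, hφ, hφR⟩ := hPR₁
  haveI := finite_aut_of_le (S := T) hR₁.1
  set e := isoOfMem hφ hφR
  have he : R₁.subtype.comp e.toMonoidHom ∈ E.Hom P := by rwa [isoOfMem_hom hφ hφR]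
  have hmem : MulAut.congr e (a : MulAut ↥P) ∈ E.autGroup R₁ :=
    (autGroup_carrier E hR₁.1 _).mpr (trans_mem e.symm ((a : MulAut ↥P).trans e) (symm_mem e he)
      (trans_mem (a : MulAut ↥P) e haE he))
  obtain ⟨-, TR, hTR⟩ := fullyNormalized_automized p hT hEs hR₁
  have hap : IsPGroup p ↥(Subgroup.zpowers (⟨_, hmem⟩ : ↥(E.autGroup R₁))) := by
    obtain ⟨k, hk⟩ := ha
    refine IsPGroup.of_card (n := k) ?_
    rw [Nat.card_zpowers, ← Subgroup.orderOf_coe, ← hk, ← Subgroup.orderOf_coe a]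
    exact MulEquiv.orderOf_eq _ _
  obtain ⟨T', hT'⟩ := hap.exists_le_sylow
  obtain ⟨b, hb⟩ := MulAction.exists_smul_eq ↥(E.autGroup R₁) T' TR
  have h2 : MulAut.conj b • (⟨_, hmem⟩ : ↥(E.autGroup R₁)) ∈ b • T' :=
    Subgroup.smul_mem_pointwise_smul _ _ _ (hT' (Subgroup.mem_zpowers _))
  rw [hb] at h2
  obtain ⟨t, ht, hte⟩ := (mem_autInducedBy _).mp (hTR.le h2)
  set e₁ : ↥P ≃* ↥R₁ := e.trans (b : MulAut ↥R₁)
  have he₁ : R₁.subtype.comp e₁.toMonoidHom ∈ E.Hom P :=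
    trans_mem e _ he ((autGroup_carrier E hR₁.1 _).mp b.2)
  have he₁a : ∀ x, ((e₁ ((a : MulAut ↥P) x) : ↥R₁) : Ω) = t * (e₁ x : Ω) * t⁻¹ := fun x => by
    have h4 := hte ((b : MulAut ↥R₁) (e x))
    simpa [e₁] using h4
  have hR₁S : R₁ ≤ S := hR₁.1.trans hTS
  have htN : t ∈ normalizerIn S R₁ := by
    refine ⟨hTS ht, mem_normalizer_of_conj hR₁S fun y hy => ?_⟩
    obtain ⟨x, hx⟩ := e₁.surjective ⟨y, hy⟩
    have := he₁a x
    rw [hx] at this
    exact this ▸ SetLike.coe_mem _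
  obtain ⟨R, hR₁R, hR⟩ := exists_fullyNormalized F hR₁S
  obtain ⟨η, hη, hηN, hηR, hηs⟩ := exists_map_normalizer p hS (fullyNormalized_automized p hS hF hR)
    (fullyNormalized_receptive p hS hF hR) hR₁R
  have hR₁N : R₁ ≤ normalizerIn S R₁ := le_inf hR₁S Subgroup.le_normalizer
  set t' := η ⟨t, htN⟩
  have ht'T : t' ∈ T := apply_mem_closed hI.2.1 hη _ ht
  have he₁F : R₁.subtype.comp e₁.toMonoidHom ∈ F.Hom P := hI.1 _ he₁
  set χ : ↥P →* Ω := η.comp ((R₁.subtype.comp e₁.toMonoidHom).codRestrict _ fun x => hR₁N (e₁ x).2)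
  have hχ : χ ∈ F.Hom P := F.comp_mem he₁F hη _
  have hχr : χ.range = R := by
    refine le_antisymm ?_ fun y hy => ?_
    · rintro _ ⟨x, rfl⟩
      exact hηR (e₁ x) (hR₁N (e₁ x).2)
    · obtain ⟨w, hw, rfl⟩ := hηs y hy
      refine ⟨e₁.symm w, congrArg η (Subtype.ext ?_)⟩
      show ((e₁ (e₁.symm w) : ↥R₁) : Ω) = w
      rw [MulEquiv.apply_symm_apply]
  have hχa : ∀ x, χ ((a : MulAut ↥P) x) = t' * χ x * t'⁻¹ := fun x => by
    show η _ = η _ * η _ * (η _)⁻¹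
    rw [← map_inv, ← map_mul, ← map_mul]
    exact congrArg η (Subtype.ext (he₁a x))
  have hRc : E.IsCentric R := hχr ▸ centric_conj_invariant hI hP hχ
  have ht'N : t' ∈ Subgroup.normalizer (R : Set Ω) := (hηN _).2
  obtain ⟨χ', hχ', hχ'e⟩ := (fullyNormalized_receptive p hS hF hR).2 P χ hχ hχr
  have hPS : P ≤ S := hP.1.trans hTS
  have hCle : C ≤ extender S P χ := le_trans
    (inf_le_inf_left _ (Subgroup.centralizer_le hP.1)) (centralizerIn_le_extender χ)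
  have hX : P ⊔ C ≤ extender S P χ := sup_le (le_extender hχ) hCle
  set κ := χ'.comp (Subgroup.inclusion hX)
  have hκ : κ ∈ F.Hom (P ⊔ C) := restrict_mem hχ' hX
  have hκe : ∀ x : ↥P, κ (Subgroup.inclusion le_sup_left x) = χ x := fun x => hχ'e x x.2 _
  have hκC : ∀ c : ↥C, ∀ y ∈ R, y * κ (Subgroup.inclusion le_sup_right c) = κ (Subgroup.inclusion le_sup_right c) * y := by
    intro c y hy
    obtain ⟨x, rfl⟩ := hχr.ge hy
    rw [← hκe, ← map_mul, ← map_mul]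
    exact congrArg κ (Subtype.ext (centralizes c.2 (hP.1 x.2)))
  have hz : ∀ c : ↥C, ∃ x : ↥P, t' * κ (Subgroup.inclusion le_sup_right c) * t'⁻¹ =
      κ (Subgroup.inclusion le_sup_right c) * χ x := by
    intro c
    set q := κ (Subgroup.inclusion le_sup_right c)
    have hqS : q ∈ S := apply_mem_S hκ _
    have h1 : q⁻¹ * (t' * q * t'⁻¹) ∈ T := by
      rw [show q⁻¹ * (t' * q * t'⁻¹) = q⁻¹ * t' * (q⁻¹)⁻¹ * t'⁻¹ by group]
      exact T.mul_mem (conj_mem_of_normalizer (StronglyClosed.normal hI.2.1 (S.inv_mem hqS)) ht'T) (T.inv_mem ht'T)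
    have h3 : ∀ y ∈ R, y * (t' * q * t'⁻¹) = t' * q * t'⁻¹ * y := by
      intro y hy
      have hy' : t'⁻¹ * y * t' ∈ R := by simpa using conj_mem_of_normalizer (inv_mem ht'N) hy
      calc y * (t' * q * t'⁻¹) = t' * ((t'⁻¹ * y * t') * q) * t'⁻¹ := by group
        _ = t' * (q * (t'⁻¹ * y * t')) * t'⁻¹ := by rw [hκC c _ hy']
        _ = t' * q * t'⁻¹ * y := by group
    have h4 : q⁻¹ * (t' * q * t'⁻¹) ∈ R := by
      refine hRc.2 R (IsConj.refl E hRc.1) ⟨h1, Subgroup.mem_centralizer_iff.mpr fun y hy => ?_⟩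
      have h5 : y * q⁻¹ = q⁻¹ * y := by
        calc y * q⁻¹ = q⁻¹ * (q * y) * q⁻¹ := by group
          _ = q⁻¹ * (y * q) * q⁻¹ := by rw [hκC c y hy]
          _ = q⁻¹ * y := by group
      rw [← mul_assoc, h5, mul_assoc, h3 y hy, ← mul_assoc]
    obtain ⟨x, hx⟩ := hχr.ge h4
    exact ⟨x, by rw [hx, mul_inv_cancel_left]⟩
  have ht'r : ∀ z, (conjHom κ.range t') z ∈ κ.range := by
    rintro ⟨_, z, rfl⟩
    show t' * κ z * t'⁻¹ ∈ κ.range
    refine apply_mem_of_sup ((MulAut.conj t').toMonoidHom.comp κ) (fun x => ?_) (fun c => ?_) z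
    · show t' * κ _ * t'⁻¹ ∈ κ.range
      rw [hκe, ← hχa, ← hκe]
      exact ⟨_, rfl⟩
    · show t' * κ _ * t'⁻¹ ∈ κ.range
      obtain ⟨x, hx⟩ := hz c
      rw [hx, ← hκe, ← map_mul]
      exact ⟨_, rfl⟩
  obtain ⟨κi, hκi, hκie⟩ := F.inv_mem hκ
  have hκv : ∀ z, κ z ∈ κ.range := fun z => ⟨z, rfl⟩
  have h1 := F.comp_mem hκ (F.conj_mem (range_le_S hκ) (hTS ht'T)) hκv
  refine ⟨_, F.comp_mem h1 hκi (fun z => ht'r ⟨κ z, hκv z⟩), fun x => ?_, fun c => ?_⟩
  · show κi ⟨t' * κ (Subgroup.inclusion le_sup_left x) * t'⁻¹, _⟩ = ((a : MulAut ↥P) x : Ω)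
    refine (congrArg κi (Subtype.ext ?_)).trans (hκie (Subgroup.inclusion le_sup_left ((a : MulAut ↥P) x)))
    show t' * κ _ * t'⁻¹ = κ _
    rw [hκe, hκe, hχa]
  · show (c : Ω)⁻¹ * κi ⟨t' * κ (Subgroup.inclusion le_sup_right c) * t'⁻¹, _⟩ ∈ T
    obtain ⟨x, hx⟩ := hz c
    have e : t' * κ (Subgroup.inclusion le_sup_right c) * t'⁻¹ =
        κ (Subgroup.inclusion le_sup_right c * Subgroup.inclusion le_sup_left x) := by rw [hx, map_mul, hκe]
    rw [show (⟨t' * κ (Subgroup.inclusion le_sup_right c) * t'⁻¹, ht'r ⟨_, hκv _⟩⟩ : ↥κ.range) =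
      ⟨κ (Subgroup.inclusion le_sup_right c * Subgroup.inclusion le_sup_left x), ⟨_, rfl⟩⟩ from Subtype.ext e, hκie]
    show (c : Ω)⁻¹ * ((c : Ω) * (x : Ω)) ∈ T
    rw [inv_mul_cancel_left]
    exact hP.1 x.2

/-- An automorphism of the base extends to the product with its centraliser. -/
theorem exists_extend_centralizer (hS : IsPGroup p ↥S) (hF : F.IsSaturated p) (hsc : F.StronglyClosed T)
    {α : MulAut ↥T} (hα : α ∈ F.autGroup T) :
    ∃ β ∈ F.autGroup (T ⊔ centralizerIn S T),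
      ∀ x : ↥T, ((β (Subgroup.inclusion le_sup_left x) : ↥(T ⊔ centralizerIn S T)) : Ω) = (α x : Ω) := by
  set C := centralizerIn S T
  have hX : T ⊔ C ≤ S := sup_le hsc.1 inf_le_left
  set φ : ↥T →* Ω := T.subtype.comp α.toMonoidHom
  have hφ : φ ∈ F.Hom T := (autGroup_carrier F hsc.1 α).mp hα
  have hr : φ.range = T := by
    ext y
    exact ⟨fun ⟨x, hx⟩ => hx ▸ (α x).2, fun hy => ⟨α.symm ⟨y, hy⟩, by simp [φ]⟩⟩
  obtain ⟨ψ, hψ, hψe⟩ := (fullyNormalized_receptive p hS hF (CfsgLib.Model.fullyNormalized_of_stronglyClosed hsc)).2 T φ hφ hr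
  have hle : T ⊔ C ≤ extender S T φ := sup_le (le_extender hφ) (centralizerIn_le_extender φ)
  set ψ₁ := ψ.comp (Subgroup.inclusion hle)
  have hψ₁ : ψ₁ ∈ F.Hom (T ⊔ C) := restrict_mem hψ hle
  haveI : Finite ↥(T ⊔ C) := finite_of_le (S := S) hX
  have hr₁ : ψ₁.range = T ⊔ C := by
    refine Subgroup.eq_of_le_of_card_ge ?_ (card_range hψ₁).ge
    rintro _ ⟨z, rfl⟩
    refine apply_mem_of_sup ψ₁ (fun x => Subgroup.mem_sup_left ?_) (fun c => Subgroup.mem_sup_right ?_) z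
    · show ψ ⟨(x : Ω), _⟩ ∈ T
      exact (congrArg (· ∈ T) (hψe x x.2 (hle (Subgroup.mem_sup_left x.2)))).mpr (α x).2
    · refine ⟨apply_mem_S hψ _, centralizerIn_of_map ψ₁ le_sup_left (fun y hy => ⟨α.symm ⟨y, hy⟩, ?_⟩)
        (c := Subgroup.inclusion le_sup_right c) c.2.2⟩
      exact (hψe _ (α.symm ⟨y, hy⟩).2 (hle (Subgroup.mem_sup_left (α.symm ⟨y, hy⟩).2))).trans (by simp [φ])
  refine ⟨isoOfMem hψ₁ hr₁, (autGroup_carrier F hX _).mpr ?_, fun x => ?_⟩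
  · rw [show (isoOfMem hψ₁ hr₁).toMonoidHom = _ from rfl, isoOfMem_hom hψ₁ hr₁]; exact hψ₁
  · exact (isoOfMem_coe hψ₁ hr₁ _).trans (hψe x x.2 _)

theorem aut_mem_T (hsc : F.StronglyClosed T) {N : Subgroup Ω} (hN : N ≤ S) {δ : MulAut ↥N} (hδ : δ ∈ F.autGroup N)
    {z : ↥N} (hz : (z : Ω) ∈ T) : ((δ z : ↥N) : Ω) ∈ T :=
  apply_mem_closed hsc ((autGroup_carrier F hN δ).mp hδ) z hz

theorem aut_mem_centralizer (hsc : F.StronglyClosed T) {γ : MulAut ↥(T ⊔ centralizerIn S T)}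
    (hγ : γ ∈ F.autGroup (T ⊔ centralizerIn S T)) {c : ↥(T ⊔ centralizerIn S T)} (hc : (c : Ω) ∈ centralizerIn S T) :
    ((γ c : ↥(T ⊔ centralizerIn S T)) : Ω) ∈ centralizerIn S T := by
  have hX : T ⊔ centralizerIn S T ≤ S := sup_le hsc.1 inf_le_left
  refine ⟨hX (γ c).2, Subgroup.mem_centralizer_iff.mpr fun y hy => ?_⟩
  set yy : ↥(T ⊔ centralizerIn S T) := ⟨y, Subgroup.mem_sup_left hy⟩
  have hw : ((γ⁻¹ yy : ↥(T ⊔ centralizerIn S T)) : Ω) ∈ T :=
    aut_mem_T hsc hX ((F.autGroup _).inv_mem hγ) (show (yy : Ω) ∈ T from hy)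
  have h1 : γ (γ⁻¹ yy * c) = γ (c * γ⁻¹ yy) := congrArg γ (Subtype.ext (centralizes hc hw))
  rw [map_mul, map_mul, MulAut.apply_inv_self] at h1
  exact congrArg Subtype.val h1

/-- Powers keep the congruence with a fixed automorphism modulo `T`. -/
theorem pow_congr_mod (hsc : F.StronglyClosed T) {N : Subgroup Ω} (hNT : N ≤ T)
    {γ : MulAut ↥(T ⊔ centralizerIn S T)} (hγ : γ ∈ F.autGroup (T ⊔ centralizerIn S T))
    {δ : MulAut ↥(N ⊔ centralizerIn S T)} (hδ : δ ∈ F.autGroup (N ⊔ centralizerIn S T))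
    (h : ∀ c : ↥(centralizerIn S T), ((γ (Subgroup.inclusion le_sup_right c) : ↥(T ⊔ centralizerIn S T)) : Ω)⁻¹ *
      (δ (Subgroup.inclusion le_sup_right c) : Ω) ∈ T) (n : ℕ) (c : ↥(centralizerIn S T)) :
    (((γ ^ n) (Subgroup.inclusion le_sup_right c) : ↥(T ⊔ centralizerIn S T)) : Ω)⁻¹ *
      ((δ ^ n) (Subgroup.inclusion le_sup_right c) : Ω) ∈ T := by
  induction n with
  | zero => simp
  | succ n ih =>
    set c' : ↥(centralizerIn S T) := ⟨_, aut_mem_centralizer hsc (pow_mem hγ n)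
      (show ((Subgroup.inclusion (le_sup_right : centralizerIn S T ≤ T ⊔ centralizerIn S T) c :
        ↥(T ⊔ centralizerIn S T)) : Ω) ∈ centralizerIn S T from c.2)⟩
    set w := (δ ^ n) (Subgroup.inclusion le_sup_right c)
    have hN : N ⊔ centralizerIn S T ≤ S := sup_le (hNT.trans hsc.1) inf_le_left
    have ht : ((((Subgroup.inclusion le_sup_right c')⁻¹ * w : ↥(N ⊔ centralizerIn S T))) : Ω) ∈ T := ih
    have h1 := aut_mem_T hsc hN hδ ht
    rw [map_mul, map_inv] at h1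
    rw [pow_succ' γ, pow_succ' δ, MulAut.mul_apply, MulAut.mul_apply,
      show (γ ^ n) (Subgroup.inclusion le_sup_right c) = Subgroup.inclusion le_sup_right c' from Subtype.ext rfl]
    have h2 := T.mul_mem (h c') h1
    simpa [mul_assoc] using h2

variable (F) in
/-- Some automorphism of `N C_S(T)` fixes `N` and agrees with `γ` on `C_S(T)` modulo `T`. -/
def NearFix (T : Subgroup Ω) (γ : MulAut ↥(T ⊔ centralizerIn S T)) (N : Subgroup Ω) : Prop :=
  ∃ δ ∈ F.autGroup (N ⊔ centralizerIn S T),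
    (∀ z : ↥(N ⊔ centralizerIn S T), (z : Ω) ∈ N → δ z = z) ∧
    ∀ c : ↥(centralizerIn S T), ((γ (Subgroup.inclusion le_sup_right c) : ↥(T ⊔ centralizerIn S T)) : Ω)⁻¹ *
      (δ (Subgroup.inclusion le_sup_right c) : Ω) ∈ T

theorem aut_conj_coe {T : Subgroup Ω} (α : MulAut ↥T) (a b c : ↥T) (h : (c : Ω) = (a : Ω) * (b : Ω) * (a : Ω)⁻¹) :
    (α c : Ω) = (α a : Ω) * (α b : Ω) * (α a : Ω)⁻¹ := by
  rw [show c = a * b * a⁻¹ from Subtype.ext h, map_mul, map_mul, map_inv]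
  rfl

theorem nearFix_step (hS : IsPGroup p ↥S) (hE : E.IsWeaklyNormalIn F p) {N : Subgroup Ω} (hN : E.IsCentric N)
    {γ : MulAut ↥(T ⊔ centralizerIn S T)} (hγ : γ ∈ F.autGroup (T ⊔ centralizerIn S T)) (h : NearFix F T γ N) :
    ∃ j : ℕ, NearFix F T (γ ^ p ^ j) (normalizerIn T N) := by
  obtain ⟨hEs, hF, hI⟩ := id hE
  have hsc := hI.2.1
  set C := centralizerIn S T
  set N₁ := normalizerIn T N
  set L := N ⊔ C
  set X := N₁ ⊔ C
  obtain ⟨δ, hδ, hδN, hδC⟩ := h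
  have hNT : N ≤ T := hN.1
  have hNS : N ≤ S := hNT.trans hsc.1
  have hLS : L ≤ S := sup_le hNS inf_le_left
  have hN₁S : N₁ ≤ S := inf_le_left.trans hsc.1
  have hXS : X ≤ S := sup_le hN₁S inf_le_left
  haveI := finite_of_le (S := S) hLS
  haveI := finite_aut_of_le hLS
  haveI := finite_of_le (S := S) hXS
  haveI := finite_of_le (S := S) hNS
  have hTn : ∀ {s t : Ω}, s ∈ S → t ∈ T → s * t * s⁻¹ ∈ T := fun hs ht =>
    conj_mem_of_normalizer (StronglyClosed.normal hsc hs) ht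
  have hgL : ∀ g ∈ N₁, ∀ y ∈ L, g * y * g⁻¹ ∈ L := by
    intro g hg y hy
    refine apply_mem_of_sup (conjHom L g) (fun x => Subgroup.mem_sup_left (conj_mem_of_normalizer hg.2 x.2))
      (fun c => Subgroup.mem_sup_right ?_) ⟨y, hy⟩
    show g * (c : Ω) * g⁻¹ ∈ C
    rw [centralizes c.2 hg.1, mul_inv_cancel_right]
    exact c.2
  let U : Subgroup (MulAut ↥L) :=
    { carrier := {f | f ∈ F.autGroup L ∧ (∃ n ∈ N₁, ∀ z : ↥L, (z : Ω) ∈ N → (f z : Ω) = n * z * n⁻¹) ∧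
        ∀ y : ↥L, (y : Ω)⁻¹ * (f y : Ω) ∈ T}
      one_mem' := ⟨one_mem _, ⟨1, one_mem _, fun z _ => by simp⟩, fun y => by simp⟩
      mul_mem' := by
        rintro f g ⟨hf, ⟨n, hn, hfn⟩, hfT⟩ ⟨hg, ⟨m, hm, hgm⟩, hgT⟩
        refine ⟨mul_mem hf hg, ⟨n * m, mul_mem hn hm, fun z hz => ?_⟩, fun y => ?_⟩
        · have : ((g z : ↥L) : Ω) ∈ N := by rw [hgm z hz]; exact conj_mem_of_normalizer hm.2 hz
          rw [MulAut.mul_apply, hfn _ this, hgm z hz]
          group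
        · have := T.mul_mem (hgT y) (hfT (g y))
          rwa [MulAut.mul_apply, ← mul_assoc, mul_assoc ((y : Ω)⁻¹), mul_inv_cancel, mul_one] at *
      inv_mem' := by
        rintro f ⟨hf, ⟨n, hn, hfn⟩, hfT⟩
        refine ⟨inv_mem hf, ⟨n⁻¹, inv_mem hn, fun z hz => ?_⟩, fun y => ?_⟩
        · have hz' : n⁻¹ * (z : Ω) * n ∈ N := by simpa using conj_mem_of_normalizer (inv_mem hn.2) hz
          have h1 := hfn ⟨_, Subgroup.mem_sup_left hz'⟩ hz'
          have h2 : f ⟨_, Subgroup.mem_sup_left hz'⟩ = z := Subtype.ext (h1.trans (by group))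
          rw [← h2, MulAut.inv_apply_self, h2, inv_inv]
        · have := T.inv_mem (hfT (f⁻¹ y))
          rw [MulAut.apply_inv_self, mul_inv_rev, inv_inv] at this
          exact this }
  have hUF : U ≤ F.autGroup L := fun f hf => hf.1
  haveI := finite_of_le (S := S) hN₁S
  obtain ⟨a, ha⟩ := IsPGroup.iff_card.mp (hS.to_le hN₁S)
  obtain ⟨b, hb⟩ := IsPGroup.iff_card.mp (hS.to_le hNS)
  haveI := finite_of_le (S := S) hN₁S
  have hUp : IsPGroup p ↥U := by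
    rintro ⟨f, hf⟩
    refine ⟨a + b, Subtype.ext ?_⟩
    show f ^ p ^ (a + b) = 1
    set g := f ^ p ^ a
    have hg : g ∈ U := pow_mem hf _
    have hgN : ∀ z : ↥L, (z : Ω) ∈ N → g z = z := by
      obtain ⟨-, ⟨n, hn, hfn⟩, -⟩ := hf
      have key : ∀ (k : ℕ) (z : ↥L), (z : Ω) ∈ N → ((f ^ k) z : Ω) = n ^ k * z * (n ^ k)⁻¹ := by
        intro k
        induction k with
        | zero => intro z _; simp
        | succ k ih =>
          intro z hz
          have : (((f ^ k) z : ↥L) : Ω) ∈ N := by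
            rw [ih z hz]; exact conj_mem_of_normalizer (pow_mem hn.2 k) hz
          rw [pow_succ' f, MulAut.mul_apply, hfn _ this, ih z hz]
          group
      intro z hz
      have h1 : n ^ p ^ a = 1 := by
        rw [← ha]
        exact congrArg Subtype.val (pow_card_eq_one' (x := (⟨n, hn⟩ : ↥N₁)))
      refine Subtype.ext ?_
      rw [key _ z hz, h1]
      group
    have hC : ∀ c : ↥C, (g ^ p ^ b) (Subgroup.inclusion le_sup_right c) = Subgroup.inclusion le_sup_right c := by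
      intro c
      set cc : ↥L := Subgroup.inclusion le_sup_right c
      have hd : ((cc : Ω))⁻¹ * (g cc : Ω) ∈ N := by
        refine hN.2 N (IsConj.refl E hNT) ⟨hg.2.2 cc, Subgroup.mem_centralizer_iff.mpr fun y hy => ?_⟩
        have h1 : g (⟨y, Subgroup.mem_sup_left hy⟩ * cc) = g (cc * ⟨y, Subgroup.mem_sup_left hy⟩) :=
          congrArg g (Subtype.ext (centralizes c.2 (hNT hy)))
        rw [map_mul, map_mul, hgN ⟨y, Subgroup.mem_sup_left hy⟩ hy] at h1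
        have h1' : y * (g cc : Ω) = (g cc : Ω) * y := congrArg Subtype.val h1
        have h5 : y * (c : Ω)⁻¹ = (c : Ω)⁻¹ * y := centralizes (inv_mem c.2) (hNT hy)
        show y * ((c : Ω)⁻¹ * (g cc : Ω)) = (c : Ω)⁻¹ * (g cc : Ω) * y
        rw [← mul_assoc, h5, mul_assoc, h1', ← mul_assoc]
      rw [iter_fix g (z := cc) (d := cc⁻¹ * g cc) (mul_inv_cancel_left cc _).symm (hgN _ hd), mul_eq_left]
      refine Subtype.ext ?_
      rw [Subgroup.coe_pow, ← hb]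
      exact congrArg Subtype.val (pow_card_eq_one' (x := (⟨_, hd⟩ : ↥N)))
    have hN' : ∀ z : ↥L, (z : Ω) ∈ N → (g ^ p ^ b) z = z := fun z hz => by
      have := iter_fix g (z := z) (d := 1) (by rw [mul_one, hgN z hz]) (map_one g) (p ^ b)
      rwa [one_pow, mul_one] at this
    rw [pow_add, pow_mul]
    refine MulEquiv.ext fun w => Subtype.ext ?_
    let K : Subgroup ↥L := ((g ^ p ^ b : MulAut ↥L).toMonoidHom.eqLocus (MonoidHom.id ↥L))
    have hK : L ≤ K.map L.subtype := sup_le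
      (fun z hz => ⟨⟨z, Subgroup.mem_sup_left hz⟩, hN' _ hz, rfl⟩)
      (fun c hc => ⟨Subgroup.inclusion le_sup_right ⟨c, hc⟩, hC ⟨c, hc⟩, rfl⟩)
    obtain ⟨w', hw', hww⟩ := hK w.2
    rw [MulAut.one_apply, show w = w' from Subtype.ext hww.symm]
    exact congrArg Subtype.val (hw' : (g ^ p ^ b) w' = w')
  have hUconj : ∀ g (hg : g ∈ N₁), ∃ f ∈ U, ∀ y : ↥L, (f y : Ω) = g * y * g⁻¹ := by
    intro g hg
    have hgN : g ∈ Subgroup.normalizer (L : Set Ω) := mem_normalizer_of_conj hLS (hgL g hg)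
    refine ⟨L.normalizerMonoidHom ⟨g, hgN⟩,
      ⟨(autGroup_carrier F hLS _).mpr (conj_mem_of_eq F hLS (hN₁S hg) fun _ => rfl), ⟨g, hg, fun z _ => rfl⟩,
        fun y => ?_⟩, fun y => rfl⟩
    show (y : Ω)⁻¹ * (g * y * g⁻¹) ∈ T
    rw [show (y : Ω)⁻¹ * (g * y * g⁻¹) = (y : Ω)⁻¹ * g * ((y : Ω)⁻¹)⁻¹ * g⁻¹ by group]
    exact T.mul_mem (hTn (S.inv_mem (hLS y.2)) hg.1) (T.inv_mem hg.1)
  have hδU : ∀ f ∈ U, δ * f * δ⁻¹ ∈ U := by
    rintro f ⟨hf, ⟨n, hn, hfn⟩, hfT⟩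
    refine ⟨mul_mem (mul_mem hδ hf) (inv_mem hδ), ⟨n, hn, fun z hz => ?_⟩, fun y => ?_⟩
    · have hz' : δ⁻¹ z = z := by
        conv_lhs => rw [← hδN z hz]
        rw [MulAut.inv_apply_self]
      rw [MulAut.mul_apply, MulAut.mul_apply, hz', hδN _ (by rw [hfn z hz]; exact conj_mem_of_normalizer hn.2 hz)]
      exact hfn z hz
    · obtain ⟨w, rfl⟩ := δ.surjective y
      rw [MulAut.mul_apply, MulAut.mul_apply, MulAut.inv_apply_self]
      have h1 := aut_mem_T hsc hLS hδ (z := w⁻¹ * f w) (hfT w)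
      rw [map_mul, map_inv] at h1
      exact h1
  obtain ⟨W, ⟨μ₀, hμ₀, hμ₀r⟩, ⟨hWS, TW, hTW⟩, hWr⟩ := hF L hLS
  haveI := finite_aut_of_le hWS
  set e := isoOfMem hμ₀ hμ₀r
  have he : W.subtype.comp e.toMonoidHom ∈ F.Hom L := by rwa [isoOfMem_hom hμ₀ hμ₀r]
  set A := U.map (MulAut.congr e).toMonoidHom
  have hA : A ≤ F.autGroup W := by
    rintro _ ⟨f, hf, rfl⟩
    exact (autGroup_carrier F hWS _).mpr (trans_mem e.symm (f.trans e) (symm_mem e he)
      (trans_mem f e ((autGroup_carrier F hLS f).mp hf.1) he))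
  obtain ⟨T', hT'⟩ := ((hUp.map _ : IsPGroup p ↥A).comap_subtype (K := F.autGroup W)).exists_le_sylow
  obtain ⟨s, hs⟩ := MulAction.exists_smul_eq ↥(F.autGroup W) T' TW
  set μ : ↥L ≃* ↥W := e.trans (s : MulAut ↥W)
  have hμ : W.subtype.comp μ.toMonoidHom ∈ F.Hom L := trans_mem e _ he ((autGroup_carrier F hWS _).mp s.2)
  have hμU : ∀ f ∈ U, ∃ h ∈ S, ∀ y : ↥L, (μ (f y) : Ω) = h * (μ y : Ω) * h⁻¹ := by
    intro f hf
    have h2 : MulAut.conj s • (⟨_, hA ⟨f, hf, rfl⟩⟩ : ↥(F.autGroup W)) ∈ s • T' :=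
      Subgroup.smul_mem_pointwise_smul _ _ _ (hT' (show (⟨_, hA ⟨f, hf, rfl⟩⟩ : ↥(F.autGroup W)) ∈ A.subgroupOf _ from
        ⟨f, hf, rfl⟩))
    rw [hs] at h2
    obtain ⟨h, hh, hhe⟩ := (mem_autInducedBy _).mp (hTW.le h2)
    refine ⟨h, hh, fun y => ?_⟩
    have h4 := hhe (μ y)
    simpa [μ, MulAut.congr] using h4
  set φμ : ↥L →* Ω := W.subtype.comp μ.toMonoidHom
  have hφμr : φμ.range = W := by
    ext y
    exact ⟨fun ⟨x, hx⟩ => hx ▸ (μ x).2, fun hy => ⟨μ.symm ⟨y, hy⟩, by simp [φμ]⟩⟩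
  obtain ⟨M, hM, hMe⟩ := hWr.2 L φμ hμ hφμr
  have hXext : X ≤ extender S L φμ := by
    refine sup_le (fun g hg => ?_) (le_sup_right.trans (le_extender hμ))
    obtain ⟨f, hf, hfg⟩ := hUconj g hg
    obtain ⟨h, hh, hhe⟩ := hμU f hf
    refine mem_extender ⟨hN₁S hg, mem_normalizer_of_conj hLS (hgL g hg)⟩ hh fun y hy => ?_
    show (μ ⟨g * y * g⁻¹, hy⟩ : Ω) = h * (μ y : Ω) * h⁻¹
    rw [show (⟨g * y * g⁻¹, hy⟩ : ↥L) = f y from Subtype.ext (hfg y).symm]
    exact hhe y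
  set μ' := M.comp (Subgroup.inclusion hXext)
  have hμ' : μ' ∈ F.Hom X := restrict_mem hM hXext
  have hLX : L ≤ X := sup_le_sup_right (le_inf hNT Subgroup.le_normalizer) C
  have hμ'e : ∀ y : ↥L, μ' (Subgroup.inclusion hLX y) = (μ y : Ω) := fun y => hMe y y.2 _
  set δ' : MulAut ↥W := (μ.symm.trans δ).trans μ
  set φW : ↥W →* Ω := W.subtype.comp δ'.toMonoidHom
  have hφW : φW ∈ F.Hom W := trans_mem (μ.symm.trans δ) μ
    (trans_mem μ.symm δ (symm_mem μ hμ) ((autGroup_carrier F hLS δ).mp hδ)) hμ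
  have hφWr : φW.range = W := by
    ext y
    exact ⟨fun ⟨x, hx⟩ => hx ▸ (δ' x).2, fun hy => ⟨δ'.symm ⟨y, hy⟩, by simp [φW]⟩⟩
  obtain ⟨Φ, hΦ, hΦe⟩ := hWr.2 W φW hφW hφWr
  have hv : ∀ z, μ' z ∈ extender S W φW := by
    refine fun z => apply_mem_of_sup μ' (fun g => ?_) (fun c => ?_) z
    · set y := μ' (Subgroup.inclusion le_sup_left g)
      have hgN : (g : Ω) ∈ Subgroup.normalizer (L : Set Ω) := mem_normalizer_of_conj hLS (hgL g g.2)
      obtain ⟨f, hf, hfg⟩ := hUconj g g.2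
      obtain ⟨h, hh, hhe⟩ := hμU _ (hδU f hf)
      have hy : ∀ w : ↥L, y * (μ w : Ω) * y⁻¹ = (μ (f w) : Ω) := by
        intro w
        rw [← hμ'e, ← hμ'e, ← map_inv, ← map_mul, ← map_mul]
        exact congrArg μ' (Subtype.ext (hfg w).symm)
      refine mem_extender ⟨apply_mem_S hμ' _, mem_normalizer_of_conj hWS fun x hx => ?_⟩ hh fun x hx => ?_
      · obtain ⟨w, hw⟩ := μ.surjective ⟨x, hx⟩
        rw [show x = (μ w : Ω) from congrArg Subtype.val hw.symm, hy]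
        exact SetLike.coe_mem _
      · obtain ⟨w, rfl⟩ := μ.surjective x
        show (μ (δ (μ.symm ⟨y * (μ w : Ω) * y⁻¹, hx⟩)) : Ω) = h * (μ (δ (μ.symm (μ w))) : Ω) * h⁻¹
        rw [show (⟨y * (μ w : Ω) * y⁻¹, hx⟩ : ↥W) = μ (f w) from Subtype.ext (hy w), MulEquiv.symm_apply_apply,
          MulEquiv.symm_apply_apply, ← hhe (δ w), MulAut.mul_apply, MulAut.mul_apply, MulAut.inv_apply_self]
    · refine le_extender hφW ?_
      rw [show (Subgroup.inclusion le_sup_right c : ↥X) = Subgroup.inclusion hLX (Subgroup.inclusion le_sup_right c) from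
        Subtype.ext rfl, hμ'e]
      exact SetLike.coe_mem _
  set Ψ := Φ.comp (μ'.codRestrict _ hv)
  have hΨ : Ψ ∈ F.Hom X := F.comp_mem hμ' hΦ hv
  have hΨL : ∀ y : ↥L, Ψ (Subgroup.inclusion hLX y) = (μ (δ y) : Ω) := by
    intro y
    show Φ ⟨μ' (Subgroup.inclusion hLX y), _⟩ = _
    rw [show (⟨μ' (Subgroup.inclusion hLX y), hv _⟩ : ↥(extender S W φW)) =
      ⟨(μ y : Ω), le_extender hφW (μ y).2⟩ from Subtype.ext (hμ'e y)]
    refine (hΦe _ (μ y).2 _).trans ?_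
    show (μ (δ (μ.symm (μ y))) : Ω) = _
    rw [MulEquiv.symm_apply_apply]
  have hμN : E.IsCentric (φμ.comp (Subgroup.inclusion (le_sup_left : N ≤ L))).range :=
    centric_conj_invariant hI hN (restrict_mem hμ le_sup_left)
  have hdiff : ∀ g : ↥N₁, ∃ z : ↥N, Ψ (Subgroup.inclusion le_sup_left g) =
      μ' (Subgroup.inclusion le_sup_left g) * (μ (Subgroup.inclusion le_sup_left z) : Ω) := by
    intro g
    set h := Ψ (Subgroup.inclusion le_sup_left g)
    set y := μ' (Subgroup.inclusion le_sup_left g)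
    have hT1 : y⁻¹ * h ∈ T := T.mul_mem (T.inv_mem (apply_mem_closed hsc hμ' _ g.2.1))
      (apply_mem_closed hsc hΨ _ g.2.1)
    have hc : y⁻¹ * h ∈ centralizerIn T (φμ.comp (Subgroup.inclusion (le_sup_left : N ≤ L))).range := by
      refine ⟨hT1, Subgroup.mem_centralizer_iff.mpr ?_⟩
      rintro _ ⟨z, rfl⟩
      set zz : ↥L := Subgroup.inclusion le_sup_left z
      show (μ zz : Ω) * (y⁻¹ * h) = y⁻¹ * h * (μ zz : Ω)
      have hgz : (g : Ω) * z * (g : Ω)⁻¹ ∈ N := conj_mem_of_normalizer g.2.2 z.2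
      set gz : ↥L := ⟨_, Subgroup.mem_sup_left hgz⟩
      have e1 : h * (μ zz : Ω) * h⁻¹ = (μ gz : Ω) := by
        have h1 := hΨL zz
        rw [hδN zz z.2] at h1
        have h2 := hΨL gz
        rw [hδN gz hgz] at h2
        rw [← h1, ← h2, ← map_inv, ← map_mul, ← map_mul]
        exact congrArg Ψ (Subtype.ext rfl)
      have e2 : y * (μ zz : Ω) * y⁻¹ = (μ gz : Ω) := by
        rw [← hμ'e, ← hμ'e, ← map_inv, ← map_mul, ← map_mul]
        exact congrArg μ' (Subtype.ext rfl)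
      calc (μ zz : Ω) * (y⁻¹ * h) = y⁻¹ * (y * (μ zz : Ω) * y⁻¹) * h := by group
        _ = y⁻¹ * (h * (μ zz : Ω) * h⁻¹) * h := by rw [e2, e1]
        _ = y⁻¹ * h * (μ zz : Ω) := by group
    obtain ⟨z, hz⟩ := hμN.2 _ (IsConj.refl E hμN.1) hc
    refine ⟨z, ?_⟩
    rw [show (μ (Subgroup.inclusion le_sup_left z) : Ω) = y⁻¹ * h from hz, mul_inv_cancel_left]
  have hΨr : ∀ w, Ψ w ∈ μ'.range := fun w => apply_mem_of_sup Ψ
    (fun g => by
      obtain ⟨z, hz⟩ := hdiff g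
      rw [hz, ← hμ'e, ← map_mul]
      exact ⟨_, rfl⟩)
    (fun c => by
      rw [show (Subgroup.inclusion le_sup_right c : ↥X) = Subgroup.inclusion hLX (Subgroup.inclusion le_sup_right c) from
        Subtype.ext rfl, hΨL, ← hμ'e]
      exact ⟨_, rfl⟩) w
  obtain ⟨μi, hμi, hμie⟩ := F.inv_mem hμ'
  set ε₀ := μi.comp (Ψ.codRestrict _ hΨr)
  have hε₀ : ε₀ ∈ F.Hom X := F.comp_mem hΨ hμi hΨr
  have hεv : ∀ w w', Ψ w = μ' w' → ε₀ w = (w' : Ω) := fun w w' hw =>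
    (congrArg μi (Subtype.ext hw : (⟨Ψ w, hΨr w⟩ : ↥μ'.range) = ⟨μ' w', ⟨w', rfl⟩⟩)).trans (hμie w')
  have hεr : ε₀.range = X := Subgroup.eq_of_le_of_card_ge (by
      rintro _ ⟨w, rfl⟩
      obtain ⟨w', hw'⟩ := hΨr w
      rw [hεv w w' hw'.symm]
      exact w'.2) (card_range hε₀).ge
  set ε : MulAut ↥X := isoOfMem hε₀ hεr
  have hε : ε ∈ F.autGroup X := (autGroup_carrier F hXS _).mpr (by
    rw [show ε.toMonoidHom = (isoOfMem hε₀ hεr).toMonoidHom from rfl, isoOfMem_hom hε₀ hεr]; exact hε₀)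
  have hεL : ∀ y : ↥L, (ε (Subgroup.inclusion hLX y) : Ω) = (δ y : Ω) := fun y =>
    (isoOfMem_coe hε₀ hεr _).trans (hεv _ (Subgroup.inclusion hLX (δ y)) ((hΨL y).trans (hμ'e _).symm))
  have hεN : ∀ z : ↥X, (z : Ω) ∈ N → ε z = z := fun z hz => Subtype.ext
    ((hεL ⟨z, Subgroup.mem_sup_left hz⟩).trans (congrArg Subtype.val (hδN ⟨z, Subgroup.mem_sup_left hz⟩ hz)))
  refine ⟨b, ε ^ p ^ b, pow_mem hε _, fun z hz => ?_, pow_congr_mod hsc inf_le_left hγ hε (fun c => ?_) _⟩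
  · obtain ⟨x, hx⟩ := hdiff ⟨z, hz⟩
    set zx : ↥X := Subgroup.inclusion hLX (Subgroup.inclusion le_sup_left x)
    have h1 : ε z = z * zx := Subtype.ext ((isoOfMem_coe hε₀ hεr _).trans (hεv _ (z * zx) (by
      rw [map_mul, hμ'e, show z = Subgroup.inclusion le_sup_left (⟨(z : Ω), hz⟩ : ↥N₁) from Subtype.ext rfl]
      exact hx)))
    rw [iter_fix ε h1 (hεN _ x.2), mul_eq_left]
    refine Subtype.ext ?_
    rw [Subgroup.coe_pow, ← hb]
    exact congrArg Subtype.val (pow_card_eq_one' (x := x))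
  · exact (congrArg (fun w : Ω => _ * w ∈ T) (hεL (Subgroup.inclusion le_sup_right c))).mpr (hδC c)

theorem nearFix_top (hS : IsPGroup p ↥S) (hE : E.IsWeaklyNormalIn F p) {N : Subgroup Ω} (hN : E.IsCentric N)
    {γ : MulAut ↥(T ⊔ centralizerIn S T)} (hγ : γ ∈ F.autGroup (T ⊔ centralizerIn S T)) (h : NearFix F T γ N) :
    ∃ j : ℕ, NearFix F T (γ ^ p ^ j) T := by
  suffices key : ∀ (k : ℕ) (N : Subgroup Ω) (γ : MulAut ↥(T ⊔ centralizerIn S T)), E.IsCentric N →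
      γ ∈ F.autGroup (T ⊔ centralizerIn S T) → NearFix F T γ N → Nat.card ↥T - Nat.card ↥N = k →
      ∃ j : ℕ, NearFix F T (γ ^ p ^ j) T from key _ N γ hN hγ h rfl
  intro k
  induction k using Nat.strong_induction_on with
  | _ k ih =>
    intro N γ hN hγ h hk
    rcases eq_or_lt_of_le hN.1 with rfl | hlt
    · exact ⟨0, by simpa using h⟩
    obtain ⟨j, hj⟩ := nearFix_step hS hE hN hγ h
    have hN₁ := lt_normalizerIn p (hS.to_le hE.2.2.2.1.1) hlt
    haveI : Finite ↥(normalizerIn T N) := finite_of_le (S := T) inf_le_left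
    have h1 : Nat.card ↥N < Nat.card ↥(normalizerIn T N) := Set.Finite.card_lt_card (Set.toFinite _) hN₁
    have h2 : Nat.card ↥(normalizerIn T N) ≤ Nat.card ↥T := Subgroup.card_le_of_le inf_le_left
    obtain ⟨i, hi⟩ := ih _ (by omega) _ _ (centric_mono hN hN₁.le inf_le_left) (pow_mem hγ _) hj rfl
    exact ⟨j + i, by rwa [pow_add, pow_mul]⟩

theorem centric_base (hI : E.IsInvariantIn F) : E.IsCentric T := by
  refine ⟨le_rfl, fun Q hQ => ?_⟩
  rw [eq_of_isConj_S hQ]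
  exact inf_le_left

theorem mem_of_coprime_powers {G : Type*} [Group G] (H : Subgroup G) {g : G} {m n : ℕ} (h : Nat.Coprime m n)
    (hm : g ^ m ∈ H) (hn : g ^ n ∈ H) : g ∈ H := by
  have h1 : (1 : ℤ) = m * Nat.gcdA m n + n * Nat.gcdB m n := by
    rw [← Nat.gcd_eq_gcd_ab, h.gcd_eq_one]; rfl
  rw [← zpow_one g, h1, zpow_add, zpow_mul, zpow_mul, zpow_natCast, zpow_natCast]
  exact H.mul_mem (H.zpow_mem hm _) (H.zpow_mem hn _)

theorem extSystem_closed (hS : IsPGroup p ↥S) (hE : E.IsWeaklyNormalIn F p) :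
    PPrimeClosed E p (extSystem hE.2.2) := by
  refine ⟨fun P hP a ha => extSystem_pElement hS hE hP a ha, fun P hPT hP α hα hres => ?_⟩
  obtain ⟨hEs, hF, hI⟩ := id hE
  have hsc := hI.2.1
  set C := centralizerIn S T
  set X := T ⊔ C
  have hXS : X ≤ S := sup_le hsc.1 inf_le_left
  haveI := finite_aut_of_le (S := T) (le_refl T)
  obtain ⟨ψ, hψ, hψe, hψc⟩ := hres.2 hP
  obtain ⟨β, hβ, hβe⟩ := exists_extend_centralizer hS hF hsc (autGroup_mono F E hI.1 T hα)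
  have hβ' := (autGroup_carrier F hXS _).mp (inv_mem hβ : β⁻¹ ∈ F.autGroup X)
  have hd := ext_diff hP hres.1 hψe hψc
  have hβi : ∀ (x : ↥T), ((β⁻¹ (Subgroup.inclusion le_sup_left (α x)) : ↥X) : Ω) = x := fun x => by
    rw [show Subgroup.inclusion le_sup_left (α x) = β (Subgroup.inclusion le_sup_left x) from
      Subtype.ext (hβe x).symm, MulAut.inv_apply_self]
    rfl
  have hψX : ∀ z, ψ z ∈ X := fun z => apply_mem_of_sup ψ
    (fun x => Subgroup.mem_sup_left (by rw [hψe]; exact SetLike.coe_mem _))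
    (fun c => by
      have := mul_mem (Subgroup.mem_sup_right (S := T) c.2) (Subgroup.mem_sup_left (T := C) (hψc c))
      rwa [mul_inv_cancel_left] at this) z
  set δ₀ := (X.subtype.comp (β⁻¹ : MulAut ↥X).toMonoidHom).comp (ψ.codRestrict X hψX)
  have hδ₀ : δ₀ ∈ F.Hom (P ⊔ C) := F.comp_mem hψ hβ' hψX
  have hval : ∀ c : ↥C, ∃ x : ↥P, δ₀ (Subgroup.inclusion le_sup_right c) =
      ((β⁻¹ (Subgroup.inclusion le_sup_right c) : ↥X) : Ω) * x := by
    intro c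
    obtain ⟨x, hx⟩ := hd c
    refine ⟨x, ?_⟩
    show ((β⁻¹ ⟨ψ (Subgroup.inclusion le_sup_right c), _⟩ : ↥X) : Ω) = _
    rw [show (⟨ψ (Subgroup.inclusion le_sup_right c), hψX _⟩ : ↥X) =
      Subgroup.inclusion le_sup_right c * Subgroup.inclusion le_sup_left (α ⟨x, hPT x.2⟩) from
        Subtype.ext ((mul_inv_cancel_left (c : Ω) _).symm.trans (congrArg ((c : Ω) * ·) hx.symm)), map_mul]
    show _ * _ = _
    rw [hβi]
  have hδ₀P : ∀ x : ↥P, δ₀ (Subgroup.inclusion le_sup_left x) = x := fun x => by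
    show ((β⁻¹ ⟨ψ (Subgroup.inclusion le_sup_left x), _⟩ : ↥X) : Ω) = _
    rw [show (⟨ψ (Subgroup.inclusion le_sup_left x), hψX _⟩ : ↥X) =
      Subgroup.inclusion le_sup_left (α ⟨x, hPT x.2⟩) from Subtype.ext (hψe x), hβi]
  haveI := finite_of_le (S := S) (le_S hψ)
  have hr : δ₀.range = P ⊔ C := by
    refine Subgroup.eq_of_le_of_card_ge ?_ (card_range hδ₀).ge
    rintro _ ⟨z, rfl⟩
    refine apply_mem_of_sup δ₀ (fun x => Subgroup.mem_sup_left (by rw [hδ₀P]; exact x.2)) (fun c => ?_) z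
    obtain ⟨x, hx⟩ := hval c
    rw [hx]
    exact mul_mem (Subgroup.mem_sup_right (aut_mem_centralizer hsc (inv_mem hβ)
      (show ((Subgroup.inclusion (le_sup_right : C ≤ X) c : ↥X) : Ω) ∈ C from c.2))) (Subgroup.mem_sup_left x.2)
  have hnear : NearFix F T (β⁻¹) P := by
    refine ⟨isoOfMem hδ₀ hr, (autGroup_carrier F (le_S hψ) _).mpr ?_, fun z hz => Subtype.ext ?_, fun c => ?_⟩
    · rw [show (isoOfMem hδ₀ hr).toMonoidHom = _ from rfl, isoOfMem_hom hδ₀ hr]; exact hδ₀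
    · exact (isoOfMem_coe hδ₀ hr _).trans (hδ₀P ⟨z, hz⟩)
    · obtain ⟨x, hx⟩ := hval c
      rw [show ((isoOfMem hδ₀ hr (Subgroup.inclusion le_sup_right c) : ↥(P ⊔ C)) : Ω) = _ from
        (isoOfMem_coe hδ₀ hr _).trans hx, inv_mul_cancel_left]
      exact hPT x.2
  obtain ⟨j, δ, hδ, hδT, hδC⟩ := nearFix_top hS hE hP (inv_mem hβ) hnear
  set D := extSystem hE.2.2
  have hq : α ^ p ^ j ∈ D.autGroup T := by
    refine (autGroup_carrier D le_rfl _).mpr ⟨(autGroup_carrier E le_rfl _).mp (pow_mem hα _), fun _ =>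
      ⟨_, (autGroup_carrier F hXS _).mp (mul_mem hδ (pow_mem hβ (p ^ j))), fun x => ?_, fun c => ?_⟩⟩
    · have key : ∀ n : ℕ, (β ^ n) (Subgroup.inclusion le_sup_left x) = Subgroup.inclusion le_sup_left ((α ^ n) x) := by
        intro n
        induction n with
        | zero => simp
        | succ n ih =>
          rw [pow_succ' β, pow_succ' α, MulAut.mul_apply, MulAut.mul_apply, ih]
          exact Subtype.ext (hβe _)
      show ((δ ((β ^ p ^ j) (Subgroup.inclusion le_sup_left x)) : ↥X) : Ω) = _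
      rw [key, hδT _ (SetLike.coe_mem _)]
      rfl
    · set c' : ↥C := ⟨_, aut_mem_centralizer hsc (pow_mem hβ (p ^ j))
        (show ((Subgroup.inclusion (le_sup_right : C ≤ X) c : ↥X) : Ω) ∈ C from c.2)⟩
      have h1 := hδC c'
      rw [show Subgroup.inclusion (le_sup_right : C ≤ X) c' = (β ^ p ^ j) (Subgroup.inclusion le_sup_right c) from
        Subtype.ext rfl, inv_pow, MulAut.inv_apply_self] at h1
      exact h1
  have hn0 : orderOf (⟨α, hα⟩ : ↥(E.autGroup T)) ≠ 0 := (orderOf_pos _).ne'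
  obtain ⟨a, m, hm, hn⟩ := Nat.exists_eq_pow_mul_and_not_dvd hn0 p (Fact.out : p.Prime).ne_one
  have hmp : orderOf ((⟨α, hα⟩ : ↥(E.autGroup T)) ^ m) = p ^ a := by
    rw [orderOf_pow, hn, Nat.gcd_mul_left_left, Nat.mul_div_cancel _ (Nat.pos_of_ne_zero fun h => hm (by rw [h]; exact dvd_zero p))]
  exact mem_of_coprime_powers (D.autGroup T)
    (Nat.Coprime.pow_right j (((Fact.out : p.Prime).coprime_iff_not_dvd.mpr hm).symm))
    (extSystem_pElement hS hE (centric_base hI) _ ⟨a, hmp⟩) hq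

theorem residual_normal (hS : IsPGroup p ↥S) (hE : E.IsWeaklyNormalIn F p) :
    (residualSystem E p).IsNormalIn F p := by
  obtain ⟨hEs, hF, hI⟩ := id hE
  have hsc := hI.2.1
  have hT : IsPGroup p ↥T := hS.to_le hsc.1
  refine ⟨⟨residual_saturated hT hEs, hF, fun P φ hφ => hI.1 P (residual_le_self P hφ), hsc, ?_, ?_⟩, fun α hα => ?_⟩
  · intro P hPT φ hφ α hα
    obtain ⟨φ', hφ', hc⟩ := residual_twist_iso (invIso hI hα) hφ
    refine ⟨φ', hφ', fun x hx hαx => ?_⟩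
    obtain ⟨h1, h2, h3, h4⟩ := hc x
    exact h4
  · intro P hPT φ hφ
    obtain ⟨α, hα, φ₁, hφ₁, he⟩ := hI.2.2.2 P hPT φ hφ
    obtain ⟨b, hb, φ₀, hφ₀, he₀⟩ := residual_frattini hT hEs hφ₁
    refine ⟨α * b, mul_mem hα (autGroup_mono F E hI.1 T hb), φ₀, hφ₀, fun x hx => ?_⟩
    rw [he x (apply_mem_S hφ₁ x), show (⟨φ₁ x, apply_mem_S hφ₁ x⟩ : ↥T) = b ⟨φ₀ x, hx⟩ from Subtype.ext (he₀ x hx)]
    rfl
  · have hmem := (residual_le (extSystem_closed hS hE)) T ((autGroup_carrier (residualSystem E p) le_rfl α).mp hα)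
    obtain ⟨ψ, hψ, hψe, hψc⟩ := hmem.2 (centric_base hI)
    have hXS : T ⊔ centralizerIn S T ≤ S := sup_le hsc.1 inf_le_left
    haveI := finite_of_le (S := S) hXS
    have hr : ψ.range = T ⊔ centralizerIn S T := by
      refine Subgroup.eq_of_le_of_card_ge ?_ (card_range hψ).ge
      rintro _ ⟨z, rfl⟩
      refine apply_mem_of_sup ψ (fun x => Subgroup.mem_sup_left (by rw [hψe]; exact SetLike.coe_mem _)) (fun c => ?_) z
      have := mul_mem (Subgroup.mem_sup_right (S := T) c.2) (Subgroup.mem_sup_left (T := centralizerIn S T) (hψc c))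
      rwa [mul_inv_cancel_left] at this
    refine ⟨isoOfMem hψ hr, (autGroup_carrier F hXS _).mpr ?_, fun x => (isoOfMem_coe hψ hr _).trans (hψe x),
      fun c hc => ?_⟩
    · rw [show (isoOfMem hψ hr).toMonoidHom = _ from rfl, isoOfMem_hom hψ hr]; exact hψ
    · rw [isoOfMem_coe]
      refine ⟨hψc ⟨c, hc⟩, Subgroup.mem_centralizer_iff.mpr fun y hy => ?_⟩
      have hd := ext_diff (centric_base hI) hmem.1 hψe hψc ⟨c, hc⟩
      have h1 : y * (c : Ω)⁻¹ = (c : Ω)⁻¹ * y := centralizes (inv_mem hc) hy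
      have h2 : y * ψ c = ψ c * y := by
        obtain ⟨w, hw⟩ := α.surjective ⟨y, hy⟩
        rw [show y = ψ (Subgroup.inclusion le_sup_left w) from ((hψe w).trans (congrArg Subtype.val hw)).symm,
          ← map_mul, ← map_mul]
        exact congrArg ψ (Subtype.ext (centralizes hc w.2))
      rw [← mul_assoc, h1, mul_assoc, h2, ← mul_assoc]

/-- A weakly normal subsystem over the same base contains the residual of any other. -/
theorem residual_le_weaklyNormal (hS : IsPGroup p ↥S) (hE : E.IsWeaklyNormalIn F p) {D' : FusionSystem T}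
    (hD : D'.IsWeaklyNormalIn F p) : residualSystem E p ≤ D' := by
  obtain ⟨hEs, hF, hI⟩ := id hE
  obtain ⟨hDs, -, hJ⟩ := id hD
  have hsc := hI.2.1
  have hT : IsPGroup p ↥T := hS.to_le hsc.1
  haveI := finite_aut_of_le (S := T) (le_refl T)
  have hp : ∀ P, P ≤ T → ∀ a : ↥(E.autGroup P), (∃ k : ℕ, orderOf a = p ^ k) → (a : MulAut ↥P) ∈ D'.autGroup P := by
    intro P hP a ha
    have haE := (autGroup_carrier E hP _).mp a.2
    obtain ⟨R, hPR, hR⟩ := exists_fullyNormalized E hP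
    obtain ⟨φ, hφ, hφR⟩ := hPR
    haveI := finite_aut_of_le (S := T) hR.1
    set e := isoOfMem hφ hφR
    have he : R.subtype.comp e.toMonoidHom ∈ E.Hom P := by rwa [isoOfMem_hom hφ hφR]
    have hmem : MulAut.congr e (a : MulAut ↥P) ∈ E.autGroup R :=
      (autGroup_carrier E hR.1 _).mpr (trans_mem e.symm ((a : MulAut ↥P).trans e) (symm_mem e he)
        (trans_mem (a : MulAut ↥P) e haE he))
    obtain ⟨-, TR, hTR⟩ := fullyNormalized_automized p hT hEs hR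
    have hap : IsPGroup p ↥(Subgroup.zpowers (⟨_, hmem⟩ : ↥(E.autGroup R))) := by
      obtain ⟨k, hk⟩ := ha
      refine IsPGroup.of_card (n := k) ?_
      rw [Nat.card_zpowers, ← Subgroup.orderOf_coe, ← hk, ← Subgroup.orderOf_coe a]
      exact MulEquiv.orderOf_eq _ _
    obtain ⟨T', hT'⟩ := hap.exists_le_sylow
    obtain ⟨b, hb⟩ := MulAction.exists_smul_eq ↥(E.autGroup R) T' TR
    have h2 : MulAut.conj b • (⟨_, hmem⟩ : ↥(E.autGroup R)) ∈ b • T' :=
      Subgroup.smul_mem_pointwise_smul _ _ _ (hT' (Subgroup.mem_zpowers _))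
    rw [hb] at h2
    obtain ⟨g, hg, hge⟩ := (mem_autInducedBy _).mp (hTR.le h2)
    set ψ : ↥P →* Ω := R.subtype.comp (e.trans (b : MulAut ↥R)).toMonoidHom
    have hψ : ψ ∈ F.Hom P := hI.1 P (trans_mem e (b : MulAut ↥R) he ((autGroup_carrier E hR.1 _).mp b.2))
    obtain ⟨c, hc, ψ₀, hψ₀, hψe⟩ := hJ.2.2.2 P hP ψ hψ
    set Q := ψ₀.range
    set e₀ := isoOfMem hψ₀ (rfl : ψ₀.range = Q)
    have he₀ : Q.subtype.comp e₀.toMonoidHom ∈ D'.Hom P := by rw [isoOfMem_hom hψ₀ rfl]; exact hψ₀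
    have hQT : Q ≤ T := range_le_S hψ₀
    set d : MulAut ↥Q := (e₀.symm.trans (a : MulAut ↥P)).trans e₀
    have hd : d ∈ D'.autGroup Q := by
      refine (autGroup_carrier D' hQT d).mpr (conj_mem_of_eq D' hQT ((c⁻¹ : MulAut ↥T) ⟨g, hg⟩).2 fun y => ?_)
      obtain ⟨x, rfl⟩ := e₀.surjective y
      show ((e₀ ((a : MulAut ↥P) (e₀.symm (e₀ x))) : ↥Q) : Ω) = _
      rw [MulEquiv.symm_apply_apply]
      have h4 := hge ((b : MulAut ↥R) (e x))
      have h5 : ψ ((a : MulAut ↥P) x) = g * ψ x * g⁻¹ := by simpa [ψ] using h4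
      rw [hψe _ (apply_mem_S hψ₀ _), hψe _ (apply_mem_S hψ₀ _)] at h5
      have h6 : c ⟨ψ₀ ((a : MulAut ↥P) x), apply_mem_S hψ₀ _⟩ = ⟨g, hg⟩ * c ⟨ψ₀ x, apply_mem_S hψ₀ x⟩ * ⟨g, hg⟩⁻¹ :=
        Subtype.ext h5
      have h7 := congrArg (c⁻¹ : MulAut ↥T) h6
      rw [MulAut.inv_apply_self, map_mul, map_mul, map_inv, MulAut.inv_apply_self] at h7
      exact congrArg Subtype.val h7
    refine (autGroup_carrier D' hP _).mpr ?_
    have h := trans_mem e₀ (d.trans e₀.symm) he₀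
      (trans_mem d e₀.symm ((autGroup_carrier D' hQT d).mp hd) (symm_mem e₀ he₀))
    convert h using 1
    refine MonoidHom.ext fun x => ?_
    simp [d]
  refine residual_le ⟨fun P hP a ha => hp P hP.1 a ha, fun P hPT hP α hα hres => ?_⟩
  suffices key : ∀ (k : ℕ) (N : Subgroup Ω) (hN : N ≤ T) (α : MulAut ↥T), E.IsCentric N → α ∈ E.autGroup T →
      (T.subtype.comp α.toMonoidHom).comp (Subgroup.inclusion hN) ∈ D'.Hom N → Nat.card ↥T - Nat.card ↥N = k →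
      ∃ j : ℕ, α ^ p ^ j ∈ D'.autGroup T by
    obtain ⟨j, hj⟩ := key _ P hPT α hP hα hres rfl
    have hn0 : orderOf (⟨α, hα⟩ : ↥(E.autGroup T)) ≠ 0 := (orderOf_pos _).ne'
    obtain ⟨a, m, hm, hn⟩ := Nat.exists_eq_pow_mul_and_not_dvd hn0 p (Fact.out : p.Prime).ne_one
    have hmp : orderOf ((⟨α, hα⟩ : ↥(E.autGroup T)) ^ m) = p ^ a := by
      rw [orderOf_pow, hn, Nat.gcd_mul_left_left, Nat.mul_div_cancel _ (Nat.pos_of_ne_zero fun h => hm (by rw [h]; exact dvd_zero p))]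
    exact mem_of_coprime_powers (D'.autGroup T)
      (Nat.Coprime.pow_right j (((Fact.out : p.Prime).coprime_iff_not_dvd.mpr hm).symm))
      (hp T le_rfl _ ⟨a, hmp⟩) hj
  intro k
  induction k using Nat.strong_induction_on with
  | _ k ih =>
    intro N hN α hNc hα hres hk
    rcases eq_or_lt_of_le hN with rfl | hlt
    · exact ⟨0, by rw [pow_zero, pow_one]; exact (autGroup_carrier D' le_rfl α).mpr hres⟩
    set N₁ := normalizerIn T N
    have hN₁ : N < N₁ := lt_normalizerIn p hT hlt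
    have hN₁T : N₁ ≤ T := inf_le_left
    haveI := finite_of_le (S := T) hN₁T
    haveI := finite_of_le (S := T) hN
    -- a map of `D'` on the normaliser agreeing with the automorphism on `N`
    set N' := ((T.subtype.comp α.toMonoidHom).comp (Subgroup.inclusion hN)).range
    obtain ⟨R, hN'R, hR⟩ := exists_fullyNormalized D' (range_le_S hres : N' ≤ T)
    obtain ⟨η, hη, hηN, hηR, hηs⟩ := exists_map_normalizer p hT (fullyNormalized_automized p hT hDs hR)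
      (fullyNormalized_receptive p hT hDs hR) hN'R
    set α₁ := (T.subtype.comp α.toMonoidHom).comp (Subgroup.inclusion hN₁T)
    have hα₁F : α₁ ∈ F.Hom N₁ := restrict_mem ((autGroup_carrier F hsc.1 α).mp (autGroup_mono F E hI.1 T hα)) hN₁T
    have hNN₁ : N ≤ N₁ := hN₁.le
    have hα₁N : ∀ g, α₁ g ∈ normalizerIn T N' := by
      intro g
      refine ⟨SetLike.coe_mem _, mem_normalizer_of_conj (S := T) (range_le_S hres) ?_⟩
      rintro _ ⟨x, rfl⟩
      refine ⟨⟨(g : Ω) * x * (g : Ω)⁻¹, conj_mem_of_normalizer g.2.2 x.2⟩, ?_⟩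
      exact aut_conj_coe α _ _ _ rfl
    have hN'N : ∀ x : ↥N, (T.subtype.comp α.toMonoidHom).comp (Subgroup.inclusion hN) x ∈ normalizerIn T N' :=
      fun x => le_inf (range_le_S hres) Subgroup.le_normalizer ⟨x, rfl⟩
    have hφ₂ := D'.comp_mem hres hη hN'N
    have hφ₂r : (η.comp (((T.subtype.comp α.toMonoidHom).comp (Subgroup.inclusion hN)).codRestrict _ hN'N)).range = R := by
      refine le_antisymm ?_ fun y hy => ?_
      · rintro _ ⟨x, rfl⟩
        exact hηR ⟨_, ⟨x, rfl⟩⟩ (hN'N x)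
      · obtain ⟨w, hw, rfl⟩ := hηs y hy
        obtain ⟨x, hx⟩ := w.2
        exact ⟨x, congrArg η (Subtype.ext hx)⟩
    obtain ⟨Ψ, hΨ, hΨe⟩ := (fullyNormalized_receptive p hT hDs hR).2 N _ hφ₂ hφ₂r
    have hext : N₁ ≤ extender T N (η.comp (((T.subtype.comp α.toMonoidHom).comp (Subgroup.inclusion hN)).codRestrict _ hN'N)) := by
      intro g hg
      refine mem_extender hg (apply_mem_S hη ⟨_, hα₁N ⟨g, hg⟩⟩) fun x hx => ?_
      show η _ = η _ * η _ * (η _)⁻¹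
      rw [← map_inv, ← map_mul, ← map_mul]
      refine congrArg η (Subtype.ext ?_)
      exact aut_conj_coe α _ _ _ rfl
    have hΨ₁ := restrict_mem hΨ hext
    have hΨr : (Ψ.comp (Subgroup.inclusion hext)).range ≤ η.range := by
      have h1 : (η.comp (α₁.codRestrict _ hα₁N)).range ≤ η.range := by rintro _ ⟨x, rfl⟩; exact ⟨_, rfl⟩
      haveI : Finite ↥(normalizerIn T R) := finite_of_le (S := T) inf_le_left
      haveI : Finite ↥(normalizerIn T N') := finite_of_le (S := T) inf_le_left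
      have hle : (Ψ.comp (Subgroup.inclusion hext)).range ≤ normalizerIn T R := by
        rintro _ ⟨x, rfl⟩
        refine ⟨apply_mem_S hΨ₁ x, mem_normalizer_of_conj (S := T) hR.1 fun y hy => ?_⟩
        obtain ⟨z, rfl⟩ := hφ₂r.ge hy
        rw [← hΨe z z.2 (hext (hNN₁ z.2))]
        show Ψ _ * Ψ _ * (Ψ _)⁻¹ ∈ R
        rw [← map_inv, ← map_mul, ← map_mul]
        have hzx : (x : Ω) * z * (x : Ω)⁻¹ ∈ N := conj_mem_of_normalizer x.2.2 z.2
        rw [show Subgroup.inclusion hext x * ⟨(z : Ω), hext (hNN₁ z.2)⟩ * (Subgroup.inclusion hext x)⁻¹ =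
          (⟨_, hext (hNN₁ hzx)⟩ : ↥(extender T N _)) from Subtype.ext rfl, hΨe _ hzx]
        exact hφ₂r.le ⟨_, rfl⟩
      intro y hy
      obtain ⟨g, rfl⟩ := hy
      -- compare with the image of the automorphism
      set w := η ⟨α₁ g, hα₁N g⟩
      have hc : w⁻¹ * (Ψ.comp (Subgroup.inclusion hext)) g ∈ centralizerIn T R := by
        refine ⟨T.mul_mem (T.inv_mem (apply_mem_S hη _)) (apply_mem_S hΨ₁ g), Subgroup.mem_centralizer_iff.mpr ?_⟩
        intro y hy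
        obtain ⟨z, rfl⟩ := hφ₂r.ge hy
        have hzg : (g : Ω) * z * (g : Ω)⁻¹ ∈ N := conj_mem_of_normalizer g.2.2 z.2
        set v := (Ψ.comp (Subgroup.inclusion hext)) g
        let φ₂ := η.comp (((T.subtype.comp α.toMonoidHom).comp (Subgroup.inclusion hN)).codRestrict _ hN'N)
        have e1 : v * φ₂ z * v⁻¹ = φ₂ ⟨_, hzg⟩ := by
          rw [← hΨe z z.2 (hext (hNN₁ z.2)), ← hΨe _ hzg (hext (hNN₁ hzg))]
          show Ψ _ * Ψ _ * (Ψ _)⁻¹ = _
          rw [← map_inv, ← map_mul, ← map_mul]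
          rfl
        have e2 : w * φ₂ z * w⁻¹ = φ₂ ⟨_, hzg⟩ := by
          show η _ * η _ * (η _)⁻¹ = η _
          rw [← map_inv, ← map_mul, ← map_mul]
          refine congrArg η (Subtype.ext ?_)
          exact (aut_conj_coe α _ _ _ rfl).symm
        calc φ₂ z * (w⁻¹ * v) = w⁻¹ * (w * φ₂ z * w⁻¹) * v := by group
          _ = w⁻¹ * (v * φ₂ z * v⁻¹) * v := by rw [e2, e1]
          _ = w⁻¹ * v * φ₂ z := by group
      have hRc : E.IsCentric R := by
        rw [← hφ₂r]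
        exact centric_conj_invariant hI hNc (hJ.1 N hφ₂)
      obtain ⟨z, hz⟩ := hφ₂r.ge (hRc.2 R (IsConj.refl E hRc.1) hc)
      refine ⟨⟨α₁ g, hα₁N g⟩ * ⟨_, hN'N z⟩, ?_⟩
      rw [map_mul]
      show w * (η.comp (((T.subtype.comp α.toMonoidHom).comp (Subgroup.inclusion hN)).codRestrict _ hN'N)) z = _
      rw [hz, mul_inv_cancel_left]
    obtain ⟨ηi, hηi, hηie⟩ := D'.inv_mem hη
    have hΨv : ∀ g, (Ψ.comp (Subgroup.inclusion hext)) g ∈ η.range := fun g => hΨr ⟨g, rfl⟩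
    set χ := ηi.comp ((Ψ.comp (Subgroup.inclusion hext)).codRestrict _ hΨv)
    have hχ : χ ∈ D'.Hom N₁ := D'.comp_mem hΨ₁ hηi hΨv
    have hχN : ∀ (x : ↥N₁) (hx : (x : Ω) ∈ N), χ x = α₁ x := by
      intro x hx
      have h1 : (Ψ.comp (Subgroup.inclusion hext)) x = η ⟨α₁ x, hα₁N x⟩ := (hΨe _ hx _).trans rfl
      exact (congrArg ηi (Subtype.ext h1 : (⟨_, hΨv x⟩ : ↥η.range) = ⟨η ⟨α₁ x, hα₁N x⟩, ⟨_, rfl⟩⟩)).trans (hηie _)
    haveI : Finite ↥(normalizerIn T N') := finite_of_le (S := T) inf_le_left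
    haveI : Finite ↥α₁.range := finite_of_le (S := S) (range_le_S hα₁F)
    have hcard : Nat.card ↥(normalizerIn T N') ≤ Nat.card ↥N₁ := by
      rw [← card_range hα₁F]
      refine Subgroup.card_le_of_le fun y hy => ?_
      refine ⟨⟨(α.symm ⟨y, hy.1⟩ : Ω), SetLike.coe_mem _, mem_normalizer_of_conj (S := T) hN fun x hx => ?_⟩,
        congrArg Subtype.val (α.apply_symm_apply ⟨y, hy.1⟩)⟩
      have h1 : y * (α ⟨x, hN hx⟩ : Ω) * y⁻¹ ∈ N' := conj_mem_of_normalizer hy.2 ⟨⟨x, hx⟩, rfl⟩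
      obtain ⟨x', hx'⟩ := h1
      have h2 : α (Subgroup.inclusion hN x') = ⟨y, hy.1⟩ * α ⟨x, hN hx⟩ * ⟨y, hy.1⟩⁻¹ := Subtype.ext hx'
      have h3 := congrArg α.symm h2
      rw [MulEquiv.symm_apply_apply, map_mul, map_mul, map_inv, MulEquiv.symm_apply_apply] at h3
      have h4 := congrArg Subtype.val h3
      simp only [Subgroup.coe_mul, Subgroup.coe_inv, Subgroup.coe_inclusion] at h4
      rw [← h4]
      exact x'.2
    have hr₁ : α₁.range = normalizerIn T N' :=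
      Subgroup.eq_of_le_of_card_ge (by rintro _ ⟨g, rfl⟩; exact hα₁N g) (by rw [card_range hα₁F]; exact hcard)
    have hrχ : χ.range = α₁.range := by
      rw [hr₁]
      refine Subgroup.eq_of_le_of_card_ge ?_ (by rw [card_range hχ]; exact hcard)
      rintro _ ⟨g, rfl⟩
      refine ⟨apply_mem_S hχ g, mem_normalizer_of_conj (S := T) (range_le_S hres) ?_⟩
      rintro _ ⟨x, rfl⟩
      have hgx : (g : Ω) * x * (g : Ω)⁻¹ ∈ N := conj_mem_of_normalizer g.2.2 x.2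
      refine ⟨⟨_, hgx⟩, ?_⟩
      show α₁ ⟨_, hNN₁ hgx⟩ = χ g * α₁ ⟨(x : Ω), hNN₁ x.2⟩ * (χ g)⁻¹
      rw [← hχN ⟨_, hNN₁ hgx⟩ hgx, ← hχN ⟨(x : Ω), hNN₁ x.2⟩ x.2, ← map_inv, ← map_mul, ← map_mul]
      rfl
    haveI := finite_of_le (S := S) (hN₁T.trans hsc.1)
    set a := isoOfMem hα₁F (rfl : α₁.range = α₁.range)
    set c := isoOfMem (hJ.1 N₁ hχ) hrχ
    have hcD : α₁.range.subtype.comp c.toMonoidHom ∈ D'.Hom N₁ := by rw [isoOfMem_hom (hJ.1 N₁ hχ) hrχ]; exact hχ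
    set δ : MulAut ↥N₁ := a.trans c.symm
    have hδN : ∀ x : ↥N₁, (x : Ω) ∈ N → δ x = x := fun x hx => by
      show c.symm (a x) = x
      rw [MulEquiv.symm_apply_eq]
      exact Subtype.ext (((isoOfMem_coe hα₁F rfl x).trans (hχN x hx).symm).trans (isoOfMem_coe _ hrχ x).symm)
    have hαT : ∀ n : ℕ, α ^ n ∈ F.autGroup T := fun n => pow_mem (autGroup_mono F E hI.1 T hα) n
    let Y : ℕ → Subgroup Ω := fun n => (N₁.subgroupOf T).map (T.subtype.comp (α ^ n : MulAut ↥T).toMonoidHom)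
    have hY : ∀ n (x : ↥N₁), ((α ^ n) (Subgroup.inclusion hN₁T x) : Ω) ∈ Y n := fun n x => ⟨_, x.2, rfl⟩
    have hYT : ∀ n, Y n ≤ T := fun n => by rintro _ ⟨w, -, rfl⟩; exact SetLike.coe_mem _
    have hchain : ∀ n : ℕ, ∃ θ ∈ D'.Hom (Y n), ∀ x : ↥N₁, θ ⟨_, hY n x⟩ = ((δ ^ n) x : Ω) := by
      intro n
      induction n with
      | zero =>
        refine ⟨_, incl_mem D' (hYT 0), fun x => ?_⟩
        simp
      | succ n ih =>
        obtain ⟨θ, hθ, hθe⟩ := ih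
        obtain ⟨θ', hθ', hθ'e⟩ := inv_conj hJ.2.2.1 (hYT n) hθ (autGroup_mono F E hI.1 T hα) (P' := Y (n + 1))
          (fun y => by
            constructor
            · rintro ⟨w, hw, rfl⟩
              refine ⟨⟨_, hY n ⟨w, hw⟩⟩, ?_⟩
              show (α ((α ^ n) _) : Ω) = ((α ^ (n + 1)) w : Ω)
              rw [pow_succ' α, MulAut.mul_apply]
              rfl
            · rintro ⟨⟨_, w, hw, rfl⟩, rfl⟩
              refine ⟨w, hw, ?_⟩
              show ((α ^ (n + 1)) w : Ω) = _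
              rw [pow_succ' α, MulAut.mul_apply]
              rfl)
        have key : ∀ x : ↥N₁, θ' ⟨_, hY (n + 1) x⟩ = α₁ ((δ ^ n) x) := by
          intro x
          have e1 : ((α ^ (n + 1)) (Subgroup.inclusion hN₁T x) : Ω) =
              (α ⟨((α ^ n) (Subgroup.inclusion hN₁T x) : Ω), SetLike.coe_mem _⟩ : Ω) := by
            rw [pow_succ' α, MulAut.mul_apply]
          have h := hθ'e ⟨_, hY n x⟩ (apply_mem_S hθ _) (e1 ▸ hY (n + 1) x)
          refine (congrArg θ' (Subtype.ext ?_)).trans (h.trans ?_)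
          · exact e1
          · exact congrArg (fun u : ↥T => (α u : Ω)) (Subtype.ext (hθe x))
        have hθv : ∀ z, θ' z ∈ α₁.range := by
          rintro ⟨_, w, hw, rfl⟩
          exact ⟨_, (key ⟨(w : Ω), hw⟩).symm⟩
        refine ⟨_, D'.comp_mem hθ' (symm_mem c hcD) hθv, fun x => ?_⟩
        rw [pow_succ' δ, MulAut.mul_apply]
        show ((c.symm ⟨θ' ⟨_, hY (n + 1) x⟩, _⟩ : ↥N₁) : Ω) = ((c.symm (a ((δ ^ n) x)) : ↥N₁) : Ω)
        refine congrArg (fun u : ↥α₁.range => ((c.symm u : ↥N₁) : Ω)) (Subtype.ext ?_)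
        rw [isoOfMem_coe]
        exact key x
    obtain ⟨b, hb⟩ := IsPGroup.iff_card.mp (hT.to_le hN)
    have hfix : ∀ x : ↥N₁, (δ ^ p ^ b) x = x := by
      intro x
      have hd : ((x⁻¹ * δ x : ↥N₁) : Ω) ∈ N := by
        refine hNc.2 N (IsConj.refl E hN) ⟨hN₁T (x⁻¹ * δ x).2, Subgroup.mem_centralizer_iff.mpr fun y hy => ?_⟩
        set yy : ↥N₁ := ⟨y, hNN₁ hy⟩
        set yx : ↥N₁ := x * yy * x⁻¹
        have h1 : δ yx = yx := hδN yx (conj_mem_of_normalizer x.2.2 hy)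
        rw [map_mul, map_mul, map_inv, hδN yy hy] at h1
        have h2 : (δ x : Ω) * y * (δ x : Ω)⁻¹ = (x : Ω) * y * (x : Ω)⁻¹ := congrArg Subtype.val h1
        show y * ((x : Ω)⁻¹ * (δ x : Ω)) = (x : Ω)⁻¹ * (δ x : Ω) * y
        calc y * ((x : Ω)⁻¹ * (δ x : Ω)) = (x : Ω)⁻¹ * ((x : Ω) * y * (x : Ω)⁻¹) * (δ x : Ω) := by group
          _ = (x : Ω)⁻¹ * (δ x : Ω) * y := by rw [← h2]; group
      rw [iter_fix δ (z := x) (d := x⁻¹ * δ x) (mul_inv_cancel_left x _).symm (hδN _ hd), mul_eq_left]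
      refine Subtype.ext ?_
      rw [Subgroup.coe_pow, ← hb]
      exact congrArg Subtype.val (pow_card_eq_one' (x := (⟨_, hd⟩ : ↥N)))
    obtain ⟨θ, hθ, hθe⟩ := hchain (p ^ b)
    obtain ⟨θi, hθi, hθie⟩ := D'.inv_mem hθ
    have hle : N₁ ≤ θ.range := fun x hx => ⟨⟨_, hY (p ^ b) ⟨x, hx⟩⟩, by rw [hθe, hfix]⟩
    have hres₁ : (T.subtype.comp (α ^ p ^ b : MulAut ↥T).toMonoidHom).comp (Subgroup.inclusion hN₁T) ∈ D'.Hom N₁ := by
      refine restrict_mem_of_eq hθi hle fun x => ?_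
      show _ = θi ⟨(x : Ω), _⟩
      rw [show (⟨(x : Ω), hle x.2⟩ : ↥θ.range) = ⟨θ ⟨_, hY (p ^ b) x⟩, ⟨_, rfl⟩⟩ from
        Subtype.ext ((congrArg Subtype.val (hfix x)).symm.trans (hθe x).symm), hθie]
      rfl
    have hlt' : Nat.card ↥N < Nat.card ↥N₁ := Set.Finite.card_lt_card (Set.toFinite _) hN₁
    have hle' : Nat.card ↥N₁ ≤ Nat.card ↥T := Subgroup.card_le_of_le hN₁T
    obtain ⟨j, hj⟩ := ih _ (by omega) N₁ hN₁T _ (centric_mono hNc hNN₁ hN₁T) (pow_mem hα _) hres₁ rfl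
    exact ⟨b + j, by rwa [pow_add, pow_mul]⟩

end CfsgLib.Fusion
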