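import Cfsg.Agent.Lib.Fusion.Saturated
import Cfsg.Prelude.Def_FusionComponents

/-! The direct product of two saturated systems is saturated. -/

set_option autoImplicit false
set_option linter.unusedSectionVars false
set_option linter.style.haveILetI false
set_option maxHeartbeats 1600000

namespace CfsgLib.Fusion.ProductSaturated

open Cfsg Cfsg.FusionSystem CfsgLib.Fusion
open scoped Pointwise

variable {Ω₁ Ω₂ : Type*} [Group Ω₁] [Group Ω₂] {S₁ : Subgroup Ω₁} {S₂ : Subgroup Ω₂} {F₁ : FusionSystem S₁}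
  {F₂ : FusionSystem S₂} {E : FusionSystem (S₁.prod S₂)}

theorem mem_hom (hE : IsProductSystem F₁ F₂ E) {P : Subgroup (Ω₁ × Ω₂)} {A₁ : Subgroup Ω₁} {A₂ : Subgroup Ω₂}
    {φ₁ : ↥A₁ →* Ω₁} {φ₂ : ↥A₂ →* Ω₂} (h₁ : φ₁ ∈ F₁.Hom A₁) (h₂ : φ₂ ∈ F₂.Hom A₂)
    (hA₁ : ∀ x ∈ P, x.1 ∈ A₁) (hA₂ : ∀ x ∈ P, x.2 ∈ A₂) {φ : ↥P →* Ω₁ × Ω₂}
    (he : ∀ x : P, φ x = (φ₁ ⟨_, hA₁ x x.2⟩, φ₂ ⟨_, hA₂ x x.2⟩)) : φ ∈ E.Hom P := by
  have hle₁ : P.map (MonoidHom.fst Ω₁ Ω₂) ≤ A₁ := by rintro _ ⟨x, hx, rfl⟩; exact hA₁ x hx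
  have hle₂ : P.map (MonoidHom.snd Ω₁ Ω₂) ≤ A₂ := by rintro _ ⟨x, hx, rfl⟩; exact hA₂ x hx
  exact (hE P φ).mpr ⟨fun x hx => ⟨le_S h₁ (hA₁ x hx), le_S h₂ (hA₂ x hx)⟩, _, restrict_mem h₁ hle₁, _,
    restrict_mem h₂ hle₂, fun x _ _ => he x⟩

/-- The action of a product of two automizers on the product. -/
def ρ (R₁ : Subgroup Ω₁) (R₂ : Subgroup Ω₂) (A₁ : Subgroup (MulAut ↥R₁)) (A₂ : Subgroup (MulAut ↥R₂)) :
    ↥A₁ × ↥A₂ →* MulAut (↥R₁ × ↥R₂) where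
  toFun a := MulEquiv.prodCongr (a.1 : MulAut ↥R₁) (a.2 : MulAut ↥R₂)
  map_one' := MulEquiv.ext fun _ => rfl
  map_mul' _ _ := MulEquiv.ext fun _ => rfl

theorem ρ_apply {R₁ : Subgroup Ω₁} {R₂ : Subgroup Ω₂} {A₁ : Subgroup (MulAut ↥R₁)} {A₂ : Subgroup (MulAut ↥R₂)}
    (a : ↥A₁ × ↥A₂) (x : ↥R₁ × ↥R₂) : ρ R₁ R₂ A₁ A₂ a x = ((a.1 : MulAut ↥R₁) x.1, (a.2 : MulAut ↥R₂) x.2) := rfl

/-- Restriction of an action by automorphisms to an invariant subgroup. -/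
def restrictAct {A X : Type*} [Group A] [Group X] (act : A →* MulAut X) (H : Subgroup A) (K : Subgroup X)
    (h : ∀ (a : ↥H) (k : X), k ∈ K → act a k ∈ K) : ↥H →* MulAut ↥K where
  toFun a :=
    { toFun := fun k => ⟨act a k, h a k k.2⟩
      invFun := fun k => ⟨act ((a⁻¹ : ↥H) : A) k, h a⁻¹ k k.2⟩
      left_inv := fun k => Subtype.ext (by
        show act ((a : A))⁻¹ (act (a : A) k) = k
        rw [← MulAut.mul_apply, ← map_mul, inv_mul_cancel, map_one, MulAut.one_apply])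
      right_inv := fun k => Subtype.ext (by
        show act (a : A) (act ((a : A))⁻¹ k) = k
        rw [← MulAut.mul_apply, ← map_mul, mul_inv_cancel, map_one, MulAut.one_apply])
      map_mul' := fun k k' => Subtype.ext (map_mul (act a) _ _) }
  map_one' := MulEquiv.ext fun k => Subtype.ext (by
    show act 1 (k : X) = k
    rw [map_one, MulAut.one_apply])
  map_mul' a b := MulEquiv.ext fun k => Subtype.ext (by
    show act ((a : A) * b) (k : X) = act a (act b k)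
    rw [map_mul, MulAut.mul_apply])

theorem exists_aut {Ω : Type*} [Group Ω] {S R P' : Subgroup Ω} (F : FusionSystem S) [Finite ↥S] (hR : R ≤ S)
    (hP' : P' = R) {φ : ↥P' →* Ω} (hφ : φ ∈ F.Hom P') (hv : ∀ x, φ x ∈ R) :
    ∃ b ∈ F.autGroup R, ∀ (x : Ω) (hx : x ∈ P') (hx' : x ∈ R), ((b : MulAut ↥R) ⟨x, hx'⟩ : Ω) = φ ⟨x, hx⟩ := by
  subst hP'
  haveI := finite_of_le hR
  refine ⟨MulEquiv.ofBijective (φ.codRestrict _ hv) ?_, (autGroup_carrier F hR _).mpr ?_, fun x hx _ => rfl⟩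
  · have hinj : Function.Injective (φ.codRestrict _ hv) := fun a b h =>
      F.injective_of_mem hφ (congrArg Subtype.val h :)
    exact ⟨hinj, Finite.injective_iff_surjective.mp hinj⟩
  · exact hφ

variable [Finite ↥S₁] [Finite ↥S₂] {p : ℕ} [Fact p.Prime]

theorem isSaturated (h₁ : IsPGroup p ↥S₁) (h₂ : IsPGroup p ↥S₂) (hF₁ : F₁.IsSaturated p) (hF₂ : F₂.IsSaturated p)
    (hE : IsProductSystem F₁ F₂ E) : E.IsSaturated p := by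
  classical
  intro P hP
  have hP₁ : P.map (MonoidHom.fst Ω₁ Ω₂) ≤ S₁ := by rintro _ ⟨x, hx, rfl⟩; exact (hP hx).1
  have hP₂ : P.map (MonoidHom.snd Ω₁ Ω₂) ≤ S₂ := by rintro _ ⟨x, hx, rfl⟩; exact (hP hx).2
  obtain ⟨R₁, hc₁, ha₁, hr₁⟩ := hF₁ _ hP₁
  obtain ⟨R₂, hc₂, ha₂, hr₂⟩ := hF₂ _ hP₂
  obtain ⟨ψ₁, hψ₁, hψ₁r⟩ := hc₁
  obtain ⟨ψ₂, hψ₂, hψ₂r⟩ := hc₂
  set A₁ := F₁.autGroup R₁
  set A₂ := F₂.autGroup R₂
  haveI := finite_aut_of_le ha₁.1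
  haveI := finite_aut_of_le ha₂.1
  obtain ⟨T₁, hT₁⟩ := ha₁.2
  obtain ⟨T₂, hT₂⟩ := ha₂.2
  set act := ρ R₁ R₂ A₁ A₂ with hact
  -- the first image
  let g₀ : ↥P →* ↥R₁ × ↥R₂ := MonoidHom.prod
    ((ψ₁.comp ((MonoidHom.fst Ω₁ Ω₂).subgroupMap P)).codRestrict R₁ fun x => hψ₁r ▸ ⟨_, rfl⟩)
    ((ψ₂.comp ((MonoidHom.snd Ω₁ Ω₂).subgroupMap P)).codRestrict R₂ fun x => hψ₂r ▸ ⟨_, rfl⟩)
  -- a Sylow subgroup of the stabiliser moved into the induced automorphisms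
  let W : Subgroup (↥A₁ × ↥A₂) := (T₁ : Subgroup ↥A₁).prod (T₂ : Subgroup ↥A₂)
  have hWi : ¬ p ∣ W.index := by
    rw [Subgroup.index_prod]
    exact (Fact.out : p.Prime).not_dvd_mul T₁.not_dvd_index T₂.not_dvd_index
  have hWp : IsPGroup p ↥W := by
    obtain ⟨k₁, hk₁⟩ := IsPGroup.iff_card.mp T₁.2
    obtain ⟨k₂, hk₂⟩ := IsPGroup.iff_card.mp T₂.2
    refine IsPGroup.of_card (n := k₁ + k₂) ?_
    rw [Nat.card_congr ((T₁ : Subgroup ↥A₁).prodEquiv (T₂ : Subgroup ↥A₂)).toEquiv, Nat.card_prod, hk₁, hk₂, pow_add]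
  let H : Subgroup (↥A₁ × ↥A₂) := (MulAction.stabilizer (MulAut (↥R₁ × ↥R₂)) g₀.range).comap act
  obtain ⟨T⟩ : Nonempty (Sylow p ↥H) := inferInstance
  obtain ⟨U, hU⟩ := (T.2.map H.subtype).exists_le_sylow
  obtain ⟨α, hα⟩ := MulAction.exists_smul_eq (↥A₁ × ↥A₂) U (hWp.toSylow hWi)
  let T' : Subgroup (↥A₁ × ↥A₂) := ((T : Subgroup ↥H).map H.subtype).map (MulAut.conj α).toMonoidHom
  let H' : Subgroup (↥A₁ × ↥A₂) := H.map (MulAut.conj α).toMonoidHom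
  have hT'W : T' ≤ W := by
    rintro _ ⟨t, ht, rfl⟩
    have h := Subgroup.smul_mem_pointwise_smul t (MulAut.conj α) (U : Subgroup (↥A₁ × ↥A₂)) (hU ht)
    have hco : ((α • U : Sylow p (↥A₁ × ↥A₂)) : Subgroup (↥A₁ × ↥A₂)) = MulAut.conj α • (U : Subgroup (↥A₁ × ↥A₂)) := rfl
    rw [← hco, hα] at h
    exact h
  have hT'H : T' ≤ H' := Subgroup.map_mono (Subgroup.map_subtype_le _)
  have hT'i : ¬ p ∣ T'.relIndex H' := by
    rw [Subgroup.relIndex_map_map_of_injective _ _ (MulAut.conj α).injective, Subgroup.relIndex,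
      Subgroup.subgroupOf, Subgroup.comap_map_eq_self_of_injective H.subtype_injective]
    exact T.not_dvd_index
  -- the moved image
  let g : ↥P →* ↥R₁ × ↥R₂ := (act α).toMonoidHom.comp g₀
  set K := g.range with hKdef
  have hK : K = act α • g₀.range := MonoidHom.range_comp (act α).toMonoidHom g₀
  have hH' : H' = (MulAction.stabilizer (MulAut (↥R₁ × ↥R₂)) K).comap act := by
    ext a
    constructor
    · rintro ⟨b, hb, rfl⟩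
      show act (α * b * α⁻¹) • K = K
      rw [hK, ← mul_smul, ← map_mul, inv_mul_cancel_right, map_mul, mul_smul]
      exact congrArg _ hb
    · intro ha
      refine ⟨α⁻¹ * a * α, ?_, by simp [mul_assoc]⟩
      show act (α⁻¹ * a * α) • g₀.range = g₀.range
      have ha' : act a • K = K := ha
      rw [map_mul, mul_smul, ← hK, map_mul, mul_smul, ha', hK, ← mul_smul, ← map_mul, inv_mul_cancel, map_one, one_smul]
  let ι : ↥R₁ × ↥R₂ →* Ω₁ × Ω₂ := MonoidHom.prodMap R₁.subtype R₂.subtype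
  have hι : Function.Injective ι := fun a b h =>
    Prod.ext (Subtype.ext (congrArg Prod.fst h :)) (Subtype.ext (congrArg Prod.snd h :))
  set Q : Subgroup (Ω₁ × Ω₂) := K.map ι with hQdef
  have hQS : Q ≤ S₁.prod S₂ := by
    rintro _ ⟨k, -, rfl⟩
    exact ⟨ha₁.1 k.1.2, ha₂.1 k.2.2⟩
  have hfst : ∀ y ∈ R₁, ∃ x ∈ Q, (x : Ω₁ × Ω₂).1 = y := by
    intro y hy
    obtain ⟨z, hz⟩ := (α.1 : MulAut ↥R₁).surjective ⟨y, hy⟩
    obtain ⟨⟨u, x, hx, rfl⟩, hu⟩ : (z : Ω₁) ∈ ψ₁.range := hψ₁r ▸ z.2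
    refine ⟨ι (g ⟨x, hx⟩), ⟨_, ⟨_, rfl⟩, rfl⟩, ?_⟩
    have hz' : (g₀ ⟨x, hx⟩).1 = z := Subtype.ext hu
    show (((α.1 : MulAut ↥R₁) (g₀ ⟨x, hx⟩).1 : ↥R₁) : Ω₁) = y
    rw [hz', hz]
  have hsnd : ∀ y ∈ R₂, ∃ x ∈ Q, (x : Ω₁ × Ω₂).2 = y := by
    intro y hy
    obtain ⟨z, hz⟩ := (α.2 : MulAut ↥R₂).surjective ⟨y, hy⟩
    obtain ⟨⟨u, x, hx, rfl⟩, hu⟩ : (z : Ω₂) ∈ ψ₂.range := hψ₂r ▸ z.2
    refine ⟨ι (g ⟨x, hx⟩), ⟨_, ⟨_, rfl⟩, rfl⟩, ?_⟩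
    have hz' : (g₀ ⟨x, hx⟩).2 = z := Subtype.ext hu
    show (((α.2 : MulAut ↥R₂) (g₀ ⟨x, hx⟩).2 : ↥R₂) : Ω₂) = y
    rw [hz', hz]
  have hQR₁ : ∀ x ∈ Q, (x : Ω₁ × Ω₂).1 ∈ R₁ := by rintro _ ⟨k, -, rfl⟩; exact k.1.2
  have hQR₂ : ∀ x ∈ Q, (x : Ω₁ × Ω₂).2 ∈ R₂ := by rintro _ ⟨k, -, rfl⟩; exact k.2.2
  have hproj₁ : Q.map (MonoidHom.fst Ω₁ Ω₂) = R₁ :=
    le_antisymm (by rintro _ ⟨x, hx, rfl⟩; exact hQR₁ x hx) fun y hy => hfst y hy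
  have hproj₂ : Q.map (MonoidHom.snd Ω₁ Ω₂) = R₂ :=
    le_antisymm (by rintro _ ⟨x, hx, rfl⟩; exact hQR₂ x hx) fun y hy => hsnd y hy
  have hα₁ := (autGroup_carrier F₁ ha₁.1 _).mp α.1.2
  have hα₂ := (autGroup_carrier F₂ ha₂.1 _).mp α.2.2
  have hconj : E.IsConj P Q := by
    refine ⟨ι.comp g, mem_hom hE
      (F₁.comp_mem hψ₁ hα₁ fun x => hψ₁r ▸ ⟨x, rfl⟩) (F₂.comp_mem hψ₂ hα₂ fun x => hψ₂r ▸ ⟨x, rfl⟩)
      (fun x hx => ⟨x, hx, rfl⟩) (fun x hx => ⟨x, hx, rfl⟩) fun x => rfl, ?_⟩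
    rw [MonoidHom.range_comp]
  refine ⟨Q, hconj, ⟨hQS, ?_⟩, hQS, ?_⟩
  · -- fully automized
    haveI : Finite ↥(S₁.prod S₂) := Finite.of_equiv _ (S₁.prodEquiv S₂).symm.toEquiv
    haveI := finite_aut_of_le hQS
    let e : ↥K ≃* ↥Q := K.equivMapOfInjective ι hι
    have he : ∀ k : ↥K, (e k : Ω₁ × Ω₂) = ι k := fun k => Subgroup.coe_equivMapOfInjective_apply K ι hι k
    have hpres : ∀ (a : ↥H') (k : ↥R₁ × ↥R₂), k ∈ K → act a k ∈ K := by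
      intro a k hk
      have ha : act a • K = K := hH'.le a.2
      rw [← ha]
      exact ⟨k, hk, rfl⟩
    let res : ↥H' →* MulAut ↥Q := (MulAut.congr e).toMonoidHom.comp (restrictAct act H' K hpres)
    have hres : ∀ (a : ↥H') (k : ↥K), ((res a (e k) : ↥Q) : Ω₁ × Ω₂) = ι (act a (k : ↥R₁ × ↥R₂)) := by
      intro a k
      show ((e (restrictAct act H' K hpres a (e.symm (e k))) : ↥Q) : Ω₁ × Ω₂) = _
      rw [e.symm_apply_apply, he]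
      rfl
    have hresE : ∀ a : ↥H', res a ∈ E.autGroup Q := by
      intro a
      refine (autGroup_carrier E hQS _).mpr (mem_hom hE ((autGroup_carrier F₁ ha₁.1 _).mp (a : ↥A₁ × ↥A₂).1.2)
        ((autGroup_carrier F₂ ha₂.1 _).mp (a : ↥A₁ × ↥A₂).2.2) hQR₁ hQR₂ fun x => ?_)
      obtain ⟨k, rfl⟩ := e.surjective x
      refine (hres a k).trans (Prod.ext ?_ ?_)
      · exact congrArg Subtype.val (congrArg _ (Subtype.ext (congrArg Prod.fst (he k)).symm))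
      · exact congrArg Subtype.val (congrArg _ (Subtype.ext (congrArg Prod.snd (he k)).symm))
    let res' : ↥H' →* ↥(E.autGroup Q) := res.codRestrict _ hresE
    have hsurj : Function.Surjective res' := by
      rintro ⟨β, hβ⟩
      obtain ⟨-, φ₁, hφ₁, φ₂, hφ₂, hφ⟩ := (hE Q _).mp ((autGroup_carrier E hQS β).mp hβ)
      have hv₁ : ∀ y, φ₁ y ∈ R₁ := by
        rintro ⟨_, x, hx, rfl⟩
        have h := hφ ⟨x, hx⟩ ⟨x, hx, rfl⟩ ⟨x, hx, rfl⟩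
        show φ₁ _ ∈ R₁
        exact (congrArg (· ∈ R₁) (congrArg Prod.fst h)).mp (hQR₁ _ (β ⟨x, hx⟩).2)
      have hv₂ : ∀ y, φ₂ y ∈ R₂ := by
        rintro ⟨_, x, hx, rfl⟩
        have h := hφ ⟨x, hx⟩ ⟨x, hx, rfl⟩ ⟨x, hx, rfl⟩
        show φ₂ _ ∈ R₂
        exact (congrArg (· ∈ R₂) (congrArg Prod.snd h)).mp (hQR₂ _ (β ⟨x, hx⟩).2)
      obtain ⟨b₁, hb₁, hb₁e⟩ := exists_aut F₁ ha₁.1 hproj₁ hφ₁ hv₁
      obtain ⟨b₂, hb₂, hb₂e⟩ := exists_aut F₂ ha₂.1 hproj₂ hφ₂ hv₂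
      let a : ↥A₁ × ↥A₂ := (⟨b₁, hb₁⟩, ⟨b₂, hb₂⟩)
      have hval : ∀ k : ↥K, ι (act a (k : ↥R₁ × ↥R₂)) = ((β (e k) : ↥Q) : Ω₁ × Ω₂) := by
        intro k
        have h := hφ (e k) ⟨_, (e k).2, rfl⟩ ⟨_, (e k).2, rfl⟩
        refine Eq.trans ?_ h.symm
        have h1 : ((e k : Ω₁ × Ω₂)).1 = ((k : ↥R₁ × ↥R₂).1 : Ω₁) := by rw [he]; rfl
        have h2 : ((e k : Ω₁ × Ω₂)).2 = ((k : ↥R₁ × ↥R₂).2 : Ω₂) := by rw [he]; rfl
        refine Prod.ext ((hb₁e _ (hproj₁.ge (k : ↥R₁ × ↥R₂).1.2) _).trans ?_)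
          ((hb₂e _ (hproj₂.ge (k : ↥R₁ × ↥R₂).2.2) _).trans ?_)
        · exact congrArg φ₁ (Subtype.ext h1.symm)
        · exact congrArg φ₂ (Subtype.ext h2.symm)
      have haK : a ∈ H' := by
        rw [hH']
        show act a • K = K
        haveI := finite_of_le ha₁.1
        haveI := finite_of_le ha₂.1
        refine Subgroup.eq_of_le_of_card_ge ?_ (Nat.card_congr (K.equivMapOfInjective _ (act a).injective).toEquiv).le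
        rintro _ ⟨k, hk, rfl⟩
        obtain ⟨k', hk', he'⟩ : ι (act a k) ∈ Q := hval ⟨k, hk⟩ ▸ (β _).2
        exact (hι he') ▸ hk'
      refine ⟨⟨a, haK⟩, Subtype.ext (MulEquiv.ext fun x => ?_)⟩
      obtain ⟨k, rfl⟩ := e.surjective x
      exact Subtype.ext ((hres ⟨a, haK⟩ k).trans (hval k))
    let V : Subgroup ↥(E.autGroup Q) := (T'.subgroupOf H').map res'
    have hVi : ¬ p ∣ V.index := fun h => hT'i (h.trans (Subgroup.index_map_dvd _ hsurj))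
    have hVle : V ≤ (autInducedBy (S₁.prod S₂) Q).subgroupOf (E.autGroup Q) := by
      rintro _ ⟨t, ht, rfl⟩
      have hW := hT'W (Subgroup.mem_subgroupOf.mp ht)
      have h1 : ((t : ↥A₁ × ↥A₂).1 : MulAut ↥R₁) ∈ autInducedBy S₁ R₁ := hT₁.le hW.1
      have h2 : ((t : ↥A₁ × ↥A₂).2 : MulAut ↥R₂) ∈ autInducedBy S₂ R₂ := hT₂.le hW.2
      obtain ⟨s₁, hs₁, hse₁⟩ := (mem_autInducedBy _).mp h1
      obtain ⟨s₂, hs₂, hse₂⟩ := (mem_autInducedBy _).mp h2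
      refine Subgroup.mem_subgroupOf.mpr ((mem_autInducedBy _).mpr ⟨(s₁, s₂), ⟨hs₁, hs₂⟩, fun x => ?_⟩)
      obtain ⟨k, rfl⟩ := e.surjective x
      refine (hres t k).trans ?_
      rw [he]
      exact Prod.ext (hse₁ _) (hse₂ _)
    have hSp : IsPGroup p ↥(S₁.prod S₂) := by
      obtain ⟨k₁, hk₁⟩ := IsPGroup.iff_card.mp h₁
      obtain ⟨k₂, hk₂⟩ := IsPGroup.iff_card.mp h₂
      refine IsPGroup.of_card (n := k₁ + k₂) ?_
      rw [Nat.card_congr (S₁.prodEquiv S₂).toEquiv, Nat.card_prod, hk₁, hk₂, pow_add]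
    have hAp : IsPGroup p ↥((autInducedBy (S₁.prod S₂) Q).subgroupOf (E.autGroup Q)) := by
      refine IsPGroup.comap_subtype ?_
      rw [autInducedBy_eq_map]
      exact ((hSp.to_le inf_le_left).comap_subtype).map _
    exact ⟨hAp.toSylow fun h => hVi (h.trans (Subgroup.index_dvd_of_le hVle)), rfl⟩
  · -- receptive
    intro P' φ hφ hr
    obtain ⟨hP', φ₁, hφ₁, φ₂, hφ₂, hφe⟩ := (hE P' φ).mp hφ
    have hr₁' : φ₁.range = R₁ := by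
      refine le_antisymm ?_ fun y hy => ?_
      · rintro _ ⟨⟨_, x, hx, rfl⟩, rfl⟩
        have h := hφe ⟨x, hx⟩ ⟨x, hx, rfl⟩ ⟨x, hx, rfl⟩
        show φ₁ _ ∈ R₁
        exact (congrArg (· ∈ R₁) (congrArg Prod.fst h)).mp (hQR₁ _ (hr.le ⟨_, rfl⟩))
      · obtain ⟨x, hx, rfl⟩ := hfst y hy
        obtain ⟨u, rfl⟩ : x ∈ φ.range := hr.ge hx
        exact ⟨⟨_, u, u.2, rfl⟩, (congrArg Prod.fst (hφe u ⟨u, u.2, rfl⟩ ⟨u, u.2, rfl⟩)).symm⟩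
    have hr₂' : φ₂.range = R₂ := by
      refine le_antisymm ?_ fun y hy => ?_
      · rintro _ ⟨⟨_, x, hx, rfl⟩, rfl⟩
        have h := hφe ⟨x, hx⟩ ⟨x, hx, rfl⟩ ⟨x, hx, rfl⟩
        show φ₂ _ ∈ R₂
        exact (congrArg (· ∈ R₂) (congrArg Prod.snd h)).mp (hQR₂ _ (hr.le ⟨_, rfl⟩))
      · obtain ⟨x, hx, rfl⟩ := hsnd y hy
        obtain ⟨u, rfl⟩ : x ∈ φ.range := hr.ge hx
        exact ⟨⟨_, u, u.2, rfl⟩, (congrArg Prod.snd (hφe u ⟨u, u.2, rfl⟩ ⟨u, u.2, rfl⟩)).symm⟩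
    obtain ⟨χ₁, hχ₁, hχ₁e⟩ := hr₁.2 _ φ₁ hφ₁ hr₁'
    obtain ⟨χ₂, hχ₂, hχ₂e⟩ := hr₂.2 _ φ₂ hφ₂ hr₂'
    have hN₁ : ∀ x ∈ extender (S₁.prod S₂) P' φ, x.1 ∈ extender S₁ (P'.map (MonoidHom.fst Ω₁ Ω₂)) φ₁ := by
      intro x hx
      induction hx using Subgroup.closure_induction with
      | one => exact one_mem _
      | mul a b _ _ ha hb => exact mul_mem ha hb
      | inv a _ ha => exact inv_mem ha
      | mem w hw =>
        obtain ⟨hwS, hwn, t, ht, hte⟩ := hw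
        refine mem_extender ⟨hwS.1, Subgroup.le_normalizer_map _ ⟨w, hwn, rfl⟩⟩ ht.1 fun y hy => ?_
        obtain ⟨y, u, hu, rfl⟩ := y
        have hu' : w * u * w⁻¹ ∈ P' := conj_mem_of_normalizer hwn hu
        have h := congrArg Prod.fst (hte ⟨u, hu⟩ hu')
        rw [hφe ⟨_, hu'⟩ ⟨_, hu', rfl⟩ ⟨_, hu', rfl⟩] at h
        show φ₁ _ = _
        refine Eq.trans ?_ (h.trans ?_)
        · exact congrArg φ₁ (Subtype.ext rfl)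
        · rw [Prod.fst_mul, Prod.fst_mul, hφe ⟨u, hu⟩ ⟨u, hu, rfl⟩ ⟨u, hu, rfl⟩]; rfl
    have hN₂ : ∀ x ∈ extender (S₁.prod S₂) P' φ, x.2 ∈ extender S₂ (P'.map (MonoidHom.snd Ω₁ Ω₂)) φ₂ := by
      intro x hx
      induction hx using Subgroup.closure_induction with
      | one => exact one_mem _
      | mul a b _ _ ha hb => exact mul_mem ha hb
      | inv a _ ha => exact inv_mem ha
      | mem w hw =>
        obtain ⟨hwS, hwn, t, ht, hte⟩ := hw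
        refine mem_extender ⟨hwS.2, Subgroup.le_normalizer_map _ ⟨w, hwn, rfl⟩⟩ ht.2 fun y hy => ?_
        obtain ⟨y, u, hu, rfl⟩ := y
        have hu' : w * u * w⁻¹ ∈ P' := conj_mem_of_normalizer hwn hu
        have h := congrArg Prod.snd (hte ⟨u, hu⟩ hu')
        rw [hφe ⟨_, hu'⟩ ⟨_, hu', rfl⟩ ⟨_, hu', rfl⟩] at h
        show φ₂ _ = _
        refine Eq.trans ?_ (h.trans ?_)
        · exact congrArg φ₂ (Subtype.ext rfl)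
        · rw [Prod.snd_mul, Prod.snd_mul, hφe ⟨u, hu⟩ ⟨u, hu, rfl⟩ ⟨u, hu, rfl⟩]; rfl
    let χ : ↥(extender (S₁.prod S₂) P' φ) →* Ω₁ × Ω₂ :=
      { toFun := fun x => (χ₁ ⟨_, hN₁ x x.2⟩, χ₂ ⟨_, hN₂ x x.2⟩)
        map_one' := Prod.ext (map_one χ₁) (map_one χ₂)
        map_mul' := fun x y => Prod.ext (map_mul χ₁ ⟨_, hN₁ x x.2⟩ ⟨_, hN₁ y y.2⟩)
          (map_mul χ₂ ⟨_, hN₂ x x.2⟩ ⟨_, hN₂ y y.2⟩) }
    refine ⟨χ, mem_hom hE hχ₁ hχ₂ hN₁ hN₂ (fun x => rfl), fun x hx hxN => ?_⟩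
    refine Eq.trans ?_ (hφe ⟨x, hx⟩ ⟨x, hx, rfl⟩ ⟨x, hx, rfl⟩).symm
    exact Prod.ext (hχ₁e _ _ _) (hχ₂e _ _ _)

end CfsgLib.Fusion.ProductSaturated
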