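import Cfsg.Agent.Lib.Fusion.SaturationLink

/-! The saturation criterion for systems generated by the maps on a family of subgroups. (helper6) -/

set_option autoImplicit false
set_option linter.unusedSectionVars false
set_option linter.style.haveILetI false

namespace CfsgLib.Fusion

open Cfsg Cfsg.FusionSystem

universe u

variable {Ω : Type u} [Group Ω] {S : Subgroup Ω} [Finite ↥S] {F : FusionSystem S} {p : ℕ} [Fact p.Prime]

/-- The elements of the normaliser of `Q` acting on it as elements of the largest normal `p`-subgroup. -/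
def star (F : FusionSystem S) (p : ℕ) (Q : Subgroup Ω) : Subgroup Ω :=
  S ⊓ ((((pCore p ↥(F.autGroup Q)).map (F.autGroup Q).subtype).comap Q.normalizerMonoidHom).map
    (Subgroup.normalizer (Q : Set Ω)).subtype)

theorem mem_star {Q : Subgroup Ω} {x : Ω} :
    x ∈ star F p Q ↔ ∃ hx : x ∈ normalizerIn S Q,
      Q.normalizerMonoidHom ⟨x, hx.2⟩ ∈ (pCore p ↥(F.autGroup Q)).map (F.autGroup Q).subtype := by
  constructor
  · rintro ⟨hS, ⟨y, hy⟩, h, rfl⟩
    exact ⟨⟨hS, hy⟩, h⟩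
  · rintro ⟨hx, h⟩
    exact ⟨hx.1, ⟨x, hx.2⟩, h, rfl⟩

theorem star_le (F : FusionSystem S) (p : ℕ) [Fact p.Prime] (Q : Subgroup Ω) : star F p Q ≤ normalizerIn S Q :=
  fun _ hx => (mem_star.mp hx).1

theorem le_star (hS : IsPGroup p ↥S) {Q : Subgroup Ω} (hQ : Q ≤ S) : Q ≤ star F p Q := by
  intro x hx
  have hc : Q.normalizerMonoidHom ⟨x, Subgroup.le_normalizer hx⟩ = MulAut.conj (⟨x, hx⟩ : ↥Q) :=
    MulEquiv.ext fun y => Subtype.ext rfl
  have hi : Q.normalizerMonoidHom ⟨x, Subgroup.le_normalizer hx⟩ ∈ Inn ↥Q := hc ▸ ⟨⟨x, hx⟩, rfl⟩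
  refine mem_star.mpr ⟨⟨hQ hx, Subgroup.le_normalizer hx⟩, ⟨_, inn_le_autGroup F hQ hi⟩, ?_, rfl⟩
  haveI := finite_aut_of_le hQ
  have hn : ((Inn ↥Q).subgroupOf (F.autGroup Q)).Normal :=
    ⟨fun a ha b => (innNormal ↥Q).conj_mem _ ha _⟩
  refine CfsgLib.Core.le_pCore hn ?_ hi
  refine IsPGroup.comap_subtype ?_
  refine IsPGroup.of_surjective (hS.to_le hQ) (MulAut.conj : ↥Q →* MulAut ↥Q).rangeRestrict ?_
  exact MonoidHom.rangeRestrict_surjective _

theorem star_mem_of_map {M Q Q' : Subgroup Ω} {χ : ↥M →* Ω} (hχ : χ ∈ F.Hom M) (hs : Sends χ Q Q') {x : ↥M}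
    (hx : (x : Ω) ∈ star F p Q) : χ x ∈ star F p Q' := by
  obtain ⟨hxN, ⟨o, ho, hoe⟩⟩ := mem_star.mp hx
  have hQ : Q ≤ S := IsConj.le_left (hs.isConj hχ)
  have hQ' : Q' ≤ S := IsConj.le_right (hs.isConj hχ)
  haveI := finite_aut_of_le hQ
  haveI := finite_aut_of_le hQ'
  set e := hs.equiv hχ
  have he := hs.equiv_mem hχ
  have hmapF : (F.autGroup Q).map (MulAut.congr e).toMonoidHom = F.autGroup Q' := by
    ext b
    constructor
    · rintro ⟨a, ha, rfl⟩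
      exact (autGroup_carrier F hQ' _).mpr (trans_mem e.symm (a.trans e) (symm_mem e he)
        (trans_mem a e ((autGroup_carrier F hQ a).mp ha) he))
    · intro hb
      refine ⟨(MulAut.congr e).symm b, (autGroup_carrier F hQ _).mpr ?_, (MulAut.congr e).apply_symm_apply b⟩
      exact trans_mem e (b.trans e.symm) he
        (trans_mem b e.symm ((autGroup_carrier F hQ' b).mp hb) (symm_mem e he))
  let c : ↥(F.autGroup Q) ≃* ↥(F.autGroup Q') :=
    ((MulAut.congr e).subgroupMap (F.autGroup Q)).trans (MulEquiv.subgroupCongr hmapF)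
  refine mem_star.mpr ⟨⟨apply_mem_S hχ x, hs.normalizer_mem hxN.2⟩, c o,
    (CfsgLib.Core.pCore_map_equiv c p).le ⟨o, ho, rfl⟩, ?_⟩
  refine MulEquiv.ext fun y => Subtype.ext ?_
  obtain ⟨z, rfl⟩ := e.surjective y
  show ((e ((o : MulAut ↥Q) (e.symm (e z))) : ↥Q') : Ω) = χ x * (e z : Ω) * (χ x)⁻¹
  rw [MulEquiv.symm_apply_apply, show (o : MulAut ↥Q) = Q.normalizerMonoidHom ⟨_, hxN.2⟩ from hoe]
  simp only [e, Sends.equiv_coe]
  rw [← map_inv, ← map_mul, ← map_mul]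
  exact congrArg χ (Subtype.ext rfl)

theorem star_mem_of_map_mem {M Q Q' : Subgroup Ω} {χ : ↥M →* Ω} (hχ : χ ∈ F.Hom M) (hs : Sends χ Q Q') {x : ↥M}
    (hx : χ x ∈ star F p Q') : (x : Ω) ∈ star F p Q := by
  obtain ⟨ψ, hψ, hψs, hψe⟩ := hs.inverse hχ
  have := star_mem_of_map hψ hψs (x := ⟨χ x, ⟨x, rfl⟩⟩) hx
  rwa [hψe] at this

theorem normalizerIn_le_normalizer_star {Q : Subgroup Ω} (hQ : Q ≤ S) :
    normalizerIn S Q ≤ Subgroup.normalizer (star F p Q : Set Ω) := by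
  have key : ∀ y ∈ normalizerIn S Q, ∀ x ∈ star F p Q, y * x * y⁻¹ ∈ star F p Q := by
    intro y hy x hx
    have hs : Sends (conjHom (normalizerIn S Q) y) Q Q := by
      refine ⟨self_le_normalizerIn hQ, ?_⟩
      ext z
      constructor
      · rintro ⟨w, hw, rfl⟩
        exact conj_mem_of_normalizer hy.2 hw
      · intro hz
        have hw : y⁻¹ * z * y ∈ Q := by
          simpa using conj_mem_of_normalizer (inv_mem hy.2) hz
        refine ⟨⟨_, self_le_normalizerIn hQ hw⟩, hw, ?_⟩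
        show y * (y⁻¹ * z * y) * y⁻¹ = z
        group
    exact star_mem_of_map (F.conj_mem inf_le_left hy.1) hs (x := ⟨x, star_le F p Q hx⟩) hx
  intro y hy
  refine Subgroup.mem_normalizer_iff.mpr fun x => ⟨key y hy x, fun hx => ?_⟩
  simpa [mul_assoc] using key y⁻¹ (inv_mem hy) _ hx

theorem exists_strict_star (hS : IsPGroup p ↥S) {Q P : Subgroup Ω} (hQP : Reach F Q P)
    (h : ∃ x, x ∈ star F p Q ∧ x ∉ Q) : P < star F p P := by
  obtain ⟨η, hη, hs⟩ := hQP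
  obtain ⟨x, hx, hxQ⟩ := h
  refine lt_of_le_of_ne (le_star hS (IsConj.le_right (hs.isConj hη))) fun e => hxQ ?_
  have h1 := star_mem_of_map hη hs (x := ⟨x, star_le F p Q hx⟩) hx
  rw [← e] at h1
  exact (hs.mem_iff hη).mp h1

/-- The universal member can be chosen with its star group receptive and full. -/
theorem exists_universal_star (hS : IsPGroup p ↥S) {P₀ : Subgroup Ω} (hbig : SatAbove F p (Nat.card ↥P₀))
    {P₁ : Subgroup Ω} (hP₁ : F.IsConj P₀ P₁) (huniv : ∀ Q, F.IsConj P₀ Q → Reach F Q P₁)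
    (hlt : P₁ < star F p P₁) :
    ∃ P, F.IsConj P₀ P ∧ (∀ Q, F.IsConj P₀ Q → Reach F Q P) ∧ P < star F p P ∧
      F.IsReceptive (star F p P) ∧ Full F p (star F p P) P := by
  have hP₁S := IsConj.le_right hP₁
  set L₁ := star F p P₁
  have hL₁S : L₁ ≤ S := inf_le_left
  have hn : Nat.card ↥P₀ < Nat.card ↥L₁ := by
    haveI := finite_of_le (S := S) hL₁S
    rw [IsConj.card_eq hP₁]
    exact Set.Finite.card_lt_card (Set.toFinite _) hlt
  obtain ⟨L, P, hLr, hfull, β, hβ, -, -, hβL, hβP, -, -⟩ :=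
    exists_common_pair hS hbig (ψ := L₁.subtype) hn (star_le F p P₁) (incl_mem F hL₁S) (sends_subtype hlt.le)
  have hle : normalizerIn S P₁ ≤ normalizerIn S L₁ ⊓ normalizerIn S P₁ :=
    le_inf (le_inf inf_le_left (normalizerIn_le_normalizer_star hP₁S)) le_rfl
  have hγ := restrict_mem hβ hle
  have hγs := hβP.restrict hle (self_le_normalizerIn hP₁S)
  have hr : Reach F P₁ P := ⟨_, hγ, hγs⟩
  have hP₀P : F.IsConj P₀ P := IsConj.trans hP₁ hr.isConj
  have hcard := (huniv P hP₀P).card_le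
  have hγr : (β.comp (Subgroup.inclusion hle)).range = normalizerIn S P := by
    haveI : Finite ↥(normalizerIn S P) := finite_of_le (S := S) inf_le_left
    refine Subgroup.eq_of_le_of_card_ge ?_ (by rw [card_range hγ]; exact hcard)
    rintro _ ⟨x, rfl⟩
    exact normalizer_val hγ hγs le_rfl x
  have hL : L = star F p P := by
    refine le_antisymm (fun y hy => ?_) fun y hy => ?_
    · obtain ⟨x, hx, rfl⟩ := hβL.exists_eq hy
      exact star_mem_of_map hβ hβP hx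
    · obtain ⟨x, rfl⟩ := hγr.ge (star_le F p P hy)
      exact hβL.mem (star_mem_of_map_mem hγ hγs hy)
  subst hL
  refine ⟨P, hP₀P, fun Q hQ => (huniv Q hQ).trans hr, exists_strict_star hS hr ?_, hLr, hfull⟩
  obtain ⟨x, hx, hx'⟩ := SetLike.exists_of_lt hlt
  exact ⟨x, hx, hx'⟩

/-- The map restricted to `P` extends to an automorphism of `L` in the system. -/
def Ext (F : FusionSystem S) (P L : Subgroup Ω) {R : Subgroup Ω} (ψ : ↥R →* Ω) : Prop :=
  ∃ α ∈ F.autGroup L, ∀ (x : ↥L) (h : (x : Ω) ∈ R), (x : Ω) ∈ P → ((α x : ↥L) : Ω) = ψ ⟨x, h⟩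

theorem ext_of_big (hS : IsPGroup p ↥S) {P₀ P : Subgroup Ω} (hbig : SatAbove F p (Nat.card ↥P₀))
    (hP : F.IsConj P₀ P) (huniv : ∀ Q, F.IsConj P₀ Q → Reach F Q P)
    {R : Subgroup Ω} {ψ : ↥R →* Ω} (hψ : ψ ∈ F.Hom R) (hPR : P < R) (hRN : R ≤ normalizerIn S P)
    (hs : Sends ψ P P) : Ext F P (star F p P) ψ := by
  set L := star F p P
  have hPS := IsConj.le_right hP
  have hPL : P ≤ L := le_star hS hPS
  have hLN : L ≤ normalizerIn S P := star_le F p P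
  have hLS : L ≤ S := inf_le_left
  suffices key : ∀ (k : ℕ) (R : Subgroup Ω) (ψ : ↥R →* Ω), ψ ∈ F.Hom R → P < R → R ≤ normalizerIn S P →
      Sends ψ P P → Nat.card ↥S - Nat.card ↥R = k → Ext F P L ψ from key _ R ψ hψ hPR hRN hs rfl
  intro k
  induction k using Nat.strong_induction_on with
  | _ k ih =>
    intro R ψ hψ hPR hRN hs hk
    haveI : Finite ↥L := finite_of_le (S := S) hLS
    have case1 : ∀ (R : Subgroup Ω) (ψ : ↥R →* Ω), ψ ∈ F.Hom R → Sends ψ P P → L ≤ R → Ext F P L ψ := by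
      intro R ψ hψ hs hLR
      have hLs : Sends ψ L L := by
        refine ⟨hLR, Subgroup.eq_of_le_of_card_ge ?_ ?_⟩
        · rintro _ ⟨x, hx, rfl⟩
          exact star_mem_of_map hψ hs hx
        · rw [← Nat.card_congr ((L.subgroupOf R).equivMapOfInjective _ (F.injective_of_mem hψ)).toEquiv,
            Nat.card_congr (Subgroup.subgroupOfEquivOfLe hLR).toEquiv]
      refine ⟨hLs.equiv hψ, (autGroup_carrier F hLS _).mpr (hLs.equiv_mem hψ), fun x h _ => ?_⟩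
      exact (hLs.equiv_coe hψ x).trans (congrArg ψ (Subtype.ext rfl))
    by_cases hLR : L ≤ R
    · exact case1 R ψ hψ hs hLR
    haveI : Finite ↥R := finite_of_le (S := S) (le_S hψ)
    haveI : Finite ↥(normalizerIn S P) := finite_of_le (S := S) inf_le_left
    have hnR : Nat.card ↥P₀ < Nat.card ↥R := by
      rw [IsConj.card_eq hP]; exact Set.Finite.card_lt_card (Set.toFinite _) hPR
    have hRlt : R < normalizerIn S P := lt_of_le_of_ne hRN fun e => hLR (e ▸ hLN)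
    have hR'N : ψ.range ≤ normalizerIn S P := by
      rintro _ ⟨x, rfl⟩
      exact normalizer_val hψ hs hRN x
    have hR'lt : ψ.range < normalizerIn S P := lt_of_le_of_ne hR'N fun e => by
      have : Nat.card ↥R < Nat.card ↥(normalizerIn S P) := Set.Finite.card_lt_card (Set.toFinite _) hRlt
      rw [← e, ← card_range hψ] at this
      exact lt_irrefl _ this
    obtain ⟨L₂, U₀, hL₂r, hfull₂, β, hβ, β', hβ', hβR, hβP, hβ'R, hβ'P⟩ := exists_common_pair hS hbig hnR hRN hψ hs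
    have hU₀ : F.IsConj P₀ U₀ := IsConj.trans hP (hβP.isConj hβ)
    obtain ⟨η, hη, hηs⟩ := huniv U₀ hU₀
    have hRle : R ≤ normalizerIn S R ⊓ normalizerIn S P := le_inf (self_le_normalizerIn (le_S hψ)) hRN
    have hUL : U₀ ≤ L₂ := by
      intro y hy
      obtain ⟨x, hx, rfl⟩ := hβP.exists_eq hy
      exact hβR.mem (hPR.le hx)
    have hL₂N : L₂ ≤ normalizerIn S U₀ := by
      intro y hy
      obtain ⟨x, hx, rfl⟩ := hβR.exists_eq hy
      exact ⟨apply_mem_S hβ x, hβP.normalizer_mem (hRN hx).2⟩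
    have hcardL₂ : Nat.card ↥L₂ = Nat.card ↥R := (IsConj.card_eq (hβR.isConj hβ)).symm
    -- maps on larger subgroups
    have up : ∀ (X : Subgroup Ω) (γ : ↥(normalizerIn S X ⊓ normalizerIn S P) →* Ω),
        Nat.card ↥X = Nat.card ↥R → X < normalizerIn S P → γ ∈ F.Hom (normalizerIn S X ⊓ normalizerIn S P) →
        Sends γ P U₀ → ∃ α ∈ F.autGroup L, ∀ (x : ↥L) (h : (x : Ω) ∈ normalizerIn S X ⊓ normalizerIn S P)
          (h' : γ ⟨x, h⟩ ∈ normalizerIn S U₀), (x : Ω) ∈ P → ((α x : ↥L) : Ω) = η ⟨γ ⟨x, h⟩, h'⟩ := by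
      intro X γ hX hXlt hγ hγs
      have hv := normalizer_val hγ hγs (inf_le_right : normalizerIn S X ⊓ normalizerIn S P ≤ _)
      haveI : Finite ↥(normalizerIn S X ⊓ normalizerIn S P : Subgroup Ω) :=
        finite_of_le (S := S) (inf_le_left.trans inf_le_left)
      have h3 := Set.Finite.card_lt_card (Set.toFinite _) (lt_inf_normalizer hS hXlt)
      have h4 : Nat.card ↥(normalizerIn S X ⊓ normalizerIn S P : Subgroup Ω) ≤ Nat.card ↥S :=
        Subgroup.card_le_of_le (inf_le_left.trans inf_le_left)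
      have h5 : Nat.card ↥X < Nat.card ↥(normalizerIn S X ⊓ normalizerIn S P : Subgroup Ω) := h3
      obtain ⟨α, hα, hαe⟩ := ih _ (by omega) _ _ (F.comp_mem hγ hη hv) (lt_of_card hγs.1 (by
        have := Set.Finite.card_lt_card (Set.toFinite (R : Set Ω)) hPR
        have h6 : Nat.card ↥P < Nat.card ↥R := this
        omega)) inf_le_right (hγs.comp hηs hv) rfl
      exact ⟨α, hα, fun x h h' hx => hαe x h hx⟩
    obtain ⟨α₁, hα₁, hα₁e⟩ := up R β rfl hRlt hβ hβP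
    obtain ⟨α₂, hα₂, hα₂e⟩ := up ψ.range β' (card_range hψ) hR'lt hβ' hβ'P
    -- the automorphism of the common target
    have hR'le : ψ.range ≤ normalizerIn S ψ.range ⊓ normalizerIn S P := le_inf (self_le_normalizerIn (range_le_S hψ)) hR'N
    let eR := hβR.equiv hβ
    let eR' := hβ'R.equiv hβ'
    let eψ : ↥R ≃* ↥ψ.range := isoOfMem hψ rfl
    let s : MulAut ↥L₂ := eR.symm.trans (eψ.trans eR')
    have heψ : ψ.range.subtype.comp eψ.toMonoidHom ∈ F.Hom R := by rw [isoOfMem_hom hψ rfl]; exact hψ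
    have hs_mem : s ∈ stab F L₂ U₀ := by
      refine ⟨(autGroup_carrier F hL₂r.1 _).mpr (trans_mem eR.symm (eψ.trans eR') (symm_mem eR (hβR.equiv_mem hβ))
        (trans_mem eψ eR' heψ (hβ'R.equiv_mem hβ'))), fun y => ?_⟩
      obtain ⟨x, rfl⟩ := eR.surjective y
      show ((eR' (eψ (eR.symm (eR x))) : ↥L₂) : Ω) ∈ U₀ ↔ _
      rw [MulEquiv.symm_apply_apply]
      show β' _ ∈ U₀ ↔ β _ ∈ U₀
      rw [hβ'P.mem_iff hβ', hβP.mem_iff hβ]
      exact hs.mem_iff hψ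
    -- every stabilising automorphism of the target extends
    obtain ⟨α₃, hα₃, hα₃e⟩ : ∃ α ∈ F.autGroup L, ∀ (u : ↥L₂) (hu : (u : Ω) ∈ U₀)
        (h1 : η ⟨u, hL₂N u.2⟩ ∈ L), ((α ⟨_, h1⟩ : ↥L) : Ω) = η ⟨s u, hL₂N (s u).2⟩ := by
      have hL₂U : Sends (L₂.subtype.comp s.toMonoidHom) U₀ U₀ := by
        refine ⟨hUL, ?_⟩
        ext y
        constructor
        · rintro ⟨w, hw, rfl⟩
          exact (hs_mem.2 w).mpr hw
        · intro hy
          refine ⟨s⁻¹ ⟨y, hUL hy⟩, ((inv_mem hs_mem : s⁻¹ ∈ stab F L₂ U₀).2 _).mpr hy, ?_⟩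
          show ((s (s⁻¹ ⟨y, hUL hy⟩) : ↥L₂) : Ω) = y
          rw [MulAut.apply_inv_self]
      obtain ⟨R₂, ψ₂, hψ₂, hψ₂s, hR₂N, hR₂c, hψ₂e⟩ := exists_conjugate_map hη hηs hη hηs
        ((autGroup_carrier F hL₂r.1 s).mp hs_mem.1) hL₂U hL₂N
      set R₃ := (L₂.subgroupOf (normalizerIn S U₀)).map η
      by_cases hLR₃ : L ≤ R₃
      · have hR₃ : R₃ ≤ R₂ := by
          rintro _ ⟨w, hw, rfl⟩
          exact (hψ₂e ⟨w, hw⟩).1
        obtain ⟨α, hα, hαe⟩ := case1 R₂ ψ₂ hψ₂ hψ₂s (hLR₃.trans hR₃)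
        refine ⟨α, hα, fun u hu h1 => ?_⟩
        obtain ⟨h2, h3⟩ := hψ₂e u
        exact (hαe ⟨_, h1⟩ h2 (hηs.mem hu)).trans h3
      have hηR : Sends η L₂ R₃ := sends_map η hL₂N
      have hR₃N : R₃ ≤ normalizerIn S P := by
        rintro _ ⟨w, -, rfl⟩
        exact normalizer_val hη hηs le_rfl w
      have hLn : normalizerIn S P ≤ Subgroup.normalizer (L : Set Ω) := normalizerIn_le_normalizer_star hPS
      obtain ⟨y, hy, hyR, hyN⟩ : ∃ y ∈ L, y ∉ R₃ ∧ y ∈ Subgroup.normalizer (R₃ : Set Ω) := by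
        have hlt : R₃ < R₃ ⊔ L := lt_of_le_of_ne le_sup_left fun h => hLR₃ (h ▸ le_sup_right)
        have hle : R₃ ⊔ L ≤ S := sup_le (hR₃N.trans inf_le_left) hLS
        haveI : Finite ↥(R₃ ⊔ L) := finite_of_le (S := S) hle
        obtain ⟨g, hgN, hgR⟩ := SetLike.exists_of_lt (lt_normalizerIn (S := R₃ ⊔ L) p (hS.to_le hle) hlt)
        have hg' : g ∈ ((R₃ ⊔ L : Subgroup Ω) : Set Ω) := hgN.1
        rw [Subgroup.coe_mul_of_left_le_normalizer_right R₃ L (hR₃N.trans hLn)] at hg'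
        obtain ⟨x, hx, r, hr, rfl⟩ := hg'
        refine ⟨r, hr, fun h => hgR (R₃.mul_mem hx h), ?_⟩
        simpa using Subgroup.mul_mem _ (Subgroup.inv_mem _ (Subgroup.le_normalizer hx : x ∈ Subgroup.normalizer (R₃ : Set Ω))) hgN.2
      obtain ⟨g, hgy⟩ : ∃ g : ↥(normalizerIn S L₂ ⊓ normalizerIn S U₀), η ⟨g, g.2.2⟩ = y := by
        have hηK := restrict_mem hη (inf_le_right : normalizerIn S L₂ ⊓ normalizerIn S U₀ ≤ normalizerIn S U₀)
        obtain ⟨ψi, hψi, hψis, hψie⟩ :=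
          (hηs.restrict hL₂N hUL).inverse (restrict_mem hη hL₂N)
        have hri : ψi.range = L₂ := by
          ext z
          refine ⟨?_, fun hz => ⟨⟨_, ⟨⟨z, hz⟩, rfl⟩⟩, hψie ⟨z, hz⟩⟩⟩
          rintro ⟨⟨_, x, rfl⟩, rfl⟩
          rw [hψie]
          exact x.2
        have hη₁r : (η.comp (Subgroup.inclusion hL₂N)).range = R₃ := by
          ext z
          constructor
          · rintro ⟨x, rfl⟩
            exact ⟨_, x.2, rfl⟩
          · rintro ⟨x, hx, rfl⟩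
            exact ⟨⟨x, hx⟩, rfl⟩
        obtain ⟨γ, hγ, hγR, hγP⟩ := exists_pair_extend p hS hL₂r hfull₂
          (by rw [hη₁r]; exact hR₃N.trans inf_le_right) hψi hri hψis
        rw [← hη₁r] at hyN
        have hyM : y ∈ normalizerIn S (η.comp (Subgroup.inclusion hL₂N)).range ⊓ normalizerIn S P :=
          ⟨⟨hLS hy, hyN⟩, hLN hy⟩
        haveI : Finite ↥(normalizerIn S (η.comp (Subgroup.inclusion hL₂N)).range ⊓ normalizerIn S P : Subgroup Ω) :=
          finite_of_le (S := S) (inf_le_left.trans inf_le_left)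
        haveI : Finite ↥(normalizerIn S L₂ ⊓ normalizerIn S U₀ : Subgroup Ω) :=
          finite_of_le (S := S) (inf_le_left.trans inf_le_left)
        have hsur : (η.comp (Subgroup.inclusion
            (inf_le_right : normalizerIn S L₂ ⊓ normalizerIn S U₀ ≤ normalizerIn S U₀))).range =
            normalizerIn S (η.comp (Subgroup.inclusion hL₂N)).range ⊓ normalizerIn S P := by
          refine Subgroup.eq_of_le_of_card_ge ?_ ?_
          · rintro _ ⟨x, rfl⟩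
            refine ⟨⟨apply_mem_S hη _, ?_⟩, normalizer_val hη hηs le_rfl _⟩
            rw [hη₁r]
            exact hηR.normalizer_mem x.2.1.2
          · rw [card_range hηK, ← card_range hγ]
            refine Subgroup.card_le_of_le ?_
            rintro _ ⟨x, rfl⟩
            exact ⟨⟨apply_mem_S hγ x, hγR.normalizer_mem x.2.1.2⟩,
              normalizer_val hγ hγP inf_le_right x⟩
        obtain ⟨g, hg⟩ := hsur.ge hyM
        exact ⟨g, hg⟩
      have hgL₂ : (g : Ω) ∉ L₂ := fun h => hyR (hgy ▸ ⟨⟨g, g.2.2⟩, h, rfl⟩)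
      have hgstar : (g : Ω) ∈ star F p U₀ := star_mem_of_map_mem hη hηs (x := ⟨g, g.2.2⟩) (hgy.symm ▸ hy)
      haveI := finite_aut_of_le hL₂r.1
      haveI := finite_aut_of_le (hUL.trans hL₂r.1)
      set r : ↥(stab F L₂ U₀) →* ↥(F.autGroup U₀) := stabRes hUL hL₂r.1
      obtain ⟨T, hT⟩ := id hfull₂
      set Kn := (pCore p ↥(F.autGroup U₀)).comap r
      haveI : (pCore p ↥(F.autGroup U₀)).Normal := by
        haveI := CfsgLib.Core.pCore_characteristic (G := ↥(F.autGroup U₀)) p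
        infer_instance
      have hKT : ∀ a ∈ Kn, ∃ t ∈ T, t⁻¹ * a ∈ r.ker := by
        intro a ha
        set T' := T.mapSurjective r.rangeRestrict_surjective
        have hn : (Kn.map r.rangeRestrict).Normal := Subgroup.Normal.map inferInstance _ r.rangeRestrict_surjective
        have hp : IsPGroup p ↥(Kn.map r.rangeRestrict) := by
          refine IsPGroup.to_le ((CfsgLib.Core.isPGroup_pCore p).comap_subtype (K := r.range)) ?_
          rintro _ ⟨b, hb, rfl⟩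
          exact hb
        have h1 : r.rangeRestrict a ∈ (T' : Subgroup ↥r.range) :=
          CfsgLib.Core.pCore_le_sylow T' (CfsgLib.Core.le_pCore hn hp ⟨a, ha, rfl⟩)
        rw [Sylow.coe_mapSurjective] at h1
        obtain ⟨t, ht, hte⟩ := h1
        refine ⟨t, ht, ?_⟩
        rw [MonoidHom.mem_ker, map_mul, map_inv, inv_mul_eq_one]
        exact congrArg Subtype.val hte
      set S₁ : ↥(stab F L₂ U₀) := ⟨s, hs_mem⟩
      set A := ((T : Subgroup ↥(stab F L₂ U₀)) ⊓ Kn).map (MulAut.conj S₁).toMonoidHom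
      have hAK : A ≤ Kn := by
        rintro _ ⟨b, hb, rfl⟩
        exact (inferInstance : Kn.Normal).conj_mem b hb.2 S₁
      obtain ⟨k₁, hk₁, hk₁A⟩ := conj_into T r.ker A ((T.2.to_le inf_le_left).map _) fun a ha => hKT a (hAK ha)
      set S₂ := k₁ * S₁
      have hS₂ : ∀ u : ↥U₀, ((S₂ : MulAut ↥L₂) (Subgroup.inclusion hUL u) : Ω) = (s (Subgroup.inclusion hUL u) : Ω) := by
        intro u
        have h1 : r S₂ = r S₁ := by rw [map_mul, MonoidHom.mem_ker.mp hk₁, one_mul]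
        exact congrArg (fun w : ↥(F.autGroup U₀) => (((w : MulAut ↥U₀) u : ↥U₀) : Ω)) h1
      set φ : ↥L₂ →* Ω := L₂.subtype.comp (S₂ : MulAut ↥L₂).toMonoidHom
      have hφ : φ ∈ F.Hom L₂ := (autGroup_carrier F hL₂r.1 _).mp S₂.2.1
      have hφr : φ.range = L₂ := by
        ext z
        exact ⟨fun ⟨x, hx⟩ => hx ▸ ((S₂ : MulAut ↥L₂) x).2, fun hz => ⟨(S₂ : MulAut ↥L₂).symm ⟨z, hz⟩, by simp [φ]⟩⟩
      have hgext : (g : Ω) ∈ extender S L₂ φ := by
        have hmem : L₂.normalizerMonoidHom ⟨g, g.2.1.2⟩ ∈ stab F L₂ U₀ :=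
          ⟨(autGroup_carrier F hL₂r.1 _).mpr (conj_mem_of_eq F hL₂r.1 g.2.1.1 fun _ => rfl),
            fun x => (Subgroup.mem_normalizer_iff.mp g.2.2.2 (x : Ω)).symm⟩
        have htT : (⟨_, hmem⟩ : ↥(stab F L₂ U₀)) ∈ (T : Subgroup ↥(stab F L₂ U₀)) := by
          rw [hT]
          exact (mem_autInducedBy _).mpr ⟨g, g.2.1.1, fun _ => rfl⟩
        have htK : (⟨_, hmem⟩ : ↥(stab F L₂ U₀)) ∈ Kn := by
          obtain ⟨_, o, ho, hoe⟩ := mem_star.mp hgstar
          rw [Subgroup.mem_comap, show r ⟨_, hmem⟩ = o from Subtype.ext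
            ((MulEquiv.ext fun x => Subtype.ext rfl : _ = U₀.normalizerMonoidHom ⟨g, g.2.2.2⟩).trans hoe.symm)]
          exact ho
        have h2 := hk₁A _ ⟨_, ⟨htT, htK⟩, rfl⟩
        have h3 := hT.le h2
        obtain ⟨h, hh, hhe⟩ := (mem_autInducedBy _).mp h3
        refine mem_extender g.2.1 hh fun x hx => ?_
        have h4 := hhe ((S₂ : MulAut ↥L₂) x)
        have hx' : L₂.normalizerMonoidHom ⟨g, g.2.1.2⟩ x = ⟨g * x * (g : Ω)⁻¹, hx⟩ := Subtype.ext rfl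
        simpa [φ, S₂, mul_assoc, hx'] using h4
      obtain ⟨Ψ, hΨ, hΨe⟩ := hL₂r.2 L₂ φ hφ hφr
      set W := extender S L₂ φ ⊓ normalizerIn S U₀
      have hL₂W : L₂ ≤ W := le_inf (le_extender hφ) hL₂N
      have hΨW := restrict_mem hΨ (inf_le_left : W ≤ extender S L₂ φ)
      have hval : ∀ u : ↥L₂, (Ψ.comp (Subgroup.inclusion (inf_le_left : W ≤ extender S L₂ φ)))
          (Subgroup.inclusion hL₂W u) = φ u := fun u => hΨe u u.2 _
      have hWs : Sends (Ψ.comp (Subgroup.inclusion (inf_le_left : W ≤ extender S L₂ φ))) U₀ U₀ := by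
        refine ⟨hUL.trans hL₂W, ?_⟩
        ext z
        constructor
        · rintro ⟨x, hx, rfl⟩
          rw [show x = Subgroup.inclusion hL₂W ⟨x, hUL hx⟩ from Subtype.ext rfl, hval]
          exact (S₂.2.2 _).mpr hx
        · intro hz
          refine ⟨Subgroup.inclusion hL₂W ((S₂ : MulAut ↥L₂).symm ⟨z, hUL hz⟩), ?_, (hval _).trans ?_⟩
          · refine (S₂.2.2 ((S₂ : MulAut ↥L₂).symm ⟨z, hUL hz⟩)).mp ?_
            rw [MulEquiv.apply_symm_apply]
            exact hz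
          · show (((S₂ : MulAut ↥L₂) ((S₂ : MulAut ↥L₂).symm ⟨z, hUL hz⟩) : ↥L₂) : Ω) = z
            rw [MulEquiv.apply_symm_apply]
      obtain ⟨R₄, ψ₄, hψ₄, hψ₄s, hR₄N, hR₄c, hψ₄e⟩ :=
        exists_conjugate_map hη hηs hη hηs hΨW hWs inf_le_right
      haveI : Finite ↥W := finite_of_le (S := S) (inf_le_right.trans inf_le_left)
      have hWlt : Nat.card ↥L₂ < Nat.card ↥W :=
        Set.Finite.card_lt_card (Set.toFinite _) (lt_of_le_of_ne hL₂W fun e => hgL₂ (e.ge ⟨hgext, g.2.2⟩))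
      have hP6 : Nat.card ↥P < Nat.card ↥R := Set.Finite.card_lt_card (Set.toFinite (R : Set Ω)) hPR
      have hR₄le : Nat.card ↥R₄ ≤ Nat.card ↥S := Subgroup.card_le_of_le (le_S hψ₄)
      have hW' : Nat.card ↥L₂ < Nat.card ↥(extender S L₂ φ ⊓ normalizerIn S U₀ : Subgroup Ω) := hWlt
      obtain ⟨α, hα, hαe⟩ := ih _ (by omega) R₄ ψ₄ hψ₄ (lt_of_card hψ₄s.1 (by omega)) hR₄N hψ₄s rfl
      refine ⟨α, hα, fun u hu h1 => ?_⟩
      obtain ⟨h2, h3⟩ := hψ₄e (Subgroup.inclusion hL₂W u)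
      refine (hαe ⟨_, h1⟩ h2 (hηs.mem hu)).trans (h3.trans (congrArg η (Subtype.ext ?_)))
      exact (hval u).trans (hS₂ ⟨u, hu⟩)
    refine ⟨α₂⁻¹ * (α₃ * α₁), mul_mem (inv_mem hα₂) (mul_mem hα₃ hα₁), fun x h hx => ?_⟩
    have hu : β ⟨x, hRle h⟩ ∈ U₀ := hβP.mem hx
    have e1 := hα₁e x (hRle h) (hL₂N (hUL hu)) hx
    have hψx : ψ ⟨x, h⟩ ∈ P := hs.mem hx
    have hu' : β' ⟨ψ ⟨x, h⟩, hR'le ⟨_, rfl⟩⟩ ∈ U₀ := hβ'P.mem hψx
    have e2 := hα₂e ⟨ψ ⟨x, h⟩, hPL hψx⟩ (hR'le ⟨_, rfl⟩) (hL₂N (hUL hu')) hψx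
    have h1 : η ⟨β ⟨x, hRle h⟩, hL₂N (hUL hu)⟩ ∈ L := hPL (hηs.mem hu)
    have e3 := hα₃e ⟨β ⟨x, hRle h⟩, hUL hu⟩ hu h1
    have e4 : ((α₃ * α₁) x : Ω) = (α₂ ⟨ψ ⟨x, h⟩, hPL hψx⟩ : Ω) := by
      rw [MulAut.mul_apply, show α₁ x = (⟨_, h1⟩ : ↥L) from Subtype.ext e1, e3, e2]
      refine congrArg η (Subtype.ext ?_)
      show ((eR' (eψ (eR.symm ⟨β ⟨x, hRle h⟩, _⟩)) : ↥L₂) : Ω) = _
      rw [show (⟨β ⟨x, hRle h⟩, hUL hu⟩ : ↥L₂) = eR ⟨x, h⟩ from Subtype.ext rfl, MulEquiv.symm_apply_apply]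
      rfl
    rw [MulAut.mul_apply, Subtype.ext e4, MulAut.inv_apply_self]

/-- Isomorphisms onto `P` within the class extend to automorphisms of its star group. -/
theorem exists_star_extension (hS : IsPGroup p ↥S) (ℋ : Set (Subgroup Ω))
    (hgen : ∀ E : FusionSystem S, (∀ P ∈ ℋ, F.Hom P ⊆ E.Hom P) → F ≤ E)
    {P₀ P : Subgroup Ω} (hout : ∀ Q, F.IsConj P₀ Q → Q ∉ ℋ) (hP₀S : P₀ < S)
    (hbig : SatAbove F p (Nat.card ↥P₀)) (hP : F.IsConj P₀ P) (huniv : ∀ Q, F.IsConj P₀ Q → Reach F Q P)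
    {Q : Subgroup Ω} {φ : ↥Q →* Ω} (hφ : φ ∈ F.Hom Q) (hr : φ.range = P)
    {η : ↥(normalizerIn S Q) →* Ω} (hη : η ∈ F.Hom (normalizerIn S Q)) (hηs : Sends η Q P) :
    ∃ α ∈ F.autGroup (star F p P), ∀ (x : ↥Q) (h : (x : Ω) ∈ normalizerIn S Q) (h' : η ⟨x, h⟩ ∈ star F p P),
      ((α ⟨_, h'⟩ : ↥(star F p P)) : Ω) = φ x := by
  set L := star F p P
  have hPS := IsConj.le_right hP
  have hPL : P ≤ L := le_star hS hPS
  let C : ∀ {A : Subgroup Ω}, (↥A →* Ω) → Subgroup Ω → Subgroup Ω → Prop := fun {A} f Q Q' =>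
    ∀ η ∈ F.Hom (normalizerIn S Q), Sends η Q P → ∀ η' ∈ F.Hom (normalizerIn S Q'), Sends η' Q' P →
      ∃ α ∈ F.autGroup L, ∀ (x : ↥A) (h1 : (x : Ω) ∈ normalizerIn S Q) (h2 : f x ∈ normalizerIn S Q')
        (h3 : η ⟨x, h1⟩ ∈ L), (x : Ω) ∈ Q → ((α ⟨_, h3⟩ : ↥L) : Ω) = η' ⟨f x, h2⟩
  have hQc : F.IsConj P₀ Q := IsConj.trans hP (IsConj.symm ⟨φ, hφ, hr⟩)
  have hs : Sends φ Q P := ⟨le_rfl, by rw [Subgroup.subgroupOf_self, ← MonoidHom.range_eq_map, hr]⟩
  have main : C φ Q P := by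
    refine class_induction ℋ hgen hout hP₀S hS C ?_ ?_ ?_ hφ hQc hs
    · intro A M X X' f χ hf hfs hX hχ hXM hM hχs hag η hη hηs η' hη' hη's
      obtain ⟨R, ψ, hψ, hψs, hRN, hRc, hψe⟩ := exists_conjugate_map hη hηs hη' hη's hχ hχs hM
      have hlt : P < R := by
        refine lt_of_card hψs.1 ?_
        haveI : Finite ↥M := finite_of_le (S := S) (le_S hχ)
        rw [hRc, ← IsConj.card_eq hP, IsConj.card_eq hX]
        exact Set.Finite.card_lt_card (Set.toFinite _) hXM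
      obtain ⟨α, hα, hαe⟩ := ext_of_big hS hbig hP huniv hψ hlt hRN hψs
      refine ⟨α, hα, fun x h1 h2 h3 hx => ?_⟩
      obtain ⟨hR, he⟩ := hψe ⟨x, hXM.le hx⟩
      exact (hαe ⟨_, h3⟩ hR (hηs.mem hx)).trans
        (he.trans (congrArg η' (Subtype.ext (hag x x.2 (hXM.le hx) hx).symm)))
    · intro A B X X₁ X' f g hf hg hX hfs hgs hCf hCg h η hη hηs η' hη' hη's
      have hX₁ : F.IsConj P₀ X₁ := IsConj.trans hX (hfs.isConj hf)
      obtain ⟨η₁, hη₁, hη₁s⟩ := huniv X₁ hX₁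
      obtain ⟨a, ha, hae⟩ := hCf η hη hηs η₁ hη₁ hη₁s
      obtain ⟨b, hb, hbe⟩ := hCg η₁ hη₁ hη₁s η' hη' hη's
      refine ⟨b * a, mul_mem hb ha, fun x h1 h2 h3 hx => ?_⟩
      have hm : f x ∈ X₁ := hfs.mem hx
      have hn : f x ∈ normalizerIn S X₁ := self_le_normalizerIn (IsConj.le_right hX₁) hm
      have e1 := hae x h1 hn h3 hx
      have e2 := hbe ⟨f x, h x⟩ hn h2 (hPL (hη₁s.mem hm)) hm
      rw [MulAut.mul_apply, show a ⟨_, h3⟩ = (⟨_, hPL (hη₁s.mem hm)⟩ : ↥L) from Subtype.ext e1]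
      exact e2
    · intro A X X' f hf hX hfs hCf g hg hge η hη hηs η' hη' hη's
      obtain ⟨a, ha, hae⟩ := hCf η' hη' hη's η hη hηs
      refine ⟨a⁻¹, inv_mem ha, ?_⟩
      rintro ⟨_, x, rfl⟩ h1 h2 h3 hx
      have hxX : (x : Ω) ∈ X := (hfs.mem_iff hf).mp hx
      have hxN : (x : Ω) ∈ normalizerIn S X := self_le_normalizerIn (IsConj.le_right hX) hxX
      have hL : η' ⟨x, hxN⟩ ∈ L := hPL (hη's.mem hxX)
      have e1 := hae x hxN h1 hL hxX
      rw [show (⟨η ⟨f x, h1⟩, h3⟩ : ↥L) = a ⟨_, hL⟩ from Subtype.ext e1.symm, MulAut.inv_apply_self]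
      exact congrArg η' (Subtype.ext (hge x).symm)
  obtain ⟨α, hα, hαe⟩ := main η hη hηs _ (incl_mem F inf_le_left) (sends_subtype (self_le_normalizerIn hPS))
  exact ⟨α, hα, fun x h h' => hαe x h (self_le_normalizerIn hPS (hs.mem x.2)) h' x.2⟩

end CfsgLib.Fusion
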