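import Cfsg.Agent.Lib.Fusion.SaturationPairs

/-! Linking the members of one class by maps on normalisers. (helper6) -/

set_option autoImplicit false
set_option linter.unusedSectionVars false
set_option linter.style.haveILetI false

namespace CfsgLib.Fusion

open Cfsg Cfsg.FusionSystem

universe u

variable {Ω : Type u} [Group Ω] {S : Subgroup Ω} [Finite ↥S] {F : FusionSystem S} {p : ℕ} [Fact p.Prime]

/-- A map from the normaliser of `Q` carries `Q` onto `Q'`. -/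
def Reach (F : FusionSystem S) (Q Q' : Subgroup Ω) : Prop :=
  ∃ χ ∈ F.Hom (normalizerIn S Q), Sends χ Q Q'

theorem Reach.le_left {Q Q' : Subgroup Ω} (h : Reach F Q Q') : Q ≤ S := by
  obtain ⟨χ, -, hs⟩ := h
  exact hs.1.trans inf_le_left

theorem Reach.isConj {Q Q' : Subgroup Ω} (h : Reach F Q Q') : F.IsConj Q Q' := by
  obtain ⟨χ, hχ, hs⟩ := h
  exact hs.isConj hχ

theorem normalizer_val {M Q Q' : Subgroup Ω} {χ : ↥M →* Ω} (hχ : χ ∈ F.Hom M) (hs : Sends χ Q Q')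
    (hM : M ≤ normalizerIn S Q) (x : ↥M) : χ x ∈ normalizerIn S Q' :=
  ⟨apply_mem_S hχ x, hs.normalizer_mem (hM x.2).2⟩

theorem self_le_normalizerIn {Q : Subgroup Ω} (h : Q ≤ S) : Q ≤ normalizerIn S Q :=
  le_inf h Subgroup.le_normalizer

theorem Reach.refl (F : FusionSystem S) {Q : Subgroup Ω} (h : Q ≤ S) : Reach F Q Q :=
  ⟨_, incl_mem F inf_le_left, sends_subtype (self_le_normalizerIn h)⟩

theorem Reach.trans {Q Q' Q'' : Subgroup Ω} (h : Reach F Q Q') (h' : Reach F Q' Q'') : Reach F Q Q'' := by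
  obtain ⟨χ, hχ, hs⟩ := h
  obtain ⟨ψ, hψ, hs'⟩ := h'
  exact ⟨_, F.comp_mem hχ hψ (normalizer_val hχ hs le_rfl), hs.comp hs' _⟩

theorem Reach.card_le {Q Q' : Subgroup Ω} (h : Reach F Q Q') :
    Nat.card ↥(normalizerIn S Q) ≤ Nat.card ↥(normalizerIn S Q') := by
  obtain ⟨χ, hχ, hs⟩ := h
  haveI : Finite ↥(normalizerIn S Q') := finite_of_le (S := S) inf_le_left
  rw [← card_range hχ]
  exact Subgroup.card_le_of_le (by rintro _ ⟨x, rfl⟩; exact normalizer_val hχ hs le_rfl x)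

theorem Reach.symm {Q Q' : Subgroup Ω} (h : Reach F Q Q')
    (hc : Nat.card ↥(normalizerIn S Q') ≤ Nat.card ↥(normalizerIn S Q)) : Reach F Q' Q := by
  obtain ⟨χ, hχ, hs⟩ := h
  haveI : Finite ↥(normalizerIn S Q') := finite_of_le (S := S) inf_le_left
  have hr : χ.range = normalizerIn S Q' :=
    Subgroup.eq_of_le_of_card_ge (by rintro _ ⟨x, rfl⟩; exact normalizer_val hχ hs le_rfl x)
      (by rw [card_range hχ]; exact hc)
  obtain ⟨ψ, hψ, hψs, -⟩ := hs.inverse hχ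
  exact ⟨_, restrict_mem hψ hr.ge, hψs.restrict hr.ge (self_le_normalizerIn (IsConj.le_right (hs.isConj hχ)))⟩

/-- The normaliser of `m` is of largest possible order among the subgroups reached from `m`. -/
def MaxReach (F : FusionSystem S) (m : Subgroup Ω) : Prop :=
  ∀ Q', Reach F m Q' → Nat.card ↥(normalizerIn S Q') ≤ Nat.card ↥(normalizerIn S m)

theorem exists_maxReach (F : FusionSystem S) {Q : Subgroup Ω} (hQ : Q ≤ S) :
    ∃ m, Reach F Q m ∧ MaxReach F m := by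
  obtain ⟨m, hm, hmax⟩ := ((finite_le S).subset (fun m (hm : Reach F Q m) => IsConj.le_right hm.isConj)).exists_maximalFor
    (fun m => Nat.card ↥(normalizerIn S m)) _ ⟨Q, Reach.refl F hQ⟩
  refine ⟨m, hm, fun Q' hQ' => ?_⟩
  rcases le_total (Nat.card ↥(normalizerIn S Q')) (Nat.card ↥(normalizerIn S m)) with h | h
  · exact h
  · exact hmax (Reach.trans hm hQ') h

/-- All maximal subgroups reached from `Q` reach all those reached from `Q'`. -/
def Linked (F : FusionSystem S) (Q Q' : Subgroup Ω) : Prop :=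
  ∀ m m', MaxReach F m → MaxReach F m' → Reach F Q m → Reach F Q' m' → Reach F m m'

theorem Linked.symm {Q Q' : Subgroup Ω} (h : Linked F Q Q') : Linked F Q' Q := by
  intro m m' hm hm' hQ hQ'
  have h' := h m' m hm' hm hQ' hQ
  exact h'.symm (hm' m h')

theorem Linked.trans {Q Q₁ Q' : Subgroup Ω} (hQ₁ : Q₁ ≤ S) (h : Linked F Q Q₁) (h' : Linked F Q₁ Q') :
    Linked F Q Q' := by
  intro m m' hm hm' hQ hQ'
  obtain ⟨m₁, h₁, hm₁⟩ := exists_maxReach F hQ₁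
  exact (h m m₁ hm hm₁ hQ h₁).trans (h' m₁ m' hm₁ hm' h₁ hQ')

/-- Moving a map between subgroups of the class to other members along maps on normalisers. -/
theorem exists_conjugate_map {Q Q' A A' M : Subgroup Ω} {η : ↥(normalizerIn S Q) →* Ω}
    (hη : η ∈ F.Hom (normalizerIn S Q)) (hηs : Sends η Q A) {η' : ↥(normalizerIn S Q') →* Ω}
    (hη' : η' ∈ F.Hom (normalizerIn S Q')) (hη's : Sends η' Q' A')
    {χ : ↥M →* Ω} (hχ : χ ∈ F.Hom M) (hχs : Sends χ Q Q') (hM : M ≤ normalizerIn S Q) :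
    ∃ (R : Subgroup Ω) (ψ : ↥R →* Ω), ψ ∈ F.Hom R ∧ Sends ψ A A' ∧ R ≤ normalizerIn S A ∧
      Nat.card ↥R = Nat.card ↥M ∧
      ∀ x : ↥M, ∃ hR : η (Subgroup.inclusion hM x) ∈ R,
        ψ ⟨_, hR⟩ = η' ⟨χ x, normalizer_val hχ hχs hM x⟩ := by
  have hη₁ := restrict_mem hη hM
  obtain ⟨ζ, hζ, hζs, hζe⟩ := (hηs.restrict hM hχs.1).inverse hη₁
  have hv : ∀ y, ζ y ∈ M := by
    rintro ⟨_, x, rfl⟩
    rw [hζe]
    exact x.2
  have h1 := F.comp_mem hζ hχ hv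
  have h1s := hζs.comp hχs hv
  have hv' : ∀ y, (χ.comp (ζ.codRestrict M hv)) y ∈ normalizerIn S Q' :=
    fun y => normalizer_val hχ hχs hM _
  refine ⟨_, _, F.comp_mem h1 hη' hv', h1s.comp hη's hv', ?_, card_range hη₁, fun x => ⟨⟨x, rfl⟩, ?_⟩⟩
  · rintro _ ⟨x, rfl⟩
    exact normalizer_val hη hηs le_rfl _
  · refine congrArg η' (Subtype.ext (congrArg χ (Subtype.ext ?_)))
    exact hζe x

theorem lt_of_card {P R : Subgroup Ω} (h : P ≤ R) (hc : Nat.card ↥P < Nat.card ↥R) : P < R :=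
  lt_of_le_of_ne h fun e => by rw [e] at hc; exact lt_irrefl _ hc

theorem lt_inf_normalizer (hS : IsPGroup p ↥S) {R A : Subgroup Ω} (h : R < normalizerIn S A) :
    R < normalizerIn S R ⊓ normalizerIn S A := by
  haveI : Finite ↥(normalizerIn S A) := finite_of_le (S := S) inf_le_left
  refine lt_of_lt_of_le (lt_normalizerIn (S := normalizerIn S A) p (hS.to_le inf_le_left) h) ?_
  exact le_inf (le_inf (inf_le_left.trans inf_le_left) inf_le_right) inf_le_left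

/-- Every class of order above `n` has a fully automized receptive member. -/
def SatAbove (F : FusionSystem S) (p n : ℕ) : Prop :=
  ∀ R : Subgroup Ω, R ≤ S → n < Nat.card ↥R → ∃ L, F.IsConj R L ∧ F.IsFullyAutomized p L ∧ F.IsReceptive L

/-- A common target for the two pairs joined by a map. -/
theorem exists_common_pair (hS : IsPGroup p ↥S) {n : ℕ} (hbig : SatAbove F p n) {R A B : Subgroup Ω}
    (hn : n < Nat.card ↥R) (hRA : R ≤ normalizerIn S A) {ψ : ↥R →* Ω} (hψ : ψ ∈ F.Hom R) (hs : Sends ψ A B) :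
    ∃ (L U₀ : Subgroup Ω), F.IsReceptive L ∧ Full F p L U₀ ∧
      ∃ β ∈ F.Hom (normalizerIn S R ⊓ normalizerIn S A),
        ∃ β' ∈ F.Hom (normalizerIn S ψ.range ⊓ normalizerIn S B),
          Sends β R L ∧ Sends β A U₀ ∧ Sends β' ψ.range L ∧ Sends β' B U₀ := by
  obtain ⟨L, ⟨ρ, hρ, hρr⟩, hLa, hLr⟩ := hbig R (le_S hψ) hn
  obtain ⟨a, ha, hfull⟩ := exists_full p hS (U := (A.subgroupOf R).map ρ) hLa
  have hρL : ∀ x, ρ x ∈ L := fun x => hρr.le ⟨x, rfl⟩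
  have ha' := (autGroup_carrier F hLa.1 a).mp ha
  set ρ₁ := (L.subtype.comp a.toMonoidHom).comp (ρ.codRestrict L hρL)
  have hρ₁ : ρ₁ ∈ F.Hom R := F.comp_mem hρ ha' hρL
  have hUL : (A.subgroupOf R).map ρ ≤ L := by
    rintro _ ⟨x, -, rfl⟩
    exact hρL x
  have hρ₁s : Sends ρ₁ A (((A.subgroupOf R).map ρ).subgroupOf L |>.map (L.subtype.comp a.toMonoidHom)) :=
    (sends_map ρ hs.1).comp (sends_map _ hUL) hρL
  have hρ₁r : ρ₁.range = L := by
    ext y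
    refine ⟨fun ⟨x, hx⟩ => hx ▸ (a _).2, fun hy => ?_⟩
    obtain ⟨x, hx⟩ := hρr.ge (a.symm ⟨y, hy⟩).2
    refine ⟨x, ?_⟩
    show ((a (⟨ρ x, hρL x⟩ : ↥L) : ↥L) : Ω) = y
    rw [show (⟨ρ x, hρL x⟩ : ↥L) = a.symm ⟨y, hy⟩ from Subtype.ext hx, MulEquiv.apply_symm_apply]
  obtain ⟨ψi, hψi, hψis, hψie⟩ := hs.inverse hψ
  have hv : ∀ y, ψi y ∈ R := by
    rintro ⟨_, x, rfl⟩
    rw [hψie]
    exact x.2
  have hρ₂ := F.comp_mem hψi hρ₁ hv
  have hρ₂r : (ρ₁.comp (ψi.codRestrict R hv)).range = L := by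
    ext y
    constructor
    · rintro ⟨x, rfl⟩
      exact hρ₁r.le ⟨_, rfl⟩
    · intro hy
      obtain ⟨x, rfl⟩ := hρ₁r.ge hy
      exact ⟨⟨ψ x, ⟨x, rfl⟩⟩, congrArg ρ₁ (Subtype.ext (hψie x))⟩
  have hRB : ψ.range ≤ Subgroup.normalizer (B : Set Ω) := by
    rintro _ ⟨x, rfl⟩
    exact hs.normalizer_mem (hRA x.2).2
  obtain ⟨β, hβ, hβR, hβA⟩ := exists_pair_extend p hS hLr hfull (fun x hx => (hRA hx).2) hρ₁ hρ₁r hρ₁s
  obtain ⟨β', hβ', hβ'R, hβ'B⟩ := exists_pair_extend p hS hLr hfull hRB hρ₂ hρ₂r (hψis.comp hρ₁s hv)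
  exact ⟨L, _, hLr, hfull, β, hβ, β', hβ', hβR, hβA, hβ'R, hβ'B⟩

theorem linked_of_step (hS : IsPGroup p ↥S) {n : ℕ} (hbig : SatAbove F p n) {Q Q' M : Subgroup Ω}
    (hQn : Nat.card ↥Q = n) (hQM : Q < M) (hM : M ≤ normalizerIn S Q) {χ : ↥M →* Ω} (hχ : χ ∈ F.Hom M)
    (hχs : Sends χ Q Q') : Linked F Q Q' := by
  suffices key : ∀ (k : ℕ) (Q Q' M : Subgroup Ω) (χ : ↥M →* Ω), Nat.card ↥Q = n → Q < M → M ≤ normalizerIn S Q →
      χ ∈ F.Hom M → Sends χ Q Q' → Nat.card ↥S - Nat.card ↥M = k → Linked F Q Q' from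
    key _ Q Q' M χ hQn hQM hM hχ hχs rfl
  intro k
  induction k using Nat.strong_induction_on with
  | _ k ih =>
    intro Q Q' M χ hQn hQM hM hχ hχs hk m m' hm hm' hQm hQ'm'
    obtain ⟨η, hη, hηs⟩ := hQm
    obtain ⟨η', hη', hη's⟩ := hQ'm'
    obtain ⟨R, ψ, hψ, hψs, hRm, hRM, -⟩ := exists_conjugate_map hη hηs hη' hη's hχ hχs hM
    haveI : Finite ↥M := finite_of_le (S := S) (le_S hχ)
    have hMn : n < Nat.card ↥M := hQn ▸ Set.Finite.card_lt_card (Set.toFinite _) hQM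
    haveI : Finite ↥(normalizerIn S m) := finite_of_le (S := S) inf_le_left
    haveI : Finite ↥(normalizerIn S m') := finite_of_le (S := S) inf_le_left
    by_cases h1 : R = normalizerIn S m
    · subst h1
      exact ⟨ψ, hψ, hψs⟩
    have hR'm' : ψ.range ≤ normalizerIn S m' := by
      rintro _ ⟨x, rfl⟩
      exact normalizer_val hψ hψs hRm x
    by_cases h2 : ψ.range = normalizerIn S m'
    · obtain ⟨ψi, hψi, hψis, -⟩ := hψs.inverse hψ
      have h' : Reach F m' m :=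
        ⟨_, restrict_mem hψi h2.ge, hψis.restrict h2.ge
          (self_le_normalizerIn (IsConj.le_right (hψs.isConj hψ)))⟩
      exact h'.symm (hm' m h')
    obtain ⟨L, U₀, -, -, β, hβ, β', hβ', hβR, hβm, hβ'R, hβ'm⟩ :=
      exists_common_pair hS hbig (hRM ▸ hMn) hRm hψ hψs
    have hmn : Nat.card ↥m = n := by
      rw [← hQn]; exact (IsConj.card_eq (hηs.isConj hη)).symm
    have hm'n : Nat.card ↥m' = n := by
      rw [← hmn]; exact (IsConj.card_eq (hψs.isConj hψ)).symm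
    have step : ∀ (A X : Subgroup Ω) (γ : ↥(normalizerIn S X ⊓ normalizerIn S A) →* Ω),
        Nat.card ↥A = n → Nat.card ↥X = Nat.card ↥M → X < normalizerIn S A →
        γ ∈ F.Hom (normalizerIn S X ⊓ normalizerIn S A) → Sends γ A U₀ → Linked F A U₀ := by
      intro A X γ hA hX hlt hγ hγs
      haveI : Finite ↥(normalizerIn S X ⊓ normalizerIn S A : Subgroup Ω) :=
        finite_of_le (S := S) (inf_le_left.trans inf_le_left)
      have h3 := Set.Finite.card_lt_card (Set.toFinite _) (lt_inf_normalizer hS hlt)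
      have h4 : Nat.card ↥(normalizerIn S X ⊓ normalizerIn S A : Subgroup Ω) ≤ Nat.card ↥S :=
        Subgroup.card_le_of_le (inf_le_left.trans inf_le_left)
      refine ih _ ?_ A U₀ _ γ hA (lt_of_card hγs.1 ?_) inf_le_right hγ hγs rfl
      · have h5 : Nat.card ↥X < Nat.card ↥(normalizerIn S X ⊓ normalizerIn S A : Subgroup Ω) := h3
        omega
      · exact lt_trans (hA.le.trans_lt (hX.symm ▸ hMn)) h3
    obtain ⟨m'', hU, hm''⟩ := exists_maxReach F (IsConj.le_right (hβm.isConj hβ))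
    have r1 := step m R β hmn hRM (lt_of_le_of_ne hRm h1) hβ hβm m m'' hm hm''
      (Reach.refl F (IsConj.le_left (hψs.isConj hψ))) hU
    have r2 := step m' ψ.range β' hm'n ((card_range hψ).trans hRM) (lt_of_le_of_ne hR'm' h2) hβ' hβ'm m' m'' hm' hm''
      (Reach.refl F (IsConj.le_right (hψs.isConj hψ))) hU
    exact r1.trans (r2.symm (hm' m'' r2))

/-- The maps with a property on the members of the class contain a system generated by proper restrictions. -/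
theorem class_induction (ℋ : Set (Subgroup Ω)) (hgen : ∀ E : FusionSystem S, (∀ P ∈ ℋ, F.Hom P ⊆ E.Hom P) → F ≤ E)
    {P₀ : Subgroup Ω} (hout : ∀ Q, F.IsConj P₀ Q → Q ∉ ℋ) (hP₀S : P₀ < S) (hS : IsPGroup p ↥S)
    (C : ∀ {A : Subgroup Ω}, (↥A →* Ω) → Subgroup Ω → Subgroup Ω → Prop)
    (hstep : ∀ {A M Q Q' : Subgroup Ω} {φ : ↥A →* Ω} {χ : ↥M →* Ω}, φ ∈ F.Hom A → Sends φ Q Q' → F.IsConj P₀ Q →
      χ ∈ F.Hom M → Q < M → M ≤ normalizerIn S Q → Sends χ Q Q' →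
      (∀ (x : Ω) (hA : x ∈ A) (hM : x ∈ M), x ∈ Q → φ ⟨x, hA⟩ = χ ⟨x, hM⟩) → C φ Q Q')
    (hcomp : ∀ {A B Q Q₁ Q' : Subgroup Ω} {φ : ↥A →* Ω} {ψ : ↥B →* Ω}, φ ∈ F.Hom A → ψ ∈ F.Hom B →
      F.IsConj P₀ Q → Sends φ Q Q₁ → Sends ψ Q₁ Q' → C φ Q Q₁ → C ψ Q₁ Q' →
      ∀ h : ∀ x : A, φ x ∈ B, C (ψ.comp (φ.codRestrict B h)) Q Q')
    (hinv : ∀ {A Q Q' : Subgroup Ω} {φ : ↥A →* Ω}, φ ∈ F.Hom A → F.IsConj P₀ Q → Sends φ Q Q' → C φ Q Q' →
      ∀ ψ ∈ F.Hom φ.range, (∀ x : A, ψ ⟨φ x, ⟨x, rfl⟩⟩ = (x : Ω)) → C ψ Q' Q)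
    {A : Subgroup Ω} {φ : ↥A →* Ω} (hφ : φ ∈ F.Hom A) {Q Q' : Subgroup Ω} (hQ : F.IsConj P₀ Q)
    (hs : Sends φ Q Q') : C φ Q Q' := by
  let M : ∀ A : Subgroup Ω, (↥A →* Ω) → Prop :=
    fun _ φ => ∀ Q Q', F.IsConj P₀ Q → Sends φ Q Q' → C φ Q Q'
  have hlt : ∀ Q, F.IsConj P₀ Q → Q < S := fun Q hQ => by
    haveI := finite_of_le (S := S) hP₀S.le
    refine lt_of_card (IsConj.le_right hQ) ?_
    rw [← IsConj.card_eq hQ]
    exact Set.Finite.card_lt_card (Set.toFinite _) hP₀S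
  let E := subsystem F M (fun {B g} hB hg Q Q' hQ hs => by
      refine hstep (F.conj_mem hB hg) hs hQ (F.conj_mem inf_le_left hg) (lt_normalizerIn p hS (hlt Q hQ)) le_rfl
        ⟨self_le_normalizerIn (IsConj.le_right hQ), ?_⟩ fun x _ _ _ => rfl
      rw [← hs.2]
      ext y
      constructor
      · rintro ⟨x, hx, rfl⟩
        exact ⟨⟨x, hs.1 hx⟩, hx, rfl⟩
      · rintro ⟨x, hx, rfl⟩
        exact ⟨⟨x, self_le_normalizerIn (IsConj.le_right hQ) hx⟩, hx, rfl⟩)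
    (fun {B B' f g} hf hMf hg hMg h Q Q' hQ hs => by
      have hQB : Q ≤ B := hs.1
      set Q₁ := (Q.subgroupOf B).map f
      have h1 : Sends f Q Q₁ := sends_map f hQB
      have hQ₁ : F.IsConj P₀ Q₁ := IsConj.trans hQ (h1.isConj hf)
      have h2 : Sends g Q₁ Q' := by
        refine ⟨by rintro _ ⟨x, -, rfl⟩; exact h x, ?_⟩
        rw [← hs.2]
        ext y
        constructor
        · rintro ⟨w, ⟨x, hx, hxw⟩, rfl⟩
          exact ⟨x, hx, congrArg g (Subtype.ext hxw)⟩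
        · rintro ⟨x, hx, rfl⟩
          exact ⟨⟨f x, h x⟩, ⟨x, hx, rfl⟩, rfl⟩
      exact hcomp hf hg hQ h1 h2 (hMf Q Q₁ hQ h1) (hMg Q₁ Q' hQ₁ h2) h)
    (fun {B f} hf hMf g hg hge Q Q' hQ hs => by
      have hmem : ∀ y, g y ∈ B := by
        rintro ⟨_, x, rfl⟩
        rw [hge]
        exact x.2
      have hQ'B : Q' ≤ B := by
        intro y hy
        obtain ⟨x, -, rfl⟩ := hs.exists_eq hy
        exact hmem x
      have h1 : Sends f Q' Q := by
        refine ⟨hQ'B, le_antisymm ?_ fun y hy => ?_⟩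
        · rintro _ ⟨x, hx, rfl⟩
          exact (hs.mem_iff hg (x := ⟨f x, ⟨x, rfl⟩⟩)).mp (by rw [hge]; exact hx)
        · obtain ⟨x, hx⟩ := hs.1 hy
          refine ⟨x, ?_, hx⟩
          have := hs.mem (x := ⟨y, hs.1 hy⟩) hy
          rwa [show (⟨y, hs.1 hy⟩ : ↥f.range) = ⟨f x, ⟨x, rfl⟩⟩ from Subtype.ext hx.symm, hge] at this
      have hQ' : F.IsConj P₀ Q' := IsConj.trans hQ (hs.isConj hg)
      exact hinv hf hQ' h1 (hMf Q' Q hQ' h1) g hg hge)
  refine ((hgen E fun P hP f hf => ⟨hf, fun Q Q' hQ hs => ?_⟩) A hφ).2 Q Q' hQ hs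
  have hQP : Q < P := lt_of_le_of_ne hs.1 fun e => hout Q hQ (e ▸ hP)
  haveI := finite_of_le (S := S) (le_S hf)
  have hle : normalizerIn P Q ≤ normalizerIn S Q := inf_le_inf_right _ (le_S hf)
  exact hstep hf hs hQ (restrict_mem hf (inf_le_left : normalizerIn P Q ≤ P))
    (lt_normalizerIn (S := P) p (hS.to_le (le_S hf)) hQP) hle
    (hs.restrict _ (le_inf hs.1 Subgroup.le_normalizer)) fun _ _ _ _ => rfl

/-- Some member of the class is reached from every member. -/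
theorem exists_universal (hS : IsPGroup p ↥S) (ℋ : Set (Subgroup Ω))
    (hgen : ∀ E : FusionSystem S, (∀ P ∈ ℋ, F.Hom P ⊆ E.Hom P) → F ≤ E)
    {P₀ : Subgroup Ω} (hout : ∀ Q, F.IsConj P₀ Q → Q ∉ ℋ) (hP₀S : P₀ < S)
    (hbig : SatAbove F p (Nat.card ↥P₀)) :
    ∃ P, F.IsConj P₀ P ∧ ∀ Q, F.IsConj P₀ Q → Reach F Q P := by
  obtain ⟨P, hP₀P, hP⟩ := exists_maxReach F hP₀S.le
  refine ⟨P, hP₀P.isConj, fun Q hQ => ?_⟩
  obtain ⟨φ, hφ, hφQ⟩ := hQ
  have hs : Sends φ P₀ Q := ⟨le_rfl, by rw [Subgroup.subgroupOf_self, ← MonoidHom.range_eq_map, hφQ]⟩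
  have hl : Linked F P₀ Q := class_induction ℋ hgen hout hP₀S hS (fun {_} _ Q Q' => Linked F Q Q')
    (fun _ _ hQ hχ hlt hle hχs _ => linked_of_step hS hbig (IsConj.card_eq hQ).symm hlt hle hχ hχs)
    (fun hf _ _ h1 _ c1 c2 _ => c1.trans (IsConj.le_right (h1.isConj hf)) c2)
    (fun _ _ _ c _ _ _ => c.symm) hφ (IsConj.refl F hP₀S.le) hs
  obtain ⟨m, hQm, hm⟩ := exists_maxReach F (IsConj.le_right ⟨φ, hφ, hφQ⟩)
  have h := hl P m hP hm hP₀P hQm
  exact hQm.trans (h.symm (hP m h))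

end CfsgLib.Fusion
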