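import Cfsg.Agent.Lib.Fusion.SaturationCriterion

/-! The saturation criterion: the conclusion. (helper6) -/

set_option autoImplicit false
set_option linter.unusedSectionVars false
set_option linter.style.haveILetI false

namespace CfsgLib.Fusion

open Cfsg Cfsg.FusionSystem

universe u

variable {Ω : Type u} [Group Ω] {S : Subgroup Ω} [Finite ↥S] {F : FusionSystem S} {p : ℕ} [Fact p.Prime]

theorem mem_normalizer_of_conj {P : Subgroup Ω} (hP : P ≤ S) {g : Ω} (h : ∀ x ∈ P, g * x * g⁻¹ ∈ P) :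
    g ∈ Subgroup.normalizer (P : Set Ω) := by
  haveI := finite_of_le (S := S) hP
  exact mem_normalizer_iff_cj.mpr (Subgroup.eq_of_le_of_card_ge (cj_le_iff.mpr h) (by rw [card_cj]))

theorem exists_good_member (hS : IsPGroup p ↥S) (ℋ : Set (Subgroup Ω))
    (hgen : ∀ E : FusionSystem S, (∀ P ∈ ℋ, F.Hom P ⊆ E.Hom P) → F ≤ E)
    {P₀ : Subgroup Ω} (hout : ∀ Q, F.IsConj P₀ Q → Q ∉ ℋ) (hP₀S : P₀ < S)
    (hbig : SatAbove F p (Nat.card ↥P₀)) (hstar : ∃ Q, F.IsConj P₀ Q ∧ ∃ x, x ∈ star F p Q ∧ x ∉ Q) :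
    ∃ P, F.IsConj P₀ P ∧ F.IsFullyAutomized p P ∧ F.IsReceptive P := by
  obtain ⟨P₁, hP₁, huniv₁⟩ := exists_universal hS ℋ hgen hout hP₀S hbig
  obtain ⟨Q₀, hQ₀, hx⟩ := hstar
  obtain ⟨P, hP, huniv, hlt, hLr, hfull⟩ :=
    exists_universal_star hS hbig hP₁ huniv₁ (exists_strict_star hS (huniv₁ Q₀ hQ₀) hx)
  set L := star F p P
  have hPS := IsConj.le_right hP
  have hLS : L ≤ S := inf_le_left
  have hPL : P ≤ L := le_star hS hPS
  have hLN : L ≤ normalizerIn S P := star_le F p P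
  haveI := finite_aut_of_le hLS
  haveI := finite_aut_of_le hPS
  haveI : Finite ↥L := finite_of_le (S := S) hLS
  haveI : Finite ↥(normalizerIn S P) := finite_of_le (S := S) inf_le_left
  set r : ↥(stab F L P) →* ↥(F.autGroup P) := stabRes hPL hLS
  obtain ⟨T, hT⟩ := id hfull
  have hLn : normalizerIn S P ≤ Subgroup.normalizer (L : Set Ω) := normalizerIn_le_normalizer_star hPS
  have hconjmem : ∀ y (hy : y ∈ normalizerIn S P), L.normalizerMonoidHom ⟨y, hLn hy⟩ ∈ stab F L P :=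
    fun y hy => ⟨(autGroup_carrier F hLS _).mpr (conj_mem_of_eq F hLS hy.1 fun _ => rfl),
      fun x => (Subgroup.mem_normalizer_iff.mp hy.2 (x : Ω)).symm⟩
  have hconjT : ∀ y (hy : y ∈ normalizerIn S P), (⟨_, hconjmem y hy⟩ : ↥(stab F L P)) ∈ (T : Subgroup ↥(stab F L P)) :=
    fun y hy => by rw [hT]; exact (mem_autInducedBy _).mpr ⟨y, hy.1, fun _ => rfl⟩
  have hstab : ∀ {Q : Subgroup Ω} {φ : ↥Q →* Ω}, φ ∈ F.Hom Q → φ.range = P →
      ∀ {η : ↥(normalizerIn S Q) →* Ω}, η ∈ F.Hom (normalizerIn S Q) → Sends η Q P →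
      ∃ α : ↥(stab F L P), ∀ (x : ↥Q) (h : (x : Ω) ∈ normalizerIn S Q) (h' : η ⟨x, h⟩ ∈ L),
        (((α : MulAut ↥L) ⟨_, h'⟩ : ↥L) : Ω) = φ x := by
    intro Q φ hφ hr η hη hηs
    obtain ⟨α, hα, hαe⟩ := exists_star_extension hS ℋ hgen hout hP₀S hbig hP huniv hφ hr hη hηs
    have hQS := le_S hφ
    refine ⟨⟨α, hα, fun y => ⟨fun hy => ?_, fun hy => ?_⟩⟩, hαe⟩
    · obtain ⟨x, hx⟩ := hr.ge hy
      have hxN : (x : Ω) ∈ normalizerIn S Q := self_le_normalizerIn hQS x.2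
      have hxP : η ⟨x, hxN⟩ ∈ P := hηs.mem x.2
      have h1 := hαe x hxN (hPL hxP)
      rw [hx] at h1
      rw [← α.injective (Subtype.ext h1)]
      exact hxP
    · obtain ⟨w, hw, hwy⟩ := hηs.exists_eq hy
      have h1 := hαe ⟨w, hw⟩ w.2 (hwy.symm ▸ y.2)
      rw [show (⟨η ⟨((⟨(w : Ω), hw⟩ : ↥Q) : Ω), w.2⟩, hwy.symm ▸ y.2⟩ : ↥L) = y from Subtype.ext hwy] at h1
      rw [h1]
      exact hr.le ⟨_, rfl⟩
  refine ⟨P, hP, ⟨hPS, ?_⟩, ⟨hPS, fun Q φ hφ hr => ?_⟩⟩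
  · have hsurj : Function.Surjective r := by
      intro b
      have hb := (autGroup_carrier F hPS (b : MulAut ↥P)).mp b.2
      obtain ⟨α, hα⟩ := hstab hb (by
        ext y
        exact ⟨fun ⟨x, hx⟩ => hx ▸ ((b : MulAut ↥P) x).2, fun hy => ⟨(b : MulAut ↥P).symm ⟨y, hy⟩, by simp⟩⟩)
        (incl_mem F inf_le_left) (sends_subtype (self_le_normalizerIn hPS))
      refine ⟨α, Subtype.ext (MulEquiv.ext fun x => Subtype.ext ?_)⟩
      exact hα x (self_le_normalizerIn hPS x.2) (hPL x.2)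
    refine ⟨T.mapSurjective hsurj, ?_⟩
    rw [Sylow.coe_mapSurjective]
    ext b
    constructor
    · rintro ⟨t, ht, rfl⟩
      obtain ⟨g, hg, hge⟩ := (mem_autInducedBy _).mp (hT.le ht)
      exact (mem_autInducedBy _).mpr ⟨g, hg, fun x => hge (Subgroup.inclusion hPL x)⟩
    · intro hb
      obtain ⟨g, hg, hge⟩ := (mem_autInducedBy _).mp hb
      have hgN : g ∈ normalizerIn S P :=
        ⟨hg, mem_normalizer_of_conj hPS fun x hx => hge ⟨x, hx⟩ ▸ ((b : MulAut ↥P) ⟨x, hx⟩).2⟩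
      exact ⟨_, hconjT g hgN, Subtype.ext (MulEquiv.ext fun x => Subtype.ext (hge x).symm)⟩
  have hQS := le_S hφ
  obtain ⟨η, hη, hηs⟩ := huniv Q (IsConj.trans hP (IsConj.symm ⟨φ, hφ, hr⟩))
  obtain ⟨α, hα⟩ := hstab hφ hr hη hηs
  set G₀ := {g : Ω | g ∈ S ∧ g ∈ Subgroup.normalizer (Q : Set Ω) ∧
    ∃ h ∈ S, ∀ (x : ↥Q) (hx : g * (x : Ω) * g⁻¹ ∈ Q), φ ⟨g * x * g⁻¹, hx⟩ = h * φ x * h⁻¹}
  set GA := {a : ↥(stab F L P) | ∃ (g : Ω) (hg : g ∈ normalizerIn S Q), g ∈ G₀ ∧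
    a = α * ⟨_, hconjmem _ (normalizer_val hη hηs le_rfl ⟨g, hg⟩)⟩ * α⁻¹}
  have hA1 : Subgroup.closure GA ≤ (T : Subgroup ↥(stab F L P)).map (MulAut.conj α).toMonoidHom := by
    refine (Subgroup.closure_le _).mpr ?_
    rintro _ ⟨g, hg, -, rfl⟩
    exact ⟨_, hconjT _ (normalizer_val hη hηs le_rfl ⟨g, hg⟩), rfl⟩
  have hA2 : Subgroup.closure GA ≤ ((T : Subgroup ↥(stab F L P)).map r).comap r := by
    refine (Subgroup.closure_le _).mpr ?_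
    rintro _ ⟨g, hg, ⟨-, hgN, h, hh, hhe⟩, rfl⟩
    have hhN : h ∈ normalizerIn S P := by
      refine ⟨hh, mem_normalizer_of_conj hPS fun z hz => ?_⟩
      obtain ⟨x, rfl⟩ := hr.ge hz
      rw [← hhe x (conj_mem_of_normalizer hgN x.2)]
      exact hr.le ⟨_, rfl⟩
    refine ⟨_, hconjT h hhN, Subtype.ext (MulEquiv.ext fun z => Subtype.ext ?_)⟩
    obtain ⟨x, hx⟩ := hr.ge z.2
    have hxN : (x : Ω) ∈ normalizerIn S Q := self_le_normalizerIn hQS x.2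
    have hxL : η ⟨x, hxN⟩ ∈ L := hPL (hηs.mem x.2)
    have hgx : g * (x : Ω) * g⁻¹ ∈ Q := conj_mem_of_normalizer hgN x.2
    have hgxN := self_le_normalizerIn hQS hgx
    have e1 : Subgroup.inclusion hPL z = (α : MulAut ↥L) ⟨η ⟨x, hxN⟩, hxL⟩ :=
      Subtype.ext (hx.symm.trans (hα x hxN hxL).symm)
    show h * (z : Ω) * h⁻¹ = (((α : MulAut ↥L) (L.normalizerMonoidHom _ ((α : MulAut ↥L)⁻¹
      (Subgroup.inclusion hPL z))) : ↥L) : Ω)
    rw [e1, MulAut.inv_apply_self]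
    have e2 : L.normalizerMonoidHom ⟨η ⟨g, hg⟩, hLn (normalizer_val hη hηs le_rfl ⟨g, hg⟩)⟩ ⟨η ⟨x, hxN⟩, hxL⟩ =
        ⟨η ⟨g * x * g⁻¹, hgxN⟩, hPL (hηs.mem hgx)⟩ := by
      refine Subtype.ext ?_
      show η ⟨g, hg⟩ * η ⟨x, hxN⟩ * (η ⟨g, hg⟩)⁻¹ = _
      rw [← map_inv, ← map_mul, ← map_mul]
      rfl
    rw [e2, hα ⟨_, hgx⟩ hgxN _, hhe x hgx, ← hx]
  obtain ⟨k, hk, hkA⟩ := conj_into T r.ker (Subgroup.closure GA) ((T.2.map _).to_le hA1) fun a ha => by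
    obtain ⟨t, ht, hte⟩ := hA2 ha
    refine ⟨t, ht, ?_⟩
    rw [MonoidHom.mem_ker, map_mul, map_inv, inv_mul_eq_one]
    exact hte
  set β := k * α
  set φL : ↥L →* Ω := L.subtype.comp (β : MulAut ↥L).toMonoidHom
  obtain ⟨Ψ, hΨ, hΨe⟩ := hLr.2 L φL ((autGroup_carrier F hLS _).mp β.2.1) (by
    ext z
    exact ⟨fun ⟨x, hx⟩ => hx ▸ ((β : MulAut ↥L) x).2, fun hz => ⟨(β : MulAut ↥L).symm ⟨z, hz⟩, by simp [φL]⟩⟩)
  have hle : extender S Q φ ≤ normalizerIn S Q := extender_le S Q φ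
  have hext : ∀ w : ↥(extender S Q φ), η (Subgroup.inclusion hle w) ∈ extender S L φL := by
    rintro ⟨w, hw⟩
    suffices h : extender S Q φ ≤ ((extender S L φL).comap η).map (normalizerIn S Q).subtype by
      obtain ⟨v, hv, hvw⟩ := h hw
      rwa [show Subgroup.inclusion hle ⟨w, hw⟩ = v from Subtype.ext hvw.symm]
    refine (Subgroup.closure_le _).mpr fun g hg => ?_
    have hgN : g ∈ normalizerIn S Q := ⟨hg.1, hg.2.1⟩
    refine ⟨⟨g, hgN⟩, ?_, rfl⟩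
    have hyN := normalizer_val hη hηs le_rfl ⟨g, hgN⟩
    obtain ⟨h', hh', hhe'⟩ := (mem_autInducedBy _).mp (hT.le (hkA _ (Subgroup.subset_closure ⟨g, hgN, hg, rfl⟩)))
    refine mem_extender ⟨hyN.1, hLn hyN⟩ hh' fun x hx => ?_
    have h4 := hhe' ((β : MulAut ↥L) x)
    have hx' : L.normalizerMonoidHom ⟨η ⟨g, hgN⟩, hLn hyN⟩ x = ⟨η ⟨g, hgN⟩ * x * (η ⟨g, hgN⟩)⁻¹, hx⟩ := Subtype.ext rfl
    simpa [φL, β, mul_assoc, hx'] using h4
  refine ⟨_, F.comp_mem (restrict_mem hη hle) hΨ hext, fun x hxQ hxE => ?_⟩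
  have hxN : x ∈ normalizerIn S Q := hle hxE
  have hxP : η ⟨x, hxN⟩ ∈ P := hηs.mem hxQ
  refine (hΨe _ (hPL hxP) (hext ⟨x, hxE⟩)).trans ?_
  have e1 := hα ⟨x, hxQ⟩ hxN (hPL hxP)
  show (((k : MulAut ↥L) ((α : MulAut ↥L) ⟨η ⟨x, hxN⟩, hPL hxP⟩) : ↥L) : Ω) = _
  have hφP : φ ⟨x, hxQ⟩ ∈ P := hr.le ⟨_, rfl⟩
  rw [show (α : MulAut ↥L) ⟨η ⟨x, hxN⟩, hPL hxP⟩ = Subgroup.inclusion hPL ⟨_, hφP⟩ from Subtype.ext e1]
  exact congrArg (fun b : ↥(F.autGroup P) => (((b : MulAut ↥P) ⟨_, hφP⟩ : ↥P) : Ω)) (MonoidHom.mem_ker.mp hk)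

/-- The saturation criterion. -/
theorem saturated_of_generated (hS : IsPGroup p ↥S) (F : FusionSystem S) (ℋ : Set (Subgroup Ω))
    (hconj : ∀ P ∈ ℋ, ∀ Q, F.IsConj P Q → Q ∈ ℋ)
    (hsat : ∀ P ∈ ℋ, ∃ Q, F.IsConj P Q ∧ F.IsFullyAutomized p Q ∧ F.IsReceptive Q)
    (hgen : ∀ E : FusionSystem S, (∀ P ∈ ℋ, F.Hom P ⊆ E.Hom P) → F ≤ E)
    (hstar : ∀ P : Subgroup Ω, F.IsCentric P → P ∉ ℋ →
      ∃ Q, F.IsConj P Q ∧ ∃ x, x ∈ star F p Q ∧ x ∉ Q) : F.IsSaturated p := by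
  suffices key : ∀ (k : ℕ) (P : Subgroup Ω), P ≤ S → Nat.card ↥S - Nat.card ↥P = k →
      ∃ Q, F.IsConj P Q ∧ F.IsFullyAutomized p Q ∧ F.IsReceptive Q from fun P hP => key _ P hP rfl
  intro k
  induction k using Nat.strong_induction_on with
  | _ k ih =>
    intro P hP hk
    by_cases hPH : P ∈ ℋ
    · exact hsat P hPH
    have hout : ∀ Q, F.IsConj P Q → Q ∉ ℋ := fun Q hQ h => hPH (hconj Q h P (IsConj.symm hQ))
    have hbig : SatAbove F p (Nat.card ↥P) := fun R hR hc => ih _ (by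
      have := Subgroup.card_le_of_le hR
      omega) R hR rfl
    have hex : ∃ Q, F.IsConj P Q ∧ ∃ x, x ∈ star F p Q ∧ x ∉ Q := by
      by_cases hc : F.IsCentric P
      · exact hstar P hc hPH
      obtain ⟨Q, hQ, hCQ⟩ : ∃ Q, F.IsConj P Q ∧ ¬ centralizerIn S Q ≤ Q := by
        by_contra h
        push Not at h
        exact hc ⟨hP, h⟩
      obtain ⟨x, hx, hxQ⟩ := SetLike.not_le_iff_exists.mp hCQ
      refine ⟨Q, hQ, x, mem_star.mpr ⟨centralizerIn_le_normalizerIn S Q hx, ?_⟩, hxQ⟩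
      rw [show Q.normalizerMonoidHom ⟨x, (centralizerIn_le_normalizerIn S Q hx).2⟩ = 1 from
        MulEquiv.ext fun y => Subtype.ext (by
          show x * (y : Ω) * x⁻¹ = y
          rw [← Subgroup.mem_centralizer_iff.mp hx.2 y y.2, mul_inv_cancel_right])]
      exact one_mem _
    have hlt : P < S := by
      refine lt_of_le_of_ne hP fun e => ?_
      obtain ⟨Q, hQ, x, hx, hxQ⟩ := hex
      subst e
      exact hxQ ((eq_of_isConj_S hQ).ge (star_le F p Q hx).1)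
    exact exists_good_member hS ℋ hgen hout hlt hbig hex

end CfsgLib.Fusion
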