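import Cfsg.Agent.Lib.Fusion.StrongInvariance

/-! Tools for the saturation criterion: maps carrying subgroups, pairs, and stabilisers. (helper6) -/

set_option autoImplicit false
set_option linter.unusedSectionVars false
set_option linter.style.haveILetI false

namespace CfsgLib.Fusion

open Cfsg Cfsg.FusionSystem

universe u

variable {Ω : Type u} [Group Ω] {S : Subgroup Ω} {F : FusionSystem S}

/-- `χ` carries `Q` onto `Q'`. -/
def Sends {M : Subgroup Ω} (χ : ↥M →* Ω) (Q Q' : Subgroup Ω) : Prop :=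
  Q ≤ M ∧ (Q.subgroupOf M).map χ = Q'

theorem Sends.mem {M Q Q' : Subgroup Ω} {χ : ↥M →* Ω} (h : Sends χ Q Q') {x : ↥M} (hx : (x : Ω) ∈ Q) :
    χ x ∈ Q' := h.2.le ⟨x, hx, rfl⟩

theorem Sends.exists_eq {M Q Q' : Subgroup Ω} {χ : ↥M →* Ω} (h : Sends χ Q Q') {y : Ω} (hy : y ∈ Q') :
    ∃ x : ↥M, (x : Ω) ∈ Q ∧ χ x = y := by
  obtain ⟨x, hx, hxy⟩ := h.2.ge hy
  exact ⟨x, hx, hxy⟩

theorem Sends.mem_iff {M Q Q' : Subgroup Ω} {χ : ↥M →* Ω} (h : Sends χ Q Q') (hχ : χ ∈ F.Hom M) {x : ↥M} :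
    χ x ∈ Q' ↔ (x : Ω) ∈ Q := by
  refine ⟨fun hx => ?_, fun hx => h.mem hx⟩
  obtain ⟨y, hy, hyx⟩ := h.exists_eq hx
  exact F.injective_of_mem hχ hyx ▸ hy

theorem Sends.normalizer_mem {M Q Q' : Subgroup Ω} {χ : ↥M →* Ω} (h : Sends χ Q Q') {x : ↥M}
    (hx : (x : Ω) ∈ Subgroup.normalizer (Q : Set Ω)) : χ x ∈ Subgroup.normalizer (Q' : Set Ω) := by
  have key : ∀ z : ↥M, (z : Ω) ∈ Subgroup.normalizer (Q : Set Ω) → ∀ y ∈ Q', χ z * y * (χ z)⁻¹ ∈ Q' := by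
    intro z hz y hy
    obtain ⟨w, hw, rfl⟩ := h.exists_eq hy
    rw [← map_inv, ← map_mul, ← map_mul]
    exact h.mem (conj_mem_of_normalizer hz hw)
  refine Subgroup.mem_normalizer_iff.mpr fun y => ⟨key x hx y, fun hy => ?_⟩
  have h2 := key x⁻¹ (inv_mem hx) _ hy
  simpa [map_inv, mul_assoc] using h2

theorem Sends.restrict {M M₀ Q Q' : Subgroup Ω} {χ : ↥M →* Ω} (h : Sends χ Q Q') (hM : M₀ ≤ M) (hQ : Q ≤ M₀) :
    Sends (χ.comp (Subgroup.inclusion hM)) Q Q' := by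
  refine ⟨hQ, le_antisymm ?_ fun y hy => ?_⟩
  · rintro _ ⟨x, hx, rfl⟩
    exact h.mem (x := Subgroup.inclusion hM x) hx
  · obtain ⟨x, hx, rfl⟩ := h.exists_eq hy
    exact ⟨⟨x, hQ hx⟩, hx, rfl⟩

theorem Sends.comp {M M' Q Q' Q'' : Subgroup Ω} {χ : ↥M →* Ω} {ψ : ↥M' →* Ω} (h : Sends χ Q Q')
    (h' : Sends ψ Q' Q'') (hv : ∀ x, χ x ∈ M') : Sends (ψ.comp (χ.codRestrict M' hv)) Q Q'' := by
  refine ⟨h.1, le_antisymm ?_ fun y hy => ?_⟩
  · rintro _ ⟨x, hx, rfl⟩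
    exact h'.mem (x := ⟨χ x, hv x⟩) (h.mem hx)
  · obtain ⟨w, hw, rfl⟩ := h'.exists_eq hy
    obtain ⟨x, hx, hxw⟩ := h.exists_eq hw
    exact ⟨x, hx, congrArg ψ (Subtype.ext hxw)⟩

/-- A map of the system restricted to `Q`, as an isomorphism onto the image. -/
noncomputable def Sends.equiv {M Q Q' : Subgroup Ω} {χ : ↥M →* Ω} (h : Sends χ Q Q') (hχ : χ ∈ F.Hom M) :
    ↥Q ≃* ↥Q' :=
  isoOfMem (F := F) (restrict_mem hχ h.1) (Q := Q') (by
    ext y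
    refine ⟨?_, fun hy => ?_⟩
    · rintro ⟨x, rfl⟩
      exact h.mem (x := Subgroup.inclusion h.1 x) x.2
    · obtain ⟨x, hx, rfl⟩ := h.exists_eq hy
      exact ⟨⟨x, hx⟩, rfl⟩)

theorem Sends.equiv_coe {M Q Q' : Subgroup Ω} {χ : ↥M →* Ω} (h : Sends χ Q Q') (hχ : χ ∈ F.Hom M) (x : ↥Q) :
    ((h.equiv hχ x : ↥Q') : Ω) = χ (Subgroup.inclusion h.1 x) :=
  rfl

theorem Sends.equiv_mem {M Q Q' : Subgroup Ω} {χ : ↥M →* Ω} (h : Sends χ Q Q') (hχ : χ ∈ F.Hom M) :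
    Q'.subtype.comp (h.equiv hχ).toMonoidHom ∈ F.Hom Q :=
  restrict_mem hχ h.1

theorem Sends.isConj {M Q Q' : Subgroup Ω} {χ : ↥M →* Ω} (h : Sends χ Q Q') (hχ : χ ∈ F.Hom M) : F.IsConj Q Q' := by
  refine ⟨_, restrict_mem hχ h.1, ?_⟩
  ext y
  refine ⟨?_, fun hy => ?_⟩
  · rintro ⟨x, rfl⟩
    exact h.mem (x := Subgroup.inclusion h.1 x) x.2
  · obtain ⟨x, hx, rfl⟩ := h.exists_eq hy
    exact ⟨⟨x, hx⟩, rfl⟩

/-- The inverse of a map carrying `Q` to `Q'`. -/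
theorem Sends.inverse {M Q Q' : Subgroup Ω} {χ : ↥M →* Ω} (h : Sends χ Q Q') (hχ : χ ∈ F.Hom M) :
    ∃ ψ ∈ F.Hom χ.range, Sends ψ Q' Q ∧ ∀ x : ↥M, ψ ⟨χ x, ⟨x, rfl⟩⟩ = (x : Ω) := by
  obtain ⟨ψ, hψ, hψe⟩ := F.inv_mem hχ
  refine ⟨ψ, hψ, ⟨fun y hy => ?_, le_antisymm ?_ fun x hx => ?_⟩, hψe⟩
  · obtain ⟨x, -, rfl⟩ := h.exists_eq hy
    exact ⟨x, rfl⟩
  · rintro _ ⟨⟨y, x, rfl⟩, hy, rfl⟩
    rw [hψe]
    exact (h.mem_iff hχ).mp hy
  · exact ⟨⟨χ ⟨x, h.1 hx⟩, ⟨_, rfl⟩⟩, h.mem (x := ⟨x, h.1 hx⟩) hx, hψe _⟩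

theorem sends_map {M Q : Subgroup Ω} (χ : ↥M →* Ω) (h : Q ≤ M) : Sends χ Q ((Q.subgroupOf M).map χ) := ⟨h, rfl⟩

theorem sends_subtype {M Q : Subgroup Ω} (h : Q ≤ M) : Sends M.subtype Q Q :=
  ⟨h, Subgroup.map_subgroupOf_eq_of_le h⟩

/-- The stabiliser of `U` among the automorphisms of `L` in the system. -/
def stab (F : FusionSystem S) (L U : Subgroup Ω) : Subgroup (MulAut ↥L) where
  carrier := {a | a ∈ F.autGroup L ∧ ∀ x : ↥L, ((a x : ↥L) : Ω) ∈ U ↔ (x : Ω) ∈ U}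
  one_mem' := ⟨one_mem _, fun x => Iff.rfl⟩
  mul_mem' := by
    rintro a b ⟨ha, ha'⟩ ⟨hb, hb'⟩
    exact ⟨mul_mem ha hb, fun x => (ha' (b x)).trans (hb' x)⟩
  inv_mem' := by
    rintro a ⟨ha, ha'⟩
    refine ⟨inv_mem ha, fun x => ?_⟩
    have := ha' (a⁻¹ x)
    rw [MulAut.apply_inv_self] at this
    exact this.symm

theorem mem_stab {L U : Subgroup Ω} {a : MulAut ↥L} :
    a ∈ stab F L U ↔ a ∈ F.autGroup L ∧ ∀ x : ↥L, ((a x : ↥L) : Ω) ∈ U ↔ (x : Ω) ∈ U := Iff.rfl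

theorem stab_le (F : FusionSystem S) (L U : Subgroup Ω) : stab F L U ≤ F.autGroup L := fun _ h => h.1

/-- `Aut_S(L)` meets the stabiliser of `U` in a Sylow subgroup of it. -/
def Full (F : FusionSystem S) (p : ℕ) (L U : Subgroup Ω) : Prop :=
  ∃ T : Sylow p ↥(stab F L U), (T : Subgroup ↥(stab F L U)) = (autInducedBy S L).subgroupOf (stab F L U)

section Finite

variable [Finite ↥S] (p : ℕ) [Fact p.Prime]

theorem isPGroup_autInducedBy (hS : IsPGroup p ↥S) (R : Subgroup Ω) : IsPGroup p ↥(autInducedBy S R) := by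
  rw [autInducedBy_eq_map]
  exact ((hS.to_le inf_le_left).comap_subtype).map _

/-- A `p`-group of stabilising automorphisms is conjugate into `Aut_S`. -/
theorem Full.conj {L U : Subgroup Ω} (hL : L ≤ S) (h : Full F p L U) {A : Subgroup (MulAut ↥L)}
    (hA : A ≤ stab F L U) (hAp : IsPGroup p ↥A) :
    ∃ s ∈ stab F L U, ∀ a ∈ A, s * a * s⁻¹ ∈ autInducedBy S L := by
  haveI := finite_aut_of_le hL
  obtain ⟨T, hT⟩ := h
  obtain ⟨T', hT'⟩ := (hAp.comap_subtype (K := stab F L U)).exists_le_sylow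
  obtain ⟨s, hs⟩ := MulAction.exists_smul_eq ↥(stab F L U) T' T
  refine ⟨s, s.2, fun a ha => ?_⟩
  have h2 : MulAut.conj s • (⟨a, hA ha⟩ : ↥(stab F L U)) ∈ s • T' :=
    Subgroup.smul_mem_pointwise_smul _ _ _ (hT' (show (⟨a, hA ha⟩ : ↥(stab F L U)) ∈ A.subgroupOf _ from ha))
  rw [hs] at h2
  exact (hT.le h2 :)

/-- Some conjugate of `U` under `Aut_F(L)` has full stabiliser. -/
theorem exists_full (hS : IsPGroup p ↥S) {L U : Subgroup Ω} (hL : F.IsFullyAutomized p L) :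
    ∃ a ∈ F.autGroup L, Full F p L ((U.subgroupOf L).map (L.subtype.comp a.toMonoidHom)) := by
  obtain ⟨hLS, TS, hTS⟩ := hL
  haveI := finite_aut_of_le hLS
  obtain ⟨R₀⟩ := (inferInstance : Nonempty (Sylow p ↥(stab F L U)))
  have hA : ((R₀ : Subgroup ↥(stab F L U)).map (Subgroup.inclusion (stab_le F L U))) ≤ ⊤ := le_top
  obtain ⟨T', hT'⟩ := (R₀.2.map (Subgroup.inclusion (stab_le F L U))).exists_le_sylow
  obtain ⟨a, ha⟩ := MulAction.exists_smul_eq ↥(F.autGroup L) T' TS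
  refine ⟨a, a.2, ?_⟩
  set U₀ := (U.subgroupOf L).map (L.subtype.comp (a : MulAut ↥L).toMonoidHom)
  have hmem : ∀ x : ↥L, ((((a : MulAut ↥L) x) : ↥L) : Ω) ∈ U₀ ↔ (x : Ω) ∈ U := by
    intro x
    refine ⟨?_, fun hx => ⟨x, hx, rfl⟩⟩
    rintro ⟨y, hy, he⟩
    obtain rfl : y = x := (a : MulAut ↥L).injective (Subtype.ext he)
    exact hy
  have hconj : ∀ b : MulAut ↥L, (a : MulAut ↥L) * b * (a : MulAut ↥L)⁻¹ ∈ stab F L U₀ ↔ b ∈ stab F L U := by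
    intro b
    constructor
    · rintro ⟨h1, h2⟩
      refine ⟨by simpa [mul_assoc] using mul_mem (mul_mem (inv_mem a.2) h1) a.2, fun x => ?_⟩
      have := h2 ((a : MulAut ↥L) x)
      simp only [MulAut.mul_apply, MulAut.inv_apply_self] at this
      rwa [hmem, hmem] at this
    · rintro ⟨h1, h2⟩
      refine ⟨mul_mem (mul_mem a.2 h1) (inv_mem a.2), fun x => ?_⟩
      obtain ⟨y, rfl⟩ := (a : MulAut ↥L).surjective x
      simp only [MulAut.mul_apply, MulAut.inv_apply_self]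
      rw [hmem, hmem]
      exact h2 y
  let c : ↥(stab F L U) ≃* ↥(stab F L U₀) :=
    { toFun := fun b => ⟨_, (hconj b).mpr b.2⟩
      invFun := fun b => ⟨(a : MulAut ↥L)⁻¹ * b * (a : MulAut ↥L), (hconj _).mp (by simp [mul_assoc, SetLike.coe_mem])⟩
      left_inv := fun b => Subtype.ext (by simp [mul_assoc])
      right_inv := fun b => Subtype.ext (by simp [mul_assoc])
      map_mul' := fun b b' => Subtype.ext (by simp [mul_assoc]) }
  let R₁ : Sylow p ↥(stab F L U₀) :=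
    R₀.comapOfInjective c.symm.toMonoidHom c.symm.injective (fun x _ => ⟨c x, c.symm_apply_apply x⟩)
  refine ⟨R₁, (R₁.3 ((isPGroup_autInducedBy p hS L).comap_subtype) ?_).symm⟩
  intro b hb
  have h1 : Subgroup.inclusion (stab_le F L U) (c.symm b) ∈ T' := hT' ⟨_, hb, rfl⟩
  have h2 : MulAut.conj a • Subgroup.inclusion (stab_le F L U) (c.symm b) ∈ a • T' :=
    Subgroup.smul_mem_pointwise_smul _ _ _ h1
  rw [ha] at h2
  have h3 := hTS.le h2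
  have h4 : (MulAut.conj a • Subgroup.inclusion (stab_le F L U) (c.symm b) : ↥(F.autGroup L)).1 = b.1 := by
    show (a : MulAut ↥L) * ((a : MulAut ↥L)⁻¹ * b * a) * (a : MulAut ↥L)⁻¹ = _
    simp [mul_assoc]
  show b.1 ∈ autInducedBy S L
  rw [← h4]
  exact h3

/-- Extension of an isomorphism of pairs to the common normaliser. -/
theorem exists_pair_extend (hS : IsPGroup p ↥S) {L U₀ R U : Subgroup Ω} (hL : F.IsReceptive L) (hfull : Full F p L U₀)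
    (hRU : R ≤ Subgroup.normalizer (U : Set Ω)) {ψ : ↥R →* Ω} (hψ : ψ ∈ F.Hom R) (hr : ψ.range = L)
    (hs : Sends ψ U U₀) :
    ∃ β ∈ F.Hom (normalizerIn S R ⊓ normalizerIn S U), Sends β R L ∧ Sends β U U₀ := by
  have hRS := le_S hψ
  haveI := finite_aut_of_le hRS
  haveI := finite_aut_of_le hL.1
  set M := normalizerIn S R ⊓ normalizerIn S U
  have hRM : R ≤ M := le_inf (le_inf hRS Subgroup.le_normalizer) (le_inf hRS hRU)
  set e := isoOfMem hψ hr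
  have he : L.subtype.comp e.toMonoidHom ∈ F.Hom R := by rwa [isoOfMem_hom hψ hr]
  have heU : ∀ x : ↥R, ((e x : ↥L) : Ω) ∈ U₀ ↔ (x : Ω) ∈ U := fun x => hs.mem_iff hψ
  set A := (autInducedBy M R).map (MulAut.congr e).toMonoidHom
  have hA : A ≤ stab F L U₀ := by
    rintro _ ⟨a, ha, rfl⟩
    obtain ⟨g, hg, hga⟩ := (mem_autInducedBy a).mp ha
    refine ⟨(autGroup_carrier F hL.1 _).mpr (trans_mem e.symm (a.trans e) (symm_mem e he)
      (trans_mem a e (conj_mem_of_eq F hRS hg.1.1 hga) he)), fun y => ?_⟩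
    obtain ⟨x, rfl⟩ := e.surjective y
    show ((e (a (e.symm (e x))) : ↥L) : Ω) ∈ U₀ ↔ _
    rw [MulEquiv.symm_apply_apply, heU, heU, hga]
    exact (Subgroup.mem_normalizer_iff.mp hg.2.2 (x : Ω)).symm
  have hAp : IsPGroup p ↥A := by
    refine IsPGroup.map ?_ _
    rw [autInducedBy_eq_map]
    exact ((hS.to_le (inf_le_left.trans (inf_le_left.trans inf_le_left))).comap_subtype).map _
  obtain ⟨s, hss, hsA⟩ := hfull.conj p hL.1 hA hAp
  set φ : ↥R →* Ω := L.subtype.comp (e.trans s).toMonoidHom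
  have hφ : φ ∈ F.Hom R := trans_mem e s he ((autGroup_carrier F hL.1 s).mp hss.1)
  have hφr : φ.range = L := by
    ext y
    exact ⟨fun ⟨x, hx⟩ => hx ▸ (s (e x)).2, fun hy => ⟨(e.trans s).symm ⟨y, hy⟩, by simp [φ]⟩⟩
  obtain ⟨β, hβ, hβe⟩ := hL.2 R φ hφ hφr
  have hMext : M ≤ extender S R φ := by
    intro g hg
    obtain ⟨h, hh, hhe⟩ := (mem_autInducedBy _).mp (hsA _ ⟨R.normalizerMonoidHom ⟨g, hg.1.2⟩,
      (mem_autInducedBy _).mpr ⟨g, hg, fun x => rfl⟩, rfl⟩)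
    refine mem_extender hg.1 hh fun x hx => ?_
    have h4 := hhe (s (e x))
    have ha' : R.normalizerMonoidHom ⟨g, hg.1.2⟩ x = ⟨g * x * g⁻¹, hx⟩ := Subtype.ext rfl
    simpa [φ, MulAut.congr, ha'] using h4
  have hval : ∀ (x : ↥R), (β.comp (Subgroup.inclusion hMext)) (Subgroup.inclusion hRM x) = φ x :=
    fun x => hβe x x.2 _
  refine ⟨β.comp (Subgroup.inclusion hMext), restrict_mem hβ hMext, ⟨hRM, ?_⟩, ⟨hs.1.trans hRM, ?_⟩⟩
  · ext y
    refine ⟨?_, fun hy => ?_⟩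
    · rintro ⟨x, hx, rfl⟩
      rw [← hφr]
      exact ⟨⟨x, hx⟩, (hval ⟨x, hx⟩).symm⟩
    · obtain ⟨x, rfl⟩ := hφr.ge hy
      exact ⟨Subgroup.inclusion hRM x, x.2, hval x⟩
  · ext y
    refine ⟨?_, fun hy => ?_⟩
    · rintro ⟨x, hx, rfl⟩
      have := hval ⟨x, hs.1 hx⟩
      rw [show x = Subgroup.inclusion hRM ⟨x, hs.1 hx⟩ from Subtype.ext rfl, this]
      exact (hss.2 _).mpr ((heU _).mpr hx)
    · obtain ⟨w, hw, rfl⟩ := hs.exists_eq hy
      have hyL : ψ w ∈ L := hr.le ⟨w, rfl⟩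
      set x := (e.trans s).symm ⟨ψ w, hyL⟩
      refine ⟨Subgroup.inclusion hRM x, (heU x).mp ((hss.2 (e x)).mp ?_), (hval x).trans ?_⟩
      · rw [show s (e x) = ⟨ψ w, hyL⟩ from (e.trans s).apply_symm_apply _]
        exact hy
      · show ((s (e x) : ↥L) : Ω) = _
        rw [show s (e x) = ⟨ψ w, hyL⟩ from (e.trans s).apply_symm_apply _]

/-- Restriction to an invariant subgroup, into the automorphism group of the system. -/
def stabRes {L U : Subgroup Ω} (hUL : U ≤ L) (hL : L ≤ S) : ↥(stab F L U) →* ↥(F.autGroup U) :=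
  (resHom hUL (stab F L U) fun _ ha x => (ha.2 _).mpr x.2).codRestrict _ fun a =>
    (autGroup_carrier F (hUL.trans hL) _).mpr (by
      refine restrict_mem_of_eq ((autGroup_carrier F hL _).mp a.2.1) hUL fun x => ?_
      rfl)

theorem stabRes_coe {L U : Subgroup Ω} (hUL : U ≤ L) (hL : L ≤ S) (a : ↥(stab F L U)) (x : ↥U) :
    ((((stabRes hUL hL a : ↥(F.autGroup U)) : MulAut ↥U) x : ↥U) : Ω) =
      (((a : MulAut ↥L) (Subgroup.inclusion hUL x) : ↥L) : Ω) := rfl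

end Finite

/-- A `p`-subgroup lying in `T N` is moved into the Sylow subgroup `T` by an element of `N`. -/
theorem conj_into {G : Type*} [Group G] [Finite G] {p : ℕ} [Fact p.Prime] (T : Sylow p G) (N : Subgroup G) [N.Normal]
    (A : Subgroup G) (hA : IsPGroup p ↥A) (h : ∀ a ∈ A, ∃ t ∈ T, t⁻¹ * a ∈ N) :
    ∃ k ∈ N, ∀ a ∈ A, k * a * k⁻¹ ∈ T := by
  set X := (T : Subgroup G) ⊔ N
  have hTX : (T : Subgroup G) ≤ X := le_sup_left
  have hAX : A ≤ X := fun a ha => by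
    obtain ⟨t, ht, hk⟩ := h a ha
    have := mul_mem (Subgroup.mem_sup_left (T := N) ht) (Subgroup.mem_sup_right (S := (T : Subgroup G)) hk)
    simpa using this
  obtain ⟨T', hT'⟩ := (hA.comap_subtype (K := X)).exists_le_sylow
  obtain ⟨x, hx⟩ := MulAction.exists_smul_eq ↥X T' (T.subtype hTX)
  obtain ⟨t, ht, k, hk, htk⟩ := Subgroup.mem_sup_of_normal_right.mp x.2
  refine ⟨k, hk, fun a ha => ?_⟩
  have h2 : MulAut.conj x • (⟨a, hAX ha⟩ : ↥X) ∈ x • T' :=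
    Subgroup.smul_mem_pointwise_smul _ _ _ (hT' (show (⟨a, hAX ha⟩ : ↥X) ∈ A.subgroupOf X from ha))
  rw [hx] at h2
  have h3 : (x : G) * a * (x : G)⁻¹ ∈ T := h2
  have h4 := mul_mem (mul_mem (inv_mem ht) h3) ht
  rw [← htk] at h4
  rw [show k * a * k⁻¹ = t⁻¹ * (t * k * a * (t * k)⁻¹) * t by group]
  exact h4

end CfsgLib.Fusion
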