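import Cfsg.Agent.Lib.Fusion.StableFree
import Cfsg.Agent.Lib.Fusion.SectionFree
import Cfsg.Agent.Lib.Fusion.KNormalizer

/-! Quadratic stability is local to the centric radical subgroups. (helper6) -/

set_option autoImplicit false
set_option linter.unusedSectionVars false
set_option linter.style.haveILetI false

namespace CfsgLib.Fusion

open Cfsg Cfsg.FusionSystem

variable {Ω : Type*} [Group Ω] {S : Subgroup Ω} [Finite ↥S] {F : FusionSystem S} {p : ℕ} [Fact p.Prime]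

theorem range_subtype_aut {Q : Subgroup Ω} (α : MulAut ↥Q) : (Q.subtype.comp α.toMonoidHom).range = Q := by
  ext x
  exact ⟨fun ⟨v, hv⟩ => hv ▸ (α v).2, fun hx => ⟨α.symm ⟨x, hx⟩, by
    show ((α (α.symm ⟨x, hx⟩) : ↥Q) : Ω) = x
    rw [MulEquiv.apply_symm_apply]⟩⟩

theorem isPGroup_inn_of {R : Subgroup Ω} (h : IsPGroup p ↥R) : IsPGroup p ↥(Inn ↥R) :=
  h.of_surjective (MulAut.conj : ↥R →* MulAut ↥R).rangeRestrict (MonoidHom.rangeRestrict_surjective _)

/-- Stability transported along an isomorphism of the system. -/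
theorem quad_transport {Q Q' : Subgroup Ω} (hQS : Q ≤ S) (hQ'S : Q' ≤ S) (e : ↥Q ≃* ↥Q')
    (he : Q'.subtype.comp e.toMonoidHom ∈ F.Hom Q) {χ : MulAut ↥Q} (hχ : χ ∈ F.autGroup Q)
    (hquad : ∀ a : ↥Q, (χ a⁻¹) * a * (χ a⁻¹) * (χ (χ a)) = 1)
    (h : ∀ ξ : MulAut ↥Q', ξ ∈ F.autGroup Q' → (∀ a : ↥Q', (ξ a⁻¹) * a * (ξ a⁻¹) * (ξ (ξ a)) = 1) →
      ξ ∈ ((pCore p ↥(F.autGroup Q')).map (F.autGroup Q').subtype : Subgroup (MulAut ↥Q'))) :
    χ ∈ ((pCore p ↥(F.autGroup Q)).map (F.autGroup Q).subtype : Subgroup (MulAut ↥Q)) := by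
  haveI := finite_of_le hQS
  haveI := finite_aut_of_le hQS
  haveI := finite_of_le hQ'S
  haveI := finite_aut_of_le hQ'S
  have hmap : (F.autGroup Q).map (MulAut.congr e).toMonoidHom = F.autGroup Q' := by
    refine le_antisymm ?_ fun b hb => ⟨MulAut.congr e.symm b, congr_autGroup e.symm (symm_mem e he) hb, ?_⟩
    · rintro _ ⟨a, ha, rfl⟩; exact congr_autGroup e he ha
    · exact MulEquiv.ext fun x => by simp
  let c : ↥(F.autGroup Q) ≃* ↥(F.autGroup Q') :=
    ((MulAut.congr e).subgroupMap (F.autGroup Q)).trans (MulEquiv.subgroupCongr hmap)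
  obtain ⟨d, hd, hde⟩ := h (MulAut.congr e χ) (congr_autGroup e he hχ) fun a => by
    have h1 := congrArg e (hquad (e.symm a))
    simpa using h1
  rw [← CfsgLib.Core.pCore_map_equiv c] at hd
  obtain ⟨d', hd', rfl⟩ := hd
  exact ⟨d', hd', (MulAut.congr e).injective hde⟩

/-- `Q C_S(Q)` is centric for a fully normalized `Q`, and automorphisms of `Q` extend to it. -/
theorem exists_centric_cover (hS : IsPGroup p ↥S) (hF : F.IsSaturated p) {Q : Subgroup Ω}
    (hQ : F.IsFullyNormalized Q) : ∃ R : Subgroup Ω, F.IsCentric R ∧ ∃ hQR : Q ≤ R, ∀ α ∈ F.autGroup Q,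
      ∃ β ∈ F.autGroup R, ∀ x : ↥Q, ((β (Subgroup.inclusion hQR x) : ↥R) : Ω) = ((α x : ↥Q) : Ω) := by
  haveI := finite_of_le hQ.1
  set C := centralizerIn S Q
  set R := Q ⊔ C
  have hRS : R ≤ S := sup_le hQ.1 inf_le_left
  haveI := finite_of_le hRS
  have hfc := (fullyNormalized_good p hS hF hQ).1
  refine ⟨R, ⟨hRS, ?_⟩, le_sup_left, fun α hα => ?_⟩
  · rintro R' ⟨φ, hφ, rfl⟩
    set ψ := φ.comp (Subgroup.inclusion (le_sup_left : Q ≤ R))
    have hψ : ψ ∈ F.Hom Q := restrict_mem hφ _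
    haveI : Finite ↥(centralizerIn S ψ.range) := finite_of_le inf_le_left
    have hcard := hfc.2 ψ.range ⟨ψ, hψ, rfl⟩
    have hmem : ∀ c : ↥C, φ (Subgroup.inclusion le_sup_right c) ∈ centralizerIn S ψ.range := by
      refine fun c => ⟨apply_mem_S hφ _, Subgroup.mem_centralizer_iff.mpr ?_⟩
      rintro _ ⟨q, rfl⟩
      show φ (Subgroup.inclusion le_sup_left q) * φ _ = φ _ * φ (Subgroup.inclusion le_sup_left q)
      rw [← map_mul, ← map_mul]
      exact congrArg φ (Subtype.ext (Subgroup.mem_centralizer_iff.mp c.2.2 q q.2))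
    let f : ↥C → ↥(centralizerIn S ψ.range) := fun c => ⟨_, hmem c⟩
    have hfi : Function.Injective f := fun a b h => Subgroup.inclusion_injective le_sup_right
      (F.injective_of_mem hφ (congrArg Subtype.val h))
    haveI : Finite ↥C := finite_of_le inf_le_left
    have hfs := (Nat.bijective_iff_injective_and_card f).mpr
      ⟨hfi, le_antisymm (Nat.card_le_card_of_injective f hfi) hcard⟩
    intro y hy
    obtain ⟨c, hc⟩ := hfs.2 ⟨y, hy.1, Subgroup.mem_centralizer_iff.mpr fun z hz => by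
      obtain ⟨q, rfl⟩ := hz
      exact Subgroup.mem_centralizer_iff.mp hy.2 _ ⟨_, rfl⟩⟩
    exact ⟨_, congrArg Subtype.val hc⟩
  · haveI := finite_aut_of_le hRS
    have hφ := (autGroup_carrier F hQ.1 _).mp hα
    obtain ⟨ψ, hψ, hψe⟩ := (fullyNormalized_receptive p hS hF hQ).2 Q _ hφ (range_subtype_aut α)
    have hext : R ≤ extender S Q (Q.subtype.comp α.toMonoidHom) := sup_le (fun g hg => by
        refine mem_extender ⟨hQ.1 hg, Subgroup.le_normalizer hg⟩ (hQ.1 (α ⟨g, hg⟩).2) fun x hx => ?_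
        show ((α ⟨g * x * g⁻¹, hx⟩ : ↥Q) : Ω) = _
        rw [show (⟨g * x * g⁻¹, hx⟩ : ↥Q) = ⟨g, hg⟩ * x * ⟨g, hg⟩⁻¹ from rfl, map_mul, map_mul, map_inv]
        rfl) (centralizerIn_le_extender _)
    have hres := restrict_mem hψ hext
    set g := ψ.comp (Subgroup.inclusion hext) with hg
    have hgQ : ∀ x : ↥Q, g (Subgroup.inclusion le_sup_left x) = ((α x : ↥Q) : Ω) := fun x => hψe (x : Ω) x.2 _
    have hin : ∀ r : ↥R, g r ∈ R := by
      have : R ≤ (R.comap g).map R.subtype := sup_le (fun x hx => ⟨⟨x, Subgroup.mem_sup_left hx⟩, by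
          show g _ ∈ R
          rw [show (⟨x, _⟩ : ↥R) = Subgroup.inclusion le_sup_left (⟨x, hx⟩ : ↥Q) from rfl, hgQ]
          exact Subgroup.mem_sup_left (α _).2, rfl⟩)
        fun c hc => ⟨⟨c, Subgroup.mem_sup_right hc⟩, by
          refine Subgroup.mem_sup_right ⟨apply_mem_S hres _, Subgroup.mem_centralizer_iff.mpr fun z hz => ?_⟩
          obtain ⟨x, hx⟩ := α.surjective ⟨z, hz⟩
          have hzg : z = g (Subgroup.inclusion le_sup_left x) := by rw [hgQ, hx]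
          rw [hzg, ← map_mul, ← map_mul]
          exact congrArg g (Subtype.ext (Subgroup.mem_centralizer_iff.mp hc.2 x x.2)), rfl⟩
      intro r
      obtain ⟨r', hr', he⟩ := this r.2
      obtain rfl : r' = r := Subtype.ext he
      exact hr'
    let f := g.codRestrict R hin
    have hf : Function.Bijective f := Finite.injective_iff_bijective.mp fun a b h =>
      F.injective_of_mem hres (congrArg Subtype.val h)
    exact ⟨MulEquiv.ofBijective f hf, (autGroup_carrier F hRS _).mpr (restrict_mem_of_eq hres le_rfl fun x => rfl),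
      hgQ⟩

/-- **Stability from the centric radical normalizers.** -/
theorem quadStable_of_local (hS : IsPGroup p ↥S) (hF : F.IsSaturated p)
    (h : ∀ R : Subgroup Ω, ∀ hR : F.IsFullyNormalized R, F.IsCentric R → F.IsRadical p R →
      QuadStable p (normalizerSystem F R hR.1)) : QuadStable p F := by
  classical
  suffices key : ∀ (n : ℕ) (R : Subgroup Ω), F.IsCentric R → Nat.card ↥S - Nat.card ↥R = n → ∀ (Q : Subgroup Ω)
      (hQR : Q ≤ R), (∀ α ∈ F.autGroup Q, ∃ β ∈ F.autGroup R,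
        ∀ x : ↥Q, ((β (Subgroup.inclusion hQR x) : ↥R) : Ω) = ((α x : ↥Q) : Ω)) →
      ∀ χ : MulAut ↥Q, χ ∈ F.autGroup Q → (∀ a : ↥Q, (χ a⁻¹) * a * (χ a⁻¹) * (χ (χ a)) = 1) →
        χ ∈ ((pCore p ↥(F.autGroup Q)).map (F.autGroup Q).subtype : Subgroup (MulAut ↥Q)) by
    refine quadStable_of_fullyNormalized fun Q hQ => ?_
    obtain ⟨R, hR, hQR, hext⟩ := exists_centric_cover hS hF hQ
    exact key _ R hR rfl Q hQR hext
  intro n
  induction n using Nat.strong_induction_on with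
  | _ n ih =>
  intro R₀ hc₀ hn Q₀ hQR₀ hext₀ χ₀ hχ₀ hquad₀
  obtain ⟨R, ⟨φ, hφ, hφr⟩, hR⟩ := exists_fullyNormalized F hc₀.1
  set Q := (φ.comp (Subgroup.inclusion hQR₀)).range
  have hQR : Q ≤ R := by rintro _ ⟨x, rfl⟩; exact hφr ▸ ⟨_, rfl⟩
  have hQS : Q ≤ S := hQR.trans hR.1
  set eQ := isoOfMem (restrict_mem hφ hQR₀) (rfl : (φ.comp (Subgroup.inclusion hQR₀)).range = Q)
  set eR := isoOfMem hφ hφr
  have heQ : Q.subtype.comp eQ.toMonoidHom ∈ F.Hom Q₀ := restrict_mem hφ hQR₀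
  have heR : R.subtype.comp eR.toMonoidHom ∈ F.Hom R₀ := hφ
  haveI := finite_of_le hR.1
  haveI := finite_aut_of_le hR.1
  have hc : F.IsCentric R := ⟨hR.1, fun X hX => hc₀.2 X (IsConj.trans ⟨φ, hφ, hφr⟩ hX)⟩
  have hext : ∀ α ∈ F.autGroup Q, ∃ β ∈ F.autGroup R,
      ∀ x : ↥Q, ((β (Subgroup.inclusion hQR x) : ↥R) : Ω) = ((α x : ↥Q) : Ω) := by
    intro α hα
    obtain ⟨β, hβ, hβe⟩ := hext₀ _ (congr_autGroup eQ.symm (symm_mem eQ heQ) hα)
    refine ⟨MulAut.congr eR β, congr_autGroup eR heR hβ, fun x => ?_⟩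
    have h1 : eR.symm (Subgroup.inclusion hQR x) = Subgroup.inclusion hQR₀ (eQ.symm x) := by
      rw [MulEquiv.symm_apply_eq]
      exact Subtype.ext (congrArg Subtype.val (eQ.apply_symm_apply x)).symm
    show ((eR (β (eR.symm (Subgroup.inclusion hQR x))) : ↥R) : Ω) = _
    rw [h1, show β (Subgroup.inclusion hQR₀ (eQ.symm x)) = Subgroup.inclusion hQR₀ (eQ.symm (α x)) from
      Subtype.ext ((hβe _).trans (by simp))]
    exact congrArg Subtype.val (eQ.apply_symm_apply (α x))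
  refine quad_transport (hQR₀.trans hc₀.1) hQS eQ heQ hχ₀ hquad₀ ?_
  intro χ hχ hquad
  haveI := finite_of_le hQS
  haveI := finite_aut_of_le hQS
  by_cases hr : F.IsRadical p R
  · have hN := h R hR hc hr
    set N := normalizerSystem F R hR.1
    have hNsub := normalizerSystem_subsystem _ (normalizerSystem_spec (F := F) hR.1)
    have hRN : R ≤ normalizerIn S R := le_inf hR.1 Subgroup.le_normalizer
    have heq : N.autGroup Q = F.autGroup Q := by
      refine le_antisymm (autGroup_mono F N hNsub Q) fun α hα => ?_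
      obtain ⟨β, hβ, hβe⟩ := hext α hα
      refine (autGroup_carrier N (hQR.trans hRN) α).mpr ?_
      refine ⟨(autGroup_carrier F hQS α).mp hα, hQR.trans hRN, fun x => hRN (hQR (α x).2),
        (R.subtype.comp β.toMonoidHom).comp (Subgroup.inclusion (sup_le hQR le_rfl)),
        restrict_mem ((autGroup_carrier F hR.1 β).mp hβ) _, fun x => hβe x, ?_⟩
      rw [map_eq_iff le_sup_right]
      exact ⟨fun x => (β _).2, fun y hy => ⟨β.symm ⟨y, hy⟩, congrArg Subtype.val (β.apply_symm_apply ⟨y, hy⟩)⟩⟩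
    have h1 := hN Q (hQR.trans hRN) χ (heq ▸ hχ) hquad
    rwa [heq] at h1
  -- the radical cover
  haveI hKn : (pCore p ↥(F.autGroup R)).Normal := pCore_normal p ↥(F.autGroup R)
  set K := (pCore p ↥(F.autGroup R)).map (F.autGroup R).subtype
  have hInn : Inn ↥R ≤ K := fun a ha =>
    ⟨⟨a, inn_le_autGroup F hR.1 ha⟩, CfsgLib.Core.le_pCore (innNormal_autGroup F R)
      ((isPGroup_inn_of (hS.to_le hR.1)).comap_of_injective _ (Subgroup.subtype_injective _)) ha, rfl⟩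
  obtain ⟨k, hk, hkI⟩ : ∃ k ∈ K, k ∉ Inn ↥R := by
    by_contra hall
    exact hr ⟨hR.1, le_antisymm (fun a ha => by_contra fun h' => hall ⟨a, ha, h'⟩) hInn⟩
  obtain ⟨-, T, hT⟩ := fullyNormalized_automized p hS hF hR
  have hKT : K ≤ autInducedBy S R := by
    rintro _ ⟨c, hc', rfl⟩
    have h' := CfsgLib.Core.pCore_le_sylow T hc'
    rw [hT] at h'
    exact h'
  set R' := (K.comap R.normalizerMonoidHom).map (Subgroup.normalizer (R : Set Ω)).subtype ⊓ S with hR'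
  have hR'N : R' ≤ normalizerIn S R := le_inf inf_le_right (inf_le_left.trans (Subgroup.map_subtype_le _))
  have hRR' : R ≤ R' := fun x hx => ⟨⟨⟨x, Subgroup.le_normalizer hx⟩, hInn ⟨⟨x, hx⟩, MulEquiv.ext fun y => Subtype.ext rfl⟩, rfl⟩, hR.1 hx⟩
  have hR'S : R' ≤ S := inf_le_right
  haveI := finite_of_le hR'S
  have hlt : R < R' := by
    refine lt_of_le_of_ne hRR' fun he => hkI ?_
    obtain ⟨g, hgS, hg⟩ := (mem_autInducedBy k).mp (hKT hk)
    have hgN : g ∈ Subgroup.normalizer (R : Set Ω) := Subgroup.mem_normalizer_fintype fun x hx =>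
      hg ⟨x, hx⟩ ▸ (k _).2
    have hge : R.normalizerMonoidHom ⟨g, hgN⟩ = k := MulEquiv.ext fun x => Subtype.ext (hg x).symm
    have hgR : g ∈ R := he.ge ⟨⟨⟨g, hgN⟩, show R.normalizerMonoidHom ⟨g, hgN⟩ ∈ K from hge ▸ hk, rfl⟩, hgS⟩
    exact ⟨⟨g, hgR⟩, MulEquiv.ext fun x => Subtype.ext (hg x).symm⟩
  have hc' : F.IsCentric R' := by
    refine ⟨hR'S, ?_⟩
    rintro _ ⟨ψ, hψ, rfl⟩ y hy
    have hmem := hc.2 _ ⟨_, restrict_mem hψ hRR', rfl⟩ ⟨hy.1, Subgroup.mem_centralizer_iff.mpr fun z hz => by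
      obtain ⟨x, rfl⟩ := hz
      exact Subgroup.mem_centralizer_iff.mp hy.2 _ ⟨_, rfl⟩⟩
    obtain ⟨x, hx⟩ := hmem
    exact ⟨_, hx⟩
  refine ih (Nat.card ↥S - Nat.card ↥R') ?_ R' hc' rfl Q (hQR.trans hRR') (fun α hα => ?_) χ hχ hquad
  · have h1 : Nat.card ↥R₀ = Nat.card ↥R := Nat.card_congr eR.toEquiv
    have h2 : Nat.card ↥R < Nat.card ↥R' := lt_of_le_of_ne (Subgroup.card_le_of_le hRR') fun h' =>
      hlt.ne (Subgroup.eq_of_le_of_card_ge hRR' h'.ge)
    have h3 : Nat.card ↥R' ≤ Nat.card ↥S := Subgroup.card_le_of_le hR'S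
    omega
  obtain ⟨β, hβ, hβe⟩ := hext α hα
  have hKconj : ∀ k ∈ K, β * k * β⁻¹ ∈ K := by
    rintro _ ⟨c, hc'', rfl⟩
    exact ⟨(⟨β, hβ⟩ : ↥(F.autGroup R)) * c * (⟨β, hβ⟩ : ↥(F.autGroup R))⁻¹, hKn.conj_mem c hc'' _, rfl⟩
  have hφ' := (autGroup_carrier F hR.1 _).mp hβ
  obtain ⟨ψ, hψ, hψe⟩ := (fullyNormalized_receptive p hS hF hR).2 R _ hφ' (range_subtype_aut β)
  have hext' : R' ≤ extender S R (R.subtype.comp β.toMonoidHom) := by
    intro g hg
    obtain ⟨⟨g', hg', rfl⟩, hgS⟩ := hg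
    obtain ⟨h, hhS, hh⟩ := (mem_autInducedBy _).mp (hKT (hKconj _ hg'))
    refine mem_extender ⟨hgS, g'.2⟩ hhS fun x hx => ?_
    have h1 := hh (β x)
    rw [MulAut.mul_apply, MulAut.mul_apply, MulAut.inv_apply_self] at h1
    exact h1
  have hres := restrict_mem hψ hext'
  have hψR : ∀ x : ↥R, ψ (Subgroup.inclusion hext' (Subgroup.inclusion hRR' x)) = ((β x : ↥R) : Ω) :=
    fun x => hψe (x : Ω) x.2 _
  have hin : ∀ g : ↥R', ψ (Subgroup.inclusion hext' g) ∈ R' := by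
    rintro ⟨g, ⟨g', hg', rfl⟩, hgS⟩
    set u : ↥R' := ⟨_, ⟨g', hg', rfl⟩, hgS⟩
    set v := ψ (Subgroup.inclusion hext' u) with hv
    have hval : ∀ x : ↥R, v * ((β x : ↥R) : Ω) * v⁻¹ = ((β (R.normalizerMonoidHom g' x) : ↥R) : Ω) := by
      intro x
      rw [← hψR, ← hψR, hv, ← map_inv, ← map_mul, ← map_mul]
      rfl
    have hvN : v ∈ Subgroup.normalizer (R : Set Ω) := Subgroup.mem_normalizer_fintype fun y hy => by
      obtain ⟨x, hx⟩ := β.surjective ⟨y, hy⟩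
      have h1 := hval x
      rw [hx] at h1
      exact h1 ▸ (β _).2
    refine ⟨⟨⟨v, hvN⟩, ?_, rfl⟩, apply_mem_S hψ _⟩
    show R.normalizerMonoidHom ⟨v, hvN⟩ ∈ K
    rw [show R.normalizerMonoidHom ⟨v, hvN⟩ = β * R.normalizerMonoidHom g' * β⁻¹ from MulEquiv.ext fun y => by
      obtain ⟨x, rfl⟩ := β.surjective y
      rw [MulAut.mul_apply, MulAut.mul_apply, MulAut.inv_apply_self]
      exact Subtype.ext (hval x)]
    exact hKconj _ hg'
  let f := (ψ.comp (Subgroup.inclusion hext')).codRestrict R' hin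
  have hf : Function.Bijective f := Finite.injective_iff_bijective.mp fun a b h' =>
    F.injective_of_mem hres (congrArg Subtype.val h')
  exact ⟨MulEquiv.ofBijective f hf, (autGroup_carrier F hR'S _).mpr (restrict_mem_of_eq hres le_rfl fun x => rfl),
    fun x => (hψR (Subgroup.inclusion hQR x)).trans (hβe x)⟩

end CfsgLib.Fusion
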