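import Cfsg.Agent.Lib.Fusion.TransportSimple
import Cfsg.Agent.Lib.Fusion.Factor
import Cfsg.Agent.Lib.Fusion.SecondCentre
import Cfsg.Prelude.Def_FusionComponents

/-! Transport of components and layers along isomorphisms of fusion systems. (helper6) -/

set_option autoImplicit false
set_option linter.unusedSectionVars false
set_option linter.style.haveILetI false

namespace CfsgLib.Fusion

open Cfsg Cfsg.FusionSystem

theorem system_ext {Ω : Type*} [Group Ω] {S : Subgroup Ω} {F E : FusionSystem S}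
    (h : ∀ P, F.Hom P = E.Hom P) : F = E := by
  cases F; cases E; congr; exact funext h

section Iso

variable {Ω : Type*} [Group Ω] {S : Subgroup Ω} {Ω' : Type*} [Group Ω'] {S' : Subgroup Ω'}
  [Finite ↥S] [Finite ↥S'] {F : FusionSystem S} {F' : FusionSystem S'}

/-- The pullback of a subsystem is isomorphic to it. -/
noncomputable def pullIso (I : FIso F F') {T : Subgroup Ω} (hTS : T ≤ S) {E' : FusionSystem (img I.e T)}
    [Finite ↥T] [Finite ↥(img I.e T)]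
    (hsub : E'.IsSubsystemOf F') : FIso (pullSystem I hTS E') E' where
  e := imgEquiv I.e hTS
  fwd := by
    intro P φ hφ
    obtain ⟨-, P', φ', hφ', hc⟩ := id hφ
    have hle : img (imgEquiv I.e hTS) P ≤ P' := fun y hy => by
      obtain ⟨x, hx, rfl⟩ := (mem_img _).mp hy
      obtain ⟨h1, h2, h3, h4⟩ := hc ⟨x, hx⟩
      exact h3
    refine ⟨_, restrict_mem hφ' hle, fun x => ?_⟩
    obtain ⟨h1, h2, h3, h4⟩ := hc x
    exact ⟨((pullSystem I hTS E').le_of_mem hφ).1 x.2, ((pullSystem I hTS E').le_of_mem hφ).2 x,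
      (apply_mem_img _).mpr x.2, h4⟩
  bwd := by
    intro P' φ' hφ'
    set f := imgEquiv I.e hTS
    set P := img f.symm P'
    have hPT : P ≤ T := img_le _ _
    obtain ⟨φ, hφ, hc⟩ := pull_mem I hTS hsub (hPT.trans hTS) hφ' fun x => by
      obtain ⟨w, hw, hwx⟩ := (mem_img f.symm).mp x.2
      rw [show (⟨(x : Ω), (hPT.trans hTS) x.2⟩ : ↥S) = ⟨(f.symm w : Ω), hTS (f.symm w).2⟩ from Subtype.ext hwx.symm]
      show ((f (f.symm w) : ↥(img I.e T)) : Ω') ∈ P'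
      rw [MulEquiv.apply_symm_apply]
      exact hw
    refine ⟨φ, hφ, fun y => ?_⟩
    have hy : (y : Ω') ∈ img I.e T := (E'.le_of_mem hφ').1 y.2
    have hyP : (f.symm ⟨y, hy⟩ : Ω) ∈ P := (mem_img f.symm).mpr ⟨_, y.2, rfl⟩
    obtain ⟨h1, h2, h3, h4⟩ := hc ⟨_, hyP⟩
    refine ⟨hy, (E'.le_of_mem hφ').2 y, hyP, ?_⟩
    have e1 : (I.e ⟨(f.symm ⟨y, hy⟩ : Ω), h1⟩ : Ω') = y := by
      show ((f (f.symm ⟨y, hy⟩) : ↥(img I.e T)) : Ω') = y
      rw [MulEquiv.apply_symm_apply]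
    have e2 : (⟨φ' y, (E'.le_of_mem hφ').2 y⟩ : ↥(img I.e T)) =
        f ⟨φ ⟨_, hyP⟩, ((pullSystem I hTS E').le_of_mem hφ).2 _⟩ :=
      Subtype.ext ((congrArg φ' (Subtype.ext e1.symm)).trans h4)
    rw [e2, MulEquiv.symm_apply_apply]

/-- An isomorphism of subsystems restricting an isomorphism of the systems. -/
def Agrees (I : FIso F F') {T : Subgroup Ω} {T' : Subgroup Ω'} (e : ↥T ≃* ↥T') : Prop :=
  ∀ (x : ↥T) (hx : (x : Ω) ∈ S), ((e x : ↥T') : Ω') = (I.e ⟨x, hx⟩ : Ω')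

/-- The image of a normal subsystem is a normal subsystem. -/
theorem normal_push {p : ℕ} (I : FIso F F') {T : Subgroup Ω} {D : FusionSystem T} (hD : D.IsNormalIn F p) :
    ∃ (T' : Subgroup Ω') (D' : FusionSystem T') (J : FIso D D'), Agrees I J.e ∧ D'.IsNormalIn F' p := by
  have hTS : T ≤ S := hD.1.2.2.2.1.1
  obtain ⟨T₁, hT₁, he⟩ : ∃ T₁, T₁ ≤ S' ∧ img I.symm.e T₁ = T := ⟨img I.e T, img_le _ _, img_img I.e hTS⟩
  subst he
  haveI : Finite ↥T₁ := Finite.of_injective _ (Subgroup.inclusion_injective hT₁)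
  haveI : Finite ↥(img I.symm.e T₁) := Finite.of_injective _ (Subgroup.inclusion_injective hTS)
  refine ⟨T₁, pullSystem I.symm hT₁ D, (pullIso I.symm hT₁ hD.1.2.2.1).symm, fun x hx => ?_,
    pull_normal I.symm hT₁ (I.saturated p hD.1.2.1) hD⟩
  show (((imgEquiv I.symm.e hT₁).symm x : ↥T₁) : Ω') = _
  obtain ⟨y, rfl⟩ := (imgEquiv I.symm.e hT₁).surjective x
  rw [MulEquiv.symm_apply_apply]
  have e1 : (⟨((imgEquiv I.symm.e hT₁ y : ↥(img I.symm.e T₁)) : Ω), hx⟩ : ↥S) = I.e.symm ⟨y, hT₁ y.2⟩ :=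
    Subtype.ext rfl
  rw [e1, MulEquiv.apply_symm_apply]

/-- Centrality passes along isomorphisms. -/
theorem FIso.isCentral (I : FIso F F') {Q : Subgroup Ω} (h : F.IsCentral Q) : F'.IsCentral (img I.e Q) := by
  refine ⟨img_le _ _, fun P φ hφ => ?_⟩
  obtain ⟨φ₀, hφ₀, hc⟩ := I.bwd P φ hφ
  obtain ⟨ψ, hψ, hψe, hψQ⟩ := h.2 _ φ₀ hφ₀
  obtain ⟨ψ', hψ', hc'⟩ := I.fwd _ ψ hψ
  have hle : P ⊔ img I.e Q ≤ img I.e (img I.e.symm P ⊔ Q) := by
    rw [img_sup I.e (img_le _ _) h.1, img_img' I.e (le_S hφ)]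
  refine ⟨ψ'.comp (Subgroup.inclusion hle), restrict_mem hψ' hle, fun x => ?_, fun y => ?_⟩
  · obtain ⟨k1, k2, k3, k4⟩ := hc x
    obtain ⟨h1, h2, h3, h4⟩ := hc' ⟨_, (le_sup_left : img I.e.symm P ≤ img I.e.symm P ⊔ Q) k3⟩
    refine Eq.trans (congrArg ψ' (Subtype.ext ?_)) (h4.trans ?_)
    · show (x : Ω') = (I.e ⟨((I.e.symm ⟨(x : Ω'), k1⟩ : ↥S) : Ω), h1⟩ : Ω')
      simp
    · have e1 : ψ ⟨_, (le_sup_left : img I.e.symm P ≤ img I.e.symm P ⊔ Q) k3⟩ = (I.e.symm ⟨φ x, k2⟩ : Ω) :=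
        (hψe ⟨_, k3⟩).trans k4
      rw [show (⟨_, h2⟩ : ↥S) = I.e.symm ⟨φ x, k2⟩ from Subtype.ext e1, MulEquiv.apply_symm_apply]
  · obtain ⟨z, hz⟩ := y
    obtain ⟨w, hw, rfl⟩ := (mem_img I.e).mp hz
    obtain ⟨h1, h2, h3, h4⟩ := hc' ⟨w, (le_sup_right : Q ≤ img I.e.symm P ⊔ Q) hw⟩
    refine Eq.trans (congrArg ψ' (Subtype.ext rfl)) (h4.trans ?_)
    exact congrArg (fun u : ↥S => (I.e u : Ω')) (Subtype.ext (hψQ ⟨w, hw⟩))

theorem img_center_le (I : FIso F F') : img I.e F.center ≤ F'.center :=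
  le_sSup (I.isCentral (isCentral_center F))

theorem center_img (I : FIso F F') : img I.e F.center = F'.center := by
  refine le_antisymm (img_center_le I) ?_
  have h := img_mono I.e (img_center_le I.symm)
  rwa [show img I.e (img I.symm.e F'.center) = F'.center from img_img' I.e (isCentral_center F').1] at h

theorem mem_pResidual_map {G H : Type*} [Group G] [Group H] (c : G ≃* H) (p : ℕ) {a : G}
    (ha : a ∈ pResidual p G) : c a ∈ pResidual p H := by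
  have h : pResidual p G ≤ (pResidual p H).comap c.toMonoidHom := by
    refine (Subgroup.closure_le _).mpr fun x hx => Subgroup.subset_closure ?_
    show Nat.Coprime (orderOf (c x)) p
    rw [MulEquiv.orderOf_eq]
    exact hx
  exact h ha

theorem hyperfocal_push (I : FIso F F') {p : ℕ} (h : F.hyperfocalSubgroup p = S) : F'.hyperfocalSubgroup p = S' := by
  refine le_antisymm ((Subgroup.closure_le _).mpr ?_) fun y hy => ?_
  · rintro z ⟨P, α, x, hP, -, rfl⟩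
    exact S'.mul_mem (S'.inv_mem (hP x.2)) (hP (SetLike.coe_mem _))
  have key : F.hyperfocalSubgroup p ≤ ((F'.hyperfocalSubgroup p).comap (S'.subtype.comp I.e.toMonoidHom)).map S.subtype := by
    refine (Subgroup.closure_le _).mpr ?_
    rintro z ⟨P, α, x, hP, hα, rfl⟩
    refine ⟨⟨_, S.mul_mem (S.inv_mem (hP x.2)) (hP (SetLike.coe_mem _))⟩, ?_, rfl⟩
    let c : ↥(F.autGroup P) ≃* ↥(F'.autGroup (img I.e P)) :=
      ((MulAut.congr (imgEquiv I.e hP)).subgroupMap (F.autGroup P)).trans (MulEquiv.subgroupCongr (autGroup_map I hP))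
    refine Subgroup.subset_closure ⟨img I.e P, c α, imgEquiv I.e hP x, img_le _ _, mem_pResidual_map c p hα, ?_⟩
    have hc : (c α : MulAut ↥(img I.e P)) = MulAut.congr (imgEquiv I.e hP) (α : MulAut ↥P) := rfl
    rw [hc]
    show (I.e _ : Ω') = _ * ((imgEquiv I.e hP ((α : MulAut ↥P) ((imgEquiv I.e hP).symm (imgEquiv I.e hP x))) :
      ↥(img I.e P)) : Ω')
    rw [MulEquiv.symm_apply_apply, imgEquiv_coe, imgEquiv_coe]
    refine (congrArg (fun u : ↥S => (I.e u : Ω')) (show _ = (⟨(x : Ω), hP x.2⟩ : ↥S)⁻¹ *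
      ⟨(((α : MulAut ↥P) x : ↥P) : Ω), hP (SetLike.coe_mem _)⟩ from rfl)).trans ?_
    rw [map_mul, map_inv]
    rfl
  obtain ⟨s, hs, hse⟩ := key (h.ge (I.e.symm ⟨y, hy⟩).2)
  obtain rfl : s = I.e.symm ⟨y, hy⟩ := Subtype.ext hse
  simpa using hs

end Iso

section FactorIso

variable {Ω : Type*} [Group Ω] {S : Subgroup Ω} {Ω' : Type*} [Group Ω'] {S' : Subgroup Ω'}
  [Finite ↥S] [Finite ↥S'] {F : FusionSystem S} {F' : FusionSystem S'}
  {Λ : Type*} [Group Λ] {R : Subgroup Λ} {Λ' : Type*} [Group Λ'] {R' : Subgroup Λ'} [Finite ↥R] [Finite ↥R']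
  {Q : Subgroup Ω} {Q' : Subgroup Ω'} {θ : ↥S →* Λ} {θ' : ↥S' →* Λ'} {E : FusionSystem R} {E' : FusionSystem R'}

theorem factor_fwd (I : FIso F F') (hE : F.IsFactorSystem Q θ E) (hE' : F'.IsFactorSystem Q' θ' E')
    (e : ↥R ≃* ↥R') (hc : ∀ (s : ↥S) (h : θ s ∈ R), ((e ⟨θ s, h⟩ : ↥R') : Λ') = θ' (I.e s))
    (P : Subgroup Λ) (φ : ↥P →* Λ) (hφ : φ ∈ E.Hom P) : ∃ φ' ∈ E'.Hom (img e P), Corr e φ φ' := by
  obtain ⟨hP, φ₀, hφ₀, h1, h2, h3, h4⟩ := (hE.2.2.2 P φ).mp hφ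
  obtain ⟨φ₁, hφ₁, hc₁⟩ := I.fwd _ φ₀ hφ₀
  have hθ : ∀ s : ↥S, θ s ∈ R := fun s => hE.2.2.1.le ⟨s, rfl⟩
  have hle : preimageAlong θ' (img e P) ≤ img I.e (preimageAlong θ P) := by
    rintro _ ⟨y, hy, rfl⟩
    refine (symm_mem_img I.e).mpr ⟨I.e.symm y, ?_, rfl⟩
    have := hc (I.e.symm y) (hθ _)
    rw [MulEquiv.apply_symm_apply] at this
    exact (apply_mem_img e (x := ⟨_, hθ _⟩)).mp (this ▸ hy)
  let φ' : ↥(img e P) →* Λ' :=
    (R'.subtype.comp (e.toMonoidHom.comp (φ.codRestrict R (E.le_of_mem hφ).2))).comp (imgEquiv e hP).symm.toMonoidHom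
  refine ⟨φ', (hE'.2.2.2 _ _).mpr ⟨img_le _ _, _, restrict_mem hφ₁ hle, preimageAlong_le θ' _,
    fun z => apply_mem_S hφ₁ _, fun z => (mem_preimageAlong.mp z.2).2, fun z => ?_⟩, fun x => ?_⟩
  · obtain ⟨w, hw, hwz⟩ := (mem_img I.e).mp (hle z.2)
    obtain ⟨k1, k2, k3, k4⟩ := hc₁ ⟨w, hw⟩
    have hθw : θ w ∈ P := h3 ⟨w, hw⟩
    have e1 : (⟨θ' ⟨z, preimageAlong_le θ' _ z.2⟩, (mem_preimageAlong.mp z.2).2⟩ : ↥(img e P)) =
        imgEquiv e hP ⟨θ w, hθw⟩ := by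
      refine Subtype.ext ?_
      rw [imgEquiv_coe, hc]
      exact congrArg θ' (Subtype.ext hwz.symm)
    have e2 : φ' (imgEquiv e hP ⟨θ w, hθw⟩) = ((e ⟨φ ⟨θ w, hθw⟩, (E.le_of_mem hφ).2 _⟩ : ↥R') : Λ') := by
      show ((e ((φ.codRestrict R _) ((imgEquiv e hP).symm (imgEquiv e hP _)))) : Λ') = _
      rw [MulEquiv.symm_apply_apply]
      rfl
    rw [e1, e2]
    have e3 : (⟨φ ⟨θ w, hθw⟩, (E.le_of_mem hφ).2 _⟩ : ↥R) = ⟨θ ⟨φ₀ ⟨w, hw⟩, h2 _⟩, hθ _⟩ := Subtype.ext (h4 ⟨w, hw⟩)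
    rw [e3, hc]
    refine congrArg θ' (Subtype.ext ?_)
    refine Eq.trans ?_ (congrArg φ₁ (Subtype.ext hwz : (⟨(I.e w : Ω'), k3⟩ : ↥(img I.e (preimageAlong θ P))) =
      Subgroup.inclusion hle z))
    exact k4.symm
  · refine ⟨hP x.2, (E.le_of_mem hφ).2 x, (apply_mem_img e).mpr x.2, ?_⟩
    show ((e ((φ.codRestrict R _) ((imgEquiv e hP).symm (imgEquiv e hP x)))) : Λ') = _
    rw [MulEquiv.symm_apply_apply]
    rfl

/-- Isomorphic systems have isomorphic factor systems. -/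
noncomputable def factorIso (I : FIso F F') (hE : F.IsFactorSystem Q θ E) (hE' : F'.IsFactorSystem Q' θ' E')
    (e : ↥R ≃* ↥R') (hc : ∀ (s : ↥S) (h : θ s ∈ R), ((e ⟨θ s, h⟩ : ↥R') : Λ') = θ' (I.e s)) : FIso E E' where
  e := e
  fwd := factor_fwd I hE hE' e hc
  bwd := factor_fwd I.symm hE' hE e.symm fun s h => by
    have h' := hc (I.e.symm s) (hE.2.2.1.le ⟨_, rfl⟩)
    rw [MulEquiv.apply_symm_apply] at h'
    rw [show (⟨θ' s, h⟩ : ↥R') = e ⟨_, hE.2.2.1.le ⟨I.e.symm s, rfl⟩⟩ from Subtype.ext h'.symm,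
      MulEquiv.symm_apply_apply]
    rfl

end FactorIso

section Quasisimple

variable {Ω : Type*} [Group Ω] {S : Subgroup Ω} {Ω' : Type*} [Group Ω'] {S' : Subgroup Ω'}
  [Finite ↥S] [Finite ↥S'] {F : FusionSystem S} {F' : FusionSystem S'}

theorem FIso.quasisimple (I : FIso F F') {p : ℕ} (h : F.Quasisimple p) : F'.Quasisimple p := by
  obtain ⟨hsat, hhyp, hsimp⟩ := h
  refine ⟨I.saturated p hsat, hyperfocal_push I hhyp, fun E' hE' => ?_⟩
  have hcen := isCentral_center F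
  have hsc : F.StronglyClosed F.center := by
    refine ⟨hcen.1, fun A hA φ hφ x => ?_⟩
    obtain ⟨ψ, -, hψA, hψZ⟩ := hcen.2 A φ hφ
    have h1 := hψA x
    rw [show Subgroup.inclusion (le_sup_left : A ≤ A ⊔ F.center) x =
      Subgroup.inclusion (le_sup_right : F.center ≤ A ⊔ F.center) ⟨x, hA x.2⟩ from rfl, hψZ] at h1
    rw [← h1]
    exact hA x.2
  have hE := factorSystem_spec (F := F) (S' := ⊤) (hsc := hsc)
    (θ := QuotientGroup.mk' (F.center.subgroupOf S))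
    (hk := fun s => by rw [QuotientGroup.mk'_apply, QuotientGroup.eq_one_iff, Subgroup.mem_subgroupOf])
    (hr := MonoidHom.range_eq_top.mpr (QuotientGroup.mk'_surjective _))
  have hmap : (F.center.subgroupOf S).map (I.e : ↥S →* ↥S') = F'.center.subgroupOf S' := by
    ext z
    rw [Subgroup.mem_subgroupOf, ← center_img I]
    refine ⟨?_, fun hz => ⟨I.e.symm z, (symm_mem_img I.e).mp hz, I.e.apply_symm_apply z⟩⟩
    rintro ⟨w, hw, rfl⟩
    exact (apply_mem_img I.e).mpr hw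
  let q : ↥(⊤ : Subgroup (↥S ⧸ F.center.subgroupOf S)) ≃* ↥(⊤ : Subgroup (↥S' ⧸ F'.center.subgroupOf S')) :=
    Subgroup.topEquiv.trans ((QuotientGroup.congr _ _ I.e hmap).trans Subgroup.topEquiv.symm)
  exact (factorIso I hE hE' q fun s _ => rfl).isSimple (hsimp _ hE)

end Quasisimple

theorem subnormal_sub {Ω : Type*} [Group Ω] {T S : Subgroup Ω} {C : FusionSystem T} {F : FusionSystem S} {p : ℕ}
    (h : C.IsSubnormalIn F p) : C.IsSubsystemOf F := by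
  induction h with
  | refl F p => exact fun P => le_rfl
  | step _ hn ih => exact fun P => (ih P).trans (hn.1.2.2.1 P)

theorem subsystem_le {Ω : Type*} [Group Ω] {T S : Subgroup Ω} {C : FusionSystem T} {F : FusionSystem S}
    (h : C.IsSubsystemOf F) : T ≤ S :=
  le_S (h T (incl_mem (F := C) le_rfl))

/-- The image of a subnormal subsystem is subnormal. -/
theorem subnormal_push {Ω : Type*} [Group Ω] {T S : Subgroup Ω} {C : FusionSystem T} {F : FusionSystem S} {p : ℕ}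
    (h : C.IsSubnormalIn F p) {Ω' : Type*} [Group Ω'] [Finite ↥T] :
    ∀ [Finite ↥S] {S' : Subgroup Ω'} [Finite ↥S'] {F' : FusionSystem S'} (I : FIso F F'),
    ∃ (T' : Subgroup Ω') (_ : Finite ↥T') (C' : FusionSystem T') (J : FIso C C'),
      Agrees I J.e ∧ C'.IsSubnormalIn F' p := by
  induction h with
  | refl F p =>
    intro _ S' _ F' I
    exact ⟨S', inferInstance, F', I, fun x _ => rfl, .refl _ _⟩
  | @step U S E D F p hE hn ih =>
    intro _ S' _ F' I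
    haveI : Finite ↥U := finite_of_le (S := S) hn.1.2.2.2.1.1
    obtain ⟨U', D', J, hJ, hn'⟩ := normal_push I hn
    haveI : Finite ↥U' := finite_of_le (S := S') hn'.1.2.2.2.1.1
    obtain ⟨T', hf, E', K, hK, hE'⟩ := ih J
    exact ⟨T', hf, E', K, fun x hx => (hK x (subsystem_le (subnormal_sub hE) x.2)).trans (hJ ⟨_, _⟩ hx),
      .step hE' hn'⟩

/-- The image of a component is a component. -/
theorem component_push {Ω : Type*} [Group Ω] {T S : Subgroup Ω} {C : FusionSystem T} {F : FusionSystem S} {p : ℕ}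
    (h : C.IsComponentIn F p) {Ω' : Type*} [Group Ω'] {S' : Subgroup Ω'} [Finite ↥S] [Finite ↥S']
    {F' : FusionSystem S'} (I : FIso F F') [Finite ↥T] :
    ∃ (T' : Subgroup Ω') (_ : Finite ↥T') (C' : FusionSystem T') (J : FIso C C'),
      Agrees I J.e ∧ C'.IsComponentIn F' p := by
  obtain ⟨T', hf, C', J, hJ, hC'⟩ := subnormal_push h.1 I
  exact ⟨T', hf, C', J, hJ, hC', J.quasisimple h.2⟩

section Same

variable {Ω : Type*} [Group Ω] {T : Subgroup Ω} {Ω' : Type*} [Group Ω'] [Finite ↥T]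

/-- Composite of isomorphisms. -/
noncomputable def FIso.trans {T₁ : Subgroup Ω'} [Finite ↥T₁] {Ω'' : Type*} [Group Ω''] {T₂ : Subgroup Ω''}
    [Finite ↥T₂] {A : FusionSystem T} {B : FusionSystem T₁} {C : FusionSystem T₂}
    (J : FIso A B) (K : FIso B C) : FIso A C where
  e := J.e.trans K.e
  fwd := by
    intro P φ hφ
    obtain ⟨φ₁, hφ₁, h₁⟩ := J.fwd P φ hφ
    obtain ⟨φ₂, hφ₂, h₂⟩ := K.fwd _ φ₁ hφ₁
    have hle : img (J.e.trans K.e) P ≤ img K.e (img J.e P) := fun y hy => by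
      obtain ⟨x, hx, rfl⟩ := (mem_img _).mp hy
      exact (apply_mem_img K.e).mpr ((apply_mem_img J.e).mpr hx)
    refine ⟨_, restrict_mem hφ₂ hle, fun x => ?_⟩
    obtain ⟨a1, a2, a3, a4⟩ := h₁ x
    obtain ⟨b1, b2, b3, b4⟩ := h₂ ⟨_, a3⟩
    refine ⟨a1, a2, (apply_mem_img _).mpr x.2, ?_⟩
    exact b4.trans (congrArg (fun v : ↥T₁ => (K.e v : Ω'')) (Subtype.ext a4))
  bwd := by
    intro P φ hφ
    obtain ⟨φ₁, hφ₁, h₁⟩ := K.bwd P φ hφ
    obtain ⟨φ₂, hφ₂, h₂⟩ := J.bwd _ φ₁ hφ₁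
    have hle : img (J.e.trans K.e).symm P ≤ img J.e.symm (img K.e.symm P) := fun y hy => by
      obtain ⟨x, hx, rfl⟩ := (mem_img _).mp hy
      exact (apply_mem_img J.e.symm).mpr ((apply_mem_img K.e.symm).mpr hx)
    refine ⟨_, restrict_mem hφ₂ hle, fun x => ?_⟩
    obtain ⟨a1, a2, a3, a4⟩ := h₁ x
    obtain ⟨b1, b2, b3, b4⟩ := h₂ ⟨_, a3⟩
    refine ⟨a1, a2, (apply_mem_img _).mpr x.2, ?_⟩
    exact b4.trans (congrArg (fun v : ↥T₁ => (J.e.symm v : Ω)) (Subtype.ext a4))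

/-- Two isomorphisms with the same map have the same target. -/
theorem fiso_subnormal {T₁ T₂ : Subgroup Ω'} [Finite ↥T₁] [Finite ↥T₂] {A : FusionSystem T} {B : FusionSystem T₁}
    {C : FusionSystem T₂} (J : FIso A B) (K : FIso A C) (h : ∀ x, (J.e x : Ω') = (K.e x : Ω'))
    {S' : Subgroup Ω'} {F' : FusionSystem S'} {p : ℕ} (hB : B.IsSubnormalIn F' p) : C.IsSubnormalIn F' p := by
  have hle : ∀ {U V : Subgroup Ω'} (f : ↥T ≃* ↥U) (g : ↥T ≃* ↥V), (∀ x, (f x : Ω') = g x) → U ≤ V := by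
    intro U V f g hfg y hy
    have := hfg (f.symm ⟨y, hy⟩)
    rw [MulEquiv.apply_symm_apply] at this
    exact (congrArg (· ∈ V) this).mpr (g _).2
  obtain rfl : T₁ = T₂ := le_antisymm (hle J.e K.e h) (hle K.e J.e fun x => (h x).symm)
  have key : ∀ {B C : FusionSystem T₁} (J : FIso A B) (K : FIso A C), (∀ x, (J.e x : Ω') = (K.e x : Ω')) →
      ∀ P, B.Hom P ⊆ C.Hom P := by
    intro B C J K h P φ hφ
    obtain ⟨φ₀, hφ₀, h₀⟩ := J.bwd P φ hφ
    obtain ⟨φ₂, hφ₂, h₂⟩ := K.fwd _ φ₀ hφ₀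
    have hk : ∀ y : ↥P, ∃ hy : (y : Ω') ∈ img K.e (img J.e.symm P), φ₂ ⟨y, hy⟩ = φ y := by
      intro y
      obtain ⟨a1, a2, a3, a4⟩ := h₀ y
      obtain ⟨b1, b2, b3, b4⟩ := h₂ ⟨_, a3⟩
      have e1 : (K.e ⟨(J.e.symm ⟨(y : Ω'), a1⟩ : Ω), b1⟩ : Ω') = y := by rw [← h]; simp
      refine ⟨e1 ▸ b3, (congrArg φ₂ (Subtype.ext e1.symm)).trans (b4.trans ?_)⟩
      rw [← h]
      have e2 : (⟨φ₀ ⟨_, a3⟩, b2⟩ : ↥T) = J.e.symm ⟨φ y, a2⟩ := Subtype.ext a4
      exact (congrArg (fun v : ↥T => (J.e v : Ω')) e2).trans (by simp)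
    exact restrict_mem_of_eq hφ₂ (fun y hy => (hk ⟨y, hy⟩).1) fun y => (hk y).2.symm
  obtain rfl : B = C := system_ext fun P =>
    Set.Subset.antisymm (key J K h P) (key K J (fun x => (h x).symm) P)
  exact hB

end Same

/-- The image of a subnormal subsystem under a map of the system on its base is subnormal. -/
theorem image_subnormal {Ω : Type*} [Group Ω] {T S : Subgroup Ω} {C : FusionSystem T} {F : FusionSystem S} {p : ℕ}
    (h : C.IsSubnormalIn F p) [Finite ↥T] : ∀ [Finite ↥S] {γ : ↥T →* Ω}, γ ∈ F.Hom T →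
    ∃ (T' : Subgroup Ω) (_ : Finite ↥T') (C' : FusionSystem T') (J : FIso C C'),
      (∀ x, (J.e x : Ω) = γ x) ∧ C'.IsSubnormalIn F p := by
  induction h with
  | refl F p =>
    intro _ γ hγ
    have hr : γ.range = T := Subgroup.eq_of_le_of_card_ge (range_le_S hγ) (card_range hγ).ge
    let a : MulAut ↥T := (MonoidHom.ofInjective (F.injective_of_mem hγ)).trans (MulEquiv.subgroupCongr hr)
    have fw : ∀ b : MulAut ↥T, T.subtype.comp b.toMonoidHom ∈ F.Hom T →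
        ∀ (P : Subgroup Ω) (φ : ↥P →* Ω), φ ∈ F.Hom P → ∃ φ' ∈ F.Hom (img b P), Corr b φ φ' := by
      intro b hb P φ hφ
      have hb' := symm_mem b hb
      have hP := le_S hφ
      have hle : img b P ≤ T := img_le _ _
      have hv : ∀ y : ↥(img b P), ((T.subtype.comp b.symm.toMonoidHom).comp (Subgroup.inclusion hle)) y ∈ P :=
        fun y => (symm_mem_img b (y := ⟨y, hle y.2⟩)).mp y.2
      have h1 := F.comp_mem (restrict_mem hb' hle) hφ hv
      have h2 := F.comp_mem h1 hb fun y => apply_mem_S hφ _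
      refine ⟨_, h2, fun x => ⟨hP x.2, apply_mem_S hφ x, (apply_mem_img b).mpr x.2, ?_⟩⟩
      refine congrArg (fun u : ↥T => (b u : Ω)) (Subtype.ext (congrArg φ (Subtype.ext ?_)))
      exact congrArg (fun u : ↥T => (u : Ω)) (b.symm_apply_apply ⟨x, hP x.2⟩)
    exact ⟨T, inferInstance, F, ⟨a, fw a hγ, fw a.symm (symm_mem a hγ)⟩, fun x => rfl, .refl _ _⟩
  | @step U S E D F p hE hn ih =>
    intro _ γ hγ
    have hsc := hn.1.2.2.2.1
    have hTU := subsystem_le (subnormal_sub hE)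
    haveI : Finite ↥U := finite_of_le (S := S) hsc.1
    obtain ⟨a, ha, φ₀, hφ₀, he⟩ := hn.1.2.2.2.2.2 T hTU γ hγ
    obtain ⟨T₁, _, C₁, J₁, hJ₁, hC₁⟩ := ih hφ₀
    have fw : ∀ b ∈ F.autGroup U, ∀ (P : Subgroup Ω) (φ : ↥P →* Ω), φ ∈ D.Hom P →
        ∃ φ' ∈ D.Hom (img b P), Corr b φ φ' := by
      intro b hb P φ hφ
      obtain ⟨χ, hχ, hχe⟩ := hn.1.2.2.2.2.1 P (le_S hφ) φ hφ b hb
      exact ⟨χ, hχ, fun x => ⟨le_S hφ x.2, apply_mem_S hφ x, (apply_mem_img b).mpr x.2, hχe x _ _⟩⟩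
    let A : FIso D D := ⟨a, fw a ha, fw a.symm ((F.autGroup U).inv_mem ha)⟩
    obtain ⟨T₂, hf, C₂, K, hK, hC₂⟩ := subnormal_push hC₁ A
    refine ⟨T₂, hf, C₂, J₁.trans K, fun x => ?_, .step hC₂ hn⟩
    have hU : (J₁.e x : Ω) ∈ U := subsystem_le (subnormal_sub hC₁) (J₁.e x).2
    have hx : φ₀ x ∈ U := apply_mem_S hφ₀ x
    exact (hK (J₁.e x) hU).trans ((congrArg (fun u : ↥U => (a u : Ω)) (Subtype.ext (hJ₁ x))).trans (he x hx).symm)

end CfsgLib.Fusion
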